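import Cfsg.Agent.H98.GbG
import Cfsg.Agent.H19.SymChar
import Cfsg.Agent.H22.CuspD

/-! Project GB (S4536), part H: the twisted Hall algebras of the groups `GL_n(F)`. -/

set_option autoImplicit false
open Cfsg Finset
open scoped ComplexConjugate MatrixGroups

namespace Cfsg.Agent.H98.GB

universe u

/-! ### Pure algebra -/

section alg
variable {A : Type*} [CommRing A] [Algebra ℂ A]

/-- the Newton sequence `h_k` of the power sums `P` -/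
noncomputable def nw (P : ℕ → A) : ℕ → A
  | 0 => 1
  | k + 1 => ((k + 1 : ℕ) : ℂ)⁻¹ • ∑ i : Fin (k + 1), P (i + 1) * nw P (k - i)
decreasing_by omega

/-- the elementary symmetric functions of the power sums `P` -/
noncomputable def ee (P : ℕ → A) : ℕ → A := nw fun i => (-1 : ℂ) ^ (i + 1) • P i

/-- the Schur function of the `β`-set `S` -/
noncomputable def sch (N : ℕ) (P : ℕ → A) (S : Finset ℕ) : A :=
  ∑ μ ∈ H19.Par (H19.wtS S), ((H19.chiS N S μ : ℂ) / (H19.zM μ : ℂ)) • (μ.map P).prod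

variable {Φ : Type} [Fintype Φ]

noncomputable def sL (N : ℕ) (P : Φ → ℕ → A) (Λ : Φ → Finset ℕ) : A := ∏ φ, sch N (P φ) (Λ φ)

noncomputable def mon (P : Φ → ℕ → A) (μ : Φ → Multiset ℕ) : A := ∏ φ, ((μ φ).map (P φ)).prod

/-- the degree of a label -/
def wt (dg : Φ → ℕ) (Λ : Φ → Finset ℕ) : ℕ := ∑ φ, dg φ * H19.wtS (Λ φ)

/-- the degree of a monomial -/
def wm (dg : Φ → ℕ) (μ : Φ → Multiset ℕ) : ℕ := ∑ φ, dg φ * (μ φ).sum

omit [Fintype Φ] in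
def LabOn (N : ℕ) (In : Φ → Prop) (Λ : Φ → Finset ℕ) : Prop :=
  ∀ φ, #(Λ φ) = N ∧ (¬ In φ → Λ φ = range N)

omit [Fintype Φ] in
def MonOn (In : Φ → Prop) (μ : Φ → Multiset ℕ) : Prop :=
  ∀ φ, (∀ r ∈ μ φ, 0 < r) ∧ (¬ In φ → μ φ = 0)

/-- permanents -/
noncomputable def pm {ι : Type} [DecidableEq ι] (G : ι → ι → ℂ) : List ι → Multiset ι → ℂ
  | [], t => if t = 0 then 1 else 0
  | i :: s, t => ∑ j ∈ t.toFinset, (t.count j : ℂ) * G i j * pm G s (t.erase j)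

end alg

def NWEHStmt : Prop := ∀ (A : Type u) [CommRing A] [Algebra ℂ A],
  (∀ (P P' : ℕ → A) (K : ℕ), (∀ k ≤ K, nw P k = nw P' k) ↔ ∀ k, 0 < k → k ≤ K → P k = P' k) ∧
  (∀ (P : ℕ → A) (R : Subring A) (K : ℕ), (∀ k ≤ K, ee P k ∈ R) ↔ ∀ k ≤ K, nw P k ∈ R) ∧
  (∀ (P : ℕ → A) (c : ℂ) (k : ℕ), nw (fun i => c ^ i • P i) k = c ^ k • nw P k) ∧
  (∀ (B : Type u) [CommRing B] [Algebra ℂ B] (f : A →ₐ[ℂ] B) (P : ℕ → A),
    (∀ k, f (nw P k) = nw (fun i => f (P i)) k) ∧ (∀ k, f (ee P k) = ee (fun i => f (P i)) k) ∧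
    ∀ N S, f (sch N P S) = sch N (fun i => f (P i)) S) ∧
  (∀ (P : ℕ → A) (N : ℕ), sch N P (range N) = 1) ∧
  (∀ (P P' : ℕ → A) (N : ℕ) (S : Finset ℕ), (∀ k, 0 < k → k ≤ H19.wtS S → P k = P' k) →
    sch N P S = sch N P' S) ∧
  (∀ (h : ℕ → A), h 0 = 1 → ∃ P, ∀ k, ee P k = h k) ∧
  (∀ (P : ℕ → A) (k : ℕ), ee P k =
    ∑ μ ∈ H19.Par k, ((-1 : ℂ) ^ (μ.sum + μ.card) / (H19.zM μ : ℂ)) • (μ.map P).prod)

def JTStmt : Prop := ∀ (A : Type u) [CommRing A] [Algebra ℂ A] (P : ℕ → A) (R : Subring A)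
  (N : ℕ) (S : Finset ℕ), #S = N → (∀ j ≤ H19.wtS S, nw P j ∈ R) → sch N P S ∈ R

def INTBStmt : Prop := ∀ (A : Type u) [CommRing A] [Algebra ℂ A] (R : Subring A) (q : ℕ), 2 ≤ q →
  ∀ P : ℕ → ℕ → A, (∀ a a' m, 0 < m → a' ≡ a * q [MOD q ^ m - 1] → P a' m = P a m) →
  (∀ a n k, (nw (fun m => ∑ S ∈ (range m).powerset,
    (Polynomial.X ^ #S * Polynomial.C (P (a * ∑ i ∈ S, q ^ i) m) : Polynomial A)) n).coeff k ∈ R) →
  ∀ r, 0 < r → ∀ b j, nw (fun i => P (b * ∑ t ∈ range i, q ^ (r * t)) (r * i)) j ∈ R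

def MONStmt : Prop := ∀ (A : Type u) [CommRing A] [Algebra ℂ A] (Φ : Type) [Fintype Φ]
  [DecidableEq Φ] (N : ℕ) (P : Φ → ℕ → A),
  (∀ Λ : Φ → Finset ℕ, sL N P Λ = ∑ μ ∈ Fintype.piFinset fun φ => H19.Par (H19.wtS (Λ φ)),
    (∏ φ, ((H19.chiS N (Λ φ) (μ φ) : ℂ) / (H19.zM (μ φ) : ℂ))) • mon P μ) ∧
  (∀ μ : Φ → Multiset ℕ, (∀ φ, (μ φ).sum ≤ N ∧ ∀ r ∈ μ φ, 0 < r) →
    mon P μ = ∑ Λ ∈ Fintype.piFinset fun φ => H19.Lam N (μ φ).sum,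
      (∏ φ, (H19.chiS N (Λ φ) (μ φ) : ℂ)) • sL N P Λ)

/-- characters with different `e`-cores are orthogonal on the `e`-regular classes -/
def REGStmt : Prop := ∀ (N e : ℕ), 0 < e → ∀ S S' : Finset ℕ, #S = N → #S' = N →
  H19.wtS S ≤ N → H19.wtS S' ≤ N → H19.cnt e S ≠ H19.cnt e S' →
  ∀ ν ν' : Multiset ℕ, (∀ r ∈ ν, 0 < r ∧ e ∣ r) → (∀ r ∈ ν', 0 < r ∧ e ∣ r) → ∀ j,
  ∑ μ ∈ H19.ParReg e j,
    ((H19.chiS N S (ν + μ) * H19.chiS N S' (ν' + μ) : ℤ) : ℂ) / (H19.zM μ : ℂ) = 0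

/-! ### Parabolic induction -/

section hall
variable {F : Type u} [Field F]

abbrev Fn (F : Type u) [Field F] : Type u := ∀ m : ℕ, GL (Fin m) F → ℂ

/-- the linear character `η ∘ det` -/
def dl (η : Fˣ →* ℂˣ) (n : ℕ) : GL (Fin n) F →* ℂˣ := η.comp Matrix.GeneralLinearGroup.det

theorem dl_pow (η : Fˣ →* ℂˣ) (n j : ℕ) : dl (η ^ j) n = dl η n ^ j := by ext; simp [dl]

theorem dl_one (n : ℕ) : dl (1 : Fˣ →* ℂˣ) n = 1 := rfl

def eqv {a b n : ℕ} (h : a + b = n) : Fin a ⊕ Fin b ≃ Fin n := finSumFinEquiv.trans (finCongr h)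

/-- block upper triangular matrices -/
noncomputable def tri {a b n : ℕ} (h : a + b = n) (u : GL (Fin a) F) (c : Matrix (Fin a) (Fin b) F)
    (v : GL (Fin b) F) : GL (Fin n) F :=
  Matrix.GeneralLinearGroup.mkOfDetNeZero
    (Matrix.reindex (eqv h) (eqv h) (Matrix.fromBlocks u.1 c 0 v.1)) (by
      rw [Matrix.det_reindex_self, Matrix.det_fromBlocks_zero₂₁]
      exact mul_ne_zero u.det_ne_zero v.det_ne_zero)

theorem coe_tri {a b n : ℕ} (h : a + b = n) (u : GL (Fin a) F) (c : Matrix (Fin a) (Fin b) F)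
    (v : GL (Fin b) F) : (tri h u c v).1 =
      Matrix.reindex (eqv h) (eqv h) (Matrix.fromBlocks u.1 c 0 v.1) := rfl

theorem tri_mul {a b n : ℕ} (h : a + b = n) (u u' : GL (Fin a) F)
    (c c' : Matrix (Fin a) (Fin b) F) (v v' : GL (Fin b) F) :
    tri h u c v * tri h u' c' v' = tri h (u * u') (u.1 * c' + c * v'.1) (v * v') := by
  refine Units.ext ?_
  simp [coe_tri, Matrix.fromBlocks_multiply, Matrix.submatrix_mul_equiv]

theorem tri_one {a b n : ℕ} (h : a + b = n) : tri h (1 : GL (Fin a) F) 0 1 = 1 := by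
  refine Units.ext ?_
  simp [coe_tri]

theorem det_tri {a b n : ℕ} (h : a + b = n) (u : GL (Fin a) F) (c : Matrix (Fin a) (Fin b) F)
    (v : GL (Fin b) F) : Matrix.GeneralLinearGroup.det (tri h u c v) =
      Matrix.GeneralLinearGroup.det u * Matrix.GeneralLinearGroup.det v := by
  refine Units.ext ?_
  simp only [Matrix.GeneralLinearGroup.val_det_apply, Units.val_mul, coe_tri,
    Matrix.det_reindex_self, Matrix.det_fromBlocks_zero₂₁]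

theorem dl_tri (η : Fˣ →* ℂˣ) {a b n : ℕ} (h : a + b = n) (u : GL (Fin a) F)
    (c : Matrix (Fin a) (Fin b) F) (v : GL (Fin b) F) :
    dl η n (tri h u c v) = dl η a u * dl η b v := by
  simp only [dl, MonoidHom.comp_apply, det_tri, map_mul]

theorem tri_inj {a b n : ℕ} {h : a + b = n} {u u' : GL (Fin a) F}
    {c c' : Matrix (Fin a) (Fin b) F} {v v' : GL (Fin b) F} (e : tri h u c v = tri h u' c' v') :
    u = u' ∧ c = c' ∧ v = v' := by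
  have e' := congrArg Units.val e
  rw [coe_tri, coe_tri, (Matrix.reindex _ _).injective.eq_iff, Matrix.fromBlocks_inj] at e'
  exact ⟨Units.ext e'.1, e'.2.1, Units.ext e'.2.2.2⟩

/-- the span of the first `a` basis vectors -/
def stdS (F : Type u) [Field F] (n a : ℕ) : Submodule F (Fin n → F) where
  carrier := {w | ∀ i : Fin n, a ≤ i.val → w i = 0}
  add_mem' hx hy i hi := by simp [hx i hi, hy i hi]
  zero_mem' _ _ := rfl
  smul_mem' c x hx i hi := by simp [hx i hi]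

/-- the image of `stdS F n a` under `x` -/
noncomputable def imS {n : ℕ} (a : ℕ) (x : GL (Fin n) F) : Submodule F (Fin n → F) :=
  (stdS F n a).map (H22.Cusp.natRep F n x)

def IsU {m : ℕ} (g : GL (Fin m) F) : Prop :=
  ∀ i j : Fin m, j ≤ i → g.1 i j = if i = j then 1 else 0

/-- the sum of the superdiagonal entries -/
def sd {m : ℕ} (g : GL (Fin m) F) : F := ∑ i, ∑ j, if j.val = i.val + 1 then g.1 i j else 0

variable [Fintype F] [DecidableEq F]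

open Classical in
/-- a part of the twisted parabolic induction -/
noncomputable def cmpS {a b n : ℕ} (S : GL (Fin n) F → Prop) (η : Fˣ →* ℂˣ) (h : a + b = n)
    (f : GL (Fin a) F → ℂ) (f' : GL (Fin b) F → ℂ) : GL (Fin n) F → ℂ := fun g =>
  ((Fintype.card (GL (Fin a) F) * Fintype.card (GL (Fin b) F) * Fintype.card F ^ (a * b) : ℕ) : ℂ)⁻¹ *
    ∑ x : GL (Fin n) F, ∑ u : GL (Fin a) F, ∑ c : Matrix (Fin a) (Fin b) F, ∑ v : GL (Fin b) F,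
      if S x ∧ g = x * tri h u c v * x⁻¹ then (dl η n x : ℂ) * f u * f' v else 0

/-- twisted parabolic induction -/
noncomputable def cmp {a b n : ℕ} (η : Fˣ →* ℂˣ) (h : a + b = n)
    (f : GL (Fin a) F → ℂ) (f' : GL (Fin b) F → ℂ) : GL (Fin n) F → ℂ :=
  cmpS (fun _ => True) η h f f'

noncomputable def mul (η : Fˣ →* ℂˣ) (x y : Fn F) : Fn F := fun n =>
  ∑ ab : antidiagonal n, cmp η (mem_antidiagonal.1 ab.2) (x ab.1.1) (y ab.1.2)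

noncomputable def one (F : Type u) [Field F] : Fn F := Pi.single 0 fun _ => 1

/-- parabolic restriction -/
noncomputable def res {a b n : ℕ} (h : a + b = n) (χ : GL (Fin n) F → ℂ) (u : GL (Fin a) F)
    (v : GL (Fin b) F) : ℂ :=
  ((Fintype.card F ^ (a * b) : ℕ) : ℂ)⁻¹ * ∑ c : Matrix (Fin a) (Fin b) F, χ (tri h u c v)

noncomputable def perp1 {m k n : ℕ} (h : m + k = n) (P : GL (Fin m) F → ℂ)
    (ψ : GL (Fin n) F → ℂ) : GL (Fin k) F → ℂ := fun v => classInner (fun u => res h ψ u v) P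

noncomputable def perp (m : ℕ) (P : GL (Fin m) F → ℂ) (x : Fn F) : Fn F :=
  fun k => perp1 rfl P (x (m + k))

def Prim (m : ℕ) (P : GL (Fin m) F → ℂ) : Prop :=
  0 < m ∧ ∀ a b (h : a + b = m), 0 < a → 0 < b → ∀ u v, res h P u v = 0

def TwF (η : Fˣ →* ℂˣ) (x : Fn F) : Prop := ∀ n, Tw (dl η n) (x n)

open Classical in
/-- the Gelfand-Graev multiplicity -/
noncomputable def dlt (ψ : AddChar F ℂ) {m : ℕ} (f : GL (Fin m) F → ℂ) : ℂ :=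
  (#(univ.filter fun g : GL (Fin m) F => IsU g) : ℂ)⁻¹ *
    ∑ g ∈ univ.filter fun g : GL (Fin m) F => IsU g, f g * conj (ψ (sd g))

/-- the twisted Hall algebra -/
structure Hall (η : Fˣ →* ℂˣ) : Type (u + 1) where
  A : Type u
  [ring : CommRing A]
  [alg : Algebra ℂ A]
  ev : A →ₗ[ℂ] Fn F
  inj : Function.Injective ev
  tw : ∀ x, TwF η (ev x)
  surj : ∀ f, TwF η f → ∃ x, ev x = f
  ev_mul : ∀ x y, ev (x * y) = mul η (ev x) (ev y)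
  ev_one : ev 1 = one F

attribute [instance] Hall.ring Hall.alg

namespace Hall
variable {η : Fˣ →* ℂˣ} (H : Hall η)

open Classical in
noncomputable def of (f : Fn F) : H.A := if h : ∃ x, H.ev x = f then h.choose else 0
/-- the homogeneous element with component `f` -/
noncomputable def sg (m : ℕ) (f : GL (Fin m) F → ℂ) : H.A := H.of (Pi.single m f)
def Hg (m : ℕ) (x : H.A) : Prop := ∀ n, n ≠ m → H.ev x n = 0
noncomputable def ip (n : ℕ) (x y : H.A) : ℂ := classInner (H.ev x n) (H.ev y n)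
def Pr (m : ℕ) (x : H.A) : Prop := H.Hg m x ∧ Prim m (H.ev x m)
noncomputable def D (m : ℕ) (y x : H.A) : H.A := H.of (perp m (H.ev y m) (H.ev x))
noncomputable def pi (p : ℕ) (x : H.A) : H.A := H.of fun n => pRegularPart p (H.ev x n)

theorem ev_of {f : Fn F} (hf : TwF η f) : H.ev (H.of f) = f := by
  have := H.surj f hf
  rw [of, dif_pos this]; exact this.choose_spec

theorem ev_sg {m : ℕ} {f : GL (Fin m) F → ℂ} (hf : Tw (dl η m) f) :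
    H.ev (H.sg m f) = Pi.single m f := H.ev_of fun n => by
  by_cases h : n = m
  · subst h; simpa using hf
  · rw [Pi.single_eq_of_ne h]; intro x g; simp

/-- the Fock space structure -/
structure Fock : Prop where
  hg_one : H.Hg 0 1
  hg_mul : ∀ {a b x y}, H.Hg a x → H.Hg b y → H.Hg (a + b) (x * y)
  ev_mul_hg : ∀ {a b n x} (y) (h : a + b = n), H.Hg a x →
    H.ev (x * y) n = cmp η h (H.ev x a) (H.ev y b)
  ev_D : ∀ m y x k, H.ev (H.D m y x) k = perp1 rfl (H.ev y m) (H.ev x (m + k))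
  D_add : ∀ m y x z, H.D m y (x + z) = H.D m y x + H.D m y z
  D_smul : ∀ m y (c : ℂ) x, H.D m y (c • x) = c • H.D m y x
  D_hg : ∀ {m k x} (y), H.Hg (m + k) x → H.Hg k (H.D m y x)
  D_lt : ∀ {m n x} (y), H.Hg n x → n < m → H.D m y x = 0
  D_mul : ∀ {m y}, H.Pr m y → ∀ x z, H.D m y (x * z) = H.D m y x * z + x * H.D m y z
  D_pr : ∀ {m y m' y'}, H.Pr m y → H.Pr m' y' → H.D m y y' = H.ip m y' y • 1
  adj : ∀ {m y}, H.Hg m y → ∀ k x z, H.ip (m + k) (y * x) z = H.ip k x (H.D m y z)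
  span : ∀ {n x}, 0 < n → H.Hg n x → (∀ m y, H.Pr m y → H.D m y x = 0) → x = 0
  ip_one : H.ip 0 1 1 = 1
  hg_zero : ∀ {x}, H.Hg 0 x → x = H.ip 0 x 1 • 1
  pr_iff : ∀ {m x}, 0 < m → H.Hg m x → (H.Pr m x ↔
    ∀ a b y z, 0 < a → 0 < b → a + b = m → H.Hg a y → H.Hg b z → H.ip m (y * z) x = 0)
  ip_self : ∀ {n x}, H.Hg n x → H.ip n x x = 0 → x = 0

/-- a family of primitive elements with a vacuum -/
structure Sys {Φ : Type} (dg : Φ → ℕ) (In : Φ → Prop) (n0 : ℕ) (P : Φ → ℕ → H.A) (k0 : ℕ)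
    (v : H.A) : Prop where
  pos : ∀ φ, 0 < dg φ
  pr : ∀ φ k, In φ → 0 < k → dg φ * k ≤ n0 → H.Pr (dg φ * k) (P φ k)
  hv : H.Hg k0 v
  vac : ∀ φ k, In φ → 0 < k → dg φ * k ≤ n0 → H.D (dg φ * k) (P φ k) v = 0

/-- diagonal Gram matrix -/
def Gram {Φ : Type} [DecidableEq Φ] (dg : Φ → ℕ) (In : Φ → Prop) (n0 : ℕ) (P : Φ → ℕ → H.A)
    (g : Φ → ℕ → ℂ) : Prop :=
  ∀ φ k φ' k', In φ → In φ' → 0 < k → 0 < k' → dg φ * k ≤ n0 → dg φ' * k' ≤ n0 →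
    H.ip (dg φ * k) (P φ k) (P φ' k') = if φ = φ' ∧ k = k' then g φ k else 0

end Hall

/-- families coming from generalized characters of the kernels -/
def RF (ξ : Fˣ →* ℂˣ) (H : ∀ j : ℕ, Hall (ξ ^ j)) : Set (∀ j, (H j).A) :=
  {x | ∀ n, ∃ θ : (dl ξ n).ker → ℂ, IsGeneralizedCharacter _ θ ∧
    ∀ j, (H j).ev (x j) n = av (dl ξ n).ker (dl ξ n ^ j) θ}

end hall

def TWCStmt : Prop := ∀ (F : Type u) [Field F] [Fintype F] [DecidableEq F] (η : Fˣ →* ℂˣ),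
  (∀ a b n (h : a + b = n) f f', Tw (dl η n) (cmp η h f f')) ∧
  (∀ a b n (h : a + b = n) ψ, Tw (dl η n) ψ → ∀ s t u v,
    res h ψ (s * u * s⁻¹) (t * v * t⁻¹) = dl η a s * dl η b t * res h ψ u v) ∧
  (∀ m k n (h : m + k = n) P ψ, Tw (dl η n) ψ → Tw (dl η k) (perp1 h P ψ)) ∧
  (∀ x, TwF η x → mul η (one F) x = x ∧ mul η x (one F) = x) ∧
  (∀ n f, Tw (dl η n) f → f ≠ 0 → η ^ n = 1)

def ADJStmt : Prop := ∀ (F : Type u) [Field F] [Fintype F] [DecidableEq F] (η : Fˣ →* ℂˣ)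
  a b n (h : a + b = n) (f : GL (Fin a) F → ℂ) (f' : GL (Fin b) F → ℂ) χ, Tw (dl η n) χ →
  classInner (cmp η h f f') χ = classInner f' (perp1 h f χ) ∧
  classInner (cmp η h f f') χ = classInner (fun y : GL (Fin a) F × GL (Fin b) F => f y.1 * f' y.2)
    (fun y => res h χ y.1 y.2)

def ASSOCStmt : Prop := ∀ (F : Type u) [Field F] [Fintype F] [DecidableEq F] (η : Fˣ →* ℂˣ)
  a b c ab bc n (h1 : ab + c = n) (h2 : a + b = ab) (h3 : a + bc = n) (h4 : b + c = bc) f f' f'',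
  cmp η h1 (cmp η h2 f f') f'' = cmp η h3 f (cmp η h4 f' f'')

def DER0Stmt : Prop := ∀ (F : Type u) [Field F] [Fintype F] [DecidableEq F] (η : Fˣ →* ℂˣ)
  a b m k n (h1 : a + b = n) (h2 : m + k = n) P f f', Prim m P → Tw (dl η m) P →
  perp1 h2 P (cmpS (fun x => ¬ stdS F n m ≤ imS a x ∧ stdS F n m ⊓ imS a x ≠ ⊥) η h1 f f') = 0

def DER1Stmt : Prop := ∀ (F : Type u) [Field F] [Fintype F] [DecidableEq F] (η : Fˣ →* ℂˣ)
  a b m k n (h1 : a + b = n) (h2 : m + k = n) P f f', Tw (dl η m) P → Tw (dl η a) f →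
  Tw (dl η b) f' →
  (∀ a' (h3 : m + a' = a) (h4 : a' + b = k),
    perp1 h2 P (cmpS (fun x => stdS F n m ≤ imS a x) η h1 f f') = cmp η h4 (perp1 h3 P f) f') ∧
  (a < m → cmpS (fun x => stdS F n m ≤ imS a x) η h1 f f' = 0)

def DER2Stmt : Prop := ∀ (F : Type u) [Field F] [Fintype F] [DecidableEq F] (η : Fˣ →* ℂˣ)
  a b m k n (h1 : a + b = n) (h2 : m + k = n) P f f', Tw (dl η m) P → Tw (dl η a) f →
  Tw (dl η b) f' →
  (∀ b' (h3 : m + b' = b) (h4 : a + b' = k),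
    perp1 h2 P (cmpS (fun x => stdS F n m ⊓ imS a x = ⊥) η h1 f f') = cmp η h4 f (perp1 h3 P f')) ∧
  (b < m → cmpS (fun x => stdS F n m ⊓ imS a x = ⊥) η h1 f f' = 0)

def DERStmt : Prop := ∀ (F : Type u) [Field F] [Fintype F] [DecidableEq F] (η : Fˣ →* ℂˣ)
  m P (x y : Fn F), Prim m P → Tw (dl η m) P → TwF η x → TwF η y →
  perp m P (mul η x y) = mul η (perp m P x) y + mul η x (perp m P y)

def SPANStmt : Prop := ∀ (F : Type u) [Field F] [Fintype F] [DecidableEq F] (η : Fˣ →* ℂˣ)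
  n (f : GL (Fin n) F → ℂ), 0 < n → Tw (dl η n) f →
  (∀ m k (h : m + k = n) P, Prim m P → Tw (dl η m) P → perp1 h P f = 0) → f = 0

def COMMStmt : Prop := ∀ (F : Type u) [Field F] [Fintype F] [DecidableEq F] (η : Fˣ →* ℂˣ)
  (x y : Fn F), TwF η x → TwF η y → mul η x y = mul η y x

def ALGStmt : Prop := ∀ (F : Type u) [Field F] [Fintype F] [DecidableEq F] (η : Fˣ →* ℂˣ),
  Nonempty (Hall η)

def FOCKStmt : Prop := ∀ (F : Type u) [Field F] [Fintype F] [DecidableEq F] (η : Fˣ →* ℂˣ)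
  (H : Hall η), H.Fock

def PERMStmt : Prop := ∀ (F : Type u) [Field F] [Fintype F] [DecidableEq F] (η : Fˣ →* ℂˣ)
  (H : Hall η) (ι : Type) [DecidableEq ι] (P : ι → H.A) (d : ι → ℕ) (J : Set ι),
  (∀ i ∈ J, H.Pr (d i) (P i)) → ∀ k k' v v', H.Hg k v → H.Hg k' v' →
  (∀ i ∈ J, H.D (d i) (P i) v = 0 ∧ H.D (d i) (P i) v' = 0) →
  ∀ (s : List ι) (t : Multiset ι), (∀ i ∈ s, i ∈ J) → (∀ i ∈ t, i ∈ J) →
  H.ip (k + (s.map d).sum) (v * (s.map P).prod) (v' * (t.map P).prod) =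
    H.ip k v v' * pm (fun i j => H.ip (d i) (P i) (P j)) s t

def MORTHStmt : Prop := ∀ (F : Type u) [Field F] [Fintype F] [DecidableEq F] (η : Fˣ →* ℂˣ)
  (H : Hall η) (Φ : Type) [Fintype Φ] [DecidableEq Φ] (dg : Φ → ℕ) (In : Φ → Prop) (n0 : ℕ)
  (P : Φ → ℕ → H.A) k0 v k0' v' g, H.Sys dg In n0 P k0 v → H.Sys dg In n0 P k0' v' →
  H.Gram dg In n0 P g → ∀ μ μ', MonOn In μ → MonOn In μ' → wm dg μ ≤ n0 → wm dg μ' ≤ n0 →
  H.Hg (k0 + wm dg μ) (v * mon P μ) ∧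
  H.ip (k0 + wm dg μ) (v * mon P μ) (v' * mon P μ') = if μ = μ' then H.ip k0 v v' *
    ∏ φ, (((μ φ).map (g φ)).prod * ∏ r ∈ (μ φ).toFinset, (((μ φ).count r).factorial : ℂ)) else 0

def ORTHStmt : Prop := ∀ (F : Type u) [Field F] [Fintype F] [DecidableEq F] (η : Fˣ →* ℂˣ)
  (H : Hall η) (Φ : Type) [Fintype Φ] [DecidableEq Φ] (dg : Φ → ℕ) (In : Φ → Prop) (n0 N : ℕ)
  (P : Φ → ℕ → H.A) k0 v, n0 ≤ N → H.Sys dg In n0 P k0 v → H.Gram dg In n0 P (fun _ k => k) →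
  ∀ Λ Λ', LabOn N In Λ → LabOn N In Λ' → wt dg Λ ≤ n0 → wt dg Λ' ≤ n0 →
  H.Hg (k0 + wt dg Λ) (v * sL N P Λ) ∧
  H.ip (k0 + wt dg Λ) (v * sL N P Λ) (v * sL N P Λ') = if Λ = Λ' then H.ip k0 v v else 0

def GRAMStmt : Prop := ∀ (F : Type u) [Field F] [Fintype F] [DecidableEq F] (η η' : Fˣ →* ℂˣ)
  (H : Hall η) (H' : Hall η') (Φ : Type) [Fintype Φ] (dg : Φ → ℕ) (In : Φ → Prop) (n0 N : ℕ)
  (P : Φ → ℕ → H.A) (P' : Φ → ℕ → H'.A) k0 v v', H.Sys dg In n0 P k0 v →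
  H'.Sys dg In n0 P' k0 v' → H.ip k0 v v = H'.ip k0 v' v' →
  (∀ φ k φ' k', In φ → In φ' → 0 < k → 0 < k' → dg φ * k ≤ n0 → dg φ' * k' ≤ n0 →
    H.ip (dg φ * k) (P φ k) (P φ' k') = H'.ip (dg φ * k) (P' φ k) (P' φ' k')) →
  ∀ Λ Λ', LabOn N In Λ → LabOn N In Λ' → wt dg Λ ≤ n0 → wt dg Λ' ≤ n0 →
  H.ip (k0 + wt dg Λ) (v * sL N P Λ) (v * sL N P Λ') =
    H'.ip (k0 + wt dg Λ) (v' * sL N P' Λ) (v' * sL N P' Λ')

def ECOPStmt : Prop := ∀ (F : Type u) [Field F] [Fintype F] [DecidableEq F] (η : Fˣ →* ℂˣ)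
  (H : Hall η) (d K : ℕ) (P : ℕ → H.A), 0 < d → (∀ k, 0 < k → k ≤ K → H.Pr (d * k) (P k)) →
  ∀ k ≤ K, H.Hg (d * k) (ee P k) ∧
  (∀ m y, H.Pr m y → H.D m y (ee P k) =
    if d ∣ m ∧ m / d ≤ k then H.ip m (ee P (m / d)) y • ee P (k - m / d) else 0) ∧
  (∀ a b x z, a + b = d * k → H.Hg a x → H.Hg b z → H.ip (d * k) (x * z) (ee P k) =
    if d ∣ a then H.ip a x (ee P (a / d)) * H.ip b z (ee P (k - a / d)) else 0) ∧
  ((∀ i, 0 < i → i ≤ k → H.ip (d * i) (P i) (P i) = i) → H.ip (d * k) (ee P k) (ee P k) = 1)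

def TH1aStmt : Prop := ∀ (F : Type u) [Field F] [Fintype F] [DecidableEq F] (η : Fˣ →* ℂˣ)
  (H : Hall η) (d K : ℕ) (P : ℕ → H.A), 0 < d →
  (∀ k ≤ K, H.Hg (d * k) (ee P k) ∧ H.ip (d * k) (ee P k) (ee P k) = 1) →
  (∀ m y, H.Pr m y → ∃ c : ℂ, ∀ k ≤ K, H.D m y (ee P k) =
    if d ∣ m ∧ m / d ≤ k then c • ee P (k - m / d) else 0) →
  ∀ k, 0 < k → k ≤ K → H.Pr (d * k) (P k) ∧ H.ip (d * k) (P k) (P k) = k

def XGStmt : Prop := ∀ (F : Type u) [Field F] [Fintype F] [DecidableEq F] (η : Fˣ →* ℂˣ)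
  (H : Hall η) (d K : ℕ) (P : ℕ → H.A), 0 < d → (∀ k, 0 < k → k ≤ K → H.Pr (d * k) (P k)) →
  (∀ k0 v, H.Hg k0 v → (∀ i, 0 < i → i ≤ K → H.D (d * i) (ee P i) v = 0) →
    ∀ k, 0 < k → k ≤ K → H.D (d * k) (P k) v = 0) ∧
  (∀ (d' K' : ℕ) (P' : ℕ → H.A), 0 < d' → (∀ k, 0 < k → k ≤ K' → H.Pr (d' * k) (P' k)) →
    (∀ i j, 0 < i → i ≤ K → 0 < j → j ≤ K' → H.ip (d * i) (ee P i) (ee P' j) = 0) →
    ∀ k k', 0 < k → k ≤ K → 0 < k' → k' ≤ K' → H.ip (d * k) (P k) (P' k') = 0)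

/-- multiplication by a multiplicative family of class functions -/
def MULStmt : Prop := ∀ (F : Type u) [Field F] [Fintype F] [DecidableEq F] (η : Fˣ →* ℂˣ)
  (H : Hall η) (w : Fn F), (∀ n, IsClassFunction _ (w n)) → w 0 = 1 →
  (∀ a b n (h : a + b = n) u c v, w n (tri h u c v) = w a u * w b v) →
  ∃ T : H.A →ₐ[ℂ] H.A, (∀ x n, H.ev (T x) n = w n * H.ev x n) ∧
    (∀ m x, H.Hg m x → H.Hg m (T x)) ∧ ∀ m x, H.Pr m x → H.Pr m (T x)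

def PIMStmt : Prop := ∀ (F : Type u) [Field F] [Fintype F] [DecidableEq F] (η : Fˣ →* ℂˣ)
  (H : Hall η) (p : ℕ), p.Prime → p ≠ ringChar F →
  ∃ T : H.A →ₐ[ℂ] H.A, (∀ x, T x = H.pi p x) ∧
    (∀ x n, H.ev (H.pi p x) n = pRegularPart p (H.ev x n)) ∧
    (∀ m x, H.Hg m x → H.Hg m (H.pi p x)) ∧ (∀ m x, H.Pr m x → H.Pr m (H.pi p x)) ∧
    (∀ x, H.pi p (H.pi p x) = H.pi p x) ∧ ∀ n x y, H.ip n (H.pi p x) y = H.ip n x (H.pi p y)

def COPStmt : Prop := ∀ (F : Type u) [Field F] [Fintype F] [DecidableEq F] (η : Fˣ →* ℂˣ),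
  (∀ a b n (h : a + b = n) (f : GL (Fin n) F → ℂ) (u : GL (Fin a) F) (v : GL (Fin b) F),
    Tw (dl η n) f → IsCoprime u.1.charpoly v.1.charpoly → res h f u v = f (tri h u 0 v)) ∧
  (∀ m (P : GL (Fin m) F → ℂ) g, Prim m P → Tw (dl η m) P → P g ≠ 0 →
    ∃ (f : Polynomial F) (k : ℕ), f.Monic ∧ Irreducible f ∧ g.1.charpoly = f ^ k)

def DEL1aStmt : Prop := ∀ (F : Type u) [Field F] [Fintype F] [DecidableEq F] (η : Fˣ →* ℂˣ)
  (ψ : AddChar F ℂ), ψ ≠ 1 → ∀ a b n (h : a + b = n) f f',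
  dlt ψ (cmpS (fun x => imS a x ⊓ stdS F n b ≠ ⊥) η h f f') = 0

def DEL1bStmt : Prop := ∀ (F : Type u) [Field F] [Fintype F] [DecidableEq F] (η : Fˣ →* ℂˣ)
  (ψ : AddChar F ℂ) a b n (h : a + b = n) f f', Tw (dl η a) f → Tw (dl η b) f' →
  dlt ψ (cmpS (fun x => imS a x ⊓ stdS F n b = ⊥) η h f f') = dlt ψ f * dlt ψ f'

def DELCStmt : Prop := ∀ (F : Type u) [Field F] [Fintype F] [DecidableEq F] (ψ : AddChar F ℂ),
  ψ ≠ 1 →
  (∀ (η : Fˣ →* ℂˣ) a b n (h : a + b = n) f f', Tw (dl η a) f → Tw (dl η b) f' →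
    dlt ψ (cmp η h f f') = dlt ψ f * dlt ψ f') ∧
  (∀ m (K : Subgroup (GL (Fin m) F)), (∀ g, IsU g → g ∈ K) → ∀ θ : K → ℂ, IsCharacter K θ →
    ∃ r : ℕ, dlt ψ (extendByZero K θ) = r) ∧
  (∀ m (χ : GL (Fin m) F → ℂ), IsCharacter _ χ → ∃ r : ℕ, dlt ψ χ = r) ∧
  (∀ m (p : ℕ), p.Prime → p ≠ ringChar F → ∀ f : GL (Fin m) F → ℂ,
    dlt ψ (pRegularPart p f) = dlt ψ f) ∧
  (∀ m (η : Fˣ →* ℂˣ) (g : GL (Fin m) F), IsU g → g ∈ (dl η m).ker) ∧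
  (∀ m, dlt ψ (fun _ : GL (Fin m) F => (1 : ℂ)) = if m ≤ 1 then 1 else 0) ∧
  (∀ m (f f' : GL (Fin m) F → ℂ) (c : ℂ), dlt ψ (f + f') = dlt ψ f + dlt ψ f' ∧
    dlt ψ (c • f) = c * dlt ψ f)

def SUPPStmt : Prop := ∀ (F : Type u) [Field F] [Fintype F] [DecidableEq F]
  a b n (h : a + b = n) (χ : IrrCharacter (GL (Fin n) F)) f, InE {χ} f →
  ∀ (S₁ : Set (IrrCharacter (GL (Fin a) F))) (S₂ : Set (IrrCharacter (GL (Fin b) F))),
  (∀ (χ₁ : IrrCharacter (GL (Fin a) F)) (χ₂ : IrrCharacter (GL (Fin b) F)),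
    classInner (cmp 1 h χ₁.1 χ₂.1) χ.1 ≠ 0 → χ₁ ∈ S₁ ∧ χ₂ ∈ S₂) →
  (∀ v, InE S₁ fun u => res h f u v) ∧ ∀ u, InE S₂ fun v => res h f u v

def AVMStmt : Prop := ∀ (F : Type u) [Field F] [Fintype F] [DecidableEq F] (ξ : Fˣ →* ℂˣ)
  a b n (h : a + b = n) (θ₁ : (dl ξ a).ker → ℂ) (θ₂ : (dl ξ b).ker → ℂ),
  ∃ Θ : (dl ξ n).ker → ℂ, (∀ j : ℕ, av (dl ξ n).ker (dl ξ n ^ j) Θ =
    cmp (ξ ^ j) h (av (dl ξ a).ker (dl ξ a ^ j) θ₁) (av (dl ξ b).ker (dl ξ b ^ j) θ₂)) ∧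
  (IsCharacter _ θ₁ → IsCharacter _ θ₂ → IsCharacter _ Θ) ∧
  (IsGeneralizedCharacter _ θ₁ → IsGeneralizedCharacter _ θ₂ → IsGeneralizedCharacter _ Θ)

def GENStmt : Prop := ∀ (F : Type u) [Field F] [Fintype F] [DecidableEq F],
  (∀ a b n (h : a + b = n) (χ₁ : GL (Fin a) F → ℂ) (χ₂ : GL (Fin b) F → ℂ),
    IsCharacter _ χ₁ → IsCharacter _ χ₂ → IsCharacter _ (cmp 1 h χ₁ χ₂)) ∧
  (∀ H : Hall (1 : Fˣ →* ℂˣ), ∃ R : Subring H.A,
    ∀ x, x ∈ R ↔ ∀ n, IsGeneralizedCharacter _ (H.ev x n)) ∧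
  (∀ (ξ : Fˣ →* ℂˣ) (H : ∀ j : ℕ, Hall (ξ ^ j)), ∃ R : Subring (∀ j, (H j).A), ↑R = RF ξ H)

end Cfsg.Agent.H98.GB
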