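import Cfsg.Agent.H98.GbH

/-! Project GB (S4536), part L: labels, characters and blocks of `GL_n(F)`. -/

set_option autoImplicit false
open Cfsg Finset
open scoped ComplexConjugate MatrixGroups Kronecker

namespace Cfsg.Agent.H98.GB

universe u

/-- all the choices -/
structure Ctx (F : Type u) [Field F] [Fintype F] [DecidableEq F] : Type (u + 1) where
  p0 : ℕ
  M0 : Ideal AlgInt
  hM0 : IsPModular p0 M0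
  ch : CharP F p0
  alg : Algebra F (H19.kk M0)
  τ : Fˣ →* ℂˣ
  hτ : ∀ x : Fˣ, (τ x : ℂ) = H22.Cusp.teich p0 M0 (@algebraMap F _ _ _ alg x)
  p : ℕ
  hp : p.Prime
  hpF : p ≠ ringChar F
  M : Ideal AlgInt
  hM : IsPModular p M
  n0 : ℕ
  H : Hall (1 : Fˣ →* ℂˣ)
  ψ : AddChar F ℂ
  hψ : ψ ≠ 1

namespace Ctx
variable {F : Type u} [Field F] [Fintype F] [DecidableEq F] (C : Ctx F)

instance instFact : Fact C.p.Prime := ⟨C.hp⟩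

open Classical in
noncomputable def T (a : ℕ) : H19.kk C.M0 → ℂ :=
  fun x => if x = 0 then 0 else H22.Cusp.teich C.p0 C.M0 x ^ a

/-- Green's primitive class functions -/
noncomputable def P (a m : ℕ) : GL (Fin m) F → ℂ := fun g =>
  letI := C.alg
  H22.Cusp.DD (H22.Cusp.bT (C.T a)) (H22.Cusp.natRep F m g)

/-- the lifted eigenvalues -/
noncomputable def roots {m : ℕ} (g : GL (Fin m) F) : Multiset ℂ :=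
  letI := C.alg
  (g.1.charpoly.aroots (H19.kk C.M0)).map (H22.Cusp.teich C.p0 C.M0)

noncomputable def pa (a m : ℕ) : C.H.A := C.H.sg m (C.P a m)

def Gen (x : C.H.A) : Prop := ∀ n, IsGeneralizedCharacter _ (C.H.ev x n)

def Q : ℕ := Fintype.card F ^ C.n0.factorial - 1

instance instNeZeroQ : NeZero C.Q := ⟨by
  have := Nat.one_lt_pow C.n0.factorial_pos.ne' (Fintype.one_lt_card (α := F))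
  unfold Q; omega⟩

abbrev L : Type := ZMod C.Q

def qL : C.L := (Fintype.card F : C.L)

/-- Frobenius orbits -/
def Φ : Type := Quot fun a b : C.L => b = C.qL * a

instance instFiniteΦ : Finite C.Φ := Quot.finite _
noncomputable instance instFintypeΦ : Fintype C.Φ := Fintype.ofFinite _
noncomputable instance instDecEqΦ : DecidableEq C.Φ := Classical.decEq _

def mkΦ (a : C.L) : C.Φ := Quot.mk _ a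
noncomputable def out (φ : C.Φ) : C.L := Quot.out φ
noncomputable def dg (φ : C.Φ) : ℕ := Function.minimalPeriod (fun x => C.qL * x) (C.out φ)
def ex (a : C.L) (m : ℕ) : ℕ := a.val * (Fintype.card F ^ m - 1) / C.Q
noncomputable def tw (c : C.L) (φ : C.Φ) : C.Φ := C.mkΦ (C.out φ + c)
/-- the projection to the `p'`-part -/
def uu : C.L := (((C.p ^ C.Q.factorization C.p) ^ C.Q.totient : ℕ) : C.L)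
noncomputable def lp (φ : C.Φ) : C.Φ := C.mkΦ (C.uu * C.out φ)
def Reg (φ : C.Φ) : Prop := C.lp φ = φ
noncomputable def eG (φ : C.Φ) : ℕ := orderOf ((Fintype.card F : ZMod C.p) ^ C.dg φ)
def eta (c : C.L) : Fˣ →* ℂˣ := C.τ ^ C.ex c 1
/-- the power sums -/
noncomputable def pp (φ : C.Φ) (k : ℕ) : C.H.A :=
  ((-1 : ℂ) ^ (C.dg φ + 1)) ^ k • C.pa (C.ex (C.out φ) (C.dg φ * k)) (C.dg φ * k)
def N : ℕ := (C.p + 1) * C.n0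
abbrev Lb : Type := C.Φ → Finset ℕ
def IsLab (n : ℕ) (Λ : C.Lb) : Prop := (∀ φ, #(Λ φ) = C.N) ∧ wt C.dg Λ = n
/-- Green's characters -/
noncomputable def sC (Λ : C.Lb) (n : ℕ) : GL (Fin n) F → ℂ := C.H.ev (sL C.N C.pp Λ) n
noncomputable def sm (Λ : C.Lb) (Γ : C.Φ) : ℕ :=
  ∑ φ ∈ univ.filter fun φ => C.lp φ = Γ, C.dg φ * H19.wtS (Λ φ)
/-- same semisimple part and same cores -/
def Cl (Λ Λ' : C.Lb) : Prop := ∀ Γ, C.Reg Γ →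
  C.sm Λ Γ = C.sm Λ' Γ ∧ H19.cnt (C.eG Γ) (Λ Γ) = H19.cnt (C.eG Γ) (Λ' Γ)
def Bas (Λ : C.Lb) : Prop := ∀ φ, ¬ C.Reg φ → Λ φ = range C.N
def XC (n : ℕ) (Cs : Set C.Lb) : Set (IrrCharacter (GL (Fin n) F)) :=
  {χ | ∃ Λ ∈ Cs, C.IsLab n Λ ∧ χ.1 = C.sC Λ n}
def cls (Λ0 : C.Lb) : Set C.Lb := {Λ | C.Cl Λ0 Λ}
def Sup (Γ : C.Φ) : Set C.Lb := {Λ | ∀ φ, C.lp φ ≠ Γ → Λ φ = range C.N}
noncomputable def twL (c : C.L) (Λ : C.Lb) : C.Lb := fun φ => Λ (C.tw (-c) φ)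
open Classical in
/-- the weight -/
noncomputable def ww (Λ : C.Lb) : ℕ :=
  ∑ Γ ∈ univ.filter fun Γ => C.Reg Γ, H19.wgt (C.eG Γ) (Λ Γ)
def II (Λ0 : C.Lb) (Γ : C.Φ) : Prop := C.Reg Γ ∧ H19.wgt (C.eG Γ) (Λ0 Γ) ≠ 0
open Classical in
noncomputable def A' (Λ0 : C.Lb) : Finset C.L :=
  univ.filter fun c => C.qL * c = c ∧ C.uu * c = c ∧ C.Cl Λ0 (C.twL c Λ0)
open Classical in
noncomputable def A1 (Λ0 : C.Lb) : Finset C.L :=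
  (C.A' Λ0).filter fun c => ∀ φ, C.II Λ0 (C.lp φ) → C.tw c φ = φ
noncomputable def fixB (n : ℕ) (Λ0 : C.Lb) (c : C.L) : ℕ :=
  {Λ | C.IsLab n Λ ∧ C.Bas Λ ∧ C.Cl Λ0 Λ ∧ C.twL c Λ = Λ}.ncard
open Classical in
noncomputable def rs (In : C.Φ → Prop) (Λ : C.Lb) : C.Lb :=
  fun φ => if In φ then Λ φ else range C.N
/-- the Steinberg type characters -/
noncomputable def eC (φ : C.Φ) (k : ℕ) : GL (Fin (C.dg φ * k)) F → ℂ :=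
  C.H.ev (ee (C.pp φ) k) (C.dg φ * k)

/-- basic facts on labels -/
structure Lab : Prop where
  mk_eq : ∀ a b, C.mkΦ a = C.mkΦ b ↔ ∃ i : ℕ, b = C.qL ^ i * a
  mk_out : ∀ φ, C.mkΦ (C.out φ) = φ
  dg_pos : ∀ φ, 0 < C.dg φ
  dg_dvd : ∀ φ, C.dg φ ∣ C.n0.factorial
  dg_iff : ∀ a m, C.qL ^ m * a = a ↔ C.dg (C.mkΦ a) ∣ m
  tw_mk : ∀ c a, C.qL * c = c → C.tw c (C.mkΦ a) = C.mkΦ (a + c)
  dg_tw : ∀ c φ, C.qL * c = c → C.dg (C.tw c φ) = C.dg φ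
  tw_tw : ∀ c c' φ, C.qL * c = c → C.qL * c' = c' → C.tw c (C.tw c' φ) = C.tw (c + c') φ
  tw_zero : ∀ φ, C.tw 0 φ = φ
  lp_tw : ∀ c φ, C.qL * c = c → C.lp (C.tw c φ) = C.tw (C.uu * c) (C.lp φ)
  uu_idem : C.uu * C.uu = C.uu
  lp_mk : ∀ a, C.lp (C.mkΦ a) = C.mkΦ (C.uu * a)
  reg_lp : ∀ φ, C.Reg (C.lp φ)
  reg_iff : ∀ a, C.Reg (C.mkΦ a) ↔ C.uu * a = a
  dg_lp : ∀ φ, C.dg (C.lp φ) ∣ C.dg φ
  eG_dvd : ∀ φ, ¬ C.Reg φ → C.eG (C.lp φ) * C.dg (C.lp φ) ∣ C.dg φ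
  eG_pos : ∀ φ, 0 < C.eG φ
  eG_le : ∀ φ, C.eG φ ≤ C.p - 1
  eG_iff : ∀ φ k, C.p ∣ Fintype.card F ^ (C.dg φ * k) - 1 ↔ C.eG φ ∣ k
  ex_mul : ∀ a m, C.qL ^ m * a = a → C.ex a m * C.Q = a.val * (Fintype.card F ^ m - 1)
  ex_q : ∀ a m, C.qL ^ m * a = a →
    C.ex (C.qL * a) m ≡ C.ex a m * Fintype.card F [MOD Fintype.card F ^ m - 1]
  ex_add : ∀ a b m, C.qL ^ m * a = a → C.qL ^ m * b = b →
    C.ex (a + b) m ≡ C.ex a m + C.ex b m [MOD Fintype.card F ^ m - 1]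
  ex_lift : ∀ a d i, C.qL ^ d * a = a →
    C.ex a (d * i) = C.ex a d * ∑ t ∈ range i, Fintype.card F ^ (d * t)
  ex_inj : ∀ a b m, 0 < m → C.qL ^ m * a = a → C.qL ^ m * b = b →
    C.ex a m ≡ C.ex b m [MOD Fintype.card F ^ m - 1] → a = b
  ex_ord : ∀ a m r, C.qL ^ m * a = a → r • a = 0 → Fintype.card F ^ m - 1 ∣ r * C.ex a m
  uu_iff : ∀ c, C.uu * c = c ↔ ¬ C.p ∣ addOrderOf c
  uu_p : ∀ c, ∃ i, addOrderOf (c - C.uu * c) = C.p ^ i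
  fin : ∀ n, {Λ | C.IsLab n Λ}.Finite
  lab_tw : ∀ c n Λ, C.qL * c = c → C.IsLab n Λ → C.IsLab n (C.twL c Λ)
  bas_tw : ∀ c Λ, C.qL * c = c → C.uu * c = c → C.Bas Λ → C.Bas (C.twL c Λ)
  cl_tw : ∀ c Λ Λ', C.qL * c = c → C.uu * c = c → C.Cl Λ Λ' → C.Cl (C.twL c Λ) (C.twL c Λ')
  twL_twL : ∀ c c' Λ, C.qL * c = c → C.qL * c' = c' → C.twL c (C.twL c' Λ) = C.twL (c + c') Λ
  sum_sm : ∀ Λ, ∑ Γ, C.sm Λ Γ = wt C.dg Λ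
  sm_bas : ∀ Λ Γ, C.Bas Λ → C.Reg Γ → C.sm Λ Γ = C.dg Γ * H19.wtS (Λ Γ)
  sup_iff : ∀ Λ Γ, (∀ φ, #(Λ φ) = C.N) → (Λ ∈ C.Sup Γ ↔ ∀ Γ', Γ' ≠ Γ → C.sm Λ Γ' = 0)
  out_eq : ∀ Λ0 Λ, (∀ φ, #(Λ0 φ) = C.N) → (∀ φ, #(Λ φ) = C.N) → C.Bas Λ0 → C.Cl Λ0 Λ →
    ∀ φ, ¬ C.II Λ0 (C.lp φ) → Λ φ = Λ0 φ

/-- twisted power sums -/
structure TwS (c : C.L) (HH : ∀ j : ℕ, Hall (C.eta c ^ j)) (In : C.Φ → Prop)
    (P : C.Φ → ℕ → ∀ j, (HH j).A) : Prop where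
  rf : ∀ φ k, In φ → nw (P φ) k ∈ RF (C.eta c) HH
  pr : ∀ φ k j, In φ → 0 < k → (HH j).Pr (C.dg φ * k) (P φ k j)
  gram : ∀ j n, (HH j).Gram C.dg In n (fun φ k => P φ k j) fun _ k => k
  del : ∀ φ k j, In φ → 0 < k → dlt C.ψ ((HH j).ev (P φ k j) (C.dg φ * k)) = (-1) ^ (k + 1)
  zero : ∀ φ k, In φ → 0 < k → (HH 0).ev (P φ k 0) = C.H.ev (C.pp φ k)
  eE : ∀ φ k j, In φ → InE {χ | χ.1 = C.eC φ k}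
    ((HH j).ev (ee (fun i => P φ i j) k) (C.dg φ * k))

/-- twisted vacuum -/
structure Vac (c : C.L) (HH : ∀ j : ℕ, Hall (C.eta c ^ j)) (In : C.Φ → Prop)
    (P : C.Φ → ℕ → ∀ j, (HH j).A) (k0 : ℕ) (Λ : C.Lb) (v : ∀ j, (HH j).A) : Prop where
  rf : v ∈ RF (C.eta c) HH
  hg : ∀ j, (HH j).Hg k0 (v j)
  nrm : ∀ j, (HH j).ip k0 (v j) (v j) = 1
  reg : ∀ j, (HH j).pi C.p (v j) = v j
  vac : ∀ φ k j, In φ → 0 < k → (HH j).D (C.dg φ * k) (P φ k j) (v j) = 0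
  zero : (HH 0).ev (v 0) = C.H.ev (sL C.N C.pp Λ)

end Ctx

/-- A statement for all contexts. -/
def All (S : ∀ (F : Type u) [Field F] [Fintype F] [DecidableEq F], Ctx F → Prop) : Prop :=
  ∀ (F : Type u) [Field F] [Fintype F] [DecidableEq F] (C : Ctx F), S F C

def HISOStmt : Prop := ∀ (F : Type u) [Field F] [Fintype F] [DecidableEq F] (η η' : Fˣ →* ℂˣ),
  η = η' → ∀ (H : Hall η) (H' : Hall η'), ∃ T : H.A ≃ₐ[ℂ] H'.A, ∀ x, H'.ev (T x) = H.ev x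

def SETUPStmt : Prop := ∀ (F : Type u) [Field F] [Fintype F] [DecidableEq F] (p : ℕ)
  (M : Ideal AlgInt) (n0 : ℕ), p.Prime → p ≠ ringChar F → IsPModular p M →
  ∃ C : Ctx F, C.p = p ∧ C.M = M ∧ C.n0 = n0

def LABStmt : Prop := All.{u} fun _ _ _ _ C => C.Lab

def ETAStmt : Prop := All.{u} fun F _ _ _ C =>
  (∀ c c', C.qL * c = c → C.qL * c' = c' → C.eta (c + c') = C.eta c * C.eta c') ∧
  C.eta 0 = 1 ∧ (∀ c (j : ℕ), C.qL * c = c → C.eta (j • c) = C.eta c ^ j) ∧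
  (∀ c, C.qL * c = c → (Fintype.card F - 1) • c = 0) ∧
  (∀ c n, C.qL * c = c → 0 < n → orderOf (dl (C.eta c) n) = addOrderOf c) ∧
  (∀ n, 0 < n → ∀ a : GL (Fin n) F →* ℂˣ,
    (Matrix.GeneralLinearGroup.det : GL (Fin n) F →* Fˣ).ker ≤ a.ker →
    ∃! c, C.qL * c = c ∧ a = dl (C.eta c) n)

def BRStmt : Prop := All.{u} fun F _ _ _ C =>
  (∀ a m, Tw (dl 1 m) (C.P a m)) ∧ (∀ a m, 0 < m → Prim m (C.P a m)) ∧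
  ∀ k, nw (C.pa 0) k = C.H.sg k fun _ => 1

def GRMStmt : Prop := All.{u} fun F _ _ _ C => ∀ a b m, 0 < m →
  classInner (C.P a m) (C.P b m) =
    #((range m).filter fun i => b * Fintype.card F ^ i ≡ a [MOD Fintype.card F ^ m - 1])

def VALStmt : Prop := All.{u} fun F _ _ _ C => ∀ m, 0 < m → ∀ g : GL (Fin m) F,
  (∀ a, C.P a m g = 0) ∨ ∃ c ζ : ℂ, ζ ^ (Fintype.card F ^ m - 1) = 1 ∧
    (∀ a, C.P a m g = c * ∑ i ∈ range m, ζ ^ (a * Fintype.card F ^ i)) ∧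
    C.roots g = (range m).val.map (fun i => ζ ^ Fintype.card F ^ i) ∧
    (C.τ (Matrix.GeneralLinearGroup.det g) : ℂ) = ζ ^ ∑ i ∈ range m, Fintype.card F ^ i ∧
    (C.p ∣ orderOf g ↔ C.p ∣ orderOf ζ)

def ROOTStmt : Prop := All.{u} fun F _ _ _ C =>
  (∀ m (g x : GL (Fin m) F), C.roots (x * g * x⁻¹) = C.roots g) ∧
  (∀ m (g : GL (Fin m) F), (C.roots g).card = m) ∧
  (∀ a b n (h : a + b = n) u c v, C.roots (tri h u c v) = C.roots u + C.roots v) ∧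
  (∀ m (g : GL (Fin m) F) (k : ℕ), C.roots (g ^ k) = (C.roots g).map (· ^ k)) ∧
  (∀ m (g : GL (Fin m) F), C.p ∣ orderOf g ↔ ∃ z ∈ C.roots g, C.p ∣ orderOf z) ∧
  (∀ m (g : GL (Fin m) F), IsUnit (g.1 - 1) ↔ (1 : ℂ) ∉ C.roots g) ∧
  (∀ m (g : GL (Fin m) F), ∀ z ∈ C.roots g, z ^ orderOf g = 1) ∧
  (∀ a b (u : GL (Fin a) F) (v : GL (Fin b) F), Disjoint (C.roots u) (C.roots v) →
    IsCoprime u.1.charpoly v.1.charpoly)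

def LAMStmt : Prop := All.{u} fun F _ _ _ C => ∀ n a k,
  IsGeneralizedCharacter (GL (Fin n) F) fun g => ((C.roots g).map (· ^ a)).esymm k

def INTAStmt : Prop := All.{u} fun F _ _ _ C => ∀ a n k,
  C.Gen ((nw (fun m => ∑ S ∈ (range m).powerset, (Polynomial.X ^ #S *
    Polynomial.C (C.pa (a * ∑ i ∈ S, Fintype.card F ^ i) m) : Polynomial C.H.A)) n).coeff k)

def INTStmt : Prop := All.{u} fun _ _ _ _ C => ∀ φ j, C.Gen (nw (C.pp φ) j)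

def SYSStmt : Prop := All.{u} fun _ _ _ _ C =>
  (∀ φ k, 0 < k → C.H.Pr (C.dg φ * k) (C.pp φ k)) ∧
  (∀ n, C.H.Sys C.dg (fun _ => True) n C.pp 0 1) ∧
  ∀ n, C.H.Gram C.dg (fun _ => True) n C.pp fun _ k => k

def DELPStmt : Prop := All.{u} fun _ _ _ _ C => ∀ φ k, 0 < k →
  dlt C.ψ (C.H.ev (C.pp φ k) (C.dg φ * k)) = (-1) ^ (k + 1)

def IRRStmt : Prop := All.{u} fun _ _ _ _ C => ∀ n ≤ C.n0, ∀ Λ, C.IsLab n Λ →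
  C.H.Hg n (sL C.N C.pp Λ) ∧ IsIrrCharacter _ (C.sC Λ n) ∧
    ∀ Λ', C.IsLab n Λ' → C.sC Λ n = C.sC Λ' n → Λ = Λ'

def CNTStmt : Prop := All.{u} fun F _ _ _ C => ∀ n ≤ C.n0,
  Nat.card (ConjClasses (GL (Fin n) F)) ≤ {Λ | C.IsLab n Λ}.ncard

def COMPLStmt : Prop := All.{u} fun F _ _ _ C => ∀ n ≤ C.n0,
  ∀ χ : IrrCharacter (GL (Fin n) F), ∃ Λ, C.IsLab n Λ ∧ χ.1 = C.sC Λ n

def TWISTStmt : Prop := All.{u} fun _ _ _ _ C => ∀ c, C.qL * c = c →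
  ∃ T : C.H.A →ₐ[ℂ] C.H.A, (∀ x n, C.H.ev (T x) n = lm (dl (C.eta c) n) (C.H.ev x n)) ∧
    (∀ φ k, 0 < k → T (C.pp φ k) = C.pp (C.tw c φ) k) ∧
    ∀ Λ n, lm (dl (C.eta c) n) (C.sC Λ n) = C.sC (C.twL c Λ) n

def PIPStmt : Prop := All.{u} fun F _ _ _ C =>
  (∀ φ k k', 0 < k → C.dg φ * k = C.dg (C.lp φ) * k' →
    C.H.pi C.p (C.pp φ k) = (-1 : ℂ) ^ (k + k') • C.H.pi C.p (C.pp (C.lp φ) k')) ∧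
  (∀ φ k, 0 < k → ¬ C.eG φ ∣ k → C.H.pi C.p (C.pp φ k) = C.pp φ k) ∧
  ∀ n, C.H.Gram C.dg C.Reg n (fun φ k => C.H.pi C.p (C.pp φ k)) fun φ k =>
    (k : ℂ) / (C.p ^ (Fintype.card F ^ (C.dg φ * k) - 1).factorization C.p : ℕ)

def BLKSStmt : Prop := All.{u} fun _ _ _ _ C => ∀ n ≤ C.n0, ∀ Λ Λ', C.IsLab n Λ → C.IsLab n Λ' →
  ∀ Γ, C.sm Λ Γ ≠ C.sm Λ' Γ → classInner (pRegularPart C.p (C.sC Λ n)) (C.sC Λ' n) = 0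

def BLKCStmt : Prop := All.{u} fun _ _ _ _ C => ∀ n ≤ C.n0, ∀ Λ Λ', C.IsLab n Λ → C.IsLab n Λ' →
  ∀ Γ, C.Reg Γ → H19.cnt (C.eG Γ) (Λ Γ) ≠ H19.cnt (C.eG Γ) (Λ' Γ) →
  classInner (pRegularPart C.p (C.sC Λ n)) (C.sC Λ' n) = 0

def BLKStmt : Prop := All.{u} fun _ _ _ _ C => ∀ n ≤ C.n0,
  (∀ Cs : Set C.Lb, (∀ Λ ∈ Cs, ∀ Λ', C.IsLab n Λ → C.IsLab n Λ' → C.Cl Λ Λ' → Λ' ∈ Cs) →
    H17.LamClosed C.M (C.XC n Cs)) ∧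
  (∀ Λ0, H17.LamClosed C.M (C.XC n (C.cls Λ0))) ∧ ∀ Γ, H17.LamClosed C.M (C.XC n (C.Sup Γ))

def BASStmt : Prop := All.{u} fun F _ _ _ C => ∀ n ≤ C.n0, ∀ Cs : Set C.Lb,
  H17.LamClosed C.M (C.XC n Cs) →
  LinearIndepOn ℂ (fun Λ => pRegularPart C.p (C.sC Λ n)) {Λ | C.IsLab n Λ ∧ C.Bas Λ ∧ Λ ∈ Cs} ∧
  Submodule.span ℂ ((fun Λ => pRegularPart C.p (C.sC Λ n)) '' {Λ | C.IsLab n Λ ∧ C.Bas Λ ∧ Λ ∈ Cs}) =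
    Submodule.span ℂ ((fun χ : IrrCharacter (GL (Fin n) F) => pRegularPart C.p χ.1) '' C.XC n Cs)

def BASBStmt : Prop := All.{u} fun F _ _ _ C => ∀ n ≤ C.n0, ∀ χ : IrrCharacter (GL (Fin n) F),
  ∃ Λ, C.IsLab n Λ ∧ C.Bas Λ ∧ ∃ ψ ∈ blockOf C.M χ.1, ψ.1 = C.sC Λ n

def COREStmt : Prop := All.{u} fun _ _ _ _ C => ∀ n ≤ C.n0, ∀ Λ, C.IsLab n Λ → C.Bas Λ →
  (∀ Γ, C.Reg Γ → H19.wgt (C.eG Γ) (Λ Γ) = 0) → pRegularPart C.p (C.sC Λ n) = C.sC Λ n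

def HOOKStmt : Prop := ∀ (F : Type u) [Field F] [Fintype F] [DecidableEq F] (η : Fˣ →* ℂˣ)
  (H : Hall η) (Φ : Type) [Fintype Φ] [DecidableEq Φ] (dg : Φ → ℕ) (n0 N : ℕ)
  (P : Φ → ℕ → H.A), H.Sys dg (fun _ => True) n0 P 0 1 →
  H.Gram dg (fun _ => True) n0 P (fun _ k => k) → ∀ Λ, (∀ φ, #(Λ φ) = N) → wt dg Λ ≤ n0 →
  ∀ φ k, 0 < k → dg φ * k ≤ n0 → H.D (dg φ * k) (P φ k) (sL N P Λ) =
    ∑ x ∈ (Λ φ).filter (fun x => k ≤ x ∧ x - k ∉ Λ φ),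
      (-1 : ℂ) ^ #((Λ φ).filter fun z => x - k < z ∧ z < x) •
        sL N P (Function.update Λ φ (insert (x - k) ((Λ φ).erase x)))

def RESXStmt : Prop := All.{u} fun _ _ _ _ C =>
  (∀ a b k y y' x, C.H.Hg a y → C.H.Hg b y' → C.H.Hg (a + b + k) x →
    C.H.D (a + b) (y * y') x = C.H.D b y' (C.H.D a y x)) ∧
  (∀ m k n (h : m + k = n), m ≤ C.n0 → ∀ Ms : Finset (C.Φ → Multiset ℕ),
    (∀ μ, μ ∈ Ms ↔ MonOn (fun _ => True) μ ∧ wm C.dg μ = m) → ∀ x g y,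
    res h (C.H.ev x n) g y = ∑ μ ∈ Ms, C.H.ev (mon C.pp μ) m g / (∏ φ, (H19.zM (μ φ) : ℂ)) *
      C.H.ev (C.H.D m (mon C.pp μ) x) k y) ∧
  (∀ m k n (h : m + k = n), n ≤ C.n0 → ∀ L₁ L₂ : Finset C.Lb, (∀ Λ, Λ ∈ L₁ ↔ C.IsLab m Λ) →
    (∀ Λ, Λ ∈ L₂ ↔ C.IsLab k Λ) → ∀ x g y, res h (C.H.ev x n) g y = ∑ Λ₁ ∈ L₁, ∑ Λ₂ ∈ L₂,
      C.H.ip n x (sL C.N C.pp Λ₁ * sL C.N C.pp Λ₂) * C.sC Λ₁ m g * C.sC Λ₂ k y) ∧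
  (∀ m k n, m + k = n → n ≤ C.n0 → ∀ Λ₁ Λ₂ Λ, C.IsLab m Λ₁ → C.IsLab k Λ₂ → C.IsLab n Λ →
    C.H.ip n (sL C.N C.pp Λ) (sL C.N C.pp Λ₁ * sL C.N C.pp Λ₂) ≠ 0 →
    ∀ φ, H19.wtS (Λ φ) = H19.wtS (Λ₁ φ) + H19.wtS (Λ₂ φ))

def R1aStmt : Prop := All.{u} fun F _ _ _ C => ∀ n ≤ C.n0, ∀ Λ, C.IsLab n Λ → C.Bas Λ →
  C.ww Λ ≠ 0 → ∃ (m k : ℕ) (h : m + k = n) (u s : GL (Fin m) F) (Λ' : C.Lb), 0 < m ∧
    C.IsLab k Λ' ∧ C.Bas Λ' ∧ C.ww Λ' + 1 = C.ww Λ ∧ (∃ i, orderOf u = C.p ^ i) ∧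
    IsUnit (u.1 - 1) ∧ Commute u s ∧ ¬ C.p ∣ orderOf s ∧
    classInner (pRegularPart C.p fun y => C.sC Λ n (tri h (u * s) 0 y)) (C.sC Λ' k) ≠ 0

def R1cStmt : Prop := All.{u} fun F _ _ _ C => ∀ n ≤ C.n0, ∀ Λ, C.IsLab n Λ → C.Bas Λ →
  ∀ D : Subgroup (GL (Fin n) F), IsDefectGroup C.p C.M (blockOf C.M (C.sC Λ n)) D →
  ∃ E : Subgroup (GL (Fin n) F), E ≤ D ∧ Nat.card E = C.p ^ C.ww Λ ∧
    (∀ a ∈ E, ∀ b ∈ E, a * b = b * a) ∧ ∀ a ∈ E, a ^ C.p = 1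

def R2LaStmt : Prop := All.{u} fun _ _ _ _ C => ∀ Γ, C.Reg Γ → C.dg Γ ≤ C.n0 →
  IsPBlock C.M (C.XC (C.dg Γ) (C.Sup Γ)) ∧
    ∃ g, (H17.eB C.M (C.XC (C.dg Γ) (C.Sup Γ))).1.coeff g ≠ 0

def R2LbStmt : Prop := All.{u} fun F _ _ _ C => ∀ Γ, C.Reg Γ → ∀ k n (h : C.dg Γ + k = n),
  n ≤ C.n0 → ∀ (z : Fˣ) (u : GL (Fin (C.dg Γ)) F), orderOf z = C.p → u.1 = (z : F) • 1 →
  (∀ (χ : IrrCharacter (GL (Fin n) F)) (ψ₁ : IrrCharacter (GL (Fin (C.dg Γ)) F))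
    (ψ₂ : IrrCharacter (GL (Fin k) F)),
    classInner (pRegularPart C.p fun y : GL (Fin (C.dg Γ)) F × GL (Fin k) F =>
      χ.1 (tri h (u * y.1) 0 y.2)) (fun y => ψ₁.1 y.1 * ψ₂.1 y.2) ≠ 0 →
    (χ ∈ C.XC n (C.Sup Γ) ↔ ψ₁ ∈ C.XC (C.dg Γ) (C.Sup Γ) ∧ ψ₂ ∈ C.XC k (C.Sup Γ))) ∧
  ∀ B : Set (IrrCharacter (GL (Fin n) F)), IsPBlock C.M B → B ⊆ C.XC n (C.Sup Γ) →
    ∃ χ ∈ B, χ.1 (tri h u 0 1) ≠ 0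

def R2LStmt : Prop := All.{u} fun F _ _ _ C => C.p ∣ Fintype.card F - 1 → ∀ Γ, C.Reg Γ →
  C.dg Γ ≤ C.n0 → ∃ g' : GL (Fin (C.dg Γ)) F, ∀ j n, 0 < j → C.dg Γ * j = n → n ≤ C.n0 →
    IsPBlock C.M (C.XC n (C.Sup Γ)) ∧ ∃ (g : GL (Fin n) F) (e : Fin j × Fin (C.dg Γ) ≃ Fin n),
      g.1 = Matrix.reindex e e ((1 : Matrix (Fin j) (Fin j) F) ⊗ₖ g'.1) ∧
      (H17.eB C.M (C.XC n (C.Sup Γ))).1.coeff g ≠ 0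

def EXCStmt : Prop := All.{u} fun F _ _ _ C => C.p ∣ Fintype.card F - 1 → ∀ Γ, C.Reg Γ →
  ∀ m n, 0 < m → C.dg Γ * m = n → n ≤ C.n0 → ∀ B : Set (IrrCharacter (GL (Fin n) F)),
  IsPBlock C.M B → B ⊆ C.XC n (C.Sup Γ) → ∀ D, IsDefectGroup C.p C.M B D →
  ∀ P : Subgroup (Matrix.SpecialLinearGroup (Fin m) F), IsPGroup C.p P →
  ∃ f : P →* GL (Fin n) F, Function.Injective f ∧
    ∀ x, f x ∈ D ∧ Matrix.GeneralLinearGroup.det (f x) = 1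

def TH0aStmt : Prop := All.{u} fun _ _ _ _ C => ∀ φ k,
  C.H.Hg (C.dg φ * k) (ee (C.pp φ) k) ∧ IsIrrCharacter _ (C.eC φ k) ∧ dlt C.ψ (C.eC φ k) = 1 ∧
  (∀ c, C.qL * c = c → C.tw c φ = φ → lm (dl (C.eta c) _) (C.eC φ k) = C.eC φ k) ∧
  ∀ φ' k', φ ≠ φ' → 0 < k → C.H.ip (C.dg φ * k) (ee (C.pp φ) k) (ee (C.pp φ') k') = 0

def TH0bStmt : Prop := ∀ (F : Type u) [Field F] [Fintype F] [DecidableEq F] (ψ : AddChar F ℂ),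
  ψ ≠ 1 → ∀ (ξ : Fˣ →* ℂˣ) (n : ℕ),
  (∀ χ : IrrCharacter (GL (Fin n) F), lm (dl ξ n) χ.1 = χ.1 → dlt ψ χ.1 = 1 →
    ∃ θ : IrrCharacter (dl ξ n).ker, H22.Over _ χ.1 θ.1 ∧ dlt ψ (extendByZero _ θ.1) = 1 ∧
      ∀ j : ℕ, dlt ψ (av (dl ξ n).ker (dl ξ n ^ j) θ.1) = 1) ∧
  ∀ (Θ : (dl ξ n).ker → ℂ) (θ : IrrCharacter (dl ξ n).ker), IsCharacter _ Θ →
    dlt ψ (extendByZero _ θ.1) = 1 → (∀ j : ℕ, dlt ψ (av (dl ξ n).ker (dl ξ n ^ j) Θ) = 1) →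
    classInner (av (dl ξ n).ker 1 Θ) (av (dl ξ n).ker 1 θ.1) = 1 →
    ∀ j : ℕ, classInner (av (dl ξ n).ker (dl ξ n ^ j) Θ) (av (dl ξ n).ker (dl ξ n ^ j) θ.1) = 1

def TH1bStmt : Prop := All.{u} fun _ _ _ _ C => ∀ c, C.qL * c = c →
  ∀ (HH : ∀ j : ℕ, Hall (C.eta c ^ j)) (φ : C.Φ), C.tw c φ = φ →
  ∀ θ : ∀ k, IrrCharacter (dl (C.eta c) (C.dg φ * k)).ker,
  (∀ k, H22.Over _ (C.eC φ k) (θ k).1 ∧ dlt C.ψ (extendByZero _ (θ k).1) = 1 ∧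
    ∀ j : ℕ, dlt C.ψ (av _ (dl (C.eta c) (C.dg φ * k) ^ j) (θ k).1) = 1) →
  ∀ j m y, (HH j).Pr m y → ∃ a : ℂ, ∀ k,
    (HH j).D m y ((HH j).sg _ (av _ (dl (C.eta c) (C.dg φ * k) ^ j) (θ k).1)) =
      if C.dg φ ∣ m ∧ m / C.dg φ ≤ k then a • (HH j).sg _
        (av _ (dl (C.eta c) (C.dg φ * (k - m / C.dg φ)) ^ j) (θ (k - m / C.dg φ)).1) else 0

def TH1Stmt : Prop := All.{u} fun _ _ _ _ C => ∀ c, C.qL * c = c →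
  ∀ (HH : ∀ j : ℕ, Hall (C.eta c ^ j)) (φ : C.Φ), C.tw c φ = φ →
  ∃ P : C.Φ → ℕ → ∀ j, (HH j).A, C.TwS c HH (fun φ' => φ' = φ) P

def TH2aStmt : Prop := All.{u} fun _ _ _ _ C => ∀ c, C.qL * c = c →
  ∀ (HH : ∀ j : ℕ, Hall (C.eta c ^ j)) (In : C.Φ → Prop), (∀ φ, In φ → C.tw c φ = φ) →
  ∃ P : C.Φ → ℕ → ∀ j, (HH j).A, C.TwS c HH In P

def TH2bStmt : Prop := All.{u} fun _ _ _ _ C => ∀ c, C.qL * c = c → C.uu * c = c →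
  ∀ (HH : ∀ j : ℕ, Hall (C.eta c ^ j)) (In : C.Φ → Prop) (P : C.Φ → ℕ → ∀ j, (HH j).A),
  C.TwS c HH In P → ∀ k0 ≤ C.n0, ∀ Λ, C.IsLab k0 Λ → C.twL c Λ = Λ →
  (∀ φ, In φ → Λ φ = range C.N) → pRegularPart C.p (C.sC Λ k0) = C.sC Λ k0 →
  ∃ v, C.Vac c HH In P k0 Λ v

def TH2cStmt : Prop := All.{u} fun _ _ _ _ C => ∀ c,
  ∀ (HH : ∀ j : ℕ, Hall (C.eta c ^ j)) (In : C.Φ → Prop) (P : C.Φ → ℕ → ∀ j, (HH j).A),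
  C.TwS c HH In P → ∀ k0 Λo v, C.Vac c HH In P k0 Λo v → C.IsLab k0 Λo →
  ∀ n ≤ C.n0, ∀ Λ, C.IsLab n Λ → Λo = C.rs (fun φ => ¬ In φ) Λ →
  ∃ θ : IrrCharacter (dl (C.eta c) n).ker, H22.Over _ (C.sC Λ n) θ.1 ∧
    lm (dl (C.eta c) n) (C.sC Λ n) = C.sC Λ n ∧ k0 + wt C.dg (C.rs In Λ) = n ∧
    ∀ j, (HH j).ev (v j * sL C.N (fun φ k => P φ k j) (C.rs In Λ)) n =
      av _ (dl (C.eta c) n ^ j) θ.1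

def RK1aStmt : Prop := All.{u} fun _ _ _ _ C => ∀ c,
  ∀ (HH : ∀ j : ℕ, Hall (C.eta c ^ j)) (In : C.Φ → Prop) (P : C.Φ → ℕ → ∀ j, (HH j).A),
  C.TwS c HH In P → ∀ Γ, (∀ φ, C.lp φ = Γ → In φ) → ∀ j m, m ≤ C.n0 →
  (∀ μ, MonOn (fun φ => C.lp φ = Γ) μ → wm C.dg μ = m →
    InE (C.XC m (C.Sup Γ)) ((HH j).ev (mon (fun φ k => P φ k j) μ) m)) ∧
  ∀ x, (HH j).Pr m x → InE (C.XC m (C.Sup Γ)) ((HH j).ev x m) →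
    x ∈ Submodule.span ℂ {y | ∃ φ k, C.lp φ = Γ ∧ C.dg φ * k = m ∧ y = P φ k j}

def RK1bStmt : Prop := All.{u} fun _ _ _ _ C => ∀ c,
  ∀ (HH : ∀ j : ℕ, Hall (C.eta c ^ j)) (In : C.Φ → Prop) (P : C.Φ → ℕ → ∀ j, (HH j).A),
  C.TwS c HH In P → ∀ Γ, C.Reg Γ → (∀ φ, C.lp φ = Γ → In φ) → ∀ j k, C.dg Γ * k ≤ C.n0 →
  ∀ x, (HH j).Pr (C.dg Γ * k) x → InE (C.XC _ (C.Sup Γ)) ((HH j).ev x (C.dg Γ * k)) →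
    ∃ a : ℂ, (HH j).pi C.p x = a • (HH j).pi C.p (P Γ k j)

def RK1Stmt : Prop := All.{u} fun _ _ _ _ C => ∀ c,
  ∀ (HH : ∀ j : ℕ, Hall (C.eta c ^ j)) (In : C.Φ → Prop) (P : C.Φ → ℕ → ∀ j, (HH j).A),
  C.TwS c HH In P → (∀ φ φ', In φ → C.lp φ' = C.lp φ → In φ') →
  ∀ j φ k φ' k', In φ → In φ' → 0 < k → 0 < k' → C.dg φ * k ≤ C.n0 → C.dg φ' * k' ≤ C.n0 →
  (HH j).ip (C.dg φ * k) ((HH j).pi C.p (P φ k j)) ((HH j).pi C.p (P φ' k' j)) =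
    C.H.ip (C.dg φ * k) (C.H.pi C.p (C.pp φ k)) (C.H.pi C.p (C.pp φ' k'))

def TH3Stmt : Prop := All.{u} fun F _ _ _ C => ∀ n ≤ C.n0, ∀ Λ0, C.IsLab n Λ0 → C.Bas Λ0 →
  ∀ c ∈ C.A1 Λ0, ∃ t : IrrCharacter (GL (Fin n) F) → IrrCharacter (dl (C.eta c) n).ker,
    Base C.p (dl (C.eta c) n) (C.XC n (C.cls Λ0)) t

def DIVStmt : Prop := All.{u} fun _ _ _ _ C => ∀ c i Λ, C.qL * c = c → addOrderOf c = C.p ^ i →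
  C.twL c Λ = Λ → ∀ Γ, C.p ^ i * C.dg Γ ∣ C.sm Λ Γ

def IDXStmt : Prop := All.{u} fun F _ _ _ C => ∀ Γ, C.Reg Γ →
  ∃ a, a * C.eG Γ = orderOf (Fintype.card F : ZMod C.p) ∧ ∀ B : AddSubgroup C.L,
    (∀ c ∈ B, C.qL * c = c ∧ C.uu * c = c ∧ C.tw c Γ = Γ) →
    Nat.card B ≤ a * {c | c ∈ B ∧ ∀ φ, C.lp φ = Γ → C.tw c φ = φ}.ncard

def SUMStmt : Prop := All.{u} fun F _ _ _ C => ∀ n ≤ C.n0, 0 < n → ∀ Λ0, C.IsLab n Λ0 →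
  C.Bas Λ0 → ∀ A : Finset (GL (Fin n) F →* ℂˣ),
  (∀ a, a ∈ A ↔ (Matrix.GeneralLinearGroup.det : GL (Fin n) F →* Fˣ).ker ≤ a.ker) →
  ∃ i, C.p ^ i ∣ Fintype.card F - 1 ∧ (∀ Γ, C.p ^ i * C.dg Γ ∣ C.sm Λ0 Γ) ∧
    ∑ a ∈ A, rk C.p (VS a (C.XC n (C.cls Λ0))) ≤ C.p ^ i * ∑ c ∈ C.A' Λ0, C.fixB n Λ0 c

def FIXStmt : Prop := All.{u} fun _ _ _ _ C => ∀ n ≤ C.n0, ∀ Λ0, C.IsLab n Λ0 → C.Bas Λ0 →
  ∃ (B : AddSubgroup C.L) (_ : MulAction (Multiplicative B) {Γ // C.II Λ0 Γ})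
    (X : {Γ // C.II Λ0 Γ} → Finset (Finset ℕ)), (∀ c, c ∈ B ↔ c ∈ C.A' Λ0) ∧
    (∀ (g : Multiplicative B) (i : {Γ // C.II Λ0 Γ}),
      (g • i).1 = C.tw (Multiplicative.toAdd g).1 i.1 ∧ X (g • i) = X i ∧
      C.eG (g • i).1 = C.eG i.1 ∧ Λ0 i.1 ∈ X i ∧
      H19.wgt (C.eG i.1) (Λ0 (g • i).1) = H19.wgt (C.eG i.1) (Λ0 i.1)) ∧
    (∀ i, #(X i) = H19.bk (C.eG i.1) (H19.wgt (C.eG i.1) (Λ0 i.1))) ∧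
    ∀ g : Multiplicative B, fixN X g = C.fixB n Λ0 (Multiplicative.toAdd g).1

def CAStmt : Prop := All.{u} fun _ _ _ _ C => ∀ n ≤ C.n0, ∀ Λ0, C.IsLab n Λ0 → C.Bas Λ0 →
  (∃ c, ∀ c', c' ∈ C.A1 Λ0 ↔ c' ∈ AddSubgroup.zmultiples c) ∧
  ∑ c ∈ C.A' Λ0, C.fixB n Λ0 c ≤ #(C.A1 Λ0) * C.p ^ C.ww Λ0

def CBStmt : Prop := All.{u} fun F _ _ _ C => C.p ∣ Fintype.card F - 1 → ∀ n ≤ C.n0, 0 < n →
  ∀ Λ0, C.IsLab n Λ0 → C.Bas Λ0 → ∀ i, (∀ Γ, C.p ^ i * C.dg Γ ∣ C.sm Λ0 Γ) →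
  C.p ^ i * ∑ c ∈ C.A' Λ0, C.fixB n Λ0 c ≤ #(C.A1 Λ0) * C.p ^ (C.ww Λ0 - 1) ∨
    (C.p = 2 ∧ ∃ Γ m k, C.Reg Γ ∧ C.dg Γ * m = n ∧ Λ0 ∈ C.Sup Γ ∧
      C.p ^ i * ∑ c ∈ C.A' Λ0, C.fixB n Λ0 c ≤ #(C.A1 Λ0) * 2 ^ k ∧
      ((m = 2 ∧ k = 2) ∨ (m = 4 ∧ k = 4) ∨ (m = 4 ∧ i = 2 ∧ k = 5) ∨ (m = 8 ∧ k = 8)))

/-- the theorem for the kernel of the determinant -/
def MAINStmt : Prop := All.{u} fun F _ _ _ C => 0 < C.n0 →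
  ∀ B : Set (IrrCharacter (Matrix.GeneralLinearGroup.det : GL (Fin C.n0) F →* Fˣ).ker),
  IsPBlock C.M B → ∀ D, IsDefectGroup C.p C.M B D → ∀ s, SectionalPRankLE C.p s D →
  blockRank C.p B ≤ C.p ^ s

def FINStmt : Prop := ∀ (F : Type u) [Field F] [Fintype F] (n : ℕ), 2 ≤ n → ∀ (p : ℕ)
  [Fact p.Prime], p ≠ ringChar F → ∀ M : Ideal AlgInt, IsPModular p M →
  ∀ B : Set (IrrCharacter (Matrix.SpecialLinearGroup (Fin n) F)), IsPBlock M B →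
  ∀ D : Subgroup (Matrix.SpecialLinearGroup (Fin n) F), IsDefectGroup p M B D →
  ∀ s : ℕ, SectionalPRankLE p s D → blockRank p B ≤ p ^ s

end Cfsg.Agent.H98.GB
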