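import Cfsg.Agent.H22.Knorr
import Cfsg.Agent.H16.BrauerBlock
import Cfsg.Agent.H19.SymLoc
import Cfsg.Agent.H19.SymCount

/-! Project GB (S4536), part G: group level definitions and piece statements. -/

set_option autoImplicit false
open Cfsg
open scoped ComplexConjugate

namespace Cfsg.Agent.H98.GB

universe u

section defs
variable {G : Type u} [Group G]

/-- `f` is a `l`-twisted class function. -/
def Tw (l : G →* ℂˣ) (f : G → ℂ) : Prop := ∀ x g, f (x * g * x⁻¹) = (l x : ℂ) * f g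

/-- pointwise product with a linear character -/
def lm (l : G →* ℂˣ) (f : G → ℂ) : G → ℂ := fun g => (l g : ℂ) * f g

/-- `f` is a sum of matrix coefficients of the members of `S`. -/
def InE [Fintype G] (S : Set (IrrCharacter G)) (f : G → ℂ) : Prop :=
  ∀ χ : IrrCharacter G, χ ∉ S → ∀ g, ∑ h, χ.1 h * f (h⁻¹ * g) = 0

/-- the `l`-twisted class functions belonging to `S` -/
def VS [Fintype G] (l : G →* ℂˣ) (S : Set (IrrCharacter G)) : Set (G → ℂ) :=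
  {f | Tw l f ∧ InE S f}

/-- the dimension of the span of the `p`-regular parts -/
noncomputable def rk (p : ℕ) (W : Set (G → ℂ)) : ℕ :=
  Module.finrank ℂ (Submodule.span ℂ (pRegularPart p '' W))

/-- twisted induction from `K` -/
noncomputable def av [Fintype G] (K : Subgroup G) (l : G →* ℂˣ) (θ : K → ℂ) : G → ℂ :=
  fun g => (Nat.card K : ℂ)⁻¹ * ∑ x, (l x : ℂ) * extendByZero K θ (x⁻¹ * g * x)

/-- the conjugate of a function on `K` -/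
noncomputable def cj (K : Subgroup G) (x : G) (θ : K → ℂ) : K → ℂ :=
  fun k => extendByZero K θ (x⁻¹ * k * x)

end defs

/-- descent to a normal subgroup with abelian quotient -/
def CL0Stmt : Prop := ∀ (G : Type u) [Group G] [Fintype G] (p : ℕ) (N : Subgroup G),
  (∀ x y : G, x * y * x⁻¹ * y⁻¹ ∈ N) → ∀ A : Finset (G →* ℂˣ), (∀ l, l ∈ A ↔ N ≤ l.ker) →
  ∀ (X : Set (IrrCharacter G)) (Y : Set (IrrCharacter N)),
  (∀ θ ∈ Y, ∃ χ ∈ X, H22.Over N χ.1 θ.1) → blockRank p Y ≤ ∑ l ∈ A, rk p (VS l X)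

def CL1aStmt : Prop := ∀ (G : Type u) [Group G] [Fintype G] (p : ℕ) [Fact p.Prime]
  (M : Ideal AlgInt), IsPModular p M → ∀ (l : G →* ℂˣ) (S : Set (IrrCharacter G)),
  H17.LamClosed M S →
  rk p (VS l S) ≤ {i | i ∈ H16.ibrOf M S ∧ ∀ g, g ∉ l.ker → H16.ibr p i g = 0}.ncard

def CL1bStmt : Prop := ∀ (G : Type u) [Group G] [Fintype G] (p : ℕ) [Fact p.Prime]
  (M : Ideal AlgInt), IsPModular p M → ∀ (l : G →* ℂˣ), ¬ p ∣ orderOf l →
  ∀ (S : Set (IrrCharacter G)), H17.LamClosed M S →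
  ∀ (ι : Type) (J : Finset ι) (b : ι → G → ℂ) (σ : ι → ι),
  LinearIndepOn ℂ b J →
  Submodule.span ℂ (b '' J) = Submodule.span ℂ ((fun χ : IrrCharacter G => pRegularPart p χ.1) '' S) →
  (∀ i ∈ J, σ i ∈ J ∧ lm l (b i) = b (σ i)) →
  {i | i ∈ H16.ibrOf M S ∧ lm l (H16.ibr p i) = H16.ibr p i}.ncard = {i | i ∈ J ∧ σ i = i}.ncard

def CL2Stmt : Prop := ∀ (G : Type u) [Group G] [Fintype G] (l : G →* ℂˣ)
  (S : Set (IrrCharacter G)) (f : G → ℂ), f ∈ VS l S → f ≠ 0 → ∃ χ ∈ S, lm l χ.1 = χ.1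

def CL3Stmt : Prop := ∀ (G : Type u) [Group G] [Fintype G] (p : ℕ) [Fact p.Prime]
  (M : Ideal AlgInt), IsPModular p M → ∀ (l : G →* ℂˣ) (S : Set (IrrCharacter G)),
  H17.LamClosed M S → ∀ f ∈ VS l S, pRegularPart p f ∈ VS l S

/-- components -/
def DECStmt : Prop := ∀ (G : Type u) [Group G] [Fintype G],
  (∀ (l : G →* ℂˣ) (S : Set (IrrCharacter G)), ∀ f ∈ VS l S,
    f ∈ Submodule.span ℂ {f' | ∃ χ ∈ S, f' ∈ VS l {χ}}) ∧
  (∀ (S T : Set (IrrCharacter G)) (f f' : G → ℂ), InE S f → InE T f' → Disjoint S T →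
    classInner f f' = 0) ∧
  (∀ χ : IrrCharacter G, InE {χ} χ.1) ∧
  (∀ (S : Set (IrrCharacter G)) (f : G → ℂ), IsClassFunction G f →
    (InE S f ↔ ∀ χ : IrrCharacter G, χ ∉ S → classInner f χ.1 = 0))

/-- Clifford theory for a character fixed by a linear character -/
def ONEStmt : Prop := ∀ (G : Type u) [Group G] [Fintype G] (l : G →* ℂˣ) (χ : IrrCharacter G),
  lm l χ.1 = χ.1 → ∀ θ : IrrCharacter l.ker, H22.Over l.ker χ.1 θ.1 →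
  av l.ker 1 θ.1 = χ.1 ∧ (∀ x, cj l.ker x θ.1 = θ.1 → x ∈ l.ker) ∧
  (∀ ψ : IrrCharacter G, H22.Over l.ker ψ.1 θ.1 → ψ = χ) ∧
  ∀ j : ℕ, av l.ker (l ^ j) θ.1 ∈ VS (l ^ j) {χ} ∧
    classInner (av l.ker (l ^ j) θ.1) (av l.ker (l ^ j) θ.1) = 1 ∧
    ∀ f ∈ VS (l ^ j) {χ}, ∃ c : ℂ, f = c • av l.ker (l ^ j) θ.1

def VAC0Stmt : Prop := ∀ (G : Type u) [Group G] [Fintype G] (p : ℕ) [Fact p.Prime]
  (l : G →* ℂˣ), ¬ p ∣ orderOf l → ∀ χ : IrrCharacter G, lm l χ.1 = χ.1 →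
  pRegularPart p χ.1 = χ.1 → ∀ θ : IrrCharacter l.ker, H22.Over l.ker χ.1 θ.1 →
  ∀ j : ℕ, pRegularPart p (av l.ker (l ^ j) θ.1) = av l.ker (l ^ j) θ.1

/-- Parseval: concentration and Fourier inversion -/
def CONCStmt : Prop := ∀ (G : Type u) [Group G] [Fintype G] (l : G →* ℂˣ) [Fintype l.ker],
  (∀ (f : l.ker → ℂ) (χ : IrrCharacter G), IsGeneralizedCharacter l.ker f →
    (∀ j : ℕ, classInner (av l.ker (l ^ j) f) (av l.ker (l ^ j) f) = 1) → av l.ker 1 f = χ.1 →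
    IsIrrCharacter l.ker f ∧ H22.Over l.ker χ.1 f ∧ lm l χ.1 = χ.1) ∧
  (∀ (f f' : l.ker → ℂ), IsClassFunction l.ker f → IsClassFunction l.ker f' →
    (∀ j : ℕ, classInner (av l.ker (l ^ j) f) (av l.ker (l ^ j) f') =
      classInner (av l.ker 1 f) (av l.ker 1 f')) →
    ∀ x, x ∉ l.ker → classInner (cj l.ker x f) f' = 0) ∧
  (∀ (p : ℕ) (l' : G →* ℂˣ) (f : l.ker → ℂ),
    pRegularPart p (av l.ker l' f) = av l.ker l' (pRegularPart p f))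

def OSIStmt : Prop := ∀ (G : Type u) [Group G] [Fintype G] (p : ℕ) [Fact p.Prime]
  (M : Ideal AlgInt), IsPModular p M → ∀ S : Set (IrrCharacter G),
  H17.LamClosed M S ↔ ∀ χ ∈ S, ∀ ψ : IrrCharacter G, ψ ∉ S →
    classInner (pRegularPart p χ.1) ψ.1 = 0

/-- base points -/
def Base {G : Type u} [Group G] [Fintype G] (p : ℕ) (l : G →* ℂˣ) (X : Set (IrrCharacter G))
    (t : IrrCharacter G → IrrCharacter l.ker) : Prop :=
  (∀ χ ∈ X, lm l χ.1 = χ.1 ∧ H22.Over l.ker χ.1 (t χ).1) ∧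
  ∀ χ ∈ X, ∀ ψ ∈ X, ∀ j : ℕ,
    classInner (pRegularPart p (av l.ker (l ^ j) (t χ).1)) (av l.ker (l ^ j) (t ψ).1) =
      classInner (pRegularPart p χ.1) ψ.1

def SPLaStmt : Prop := ∀ (G : Type u) [Group G] [Fintype G] (p : ℕ) [Fact p.Prime]
  (M : Ideal AlgInt), IsPModular p M → ∀ (l : G →* ℂˣ) (X : Set (IrrCharacter G)),
  H17.LamClosed M X → ∀ t : IrrCharacter G → IrrCharacter l.ker, Base p l X t →
  H17.LamClosed M (t '' X) ∧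
    ∀ x, x ∉ l.ker → ∀ θ ∈ t '' X, ∀ θ' ∈ t '' X, cj l.ker x θ.1 ≠ θ'.1

def SPLbStmt : Prop := ∀ (G : Type u) [Group G] [Fintype G] (p : ℕ) [Fact p.Prime]
  (M : Ideal AlgInt), IsPModular p M → ∀ (l : G →* ℂˣ) [Fintype l.ker] (N : Subgroup G),
  (∀ x y : G, x * y * x⁻¹ * y⁻¹ ∈ N) → N ≤ l.ker →
  ∀ (X : Set (IrrCharacter G)) (Y : Set (IrrCharacter l.ker)), H17.LamClosed M Y →
  (∀ x, x ∉ l.ker → ∀ θ ∈ Y, ∀ θ' ∈ Y, cj l.ker x θ.1 ≠ θ'.1) →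
  (∀ θ ∈ Y, ∀ χ : IrrCharacter G, H22.Over l.ker χ.1 θ.1 → χ ∈ X) →
  ∀ A : Finset (G →* ℂˣ), (∀ a, a ∈ A ↔ N ≤ a.ker) →
  ∀ A' : Finset (l.ker →* ℂˣ), (∀ a, a ∈ A' ↔ N.subgroupOf l.ker ≤ a.ker) →
  orderOf l * ∑ a ∈ A', rk p (VS a Y) ≤ ∑ a ∈ A, rk p (VS a X)

/-- splitting -/
def SPLStmt : Prop := ∀ (G : Type u) [Group G] [Fintype G] (p : ℕ) [Fact p.Prime]
  (M : Ideal AlgInt), IsPModular p M → ∀ (l : G →* ℂˣ) (N : Subgroup G),
  (∀ x y : G, x * y * x⁻¹ * y⁻¹ ∈ N) → N ≤ l.ker →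
  ∀ (X : Set (IrrCharacter G)), H17.LamClosed M X →
  ∀ t : IrrCharacter G → IrrCharacter l.ker, Base p l X t →
  ∀ B : Set (IrrCharacter N), IsPBlock M B → H22.Covers N X B →
  ∀ A : Finset (G →* ℂˣ), (∀ a, a ∈ A ↔ N ≤ a.ker) →
  orderOf l * blockRank p B ≤ ∑ a ∈ A, rk p (VS a X)

/-- the second main theorem for a centraliser that is a direct product -/
def R1bStmt : Prop := ∀ (G : Type u) [Group G] [Fintype G] (p : ℕ) [Fact p.Prime]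
  (M : Ideal AlgInt), IsPModular p M → ∀ (G₁ G₂ : Type u) [Group G₁] [Fintype G₁] [Group G₂]
  [Fintype G₂] (j : G₁ × G₂ →* G), Function.Injective j → ∀ u₁ : G₁, (∃ k, orderOf u₁ = p ^ k) →
  j.range = H17.Cg (j (u₁, 1)) → ∀ s₁ : G₁, ¬ p ∣ orderOf s₁ →
  ∀ (χ : IrrCharacter G) (ψ : IrrCharacter G₂),
  classInner (pRegularPart p fun y => χ.1 (j (u₁ * s₁, y))) ψ.1 ≠ 0 →
  ∀ D₂ : Subgroup G₂, IsDefectGroup p M (blockOf M ψ.1) D₂ →
  ∃ D : Subgroup G, IsDefectGroup p M (blockOf M χ.1) D ∧ j (u₁, 1) ∈ D ∧ ∀ y ∈ D₂, j (1, y) ∈ D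

/-- a union of blocks whose local part at `u` is one product block -/
def R2GStmt : Prop := ∀ (G : Type u) [Group G] [Fintype G] (p : ℕ) [Fact p.Prime]
  (M : Ideal AlgInt), IsPModular p M → ∀ (G₁ G₂ : Type u) [Group G₁] [Fintype G₁] [Group G₂]
  [Fintype G₂] (j : G₁ × G₂ →* G), Function.Injective j → ∀ u₁ : G₁, (∃ k, orderOf u₁ = p ^ k) →
  j.range = H17.Cg (j (u₁, 1)) → ∀ (S : Set (IrrCharacter G)) (b₁ : Set (IrrCharacter G₁))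
  (b₂ : Set (IrrCharacter G₂)), H17.LamClosed M S → S.Nonempty → IsPBlock M b₁ → IsPBlock M b₂ →
  (∀ (χ : IrrCharacter G) (ψ₁ : IrrCharacter G₁) (ψ₂ : IrrCharacter G₂),
    classInner (pRegularPart p fun y : G₁ × G₂ => χ.1 (j (u₁ * y.1, y.2)))
      (fun y => ψ₁.1 y.1 * ψ₂.1 y.2) ≠ 0 → (χ ∈ S ↔ ψ₁ ∈ b₁ ∧ ψ₂ ∈ b₂)) →
  (∀ B : Set (IrrCharacter G), IsPBlock M B → B ⊆ S → ∃ χ ∈ B, ∃ (s : G₁) (y : G₂),
    ¬ p ∣ orderOf s ∧ ¬ p ∣ orderOf y ∧ χ.1 (j (u₁ * s, y)) ≠ 0) →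
  IsPBlock M S ∧ ∀ (s : G₁) (y : G₂), (H17.eB M S).1.coeff (j (s, y)) =
    (H17.eB M b₁).1.coeff s * (H17.eB M b₂).1.coeff y

def R2SStmt : Prop := ∀ (G : Type u) [Group G] [Fintype G] (p : ℕ) [Fact p.Prime]
  (M : Ideal AlgInt), IsPModular p M → ∀ B : Set (IrrCharacter G), IsPBlock M B →
  ∀ D : Subgroup G, IsDefectGroup p M B D → ∀ g : G, (H17.eB M B).1.coeff g ≠ 0 →
  ∀ P : Subgroup G, IsPGroup p P → (∀ y ∈ P, y * g = g * y) → ∃ x : G, ∀ y ∈ P, x * y * x⁻¹ ∈ D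

/-- sections of `2`-subgroups of small special linear groups -/
def SECStmt : Prop := ∀ (F : Type u) [Field F] [Fintype F], Odd (Fintype.card F) → ∀ m s : ℕ,
  (∀ P : Subgroup (Matrix.SpecialLinearGroup (Fin m) F), IsPGroup 2 P → SectionalPRankLE 2 s P) →
  (m = 2 → 2 ≤ s) ∧ (m = 4 → 4 ≤ s) ∧ (m = 4 → 4 ∣ Fintype.card F - 1 → 5 ≤ s) ∧ (m = 8 → 8 ≤ s)

/-- the number of choice functions fixed by `ν` -/
noncomputable def fixN {A I : Type} [Group A] [MulAction A I] (X : I → Finset (Finset ℕ))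
    (ν : A) : ℕ := {f : I → Finset ℕ | (∀ i, f i ∈ X i) ∧ ∀ i, f (ν • i) = f i}.ncard

def NUMGStmt : Prop := ∀ (A I : Type) [CommGroup A] [Fintype A] [Fintype I] [MulAction A I]
  (X : I → Finset (Finset ℕ)) (K : I → Subgroup A) (a : I → ℕ),
  (∀ (g : A) i, X (g • i) = X i) → (∀ (g : A) i, K (g • i) = K i) →
  (∀ i, K i ≤ MulAction.stabilizer A i) →
  (∀ i, Nat.card (MulAction.stabilizer A i) ≤ a i * Nat.card (K i)) →
  ∑ ν : A, fixN X ν ≤ Nat.card (⨅ i, K i : Subgroup A) *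
    ∏ᶠ O : MulAction.orbitRel.Quotient A I, a O.out *
      ((X O.out).card ^ Nat.card (MulAction.orbit A O.out) +
        (Nat.card (MulAction.orbit A O.out) - 1) *
          (X O.out).card ^ (Nat.card (MulAction.orbit A O.out) / 2))

def NUMAStmt : Prop := ∀ (A I : Type) [CommGroup A] [Fintype A] [Fintype I] [MulAction A I]
  (X : I → Finset (Finset ℕ)) (K : I → Subgroup A) (a y : I → ℕ),
  (∀ (g : A) i, X (g • i) = X i) → (∀ (g : A) i, K (g • i) = K i) →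
  (∀ (g : A) i, y (g • i) = y i) → (∀ i, K i ≤ MulAction.stabilizer A i) →
  (∀ i, Nat.card (MulAction.stabilizer A i) ≤ a i * Nat.card (K i)) →
  (∀ i, a i * (X i).card + 1 ≤ y i) →
  ∑ ν : A, fixN X ν ≤ Nat.card (⨅ i, K i : Subgroup A) * ∏ i, y i

def NUMBStmt : Prop := ∀ (A I : Type) [CommGroup A] [Fintype A] [Fintype I] [Nonempty I]
  [MulAction A I] (p : ℕ), p.Prime → ¬ p ∣ Fintype.card A →
  ∀ (X : I → Finset (Finset ℕ)) (m : I → ℕ) (c : ℕ),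
  (∀ (g : A) i, X (g • i) = X i) → (∀ (g : A) i, m (g • i) = m i) → (∀ i, 0 < m i) →
  (∀ i, (X i).card = H19.pn (m i)) → (∀ i, p ^ c ∣ m i) →
  p ^ c * ∑ ν : A, fixN X ν ≤
      Nat.card (⨅ i : I, MulAction.stabilizer A i : Subgroup A) * p ^ (∑ i, m i - 1) ∨
    (p = 2 ∧ Fintype.card I = 1 ∧ ∃ k, p ^ c * ∑ ν : A, fixN X ν ≤
      Nat.card (⨅ i : I, MulAction.stabilizer A i : Subgroup A) * 2 ^ k ∧
      ((∑ i, m i = 2 ∧ k = 2) ∨ (∑ i, m i = 4 ∧ k = 4) ∨ (∑ i, m i = 4 ∧ c = 2 ∧ k = 5) ∨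
        (∑ i, m i = 8 ∧ k = 8)))

end Cfsg.Agent.H98.GB
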