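import Mathlib
import Cfsg.Agent.H83.Cores
import Cfsg.Agent.H52.Fitting
import Cfsg.Agent.S0199

/-!
Second Fitting subgroup and two-generated subgroups: basic lemmas.
-/

set_option autoImplicit false
open Subgroup Cfsg
open scoped Pointwise commutatorElement

namespace Cfsg.Agent.H98.Fl
open Cfsg.Agent.H83

variable {G : Type*} [Group G] {p q r : ℕ}

/-- The centralizer of an element. -/
abbrev Cx (x : G) : Subgroup G := centralizer ({x} : Set G)

/-- The commutator subgroup `[Q, x]`. -/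
abbrev cm (Q : Subgroup G) (x : G) : Subgroup G := ⁅Q, zpowers x⁆

theorem mem_Cx {x c : G} : c ∈ Cx x ↔ x * c = c * x := by
  rw [mem_centralizer_singleton_iff, eq_comm]

theorem self_mem_Cx (x : G) : x ∈ Cx x := mem_Cx.mpr rfl

theorem comm_of_Cx {x c y : G} (hc : c ∈ Cx x) (hy : y ∈ zpowers x) : y * c = c * y := by
  obtain ⟨n, rfl⟩ := mem_zpowers_iff.mp hy
  exact (Commute.zpow_left (mem_Cx.mp hc) n)

theorem Cx_le_norm_zp (x : G) : Cx x ≤ normalizer ((zpowers x : Subgroup G) : Set G) := by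
  apply le_norm_of_le_cent
  intro c hc
  rw [mem_centralizer_iff]
  intro y hy
  exact comm_of_Cx hc hy

theorem zp_le_norm {Q : Subgroup G} {x : G} (h : x ∈ normalizer (Q : Set G)) :
    zpowers x ≤ normalizer (Q : Set G) := (zpowers_le).mpr h

theorem cm_le {Q : Subgroup G} {x : G} (h : x ∈ normalizer (Q : Set G)) : cm Q x ≤ Q :=
  comm_le_left (zp_le_norm h)

theorem cm_mono {Q R : Subgroup G} (h : Q ≤ R) (x : G) : cm Q x ≤ cm R x :=
  commutator_mono h le_rfl

theorem norm_cm {H Q : Subgroup G} {x : G} (h : H ≤ normalizer (Q : Set G)) (hc : H ≤ Cx x) :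
    H ≤ normalizer ((cm Q x : Subgroup G) : Set G) :=
  le_norm_comm h (hc.trans (Cx_le_norm_zp x))

theorem mem_norm_cm {Q : Subgroup G} {x c : G} (h : c ∈ normalizer (Q : Set G)) (hc : c ∈ Cx x) :
    c ∈ normalizer ((cm Q x : Subgroup G) : Set G) :=
  norm_cm (zp_le_norm h) ((zpowers_le).mpr hc) (mem_zpowers c)

theorem x_norm_cm {Q : Subgroup G} {x : G} (h : x ∈ normalizer (Q : Set G)) :
    x ∈ normalizer ((cm Q x : Subgroup G) : Set G) := mem_norm_cm h (self_mem_Cx x)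

theorem comm_mul_Cx {x b c y : G} (hc : c ∈ Cx x) (hy : y ∈ zpowers x) : ⁅b * c, y⁆ = ⁅b, y⁆ := by
  have := comm_of_Cx hc hy
  simp only [commutatorElement_def, mul_inv_rev]
  calc b * c * y * (c⁻¹ * b⁻¹) * y⁻¹ = b * (c * y) * c⁻¹ * b⁻¹ * y⁻¹ := by group
    _ = b * (y * c) * c⁻¹ * b⁻¹ * y⁻¹ := by rw [this]
    _ = b * y * b⁻¹ * y⁻¹ := by group

theorem conj_mul_Cx {x b c : G} (hc : c ∈ Cx x) : b * c * x * (b * c)⁻¹ = b * x * b⁻¹ := by
  have := mem_Cx.mp hc
  calc b * c * x * (b * c)⁻¹ = b * (c * x) * c⁻¹ * b⁻¹ := by group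
    _ = b * (x * c) * c⁻¹ * b⁻¹ := by rw [this]
    _ = b * x * b⁻¹ := by group

theorem mem_norm_inf {A B : Subgroup G} {x : G} (hA : x ∈ normalizer (A : Set G))
    (hB : x ∈ normalizer (B : Set G)) : x ∈ normalizer ((A ⊓ B : Subgroup G) : Set G) :=
  le_norm_inf (zp_le_norm hA) (zp_le_norm hB) (mem_zpowers x)

theorem mem_norm_sup {A B : Subgroup G} {x : G} (hA : x ∈ normalizer (A : Set G))
    (hB : x ∈ normalizer (B : Set G)) : x ∈ normalizer ((A ⊔ B : Subgroup G) : Set G) :=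
  le_norm_sup (zp_le_norm hA) (zp_le_norm hB) (mem_zpowers x)

theorem mem_norm_norm {A : Subgroup G} {x : G} (hA : x ∈ normalizer (A : Set G)) :
    x ∈ normalizer ((normalizer (A : Set G) : Subgroup G) : Set G) := le_normalizer hA

theorem mem_norm_of_mem {A : Subgroup G} {x : G} (hA : x ∈ A) : x ∈ normalizer (A : Set G) :=
  le_normalizer hA

theorem cmem {N : Subgroup G} {g y : G} (hg : g ∈ normalizer (N : Set G)) (hy : y ∈ N) :
    g * y * g⁻¹ ∈ N := conj_mem (zp_le_norm hg) (mem_zpowers g) hy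

theorem cmem' {N : Subgroup G} {g y : G} (hg : g ∈ normalizer (N : Set G)) (hy : y ∈ N) :
    g⁻¹ * y * g ∈ N := conj_mem' (zp_le_norm hg) (mem_zpowers g) hy

/-- An element lies in a subgroup containing all its primary parts. -/
theorem mem_of_primary [Finite G] {L : Subgroup G} {d : G}
    (h : ∀ r : ℕ, r.Prime → r ∣ orderOf d → ∀ y ∈ zpowers d, (∃ k, y ^ r ^ k = 1) → y ∈ L) :
    d ∈ L := by
  induction hn : orderOf d using Nat.strong_induction_on generalizing d with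
  | _ n ih =>
    by_cases h1 : d = 1
    · rw [h1]; exact L.one_mem
    have hne : orderOf d ≠ 1 := fun h' => h1 (orderOf_eq_one_iff.mp h')
    obtain ⟨r, hr, hrd⟩ := Nat.exists_prime_and_dvd hne
    haveI := Fact.mk hr
    obtain ⟨a, b, ha, hb, hab, hak, hbc⟩ := exists_p_parts (p := r) d
    have hbd : orderOf b ∣ orderOf d := orderOf_dvd_of_mem_zpowers hb
    have hlt : orderOf b < n := by
      rw [← hn]
      refine lt_of_le_of_ne (Nat.le_of_dvd (orderOf_pos d) hbd) fun he => ?_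
      rw [he] at hbc
      exact (Nat.Prime.coprime_iff_not_dvd hr).mp hbc.symm hrd
    rw [hab]
    refine L.mul_mem (h r hr hrd a ha hak) (ih _ hlt (fun s hs hsb y hy hk => ?_) rfl)
    exact h s hs (hsb.trans hbd) y ((zpowers_le).mpr hb hy) hk

/-- An invariant coset of a `p'`-subgroup contains a fixed point. -/
theorem exists_fixed [Finite G] [hp : Fact p.Prime] {B : Subgroup G} (hB : (Nat.card B).Coprime p)
    {x b : G} {k : ℕ} (hx : x ^ p ^ k = 1) (hn : x ∈ normalizer (B : Set G))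
    (hb : x * b * x⁻¹ * b⁻¹ ∈ B) : ∃ β ∈ B, ∃ c ∈ Cx x, b = β * c := by
  classical
  let σ : Equiv.Perm G := (MulAut.conj x).toEquiv
  have hσ : ∀ g, σ g = x * g * x⁻¹ := fun g => rfl
  have hinv : ∀ g, σ g * b⁻¹ ∈ B ↔ g * b⁻¹ ∈ B := by
    intro g
    rw [hσ]
    have e : x * g * x⁻¹ * b⁻¹ = (x * (g * b⁻¹) * x⁻¹) * (x * b * x⁻¹ * b⁻¹) := by group
    rw [e, B.mul_mem_cancel_right hb]
    exact (mem_normalizer_iff.mp hn _).symm
  let τ : Equiv.Perm {g : G // g * b⁻¹ ∈ B} := σ.subtypePerm hinv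
  have hpow : ∀ n : ℕ, ∀ g, (σ ^ n) g = x ^ n * g * (x ^ n)⁻¹ := by
    intro n
    induction n with
    | zero => intro g; simp
    | succ n ih => intro g; rw [pow_succ', Equiv.Perm.mul_apply, ih, hσ, pow_succ']; group
  have hτ : τ ^ p ^ k = 1 := by
    ext g
    rw [Equiv.Perm.subtypePerm_pow]
    simp only [Equiv.Perm.subtypePerm_apply, Equiv.Perm.coe_one, id]
    rw [hpow, hx]; simp
  have e : {g : G // g * b⁻¹ ∈ B} ≃ B :=
    { toFun := fun g => ⟨g.1 * b⁻¹, g.2⟩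
      invFun := fun β => ⟨β.1 * b, by simp⟩
      left_inv := fun g => by simp
      right_inv := fun β => by simp }
  haveI : Fintype {g : G // g * b⁻¹ ∈ B} := Fintype.ofFinite _
  have hc : ¬ p ∣ Fintype.card {g : G // g * b⁻¹ ∈ B} := by
    rw [← Nat.card_eq_fintype_card, Nat.card_congr e]
    exact (Nat.Prime.coprime_iff_not_dvd hp.out).mp hB.symm
  obtain ⟨⟨c, hc1⟩, hc2⟩ := Equiv.Perm.exists_fixed_point_of_prime hc hτ
  have hc3 : x * c * x⁻¹ = c := congrArg Subtype.val hc2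
  refine ⟨(c * b⁻¹)⁻¹, B.inv_mem hc1, c, mem_Cx.mpr ?_, by group⟩
  calc x * c = x * c * x⁻¹ * x := by group
    _ = c * x := by rw [hc3]

/-- `B = [B, x] C_B(x)`. -/
theorem exists_cm [Finite G] [hp : Fact p.Prime] {B : Subgroup G} (hB : (Nat.card B).Coprime p)
    {x b : G} {k : ℕ} (hx : x ^ p ^ k = 1) (hn : x ∈ normalizer (B : Set G)) (hb : b ∈ B) :
    ∃ β ∈ cm B x, ∃ c ∈ Cx x, c ∈ B ∧ b = β * c := by
  obtain ⟨β, hβ, c, hc, e⟩ := exists_fixed (B := cm B x) (b := b)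
    (H52.coprime_card_of_le (cm_le hn) hB) hx (x_norm_cm hn) (by
      have : x * b * x⁻¹ * b⁻¹ = ⁅b, x⁆⁻¹ := by simp only [commutatorElement_def]; group
      rw [this]
      exact inv_mem (commutator_mem_commutator hb (mem_zpowers x)))
  refine ⟨β, hβ, c, hc, ?_, e⟩
  have : c = β⁻¹ * b := by rw [e]; group
  rw [this]
  exact B.mul_mem (B.inv_mem (cm_le hn hβ)) hb

theorem le_cm_sup [Finite G] [hp : Fact p.Prime] {B : Subgroup G} (hB : (Nat.card B).Coprime p)
    {x : G} {k : ℕ} (hx : x ^ p ^ k = 1) (hn : x ∈ normalizer (B : Set G)) :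
    B ≤ cm B x ⊔ (B ⊓ Cx x) := by
  intro b hb
  obtain ⟨β, hβ, c, hc, hcB, rfl⟩ := exists_cm hB hx hn hb
  exact mul_mem_sup hβ ⟨hcB, hc⟩

/-- `[B, x, x] = [B, x]`. -/
theorem cm_le_cm_cm [Finite G] [hp : Fact p.Prime] {B : Subgroup G} (hB : (Nat.card B).Coprime p)
    {x : G} {k : ℕ} (hx : x ^ p ^ k = 1) (hn : x ∈ normalizer (B : Set G)) :
    cm B x ≤ cm (cm B x) x := by
  rw [commutator_le]
  intro b hb y hy
  obtain ⟨β, hβ, c, hc, -, rfl⟩ := exists_cm hB hx hn hb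
  rw [comm_mul_Cx hc hy]
  exact commutator_mem_commutator hβ hy

theorem coprime_of_pgroup [Finite G] [Fact p.Prime] [Fact q.Prime] (hqp : q ≠ p) {Q : Subgroup G}
    (hQ : IsPGroup q Q) : (Nat.card Q).Coprime p := by
  obtain ⟨n, hn⟩ := IsPGroup.iff_card.mp hQ
  rw [hn]
  exact Nat.Coprime.pow_left n ((Nat.coprime_primes Fact.out Fact.out).mpr hqp)

theorem coprime_order_of_pelt [Fact p.Prime] [Fact q.Prime] (hqp : q ≠ p) {y : G} {k : ℕ}
    (hy : y ^ q ^ k = 1) : (orderOf y).Coprime p :=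
  Nat.Coprime.coprime_dvd_left (orderOf_dvd_of_pow_eq_one hy)
    (Nat.Coprime.pow_left k ((Nat.coprime_primes Fact.out Fact.out).mpr hqp))

/-- `q`-elements of a nilpotent normal subgroup lie in `O_q`. -/
theorem mem_pCoreOf_of_nil [Finite G] {D K : Subgroup G} (hD : Group.IsNilpotent D) (hDK : D ≤ K)
    (hn : K ≤ normalizer (D : Set G)) {d : G} (hd : d ∈ D) {k : ℕ} (hk : d ^ q ^ k = 1) :
    d ∈ pCoreOf q K := by
  have h1 : SubnIn (zpowers d) D := subnIn_of_nilpotent ((zpowers_le).mpr hd)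
  exact (h1.trans (SubnIn.of_norm hDK hn)).le_pCoreOf (isPGroup_zpowers hk) (mem_zpowers d)

/-- Mutually normalizing `q`- and `r`-subgroups commute. -/
theorem commute_of_norm [Fact q.Prime] [Fact r.Prime] (hqr : q ≠ r) {A B : Subgroup G}
    (hA : IsPGroup q A) (hB : IsPGroup r B) (h1 : A ≤ normalizer (B : Set G))
    (h2 : B ≤ normalizer (A : Set G)) {a b : G} (ha : a ∈ A) (hb : b ∈ B) : a * b = b * a := by
  have hd := IsPGroup.disjoint_of_ne q r hqr A B hA hB
  have : ⁅a, b⁆ = 1 := by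
    apply (disjoint_def.mp hd)
    · exact comm_le_left h2 (commutator_mem_commutator ha hb)
    · exact comm_le_right h1 (commutator_mem_commutator ha hb)
  exact commutatorElement_eq_one_iff_mul_comm.mp this

theorem commute_pCoreOf [Fact q.Prime] [Fact r.Prime] (hqr : q ≠ r) {K : Subgroup G} {a b : G}
    (ha : a ∈ pCoreOf q K) (hb : b ∈ pCoreOf r K) : a * b = b * a :=
  commute_of_norm hqr (pCoreOf_isPGroup K) (pCoreOf_isPGroup K)
    ((pCoreOf_le K).trans (le_norm_pCoreOf K)) ((pCoreOf_le K).trans (le_norm_pCoreOf K)) ha hb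

/-- Baer–Suzuki inside a subgroup. -/
theorem baer [Finite G] [Fact q.Prime] {H : Subgroup G} {w : G} (hw : w ∈ H)
    (h : ∀ c ∈ H, ∃ R : Subgroup G, IsPGroup q R ∧ w ∈ R ∧ c * w * c⁻¹ ∈ R) : w ∈ pCoreOf q H := by
  have key : ∀ c : H, IsPGroup q ↥(zpowers (⟨w, hw⟩ : H) ⊔
      (zpowers (⟨w, hw⟩ : H)).map (MulAut.conj c).toMonoidHom) := by
    intro c
    obtain ⟨R, hR, h1, h2⟩ := h c c.2
    have hR' : IsPGroup q (R.subgroupOf H) := hR.comap_subtype
    refine hR'.to_le (sup_le ((zpowers_le).mpr h1) ?_)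
    rw [MonoidHom.map_zpowers, zpowers_le]
    exact h2
  have hX : IsPGroup q (zpowers (⟨w, hw⟩ : H)) := (key 1).to_le le_sup_left
  obtain ⟨N, hN, hNp, hle⟩ := S0199.result _ hX key
  exact mem_map_subtype.mpr ⟨hw, H83.le_pCore hN hNp (hle (mem_zpowers _))⟩

/-- If `M [A, A] = A` for a `q`-group `A` then `M = A`. -/
theorem le_of_le_sup_comm [Finite G] [Fact q.Prime] {M A : Subgroup G} (hA : IsPGroup q A)
    (hM : M ≤ A) (h : A ≤ M ⊔ ⁅A, A⁆) : A ≤ M := by
  have hs : SubnIn M A := subnIn_of_pgroup hM hA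
  rcases hs.eq_or_exists with he | ⟨N, hMN, hNA, hn⟩
  · exact he.ge
  exfalso
  -- in `A / N` we have a perfect nilpotent group
  haveI : (N.subgroupOf A).Normal := (normal_subgroupOf_iff_le_normalizer hNA.le).mpr hn
  haveI : Group.IsNilpotent A := hA.isNilpotent
  let f := QuotientGroup.mk' (N.subgroupOf A)
  have hsurj : Function.Surjective f := QuotientGroup.mk'_surjective _
  have htop : (⊤ : Subgroup (A ⧸ N.subgroupOf A)) ≤ ⁅(⊤ : Subgroup (A ⧸ N.subgroupOf A)), (⊤ : Subgroup (A ⧸ N.subgroupOf A))⁆ := by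
    intro z _
    obtain ⟨a, rfl⟩ := hsurj z
    have ha := h a.2
    rw [mem_sup_right_norm (hM.trans (le_norm_comm le_normalizer le_normalizer))] at ha
    obtain ⟨m, hm, c, hc, e⟩ := ha
    have hcA : c ∈ A := comm_le_left le_normalizer hc
    have e2 : a = (⟨m, hM hm⟩ : A) * ⟨c, hcA⟩ := Subtype.ext e.symm
    have hm1 : f ⟨m, hM hm⟩ = 1 := (QuotientGroup.eq_one_iff _).mpr (hMN hm)
    rw [e2, map_mul, hm1, one_mul]
    have hc' : (⟨c, hcA⟩ : A) ∈ ⁅(⊤ : Subgroup A), (⊤ : Subgroup A)⁆ := by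
      have := commutator_subgroupOf (H := A) (A := A) (B := A) le_rfl le_rfl
      rw [subgroupOf_self] at this
      rw [this]; exact hc
    have := mem_map_of_mem f hc'
    rw [map_commutator] at this
    exact commutator_mono le_top le_top this
  have hbot := H52.eq_bot_of_le_commutator_of_isNilpotent (N := ⊤) (A := ⊤)
    (G := A ⧸ N.subgroupOf A) inferInstance le_rfl htop
  apply hNA.not_ge
  intro a ha
  have : f ⟨a, ha⟩ = 1 := by
    have : f ⟨a, ha⟩ ∈ (⊤ : Subgroup (A ⧸ N.subgroupOf A)) := mem_top _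
    rw [hbot] at this
    exact this
  exact (QuotientGroup.eq_one_iff (N := N.subgroupOf A) (⟨a, ha⟩ : A)).mp this

end Cfsg.Agent.H98.Fl
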