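import Mathlib
import Cfsg.Agent.H98.FlA
import Cfsg.Agent.S0028

/-!
Second Fitting subgroup and two-generated subgroups: the predicate `Good`.
-/

set_option autoImplicit false
open Subgroup Cfsg
open scoped Pointwise commutatorElement

namespace Cfsg.Agent.H98.Fl
open Cfsg.Agent.H83

variable {G : Type*} [Group G] {p q r : ℕ}

/-- `x ∈ N ⊴ K`, `D ⊴ K` is a nilpotent `p'`-group and `N / D` is a `p`-group. -/
structure Gd (p : ℕ) (x : G) (K D N : Subgroup G) : Prop where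
  DN : D ≤ N
  NK : N ≤ K
  nD : K ≤ normalizer (D : Set G)
  nN : K ≤ normalizer (N : Set G)
  nil : Group.IsNilpotent D
  cop : (Nat.card D).Coprime p
  pq : ∀ n ∈ N, ∃ k : ℕ, n ^ p ^ k ∈ D
  xN : x ∈ N

/-- For a `p`-element `x` this says `x ∈ F₂(K)`. -/
def Good (p : ℕ) (x : G) (K : Subgroup G) : Prop := ∃ D N, Gd p x K D N

theorem le_norm_map {G' : Type*} [Group G'] (f : G →* G') {K D : Subgroup G}
    (h : K ≤ normalizer (D : Set G)) : K.map f ≤ normalizer ((D.map f : Subgroup G') : Set G') := by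
  rw [le_normalizer_iff]
  rintro _ ⟨k, hk, rfl⟩ _ ⟨d, hd, rfl⟩
  exact ⟨k * d * k⁻¹, conj_mem h hk hd, by simp⟩

theorem le_norm_comap {G' : Type*} [Group G'] (f : G' →* G) {K D : Subgroup G}
    (h : K ≤ normalizer (D : Set G)) :
    K.comap f ≤ normalizer ((D.comap f : Subgroup G') : Set G') := by
  rw [le_normalizer_iff]
  intro k hk d hd
  have := conj_mem h hk hd
  simpa [mem_comap] using this

namespace Gd
variable {x : G} {K D N : Subgroup G}

theorem xK (h : Gd p x K D N) : x ∈ K := h.NK h.xN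

theorem DK (h : Gd p x K D N) : D ≤ K := h.DN.trans h.NK

theorem map {G' : Type*} [Group G'] (h : Gd p x K D N) (f : G →* G') :
    Gd p (f x) (K.map f) (D.map f) (N.map f) where
  DN := map_mono h.DN
  NK := map_mono h.NK
  nD := le_norm_map f h.nD
  nN := le_norm_map f h.nN
  nil := H52.isNilpotent_map f h.nil
  cop := H52.coprime_card_map f h.cop
  pq := by
    rintro _ ⟨n, hn, rfl⟩
    obtain ⟨k, hk⟩ := h.pq n hn
    exact ⟨k, n ^ p ^ k, hk, by simp⟩
  xN := mem_map_of_mem f h.xN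

theorem mono (h : Gd p x K D N) {K' : Subgroup G} (hK : K' ≤ K) (hx : x ∈ K') :
    Gd p x K' (D ⊓ K') (N ⊓ K') where
  DN := inf_le_inf_right _ h.DN
  NK := inf_le_right
  nD := le_norm_inf (hK.trans h.nD) le_normalizer
  nN := le_norm_inf (hK.trans h.nN) le_normalizer
  nil := H52.isNilpotent_of_le inf_le_left h.nil
  cop := H52.coprime_card_of_le inf_le_left h.cop
  pq := fun n hn => by
    obtain ⟨k, hk⟩ := h.pq n hn.1
    exact ⟨k, hk, K'.pow_mem hn.2 _⟩
  xN := ⟨h.xN, hx⟩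

theorem subgroupOf (h : Gd p x K D N) {H : Subgroup G} (hx : x ∈ H) :
    Gd p (⟨x, hx⟩ : H) (K.subgroupOf H) (D.subgroupOf H) (N.subgroupOf H) where
  DN := comap_mono h.DN
  NK := comap_mono h.NK
  nD := le_norm_comap H.subtype h.nD
  nN := le_norm_comap H.subtype h.nN
  nil := H52.isNilpotent_subgroupOf H h.nil
  cop := H52.coprime_card_subgroupOf H h.cop
  pq := fun n hn => by
    obtain ⟨k, hk⟩ := h.pq n hn
    exact ⟨k, hk⟩
  xN := h.xN

theorem of_mem (h : Gd p x K D N) {y : G} (hy : y ∈ N) : Gd p y K D N :=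
  { h with xN := hy }

theorem memD (h : Gd p x K D N) {n : G} (hn : n ∈ N) (hc : (orderOf n).Coprime p) : n ∈ D := by
  obtain ⟨k, hk⟩ := h.pq n hn
  exact mem_of_ppow_mem hk hc

theorem mem_core [Finite G] [Fact p.Prime] [Fact q.Prime] (h : Gd p x K D N) (hqp : q ≠ p) {n : G}
    (hn : n ∈ N) {k : ℕ} (hk : n ^ q ^ k = 1) : n ∈ pCoreOf q K :=
  mem_pCoreOf_of_nil h.nil h.DK h.nD (h.memD hn (coprime_order_of_pelt hqp hk)) hk

theorem comm_mem (h : Gd p x K D N) {k y : G} (hk : k ∈ K) (hy : y ∈ zpowers x) : ⁅k, y⁆ ∈ N := by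
  have hyN : y ∈ N := (zpowers_le).mpr h.xN hy
  exact N.mul_mem (conj_mem h.nN hk hyN) (N.inv_mem hyN)

theorem cm_le_N (h : Gd p x K D N) {B : Subgroup G} (hB : B ≤ K) : cm B x ≤ N :=
  commutator_le.mpr fun _ hb _ hy => h.comm_mem (hB hb) hy

theorem cm_le_core [Finite G] [Fact p.Prime] [Fact q.Prime] (h : Gd p x K D N) (hqp : q ≠ p)
    {B : Subgroup G} (hB : B ≤ K) (hq : IsPGroup q B) (hn : x ∈ normalizer (B : Set G)) :
    cm B x ≤ pCoreOf q K := by
  intro a ha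
  obtain ⟨k, hk⟩ := isPGroup_iff.mp hq a (cm_le hn ha)
  exact h.mem_core hqp (h.cm_le_N hB ha) hk

theorem cm_le_A [Finite G] [Fact p.Prime] [Fact q.Prime] (h : Gd p x K D N) (hqp : q ≠ p)
    {k : ℕ} (hx : x ^ p ^ k = 1)
    {B : Subgroup G} (hB : B ≤ K) (hq : IsPGroup q B) (hn : x ∈ normalizer (B : Set G)) :
    cm B x ≤ cm (pCoreOf q K) x :=
  (cm_le_cm_cm (coprime_of_pgroup hqp hq) hx hn).trans (cm_mono (h.cm_le_core hqp hB hq hn) x)

theorem D_le [Finite G] [Fact p.Prime] (h : Gd p x K D N) {L : Subgroup G}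
    (hL : ∀ r : ℕ, r.Prime → r ≠ p → pCoreOf r K ≤ L) : D ≤ L := by
  intro d hd
  apply mem_of_primary
  rintro r hr hrd y hy ⟨k, hk⟩
  have hrp : r ≠ p := by
    rintro rfl
    exact (Nat.Prime.coprime_iff_not_dvd hr).mp (coprime_orderOf_of_mem h.cop hd).symm hrd
  exact hL r hr hrp (mem_pCoreOf_of_nil h.nil h.DK h.nD ((zpowers_le).mpr hd hy) hk)

/-- `N = D V` for a Sylow subgroup `V ∋ x` of `N`. -/
theorem N_le [Finite G] [hp : Fact p.Prime] (h : Gd p x K D N) {k : ℕ} (hx : x ^ p ^ k = 1)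
    {L : Subgroup G} (hD : D ≤ L) (hV : ∀ V : Subgroup G, IsPGroup p V → x ∈ V → V ≤ L) :
    N ≤ L := by
  have hz : IsPGroup p (zpowers (⟨x, h.xN⟩ : N)) :=
    isPGroup_zpowers (k := k) (Subtype.ext (by simpa using hx))
  obtain ⟨V, hV'⟩ := hz.exists_le_sylow
  haveI : (D.subgroupOf N).Normal :=
    (normal_subgroupOf_iff_le_normalizer h.DN).mpr (h.NK.trans h.nD)
  let f := QuotientGroup.mk' (D.subgroupOf N)
  have hf : Function.Surjective f := QuotientGroup.mk'_surjective _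
  have hQ : IsPGroup p (N ⧸ D.subgroupOf N) := by
    intro z
    obtain ⟨n, rfl⟩ := hf z
    obtain ⟨j, hj⟩ := h.pq n n.2
    exact ⟨j, by rw [← map_pow]; exact (QuotientGroup.eq_one_iff _).mpr hj⟩
  have htop : ((V.mapSurjective hf : Sylow p _) : Subgroup (N ⧸ D.subgroupOf N)) = ⊤ :=
    ((V.mapSurjective hf).is_maximal' (hQ.to_subgroup ⊤) le_top).symm
  have hVL := hV ((V : Subgroup N).map N.subtype) (V.isPGroup'.map _)
    ⟨⟨x, h.xN⟩, hV' (mem_zpowers _), rfl⟩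
  intro n hn
  have : f ⟨n, hn⟩ ∈ ((V.mapSurjective hf : Sylow p _) : Subgroup (N ⧸ D.subgroupOf N)) := by
    rw [htop]; exact mem_top _
  obtain ⟨v, hv, e⟩ := this
  have hd : v⁻¹ * ⟨n, hn⟩ ∈ D.subgroupOf N := QuotientGroup.eq.mp e
  have : n = (v : G) * ((v : G)⁻¹ * n) := by group
  rw [this]
  exact L.mul_mem (hVL ⟨v, hv, rfl⟩) (hD hd)

end Gd

/-- A `p`-element of `N` centralizing `D` lies in `O_p(K)` if `N / D` is a `p`-group. -/
theorem mem_core_of_cent [Finite G] [hp : Fact p.Prime] {K D N : Subgroup G} (NK : N ≤ K)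
    (nD : K ≤ normalizer (D : Set G)) (nN : K ≤ normalizer (N : Set G))
    (pq : ∀ n ∈ N, ∃ k : ℕ, n ^ p ^ k ∈ D) {x : G} (xN : x ∈ N) {k : ℕ} (hx : x ^ p ^ k = 1)
    (hc : x ∈ centralizer (D : Set G)) : x ∈ pCoreOf p K := by
  set M := N ⊓ centralizer (D : Set G) with hM
  have nM : K ≤ normalizer (M : Set G) := le_norm_inf nN (le_norm_cent nD)
  have hMK : M ≤ K := inf_le_left.trans NK
  have hZ : D.subgroupOf M ≤ center M := by
    intro d hd
    rw [mem_center_iff]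
    intro m
    exact Subtype.ext (mem_centralizer_iff.mp m.2.2 d hd).symm
  haveI : (D.subgroupOf M).Normal := ⟨fun d hd g => by
    rw [mem_center_iff.mp (hZ hd) g, mul_inv_cancel_right]; exact hd⟩
  let f := QuotientGroup.mk' (D.subgroupOf M)
  have hf : Function.Surjective f := QuotientGroup.mk'_surjective _
  have hQ : IsPGroup p (M ⧸ D.subgroupOf M) := by
    intro z
    obtain ⟨n, rfl⟩ := hf z
    obtain ⟨j, hj⟩ := pq n n.2.1
    exact ⟨j, by rw [← map_pow]; exact (QuotientGroup.eq_one_iff _).mpr hj⟩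
  haveI := hQ.isNilpotent
  have hnil : Group.IsNilpotent M :=
    Subgroup.isNilpotent_of_ker_le_center f (by rw [QuotientGroup.ker_mk']; exact hZ)
  exact mem_pCoreOf_of_nil hnil hMK nM ⟨xN, hc⟩ hx

/-- The `A × B` lemma modulo a `p'`-subgroup. -/
theorem ab_mod {H : Type*} [Group H] [Finite H] [hp : Fact p.Prime] [Fact q.Prime] (hqp : q ≠ p)
    {D N W : Subgroup H} [D.Normal] [N.Normal] (DN : D ≤ N) (cop : (Nat.card D).Coprime p)
    (pq : ∀ n ∈ N, ∃ k : ℕ, n ^ p ^ k ∈ D) {x : H} {k : ℕ} (hx : x ^ p ^ k = 1)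
    (hW : IsPGroup q W) (hWx : W ≤ Cx x) (hn : N ⊓ Cx x ≤ normalizer (W : Set H)) :
    ∀ n ∈ N, ∀ w ∈ W, ⁅n, w⁆ ∈ D := by
  let f := QuotientGroup.mk' D
  have hU : IsPGroup p (N.map f) := by
    rw [isPGroup_iff]
    rintro _ ⟨n, hn, rfl⟩
    obtain ⟨j, hj⟩ := pq n hn
    exact ⟨j, by rw [← map_pow]; exact (QuotientGroup.eq_one_iff _).mpr hj⟩
  haveI : (N.map f).Normal := Normal.map inferInstance f (QuotientGroup.mk'_surjective D)
  have key := S0028.result p (zpowers (f x)) (W.map f) (N.map f)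
    (isPGroup_zpowers (k := k) (by rw [← map_pow, hx, map_one]))
    (coprime_of_pgroup hqp (hW.map f)) hU
    (by
      rw [zpowers_le, mem_centralizer_iff]
      rintro _ ⟨w, hw, rfl⟩
      rw [← map_mul, ← map_mul, mem_Cx.mp (hWx hw)])
    (by rw [normalizer_eq_top]; exact le_top) (by rw [normalizer_eq_top]; exact le_top)
    (by
      rintro _ ⟨⟨n, hn', rfl⟩, hc⟩
      have h1 : x * n * x⁻¹ * n⁻¹ ∈ D := by
        have := mem_centralizer_iff.mp hc (f x) (mem_zpowers _)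
        rw [← QuotientGroup.eq_one_iff]
        show f (x * n * x⁻¹ * n⁻¹) = 1
        simp only [map_mul, map_inv]
        rw [this]; group
      obtain ⟨β, hβ, c, hc', rfl⟩ := exists_fixed cop hx
        (by rw [normalizer_eq_top]; exact mem_top _) h1
      have hcN : c ∈ N := (N.mul_mem_cancel_left (DN hβ)).mp hn'
      have hβ1 : f β = 1 := (QuotientGroup.eq_one_iff _).mpr hβ
      rw [mem_centralizer_iff]
      rintro _ ⟨w, hw, rfl⟩
      rw [map_mul, hβ1, one_mul]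
      have h2 : ⁅c, w⁆ ∈ W := W.mul_mem (conj_mem hn ⟨hcN, hc'⟩ hw) (W.inv_mem hw)
      have h3 : ⁅c, w⁆ ∈ N := by
        have : ⁅c, w⁆ = c * (w * c⁻¹ * w⁻¹) := by simp only [commutatorElement_def]; group
        rw [this]
        exact N.mul_mem hcN (Normal.conj_mem inferInstance _ (N.inv_mem hcN) w)
      obtain ⟨j, hj⟩ := isPGroup_iff.mp hW _ h2
      obtain ⟨i, hi⟩ := pq _ h3
      have h4 : ⁅c, w⁆ ∈ D := mem_of_ppow_mem hi (coprime_order_of_pelt hqp hj)
      have h5 : f ⁅c, w⁆ = 1 := (QuotientGroup.eq_one_iff _).mpr h4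
      rw [map_commutatorElement, commutatorElement_eq_one_iff_mul_comm] at h5
      exact h5.symm)
  intro n hn w hw
  have := mem_centralizer_iff.mp (key (mem_map_of_mem f hw)) (f n) (mem_map_of_mem f hn)
  rw [← QuotientGroup.eq_one_iff]
  show f ⁅n, w⁆ = 1
  rw [map_commutatorElement, commutatorElement_eq_one_iff_mul_comm]
  exact this

namespace Gd
variable {x : G} {K D N : Subgroup G}

/-- If `b x b⁻¹ ∈ K` the commutators `[b, xⁱ]` lie in `[O_q(K), x]`. -/
theorem gen_mem [Finite G] [Fact p.Prime] [Fact q.Prime] (h : Gd p x K D N) (hqp : q ≠ p)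
    {k : ℕ} (hx : x ^ p ^ k = 1) {Q : Subgroup G} (hq : IsPGroup q Q)
    (hn : x ∈ normalizer (Q : Set G)) {b : G} (hb : b ∈ Q) (hK : b * x * b⁻¹ ∈ K) {y : G}
    (hy : y ∈ zpowers x) : ⁅b, y⁆ ∈ cm (pCoreOf q K) x := by
  have hB : IsPGroup q (Q ⊓ K : Subgroup G) := hq.to_le inf_le_left
  have hBn : x ∈ normalizer ((Q ⊓ K : Subgroup G) : Set G) :=
    mem_norm_inf hn (mem_norm_of_mem h.xK)
  obtain ⟨β, hβ, c, hc, rfl⟩ := exists_fixed (b := b) (coprime_of_pgroup hqp hB) hx hBn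
    ⟨Q.mul_mem (cmem hn hb) (Q.inv_mem hb), by
      have : x * b * x⁻¹ * b⁻¹ = x * (b * x * b⁻¹)⁻¹ := by group
      rw [this]
      exact K.mul_mem h.xK (K.inv_mem hK)⟩
  rw [comm_mul_Cx hc hy]
  exact h.cm_le_A hqp hx inf_le_right hB hBn (commutator_mem_commutator hβ hy)

/-- A `q`-subgroup of `C_K(x)` normalized by `C_K(x)` and centralizing the `[O_r(K), x]` lies in
`O_q(K)`. -/
theorem le_core [Finite G] [hp : Fact p.Prime] [Fact q.Prime] (h : Gd p x K D N) (hqp : q ≠ p)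
    {k : ℕ} (hx : x ^ p ^ k = 1) {W : Subgroup G} (hW : IsPGroup q W) (hWK : W ≤ K)
    (hWx : W ≤ Cx x) (hn : K ⊓ Cx x ≤ normalizer (W : Set G))
    (hc : ∀ r : ℕ, r.Prime → r ≠ p → r ≠ q → cm (pCoreOf r K) x ≤ centralizer (W : Set G)) :
    W ≤ pCoreOf q K := by
  -- `W` centralizes `N / D`
  have h1 : ∀ n ∈ N, ∀ w ∈ W, ⁅n, w⁆ ∈ D := by
    have h' := h.subgroupOf h.xK
    haveI : (D.subgroupOf K).Normal := (normal_subgroupOf_iff_le_normalizer h.DK).mpr h.nD
    haveI : (N.subgroupOf K).Normal := (normal_subgroupOf_iff_le_normalizer h.NK).mpr h.nN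
    have := ab_mod (H := K) hqp (W := W.subgroupOf K) h'.DN h'.cop h'.pq (x := ⟨x, h.xK⟩) (k := k)
      (Subtype.ext (by simpa using hx)) hW.comap_subtype
      (fun w hw => mem_Cx.mpr (Subtype.ext (mem_Cx.mp (hWx hw))))
      (by
        rw [le_normalizer_iff]
        intro c hc w hw
        exact conj_mem hn ⟨c.2, mem_Cx.mpr (congrArg Subtype.val (mem_Cx.mp hc.2))⟩ hw)
    intro n hn w hw
    exact this ⟨n, h.NK hn⟩ hn ⟨w, hWK hw⟩ hw
  set K₀ := centMod K N D h.nD with hK₀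
  have hK₀K : K₀ ≤ K := centMod_le
  have nK₀ : K ≤ normalizer (K₀ : Set G) := le_norm_centMod le_normalizer h.nN h.nD
  set U := pCoreOf q K ⊔ W with hU
  have hUq : IsPGroup q U := by
    rw [hU, sup_comm]
    exact isPGroup_sup hW (pCoreOf_isPGroup K) (hWK.trans (le_norm_pCoreOf K))
  have hC : K ⊓ Cx x ≤ normalizer (U : Set G) :=
    le_norm_sup (inf_le_left.trans (le_norm_pCoreOf K)) hn
  have hD : D ≤ normalizer (U : Set G) := by
    apply h.D_le
    intro r hr hrp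
    haveI := Fact.mk hr
    by_cases hrq : r = q
    · subst hrq
      exact le_norm_of_le le_sup_left
    have hxr : x ∈ normalizer (pCoreOf r K : Set G) := le_norm_pCoreOf K h.xK
    refine (le_cm_sup (coprime_of_pgroup hrp (pCoreOf_isPGroup K)) hx hxr).trans (sup_le ?_ ?_)
    · exact le_norm_sup (((cm_le hxr).trans (pCoreOf_le K)).trans (le_norm_pCoreOf K))
        (le_norm_of_le_cent (hc r hr hrp hrq))
    · exact (inf_le_inf_right _ (pCoreOf_le K)).trans hC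
  have hK₀U : K₀ ≤ normalizer (U : Set G) := by
    intro g hg
    obtain ⟨β, hβ, c, hc', rfl⟩ := exists_fixed (b := g) h.cop hx (h.nD h.xK) (hg.2 x h.xN)
    have hcK : c ∈ K := (K.mul_mem_cancel_left (h.DK hβ)).mp hg.1
    exact mul_mem (hD hβ) (hC ⟨hcK, hc'⟩)
  have hWK₀ : W ≤ K₀ := fun w hw => ⟨hWK hw, fun n hn => h1 n hn w hw⟩
  calc W ≤ U ⊓ K₀ := le_inf le_sup_right hWK₀
    _ ≤ pCoreOf q K₀ := le_pCoreOf inf_le_right (le_norm_inf hK₀U le_normalizer)
        (hUq.to_le inf_le_left)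
    _ ≤ pCoreOf q K := pCoreOf_mono_normal hK₀K nK₀

end Gd

end Cfsg.Agent.H98.Fl
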