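import Mathlib
import Cfsg.Agent.H98.FlB
import Cfsg.Agent.S3816

/-!
Second Fitting subgroup and two-generated subgroups: the minimal configuration.
-/

set_option autoImplicit false
open Subgroup Cfsg
open scoped Pointwise commutatorElement

namespace Cfsg.Agent.H98.Fl
open Cfsg.Agent.H83

variable {G : Type*} [Group G] {p q r : ℕ}

/-- The minimal configuration. -/
structure MC (p : ℕ) (x : G) : Prop where
  core : ∀ q : ℕ, q.Prime → ∀ N : Subgroup G, N.Normal → IsPGroup q N → N = ⊥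
  ord : orderOf x = p
  gen : ∀ y, closure ({x, y} : Set G) ≠ ⊤
  good : ∀ K : Subgroup G, K ≠ ⊤ → x ∈ K → Good p x K

theorem left_mem_cl (x y : G) : x ∈ closure ({x, y} : Set G) := subset_closure (by simp)

theorem right_mem_cl (x y : G) : y ∈ closure ({x, y} : Set G) := subset_closure (by simp)

theorem cl_le {x y : G} {K : Subgroup G} (hx : x ∈ K) (hy : y ∈ K) :
    closure ({x, y} : Set G) ≤ K := by
  rw [closure_le]
  rintro z (rfl | rfl)
  · exact hx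
  · exact hy

theorem cj_ne_top {K : Subgroup G} (h : K ≠ ⊤) (g : G) : cj g K ≠ ⊤ := by
  intro h'
  apply h
  rw [← cj_inv_cj g K, h', cj_top]

theorem cj_zp {x c : G} (hc : c ∈ Cx x) : cj c (zpowers x) = zpowers x :=
  cj_eq_self (Cx_le_norm_zp x hc)

theorem cj_cm {x c : G} (hc : c ∈ Cx x) (Q : Subgroup G) : cj c (cm Q x) = cm (cj c Q) x := by
  rw [cj_comm, cj_zp hc]

theorem mem_norm_cj {x c : G} (hc : c ∈ Cx x) {Q : Subgroup G} (h : x ∈ normalizer (Q : Set G)) :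
    x ∈ normalizer ((cj c Q : Subgroup G) : Set G) := by
  rw [← cj_normalizer, mem_cj]
  have : c⁻¹ * x * c = x := by rw [mul_assoc, mem_Cx.mp hc]; group
  rw [this]; exact h

/-- The join of the `[Q, x]` over the `x`-invariant `q`-subgroups `Q`. -/
def Dq (q : ℕ) (x : G) : Subgroup G :=
  sSup {A | ∃ Q : Subgroup G, IsPGroup q Q ∧ x ∈ normalizer (Q : Set G) ∧ A = cm Q x}

theorem cm_le_Dq {x : G} {Q : Subgroup G} (hq : IsPGroup q Q) (hn : x ∈ normalizer (Q : Set G)) :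
    cm Q x ≤ Dq q x := le_sSup ⟨Q, hq, hn, rfl⟩

theorem Dq_le {x : G} {L : Subgroup G}
    (h : ∀ Q : Subgroup G, IsPGroup q Q → x ∈ normalizer (Q : Set G) → cm Q x ≤ L) :
    Dq q x ≤ L := by
  apply sSup_le
  rintro _ ⟨Q, hq, hn, rfl⟩
  exact h Q hq hn

theorem Dq_le' {x : G} {L : Subgroup G}
    (h : ∀ Q : Subgroup G, IsPGroup q Q → x ∈ normalizer (Q : Set G) → ∀ b ∈ Q,
      ∀ y ∈ zpowers x, ⁅b, y⁆ ∈ L) : Dq q x ≤ L :=
  Dq_le fun Q hq hn => commutator_le.mpr (h Q hq hn)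

theorem Cx_le_norm_Dq (x : G) : Cx x ≤ normalizer ((Dq q x : Subgroup G) : Set G) := by
  apply H52.le_normalizer_sSup_of_conj_mem
  rintro c hc _ ⟨Q, hq, hn, rfl⟩
  exact ⟨cj c Q, isPGroup_cj hq c, mem_norm_cj hc hn, cj_cm hc Q⟩

namespace MC
variable {x : G}

theorem pow (h : MC p x) : x ^ p ^ 1 = 1 := by rw [pow_one, ← h.ord, pow_orderOf_eq_one]

theorem ne_one [hp : Fact p.Prime] (h : MC p x) : x ≠ 1 := by
  intro h1
  have := h.ord
  rw [h1, orderOf_one] at this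
  exact hp.out.one_lt.ne this

theorem conj (h : MC p x) (g : G) : MC p (g * x * g⁻¹) where
  core := h.core
  ord := by rw [orderOf_conj', h.ord]
  gen := fun y hy => by
    apply cj_ne_top (h.gen (g⁻¹ * y * g)) g
    rw [eq_top_iff, ← hy]
    refine cl_le (conj_mem_cj (left_mem_cl _ _)) ?_
    rw [mem_cj]; exact right_mem_cl _ _
  good := fun K hK hx => by
    obtain ⟨D, N, hg⟩ := h.good (cj g⁻¹ K) (cj_ne_top hK _) (by rw [mem_cj, inv_inv]; exact hx)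
    have := hg.map (MulAut.conj g).toMonoidHom
    rw [show (cj g⁻¹ K).map (MulAut.conj g).toMonoidHom = K from cj_cj_inv g K] at this
    exact ⟨_, _, this⟩

theorem norm_ne_top (h : MC p x) (hq : q.Prime) {I : Subgroup G} (hI : IsPGroup q I)
    (hne : I ≠ ⊥) : normalizer (I : Set G) ≠ ⊤ := fun h' =>
  hne (h.core q hq I (normalizer_eq_top_iff.mp h') hI)

theorem Cx_ne_top [hp : Fact p.Prime] (h : MC p x) {e : G} (he : e ≠ 1) {k : ℕ}
    (hk : e ^ p ^ k = 1) : Cx e ≠ ⊤ := by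
  intro h'
  refine h.norm_ne_top hp.out (isPGroup_zpowers hk) (by simpa using he) ?_
  rw [eq_top_iff, ← h']
  exact Cx_le_norm_zp e

/-- `x`, `x^b` and an element of `C(x)` generate a proper subgroup. -/
theorem f2 [Finite G] [Fact p.Prime] (h : MC p x) {Q : Subgroup G} (hQ : (Nat.card Q).Coprime p)
    (hn : x ∈ normalizer (Q : Set G)) {b c : G} (hb : b ∈ Q) (hc : c ∈ Cx x) :
    ∃ K : Subgroup G, K ≠ ⊤ ∧ x ∈ K ∧ c ∈ K ∧ b * x * b⁻¹ ∈ K := by
  set K₀ := closure ({x, b * x * b⁻¹} : Set G)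
  obtain ⟨β, hβ, c₀, hc₀, e⟩ := exists_fixed (B := Q ⊓ K₀) (b := b)
    (H52.coprime_card_of_le inf_le_left hQ) h.pow
    (mem_norm_inf hn (mem_norm_of_mem (left_mem_cl _ _)))
    ⟨Q.mul_mem (cmem hn hb) (Q.inv_mem hb), by
      have : x * b * x⁻¹ * b⁻¹ = x * (b * x * b⁻¹)⁻¹ := by group
      rw [this]
      exact K₀.mul_mem (left_mem_cl _ _) (K₀.inv_mem (right_mem_cl _ _))⟩
  set K := closure ({x, β * c} : Set G)
  have h1 : b * x * b⁻¹ ∈ K := by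
    rw [e, conj_mul_Cx hc₀, ← conj_mul_Cx hc]
    exact K.mul_mem (K.mul_mem (right_mem_cl _ _) (left_mem_cl _ _)) (K.inv_mem (right_mem_cl _ _))
  have h2 : β ∈ K := cl_le (left_mem_cl _ _) h1 hβ.2
  exact ⟨K, h.gen _, left_mem_cl _ _, (K.mul_mem_cancel_left h2).mp (right_mem_cl _ _), h1⟩

/-- For odd `p`, `C_{[Q,x]}(x) ≤ O_q(C(x))`. -/
theorem f3 [Finite G] [hp : Fact p.Prime] [Fact q.Prime] (h : MC p x) (hp2 : p ≠ 2) (hqp : q ≠ p)
    {Q : Subgroup G} (hq : IsPGroup q Q) (hn : x ∈ normalizer (Q : Set G)) :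
    cm Q x ⊓ Cx x ≤ pCoreOf q (Cx x) := by
  let φ : MulAut Q := Q.normalizerMonoidHom ⟨x, hn⟩
  have hφ : ∀ (i : ℕ) (a : Q), (((φ ^ i) a : Q) : G) = x ^ i * a * (x ^ i)⁻¹ := by
    intro i a
    show ((((Q.normalizerMonoidHom ⟨x, hn⟩) ^ i) a : Q) : G) = _
    rw [← map_pow]
    rfl
  have hφ1 : ∀ a : Q, ((φ a : Q) : G) = x * a * x⁻¹ := fun a => rfl
  have hcop := coprime_of_pgroup hqp hq
  by_cases h1 : φ = 1
  · have : cm Q x = ⊥ := by
      rw [eq_bot_iff, commutator_le]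
      intro b hb y hy
      have hbx : b ∈ Cx x := by
        have := hφ1 ⟨b, hb⟩
        rw [h1] at this
        apply mem_Cx.mpr
        have e : b = x * b * x⁻¹ := this
        calc x * b = x * b * x⁻¹ * x := by group
          _ = b * x := by rw [← e]
      rw [mem_bot, commutatorElement_eq_one_iff_mul_comm]
      exact (comm_of_Cx hbx hy).symm
    rw [this, bot_inf_eq]; exact bot_le
  have hord : orderOf φ = p := by
    apply orderOf_eq_prime _ h1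
    ext a
    rw [hφ, ← pow_one p, h.pow]; simp
  haveI : Group.IsNilpotent Q := hq.isNilpotent
  have key := S3816.result hp2 hcop φ hord
  rintro w ⟨hw, hwx⟩
  have hwQ : w ∈ Q := cm_le hn hw
  have h2 : (⟨w, hwQ⟩ : Q) ∈ closure {c : Q | ∃ a : Q, ∃ i : ℕ, c = a⁻¹ * (φ ^ i) a} ⊓
      (φ : Q →* Q).eqLocus (MonoidHom.id Q) := by
    constructor
    · have : cm Q x ≤ (closure {c : Q | ∃ a : Q, ∃ i : ℕ, c = a⁻¹ * (φ ^ i) a}).map Q.subtype := by
        rw [commutator_le]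
        intro b hb y hy
        obtain ⟨i, rfl⟩ := mem_powers_iff_mem_zpowers.mpr hy
        refine ⟨(⟨b, hb⟩ : Q)⁻¹⁻¹ * (φ ^ i) (⟨b, hb⟩ : Q)⁻¹, subset_closure ⟨_, i, rfl⟩, ?_⟩
        simp only [inv_inv, coe_subtype, Subgroup.coe_mul, hφ, InvMemClass.coe_inv,
          commutatorElement_def]
        group
      exact coe_mem_map_subtype.mp (this hw)
    · apply Subtype.ext
      show ((φ ⟨w, hwQ⟩ : Q) : G) = w
      rw [hφ1, mem_Cx.mp hwx]; group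
  rw [key] at h2
  have h3 : (⨆ a : Q, closure {c : Q | ∃ i : ℕ, c = a⁻¹ * (φ ^ i) a} ⊓
      (φ : Q →* Q).eqLocus (MonoidHom.id Q)) ≤ (pCoreOf q (Cx x)).subgroupOf Q := by
    apply iSup_le
    rintro a v ⟨hv, hvx⟩
    have hvx' : (v : G) ∈ Cx x := by
      have e : x * v * x⁻¹ = v := congrArg Subtype.val hvx
      apply mem_Cx.mpr
      calc x * v = x * v * x⁻¹ * x := by group
        _ = v * x := by rw [e]
    show (v : G) ∈ pCoreOf q (Cx x)
    apply baer hvx'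
    intro c hc
    obtain ⟨K, hK, hxK, hcK, hbK⟩ := h.f2 hcop hn (a⁻¹).2 hc
    obtain ⟨D, N, hg⟩ := h.good K hK hxK
    have hvK : (v : G) ∈ pCoreOf q K := by
      have : closure {c : Q | ∃ i : ℕ, c = a⁻¹ * (φ ^ i) a} ≤ (pCoreOf q K).subgroupOf Q := by
        rw [closure_le]
        rintro _ ⟨i, rfl⟩
        have := hg.gen_mem hqp h.pow hq hn (a⁻¹).2 hbK (pow_mem (mem_zpowers x) i)
        have := cm_le (le_norm_pCoreOf K hxK) this
        show ((a⁻¹ * (φ ^ i) a : Q) : G) ∈ pCoreOf q K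
        convert this using 1
        simp only [Subgroup.coe_mul, hφ, InvMemClass.coe_inv, commutatorElement_def]
        group
      exact this hv
    exact ⟨pCoreOf q K, pCoreOf_isPGroup K, hvK, conj_mem (le_norm_pCoreOf K) hcK hvK⟩
  exact h3 h2

/-- Some `x`-invariant `p'`-subgroup is moved by `x`. -/
theorem exists_Dq_ne_bot [Finite G] [hp : Fact p.Prime] (h : MC p x) :
    ∃ q : ℕ, q.Prime ∧ q ≠ p ∧ Dq q x ≠ ⊥ := by
  by_contra hcon
  push Not at hcon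
  have : x ∈ pCoreOf p (⊤ : Subgroup G) := by
    apply baer (mem_top x)
    intro g _
    set K := closure ({x, g} : Set G)
    obtain ⟨D, N, hg⟩ := h.good K (h.gen g) (left_mem_cl _ _)
    have hD : D ≤ Cx x := by
      apply hg.D_le
      intro r hr hrp
      haveI := Fact.mk hr
      have hxr : x ∈ normalizer (pCoreOf r K : Set G) := le_norm_pCoreOf K hg.xK
      refine (le_cm_sup (coprime_of_pgroup hrp (pCoreOf_isPGroup K)) h.pow hxr).trans
        (sup_le ?_ inf_le_right)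
      exact ((cm_le_Dq (pCoreOf_isPGroup K) hxr).trans (hcon r hr hrp).le).trans bot_le
    have hx : x ∈ pCoreOf p K := mem_core_of_cent hg.NK hg.nD hg.nN hg.pq hg.xN h.pow (by
      rw [mem_centralizer_iff]
      intro d hd
      exact (mem_Cx.mp (hD hd)).symm)
    exact ⟨pCoreOf p K, pCoreOf_isPGroup K, hx,
      conj_mem (le_norm_pCoreOf K) (right_mem_cl _ _) hx⟩
  rw [h.core p hp.out (pCoreOf p ⊤) (H52.normal_of_top_le_normalizer (le_norm_pCoreOf ⊤))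
    (pCoreOf_isPGroup ⊤)] at this
  exact h.ne_one this

/-- The final contradiction. -/
theorem final [Finite G] [hp : Fact p.Prime] (h : MC p x)
    (hq : ∀ q : ℕ, q.Prime → q ≠ p → IsPGroup q (Dq q x))
    (hc : ∀ q r : ℕ, q.Prime → r.Prime → q ≠ p → r ≠ p → q ≠ r →
      Dq r x ≤ centralizer (Dq q x : Set G)) : False := by
  obtain ⟨q, hqq, hqp, hne⟩ := h.exists_Dq_ne_bot
  haveI := Fact.mk hqq
  set D := Dq q x with hD
  set M := normalizer (D : Set G) with hM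
  set T := pCoreOf q M with hT
  set L := normalizer (T : Set G) with hL
  have hCM : Cx x ≤ M := Cx_le_norm_Dq x
  have hxM : x ∈ M := hCM (self_mem_Cx x)
  have hML : M ≤ L := le_norm_pCoreOf M
  have hDM : ∀ r : ℕ, r.Prime → r ≠ p → Dq r x ≤ M := by
    intro r hr hrp
    by_cases hrq : r = q
    · subst hrq; exact le_normalizer
    · exact le_norm_of_le_cent (hc q r hqq hr hqp hrp (Ne.symm hrq))
  have ha : ∀ r : ℕ, r.Prime → r ≠ p → ∀ R : Subgroup G, IsPGroup r R →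
      x ∈ normalizer (R : Set G) → R ≤ M := by
    intro r hr hrp R hR hn
    haveI := Fact.mk hr
    exact (le_cm_sup (coprime_of_pgroup hrp hR) h.pow hn).trans
      (sup_le ((cm_le_Dq hR hn).trans (hDM r hr hrp)) (inf_le_right.trans hCM))
  have hDT : D ≤ T := le_pCoreOf le_normalizer le_rfl (hq q hqq hqp)
  have hTq : IsPGroup q T := pCoreOf_isPGroup M
  have hMt : M ≠ ⊤ := h.norm_ne_top hqq (hq q hqq hqp) hne
  have hLt : L ≠ ⊤ := h.norm_ne_top hqq hTq fun h' => hne (eq_bot_iff.mpr (hDT.trans h'.le))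
  have h4 : pCoreOf q L ≤ T :=
    le_pCoreOf (ha q hqq hqp _ (pCoreOf_isPGroup L) (le_norm_pCoreOf L (hML hxM)))
      (hML.trans (le_norm_pCoreOf L)) (pCoreOf_isPGroup L)
  have h3 : ∀ K : Subgroup G, K ≠ ⊤ → x ∈ K → T ≤ K → T ≤ pCoreOf q K := by
    intro K hK hxK hTK
    obtain ⟨D', N', hg⟩ := h.good K hK hxK
    obtain ⟨D'', N'', hg'⟩ := h.good M hMt hxM
    refine (le_cm_sup (coprime_of_pgroup hqp hTq) h.pow (hML hxM)).trans (sup_le ?_ ?_)
    · exact hg.cm_le_core hqp hTK hTq (hML hxM)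
    · refine hg.le_core hqp h.pow (hTq.to_le inf_le_left) (inf_le_left.trans hTK) inf_le_right
        (le_norm_inf (inf_le_right.trans (hCM.trans hML)) (le_norm_of_le inf_le_right)) ?_
      intro r hr hrp hrq
      haveI := Fact.mk hr
      have hxr : x ∈ normalizer (pCoreOf r K : Set G) := le_norm_pCoreOf K hxK
      have := hg'.cm_le_core hrp (ha r hr hrp _ (pCoreOf_isPGroup K) hxr) (pCoreOf_isPGroup K) hxr
      intro a haa
      rw [mem_centralizer_iff]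
      intro t ht
      exact commute_pCoreOf (Ne.symm hrq) ht.1 (this haa)
  have adj : ∀ g : G, g * x * g⁻¹ ∈ L → g⁻¹ * x * g ∈ L → g ∈ L := by
    intro g h1 h2
    have e1 : cj g T ≤ L := by
      refine (ha q hqq hqp _ (isPGroup_cj hTq g) ?_).trans hML
      rw [← cj_normalizer, mem_cj]; exact h2
    have e2 := h3 (cj g⁻¹ L) (cj_ne_top hLt _) (by rw [mem_cj, inv_inv]; exact h1)
      (cj_le_iff.mp e1)
    rw [← cj_pCoreOf] at e2
    have e3 : cj g T ≤ T := cj_le_iff.mpr (e2.trans (cj_mono _ h4))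
    exact cj_eq_self_iff.mp (eq_of_le_of_card_ge e3 (card_cj g T).ge)
  have adj' : ∀ X : Subgroup G, x ∈ X → X ≤ L → normalizer (X : Set G) ≤ L :=
    fun X hx hX g hg => adj g (hX (cmem hg hx)) (hX (cmem' hg hx))
  have hV : ∀ V : Subgroup G, IsPGroup p V → x ∈ V → V ≤ L := by
    intro V hV hx
    by_contra hcon
    have hlt : V ⊓ L < V := lt_of_le_of_ne inf_le_left fun h' => hcon (h'.ge.trans inf_le_right)
    have := lt_inf_normalizer hV hlt
    exact this.not_ge (inf_le_inf_left V (adj' _ ⟨hx, hML hxM⟩ inf_le_right))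
  apply hLt
  rw [eq_top_iff]
  intro g _
  obtain ⟨D', N', hg⟩ := h.good _ (h.gen g) (left_mem_cl x g)
  have hD' : D' ≤ L := hg.D_le fun r hr hrp =>
    (ha r hr hrp _ (pCoreOf_isPGroup _) (le_norm_pCoreOf _ hg.xK)).trans hML
  exact adj' N' hg.xN (hg.N_le h.pow hD' hV) (hg.nN (right_mem_cl x g))

end MC

/-- Maximal members of a locally transitive family of `q`-subgroups which meet are conjugate. -/
theorem link [Finite G] [Fact q.Prime] (S : Set (Subgroup G)) (Γ : Subgroup G)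
    (hq : ∀ Q ∈ S, IsPGroup q Q) (hΓ : ∀ γ ∈ Γ, ∀ Q ∈ S, cj γ Q ∈ S)
    (hloc : ∀ Q₁ ∈ S, ∀ Q₂ ∈ S, Q₁ ⊓ Q₂ ≠ ⊥ → ∃ γ ∈ Γ, ∃ R ∈ S,
      cj γ (Q₁ ⊓ normalizer ((Q₁ ⊓ Q₂ : Subgroup G) : Set G)) ≤ R ∧
        Q₂ ⊓ normalizer ((Q₁ ⊓ Q₂ : Subgroup G) : Set G) ≤ R)
    {Q₁ Q₂ : Subgroup G} (h1 : Maximal (· ∈ S) Q₁) (h2 : Maximal (· ∈ S) Q₂)
    (hne : Q₁ ⊓ Q₂ ≠ ⊥) : ∃ γ ∈ Γ, cj γ Q₁ = Q₂ := by
  have hmax : ∀ γ ∈ Γ, ∀ Q, Maximal (· ∈ S) Q → Maximal (· ∈ S) (cj γ Q) := by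
    intro γ hγ Q hQ
    refine ⟨hΓ γ hγ Q hQ.1, fun R hR hle => ?_⟩
    have := hQ.2 (hΓ γ⁻¹ (Γ.inv_mem hγ) R hR) (cj_le_iff.mp hle)
    rw [cj_le_iff, inv_inv] at this
    exact this
  induction hn : Nat.card G - Nat.card (Q₁ ⊓ Q₂ : Subgroup G) using Nat.strong_induction_on
    generalizing Q₁ Q₂ with
  | _ n ih =>
    by_cases e1 : Q₁ ≤ Q₂
    · exact ⟨1, Γ.one_mem, by rw [cj_one]; exact le_antisymm e1 (h1.2 h2.1 e1)⟩
    have e2 : ¬ Q₂ ≤ Q₁ := fun h' => e1 (h2.2 h1.1 h')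
    have l1 := lt_inf_normalizer (hq _ h1.1)
      (lt_of_le_of_ne inf_le_left fun h' : Q₁ ⊓ Q₂ = Q₁ => e1 (h'.ge.trans inf_le_right))
    have l2 := lt_inf_normalizer (hq _ h2.1)
      (lt_of_le_of_ne inf_le_right fun h' : Q₁ ⊓ Q₂ = Q₂ => e2 (h'.ge.trans inf_le_left))
    obtain ⟨γ, hγ, R, hR, a1, a2⟩ := hloc Q₁ h1.1 Q₂ h2.1 hne
    obtain ⟨Q₃, hR3, h3⟩ := Finite.exists_le_maximal (p := (· ∈ S)) hR
    have hcard : ∀ {A B : Subgroup G}, A < B → Nat.card A < Nat.card B := fun {A B} hlt =>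
      lt_of_le_of_ne (card_le_of_le hlt.le) fun he => hlt.ne (eq_of_le_of_card_ge hlt.le he.ge)
    have hle : ∀ A : Subgroup G, Nat.card A ≤ Nat.card G := fun A => card_le_card_group A
    have hpos : ∀ {A B : Subgroup G}, Nat.card A < Nat.card B → B ≠ ⊥ := by
      intro A B hlt hB
      rw [hB, card_bot] at hlt
      exact absurd (Nat.card_pos (α := A)) (by omega)
    have c1 : Nat.card (Q₁ ⊓ Q₂ : Subgroup G) < Nat.card (cj γ Q₁ ⊓ Q₃ : Subgroup G) := by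
      refine lt_of_lt_of_le (hcard l1) ?_
      rw [← card_cj γ]
      exact card_le_of_le (le_inf (cj_mono γ inf_le_left) (a1.trans hR3))
    have c2 : Nat.card (Q₁ ⊓ Q₂ : Subgroup G) < Nat.card (Q₃ ⊓ Q₂ : Subgroup G) :=
      lt_of_lt_of_le (hcard l2) (card_le_of_le (le_inf (a2.trans hR3) inf_le_left))
    obtain ⟨γ₁, hγ₁, b1⟩ := ih _ (by have := hle (cj γ Q₁ ⊓ Q₃); omega) (hmax γ hγ Q₁ h1) h3
      (hpos c1) rfl
    obtain ⟨γ₂, hγ₂, b2⟩ := ih _ (by have := hle (Q₃ ⊓ Q₂); omega) h3 h2 (hpos c2) rfl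
    exact ⟨γ₂ * (γ₁ * γ), Γ.mul_mem hγ₂ (Γ.mul_mem hγ₁ hγ), by rw [cj_mul, cj_mul, b1, b2]⟩

/-- Pairwise linked invariant members of such a family generate a `q`-group. -/
theorem link_all [Finite G] [Fact q.Prime] (S : Set (Subgroup G)) (Γ : Subgroup G)
    (hq : ∀ Q ∈ S, IsPGroup q Q) (hΓ : ∀ γ ∈ Γ, ∀ Q ∈ S, cj γ Q ∈ S)
    (hloc : ∀ Q₁ ∈ S, ∀ Q₂ ∈ S, Q₁ ⊓ Q₂ ≠ ⊥ → ∃ γ ∈ Γ, ∃ R ∈ S,
      cj γ (Q₁ ⊓ normalizer ((Q₁ ⊓ Q₂ : Subgroup G) : Set G)) ≤ R ∧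
        Q₂ ⊓ normalizer ((Q₁ ⊓ Q₂ : Subgroup G) : Set G) ≤ R)
    {ι : Type*} (P : ι → Subgroup G) (hP : ∀ i, P i ∈ S)
    (hPΓ : ∀ i, Γ ≤ normalizer (P i : Set G))
    (hl : ∀ i j, P i ≠ ⊥ → P j ≠ ⊥ → ∃ R ∈ S, R ⊓ P i ≠ ⊥ ∧ R ⊓ P j ≠ ⊥) :
    IsPGroup q (⨆ i, P i : Subgroup G) := by
  by_cases h0 : ∀ i, P i = ⊥
  · rw [iSup_eq_bot.mpr h0]; exact IsPGroup.of_bot
  push Not at h0
  obtain ⟨i, hi⟩ := h0
  obtain ⟨Q₁, hle1, h1⟩ := Finite.exists_le_maximal (p := (· ∈ S)) (hP i)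
  refine (hq _ h1.1).to_le (iSup_le fun j => ?_)
  by_cases hj : P j = ⊥
  · rw [hj]; exact bot_le
  obtain ⟨R, hR, r1, r2⟩ := hl i j hi hj
  obtain ⟨Q₀, hle0, h0⟩ := Finite.exists_le_maximal (p := (· ∈ S)) hR
  obtain ⟨Q₂, hle2, h2⟩ := Finite.exists_le_maximal (p := (· ∈ S)) (hP j)
  obtain ⟨γ₁, hγ₁, b1⟩ := link S Γ hq hΓ hloc h2 h0 fun h' =>
    r2 (eq_bot_iff.mpr ((le_inf (inf_le_right.trans hle2) (inf_le_left.trans hle0)).trans h'.le))
  obtain ⟨γ₂, hγ₂, b2⟩ := link S Γ hq hΓ hloc h0 h1 fun h' =>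
    r1 (eq_bot_iff.mpr ((le_inf (inf_le_left.trans hle0) (inf_le_right.trans hle1)).trans h'.le))
  rw [← cj_eq_self (hPΓ j (Γ.mul_mem hγ₂ hγ₁)), ← b2, ← b1, cj_mul]
  exact cj_mono _ (cj_mono _ hle2)

end Cfsg.Agent.H98.Fl
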