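import Mathlib
import Cfsg.Agent.H98.FlC
import Cfsg.Agent.S0058

/-!
Second Fitting subgroup and two-generated subgroups: the case of a noncyclic `E ∋ x`.
-/

set_option autoImplicit false
open Subgroup Cfsg
open scoped Pointwise commutatorElement

namespace Cfsg.Agent.H98.Fl
open Cfsg.Agent.H83

variable {G : Type*} [Group G] {p q r : ℕ}

theorem mem_zp_of_prime [Finite G] [hp : Fact p.Prime] {x y : G} (hx : orderOf x = p)
    (hy : y ∈ zpowers x) (h1 : y ≠ 1) : x ∈ zpowers y := by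
  have hyp : y ^ p = 1 := by
    rw [← hx]; exact orderOf_dvd_iff_pow_eq_one.mp (orderOf_dvd_of_mem_zpowers hy)
  have : zpowers y = zpowers x := eq_of_le_of_card_ge ((zpowers_le).mpr hy)
    (by rw [Nat.card_zpowers, Nat.card_zpowers, hx, orderOf_eq_prime hyp h1])
  rw [this]; exact mem_zpowers x

theorem mem_of_mul_mem {K : Subgroup G} {a b : G} {k : ℕ} (ha : a ^ p ^ k = 1)
    (hb : (orderOf b).Coprime p) (hc : b * a = a * b) (h : b * a ∈ K) : a ∈ K := by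
  apply mem_of_pelt_of_pow_mem ha _ hb
  have := K.pow_mem h (orderOf b)
  rwa [Commute.mul_pow hc, pow_orderOf_eq_one, one_mul] at this

theorem conj_zp_mem {K : Subgroup G} {x b y : G} (h : b * x * b⁻¹ ∈ K) (hy : y ∈ zpowers x) :
    b * y * b⁻¹ ∈ K := by
  obtain ⟨n, rfl⟩ := mem_zpowers_iff.mp hy
  have := K.zpow_mem h n
  rwa [conj_zpow] at this

theorem cm_cent {Q R : Subgroup G} {x : G}
    (h : ∀ b ∈ Q, ∀ y ∈ zpowers x, ∀ ρ ∈ R, ∀ z ∈ zpowers x, ⁅b, y⁆ * ⁅ρ, z⁆ = ⁅ρ, z⁆ * ⁅b, y⁆) :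
    cm R x ≤ centralizer ((cm Q x : Subgroup G) : Set G) := by
  rw [commutator_le]
  intro ρ hρ z hz
  have : cm Q x ≤ Cx ⁅ρ, z⁆ := by
    rw [commutator_le]
    intro b hb y hy
    exact mem_Cx.mpr (h b hb y hy ρ hρ z hz).symm
  rw [mem_centralizer_iff]
  intro a ha
  exact (mem_Cx.mp (this ha)).symm

theorem exists_gen_ne_one {Q : Subgroup G} {x : G} (h : cm Q x ≠ ⊥) :
    ∃ b ∈ Q, ∃ y ∈ zpowers x, ⁅b, y⁆ ≠ 1 := by
  by_contra hcon
  push Not at hcon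
  exact h (eq_bot_iff.mpr (commutator_le.mpr hcon))

theorem exists_conj_le [Finite G] [Fact q.Prime] {H Y Z : Subgroup G} (hY : Y ≤ H) (hZ : Z ≤ H)
    (qY : IsPGroup q Y) (qZ : IsPGroup q Z) :
    ∃ γ ∈ H, ∃ S : Subgroup G, S ≤ H ∧ IsPGroup q S ∧ cj γ Y ≤ S ∧ Z ≤ S := by
  obtain ⟨P₁, h1⟩ := (qY.comap_subtype (K := H)).exists_le_sylow
  obtain ⟨P₂, h2⟩ := (qZ.comap_subtype (K := H)).exists_le_sylow
  obtain ⟨g, hg⟩ := MulAction.exists_smul_eq H P₁ P₂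
  refine ⟨g, g.2, (P₂ : Subgroup H).map H.subtype, map_subtype_le _, P₂.isPGroup'.map _, ?_, ?_⟩
  · rintro _ ⟨y, hy, rfl⟩
    refine ⟨g * ⟨y, hY hy⟩ * g⁻¹, ?_, rfl⟩
    rw [← hg]
    exact smul_mem_pointwise_smul _ _ _ (h1 (show (⟨y, hY hy⟩ : H) ∈ Y.comap H.subtype from hy))
  · intro z hz
    exact ⟨⟨z, hZ hz⟩, h2 (show (⟨z, hZ hz⟩ : H) ∈ Z.comap H.subtype from hz), rfl⟩

/-- The family used for odd `p`. -/
def So (q : ℕ) (x : G) : Set (Subgroup G) :=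
  {Q | IsPGroup q Q ∧ x ∈ normalizer (Q : Set G) ∧ Q ⊓ Cx x ≤ pCoreOf q (Cx x)}

/-- The family used when `u` is a conjugate of `x`. -/
def St (q : ℕ) (x u : G) : Set (Subgroup G) :=
  {Q | IsPGroup q Q ∧ x ∈ normalizer (Q : Set G) ∧ u ∈ normalizer (Q : Set G)}

namespace MC
variable {x : G}

theorem cm_mem_So [Finite G] [Fact p.Prime] [Fact q.Prime] (h : MC p x) (hp2 : p ≠ 2)
    (hqp : q ≠ p) {Q : Subgroup G} (hq : IsPGroup q Q) (hn : x ∈ normalizer (Q : Set G)) :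
    cm Q x ∈ So q x :=
  ⟨hq.to_le (cm_le hn), x_norm_cm hn, h.f3 hp2 hqp hq hn⟩

theorem loc_So [Finite G] [Fact p.Prime] [hq : Fact q.Prime] (h : MC p x) (hp2 : p ≠ 2)
    (hqp : q ≠ p) (Γ : Subgroup G) :
    ∀ Q₁ ∈ So q x, ∀ Q₂ ∈ So q x, Q₁ ⊓ Q₂ ≠ ⊥ → ∃ γ ∈ Γ, ∃ R ∈ So q x,
      cj γ (Q₁ ⊓ normalizer ((Q₁ ⊓ Q₂ : Subgroup G) : Set G)) ≤ R ∧
        Q₂ ⊓ normalizer ((Q₁ ⊓ Q₂ : Subgroup G) : Set G) ≤ R := by
  intro Q₁ h1 Q₂ h2 hne
  set K := normalizer ((Q₁ ⊓ Q₂ : Subgroup G) : Set G)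
  have hK : K ≠ ⊤ := h.norm_ne_top hq.out (h1.1.to_le inf_le_left) hne
  have hxK : x ∈ K := mem_norm_inf h1.2.1 h2.2.1
  obtain ⟨D, N, hg⟩ := h.good K hK hxK
  have hxO : x ∈ normalizer (pCoreOf q K : Set G) := le_norm_pCoreOf K hxK
  have hn : pCoreOf q (Cx x) ⊓ K ≤ normalizer ((cm (pCoreOf q K) x : Subgroup G) : Set G) :=
    norm_cm (inf_le_right.trans (le_norm_pCoreOf K)) (inf_le_left.trans (pCoreOf_le _))
  have key : ∀ Q ∈ So q x, Q ⊓ K ≤ cm (pCoreOf q K) x ⊔ (pCoreOf q (Cx x) ⊓ K) := by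
    intro Q hQ
    have a1 : IsPGroup q (Q ⊓ K : Subgroup G) := hQ.1.to_le inf_le_left
    have a2 := mem_norm_inf hQ.2.1 (mem_norm_of_mem hxK)
    refine (le_cm_sup (coprime_of_pgroup hqp a1) h.pow a2).trans (sup_le_sup ?_ ?_)
    · exact hg.cm_le_A hqp h.pow inf_le_right a1 a2
    · exact le_inf ((inf_le_inf_right _ inf_le_left).trans hQ.2.2) (inf_le_left.trans inf_le_right)
  refine ⟨1, Γ.one_mem, cm (pCoreOf q K) x ⊔ (pCoreOf q (Cx x) ⊓ K), ⟨?_, ?_, ?_⟩,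
    by rw [cj_one]; exact key Q₁ h1, key Q₂ h2⟩
  · rw [sup_comm]
    exact isPGroup_sup ((pCoreOf_isPGroup _).to_le inf_le_left)
      ((pCoreOf_isPGroup K).to_le (cm_le hxO)) hn
  · exact mem_norm_sup (x_norm_cm hxO)
      (mem_norm_inf (le_norm_pCoreOf _ (self_mem_Cx x)) (mem_norm_of_mem hxK))
  · rintro w ⟨hw, hwx⟩
    obtain ⟨a, ha, o, ho, rfl⟩ := (mem_sup_left_norm hn).mp hw
    have haC : a ∈ Cx x := ((Cx x).mul_mem_cancel_right (pCoreOf_le _ ho.1)).mp hwx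
    exact mul_mem (h.f3 hp2 hqp (pCoreOf_isPGroup K) hxO ⟨ha, haC⟩) ho.1

theorem loc_St [Finite G] [Fact p.Prime] [hq : Fact q.Prime] (h : MC p x) {u : G} (h' : MC p u)
    (hu : u ∈ Cx x) (hqp : q ≠ p) :
    ∀ Q₁ ∈ St q x u, ∀ Q₂ ∈ St q x u, Q₁ ⊓ Q₂ ≠ ⊥ → ∃ γ ∈ Cx x ⊓ Cx u, ∃ R ∈ St q x u,
      cj γ (Q₁ ⊓ normalizer ((Q₁ ⊓ Q₂ : Subgroup G) : Set G)) ≤ R ∧
        Q₂ ⊓ normalizer ((Q₁ ⊓ Q₂ : Subgroup G) : Set G) ≤ R := by
  intro Q₁ h1 Q₂ h2 hne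
  set K := normalizer ((Q₁ ⊓ Q₂ : Subgroup G) : Set G)
  have hK : K ≠ ⊤ := h.norm_ne_top hq.out (h1.1.to_le inf_le_left) hne
  have hxK : x ∈ K := mem_norm_inf h1.2.1 h2.2.1
  have huK : u ∈ K := mem_norm_inf h1.2.2 h2.2.2
  obtain ⟨D, N, hg⟩ := h.good K hK hxK
  obtain ⟨D', N', hg'⟩ := h'.good K hK huK
  set H := K ⊓ (Cx x ⊓ Cx u)
  have key : ∀ Q ∈ St q x u, Q ⊓ K ≤ pCoreOf q K ⊔ (Q ⊓ H) := by
    intro Q hQ
    have a1 : IsPGroup q (Q ⊓ K : Subgroup G) := hQ.1.to_le inf_le_left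
    have a2 := mem_norm_inf hQ.2.1 (mem_norm_of_mem hxK)
    refine (le_cm_sup (coprime_of_pgroup hqp a1) h.pow a2).trans (sup_le ?_ ?_)
    · exact (hg.cm_le_core hqp inf_le_right a1 a2).trans le_sup_left
    have b1 : IsPGroup q (Q ⊓ K ⊓ Cx x : Subgroup G) := a1.to_le inf_le_left
    have b2 := mem_norm_inf (mem_norm_inf hQ.2.2 (mem_norm_of_mem huK)) (mem_norm_of_mem hu)
    refine (le_cm_sup (coprime_of_pgroup hqp b1) h'.pow b2).trans (sup_le_sup ?_ ?_)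
    · exact hg'.cm_le_core hqp (inf_le_left.trans inf_le_right) b1 b2
    · rintro w ⟨⟨⟨w1, w2⟩, w3⟩, w4⟩
      exact ⟨w1, w2, w3, w4⟩
  obtain ⟨γ, hγ, S, hSH, hS, s1, s2⟩ := exists_conj_le (H := H) (Y := Q₁ ⊓ H) (Z := Q₂ ⊓ H)
    inf_le_right inf_le_right (h1.1.to_le inf_le_left) (h2.1.to_le inf_le_left)
  have hcent : ∀ z : G, S ≤ Cx z → z ∈ normalizer (S : Set G) := by
    intro z hz
    apply centralizer_le_normalizer
    rw [mem_centralizer_iff]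
    intro s hs
    exact (mem_Cx.mp (hz hs)).symm
  refine ⟨γ, hγ.2, pCoreOf q K ⊔ S, ⟨?_, ?_, ?_⟩, ?_, (key Q₂ h2).trans (sup_le_sup_left s2 _)⟩
  · rw [sup_comm]
    exact isPGroup_sup hS (pCoreOf_isPGroup K) ((hSH.trans inf_le_left).trans (le_norm_pCoreOf K))
  · exact mem_norm_sup (le_norm_pCoreOf K hxK)
      (hcent x (hSH.trans (inf_le_right.trans inf_le_left)))
  · exact mem_norm_sup (le_norm_pCoreOf K huK)
      (hcent u (hSH.trans (inf_le_right.trans inf_le_right)))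
  · refine (cj_mono γ (key Q₁ h1)).trans ?_
    rw [cj_sup, cj_eq_self (le_norm_pCoreOf K hγ.1)]
    exact sup_le_sup_left s1 _

end MC

/-- `⟨x, u⟩` is elementary abelian of order `p²`. -/
structure CE (p : ℕ) (x u : G) : Prop extends MC p x where
  uC : u ∈ Cx x
  up : u ^ p = 1
  un : u ∉ zpowers x

namespace CE
variable {x u : G}

theorem eC (h : CE p x u) {e : G} (he : e * u⁻¹ ∈ zpowers x) : e ∈ Cx x :=
  ((Cx x).mul_mem_cancel_right ((Cx x).inv_mem h.uC)).mp ((zpowers_le).mpr (self_mem_Cx x) he)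

theorem xC (h : CE p x u) {e : G} (he : e * u⁻¹ ∈ zpowers x) : x ∈ Cx e :=
  mem_Cx.mpr (mem_Cx.mp (h.eC he)).symm

theorem uC' (h : CE p x u) {e : G} (he : e * u⁻¹ ∈ zpowers x) : u ∈ Cx e := by
  have := comm_of_Cx h.uC he
  apply mem_Cx.mpr
  calc e * u = e * u⁻¹ * u * u := by group
    _ = u * (e * u⁻¹) * u := by rw [this]
    _ = u * e := by group

theorem epow (h : CE p x u) {e : G} (he : e * u⁻¹ ∈ zpowers x) : e ^ p ^ 1 = 1 := by
  have e1 : e = e * u⁻¹ * u := by group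
  have e2 : (e * u⁻¹) ^ p = 1 := by
    rw [← h.ord]; exact orderOf_dvd_iff_pow_eq_one.mp (orderOf_dvd_of_mem_zpowers he)
  rw [pow_one, e1, Commute.mul_pow (comm_of_Cx h.uC he), e2, h.up, one_mul]

theorem ene (h : CE p x u) {e : G} (he : e * u⁻¹ ∈ zpowers x) : e ≠ 1 := by
  rintro rfl
  apply h.un
  simpa using he

theorem etop [Fact p.Prime] (h : CE p x u) {e : G} (he : e * u⁻¹ ∈ zpowers x) : Cx e ≠ ⊤ :=
  h.toMC.Cx_ne_top (h.ene he) (h.epow he)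

/-- The key two-generation trick. -/
theorem trick [Finite G] [Fact p.Prime] (h : CE p x u) {e e' : G} (he : e * u⁻¹ ∈ zpowers x)
    (he' : e' * u⁻¹ ∈ zpowers x) (hne : e ≠ e') {Q : Subgroup G} (hQ : (Nat.card Q).Coprime p)
    (hn : x ∈ normalizer (Q : Set G)) (hQe : Q ≤ Cx e) {b ρ : G} (hb : b ∈ Q) (hρ : ρ ∈ Cx e')
    (hρp : (orderOf ρ).Coprime p) :
    ∃ K : Subgroup G, K ≠ ⊤ ∧ x ∈ K ∧ u ∈ K ∧ b * x * b⁻¹ ∈ K ∧ ρ * x * ρ⁻¹ ∈ K := by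
  set K := closure ({b * x * b⁻¹, ρ * e'} : Set G)
  have h1 : e' ∈ K := mem_of_mul_mem (h.epow he') hρp (mem_Cx.mp hρ).symm (right_mem_cl _ _)
  have h2 : ρ ∈ K := (K.mul_mem_cancel_right h1).mp (right_mem_cl _ _)
  have hy : e * e'⁻¹ ∈ zpowers x := by
    have : e * e'⁻¹ = e * u⁻¹ * (e' * u⁻¹)⁻¹ := by group
    rw [this]; exact mul_mem he (inv_mem he')
  have hd : ⁅b, e * e'⁻¹⁆ ∈ Q := cm_le hn (commutator_mem_commutator hb hy)
  have h3 : e ∈ K := by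
    apply mem_of_mul_mem (h.epow he) (coprime_orderOf_of_mem hQ hd) (mem_Cx.mp (hQe hd)).symm
    have : ⁅b, e * e'⁻¹⁆ * e = b * (e * e'⁻¹) * b⁻¹ * e' := by
      simp only [commutatorElement_def]; group
    rw [this]
    exact K.mul_mem (conj_zp_mem (left_mem_cl _ _) hy) h1
  have h4 : x ∈ K := (zpowers_le).mpr (K.mul_mem h3 (K.inv_mem h1))
    (mem_zp_of_prime h.ord hy (fun h' => hne (mul_inv_eq_one.mp h')))
  have h5 : u ∈ K := by
    have : u = (e * u⁻¹)⁻¹ * e := by group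
    rw [this]
    exact K.mul_mem (K.inv_mem ((zpowers_le).mpr h4 he)) h3
  exact ⟨K, (h.toMC.conj b).gen _, h4, h5, left_mem_cl _ _,
    K.mul_mem (K.mul_mem h2 h4) (K.inv_mem h2)⟩

/-- An `E`-invariant `A = [A, x]` is generated by the `[C_A(e), x]`. -/
theorem le_iSup_cm [Finite G] [hp : Fact p.Prime] [Fact q.Prime] (h : CE p x u) (hqp : q ≠ p)
    {A : Subgroup G} (hq : IsPGroup q A) (hx : x ∈ normalizer (A : Set G))
    (hu : u ∈ normalizer (A : Set G)) (hA : A ≤ cm A x) :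
    A ≤ ⨆ e : {e : G // e * u⁻¹ ∈ zpowers x}, cm (A ⊓ Cx e.1) x := by
  set M := ⨆ e : {e : G // e * u⁻¹ ∈ zpowers x}, cm (A ⊓ Cx e.1) x with hM
  have hMA : M ≤ A := iSup_le fun e => (cm_mono inf_le_left x).trans (cm_le hx)
  apply le_of_le_sup_comm hq hMA
  have hN : A ≤ normalizer ((M ⊔ ⁅A, A⁆ : Subgroup G) : Set G) := by
    rw [le_normalizer_iff]
    intro a ha m hm
    have hmA : m ∈ A := (sup_le hMA (comm_le_left le_normalizer)) hm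
    have : a * m * a⁻¹ = ⁅a, m⁆ * m := by simp only [commutatorElement_def]; group
    rw [this]
    exact mul_mem (mem_sup_right (commutator_mem_commutator ha hmA)) hm
  have huz : zpowers u ≤ normalizer ((zpowers x : Subgroup G) : Set G) :=
    (zpowers_le).mpr (Cx_le_norm_zp x h.uC)
  set E := zpowers x ⊔ zpowers u with hE
  have hcomm : ∀ y ∈ zpowers x, ∀ v ∈ zpowers u, y * v = v * y := fun y hy v hv =>
    comm_of_Cx ((zpowers_le).mpr h.uC hv) hy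
  have hEp : ∀ a ∈ E, a ^ p = 1 := by
    intro a ha
    obtain ⟨y, hy, v, hv, rfl⟩ := (mem_sup_left_norm huz).mp ha
    have e1 : y ^ p = 1 := by
      rw [← h.ord]; exact orderOf_dvd_iff_pow_eq_one.mp (orderOf_dvd_of_mem_zpowers hy)
    have e2 : v ^ p = 1 := orderOf_dvd_iff_pow_eq_one.mp
      ((orderOf_dvd_of_mem_zpowers hv).trans (orderOf_dvd_of_pow_eq_one h.up))
    rw [Commute.mul_pow (hcomm y hy v hv), e1, e2, one_mul]
  have hEq : IsPGroup p E := isPGroup_iff.mpr fun a ha => ⟨1, by rw [pow_one, hEp a ha]⟩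
  haveI : IsMulCommutative E := ⟨⟨fun a b => Subtype.ext (by
    have hEx : E ≤ Cx x := sup_le ((zpowers_le).mpr (self_mem_Cx x)) ((zpowers_le).mpr h.uC)
    have hEu : E ≤ Cx u := sup_le ((zpowers_le).mpr (mem_Cx.mpr (mem_Cx.mp h.uC).symm))
      ((zpowers_le).mpr (self_mem_Cx u))
    have : E ≤ Cx (a : G) := sup_le ((zpowers_le).mpr (mem_Cx.mpr (mem_Cx.mp (hEx a.2)).symm))
      ((zpowers_le).mpr (mem_Cx.mpr (mem_Cx.mp (hEu a.2)).symm))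
    exact mem_Cx.mp (this b.2))⟩⟩
  have hnc : ¬ IsCyclic E := by
    intro hc
    obtain ⟨g, hg⟩ := IsCyclic.exists_generator (α := E)
    have e1 : Nat.card E ∣ p := by
      rw [← orderOf_eq_card_of_forall_mem_zpowers hg]
      exact orderOf_dvd_of_pow_eq_one (Subtype.ext (hEp g g.2))
    have : zpowers x = E := eq_of_le_of_card_ge le_sup_left
      (by rw [Nat.card_zpowers, h.ord]; exact Nat.le_of_dvd hp.out.pos e1)
    apply h.un
    rw [this]; exact mem_sup_right (mem_zpowers u)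
  have hcop : (Nat.card E).Coprime (Nat.card A) := by
    obtain ⟨n, hn⟩ := IsPGroup.iff_card.mp hEq
    rw [hn]
    exact Nat.Coprime.pow_left n (coprime_of_pgroup hqp hq).symm
  have key := S0058.result E A hnc (sup_le (zp_le_norm hx) (zp_le_norm hu)) hcop
  have : A ≤ centMod A (zpowers x) (M ⊔ ⁅A, A⁆) hN := by
    refine key.ge.trans (iSup₂_le ?_)
    rintro a ⟨ha, ha1⟩
    rw [le_centMod, commutator_comm]
    refine ⟨inf_le_left, ?_⟩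
    obtain ⟨y, hy, v, hv, rfl⟩ := (mem_sup_left_norm huz).mp ha
    by_cases hv1 : v = 1
    · subst hv1
      rw [mul_one] at ha1 ⊢
      have hxy := mem_zp_of_prime h.ord hy ha1
      rw [commutator_le]
      intro c hc z hz
      have : ⁅c, z⁆ = 1 := by
        rw [commutatorElement_eq_one_iff_mul_comm]
        exact (comm_of_Cx hc.2 ((zpowers_le).mpr hxy hz)).symm
      rw [this]; exact one_mem _
    · have hu1 : u ≠ 1 := fun h' => h.un (h' ▸ one_mem _)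
      obtain ⟨j, hj⟩ := mem_zpowers_iff.mp (mem_zp_of_prime (orderOf_eq_prime h.up hu1) hv hv1)
      have he : (y * v) ^ j * u⁻¹ ∈ zpowers x := by
        rw [Commute.mul_zpow (hcomm y hy v hv), hj, mul_inv_cancel_right]
        exact zpow_mem hy j
      refine le_sup_of_le_left (le_trans (cm_mono (inf_le_inf_left A ?_) x)
        (le_iSup (fun e : {e : G // e * u⁻¹ ∈ zpowers x} => cm (A ⊓ Cx e.1) x) ⟨_, he⟩))
      intro c hc
      exact mem_Cx.mpr (comm_of_Cx hc (zpow_mem (mem_zpowers _) j))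
  refine hA.trans ?_
  rw [show cm A x = ⁅zpowers x, A⁆ from commutator_comm _ _]
  exact (le_centMod.mp this).2

theorem Dq_le_iSup [Finite G] [hp : Fact p.Prime] [Fact q.Prime] (h : CE p x u) (hqp : q ≠ p) :
    Dq q x ≤ ⨆ e : {e : G // e * u⁻¹ ∈ zpowers x}, cm (pCoreOf q (Cx e.1)) x := by
  apply Dq_le'
  intro Q hq hn b hb y hy
  obtain ⟨K, hK, hxK, huK, hbK⟩ := h.toMC.f2 (coprime_of_pgroup hqp hq) hn hb h.uC
  obtain ⟨D, N, hg⟩ := h.good K hK hxK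
  have hxO : x ∈ normalizer (pCoreOf q K : Set G) := le_norm_pCoreOf K hxK
  have hA : IsPGroup q (cm (pCoreOf q K) x) := (pCoreOf_isPGroup K).to_le (cm_le hxO)
  have := h.le_iSup_cm hqp hA (x_norm_cm hxO) (mem_norm_cm (le_norm_pCoreOf K huK) h.uC)
    (cm_le_cm_cm (coprime_of_pgroup hqp (pCoreOf_isPGroup K)) h.pow hxO)
  refine (this.trans (iSup_mono fun e => ?_)) (hg.gen_mem hqp h.pow hq hn hb hbK hy)
  obtain ⟨D', N', hg'⟩ := h.good _ (h.etop e.2) (h.xC e.2)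
  exact hg'.cm_le_A hqp h.pow inf_le_right (hA.to_le inf_le_left)
    (mem_norm_inf (x_norm_cm hxO) (mem_norm_of_mem (h.xC e.2)))

theorem gens [Finite G] [hp : Fact p.Prime] [Fact q.Prime] [Fact r.Prime] (h : CE p x u)
    (hqp : q ≠ p) (hrp : r ≠ p) {e e' : G} (he : e * u⁻¹ ∈ zpowers x)
    (he' : e' * u⁻¹ ∈ zpowers x) {b ρ : G} (hb : b ∈ pCoreOf q (Cx e))
    (hρ : ρ ∈ pCoreOf r (Cx e')) :
    ∃ K : Subgroup G, x ∈ K ∧ u ∈ K ∧ (∀ y ∈ zpowers x, ⁅b, y⁆ ∈ cm (pCoreOf q K) x) ∧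
      ∀ y ∈ zpowers x, ⁅ρ, y⁆ ∈ cm (pCoreOf r K) x := by
  by_cases hne : e = e'
  · subst hne
    exact ⟨Cx e, h.xC he, h.uC' he, fun y hy => commutator_mem_commutator hb hy,
      fun y hy => commutator_mem_commutator hρ hy⟩
  have n1 : x ∈ normalizer (pCoreOf q (Cx e) : Set G) := le_norm_pCoreOf _ (h.xC he)
  have n2 : x ∈ normalizer (pCoreOf r (Cx e') : Set G) := le_norm_pCoreOf _ (h.xC he')
  obtain ⟨K, hK, hxK, huK, hbK, hρK⟩ := h.trick he he' hne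
    (coprime_of_pgroup hqp (pCoreOf_isPGroup _)) n1 (pCoreOf_le _) hb (pCoreOf_le _ hρ)
    (coprime_orderOf_of_mem (coprime_of_pgroup hrp (pCoreOf_isPGroup _)) hρ)
  obtain ⟨D, N, hg⟩ := h.good K hK hxK
  exact ⟨K, hxK, huK, fun y hy => hg.gen_mem hqp h.pow (pCoreOf_isPGroup _) n1 hb hbK hy,
    fun y hy => hg.gen_mem hrp h.pow (pCoreOf_isPGroup _) n2 hρ hρK hy⟩

theorem cent [Finite G] [hp : Fact p.Prime] (h : CE p x u) :
    ∀ q r : ℕ, q.Prime → r.Prime → q ≠ p → r ≠ p → q ≠ r →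
      Dq r x ≤ centralizer (Dq q x : Set G) := by
  intro q r hq hr hqp hrp hqr
  haveI := Fact.mk hq
  haveI := Fact.mk hr
  refine (h.Dq_le_iSup hrp).trans (iSup_le fun e' => ?_)
  rw [le_centralizer_iff]
  refine (h.Dq_le_iSup hqp).trans (iSup_le fun e => ?_)
  apply cm_cent
  intro ρ hρ z hz b hb y hy
  obtain ⟨K, hxK, -, k1, k2⟩ := h.gens hqp hrp e.2 e'.2 hb hρ
  exact (commute_pCoreOf hqr (cm_le (le_norm_pCoreOf K hxK) (k1 y hy))
    (cm_le (le_norm_pCoreOf K hxK) (k2 z hz))).symm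

theorem linked [Finite G] [hp : Fact p.Prime] [Fact q.Prime] (h : CE p x u)
    (hqp : q ≠ p) {e e' : G} (he : e * u⁻¹ ∈ zpowers x) (he' : e' * u⁻¹ ∈ zpowers x)
    (h1 : cm (pCoreOf q (Cx e)) x ≠ ⊥) (h2 : cm (pCoreOf q (Cx e')) x ≠ ⊥) :
    ∃ K : Subgroup G, x ∈ K ∧ u ∈ K ∧ cm (pCoreOf q K) x ⊓ cm (pCoreOf q (Cx e)) x ≠ ⊥ ∧
      cm (pCoreOf q K) x ⊓ cm (pCoreOf q (Cx e')) x ≠ ⊥ := by
  obtain ⟨b, hb, y, hy, n1⟩ := exists_gen_ne_one h1
  obtain ⟨ρ, hρ, z, hz, n2⟩ := exists_gen_ne_one h2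
  obtain ⟨K, hxK, huK, k1, k2⟩ := h.gens hqp hqp he he' hb hρ
  refine ⟨K, hxK, huK, fun h' => n1 ?_, fun h' => n2 ?_⟩
  · exact h'.le ⟨k1 y hy, commutator_mem_commutator hb hy⟩
  · exact h'.le ⟨k2 z hz, commutator_mem_commutator hρ hz⟩

theorem odd [Finite G] [hp : Fact p.Prime] (h : CE p x u) (hp2 : p ≠ 2) : False := by
  refine h.toMC.final (fun q hq hqp => ?_) h.cent
  haveI := Fact.mk hq
  refine IsPGroup.to_le ?_ (h.Dq_le_iSup hqp)
  refine link_all (So q x) ⊥ (fun Q hQ => hQ.1) (fun γ hγ Q hQ => ?_)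
    (h.toMC.loc_So hp2 hqp ⊥) _
    (fun e => h.toMC.cm_mem_So hp2 hqp (pCoreOf_isPGroup _) (le_norm_pCoreOf _ (h.xC e.2)))
    (fun _ => bot_le) fun e e' h1 h2 => ?_
  · rw [mem_bot.mp hγ, cj_one]; exact hQ
  · obtain ⟨K, hxK, -, k1, k2⟩ := h.linked hqp e.2 e'.2 h1 h2
    exact ⟨_, h.toMC.cm_mem_So hp2 hqp (pCoreOf_isPGroup _) (le_norm_pCoreOf _ hxK), k1, k2⟩

theorem two [Finite G] [hp : Fact p.Prime] (h : CE p x u) (h' : MC p u) : False := by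
  refine h.toMC.final (fun q hq hqp => ?_) h.cent
  haveI := Fact.mk hq
  refine IsPGroup.to_le ?_ (h.Dq_le_iSup hqp)
  have hmem : ∀ K : Subgroup G, x ∈ K → u ∈ K → cm (pCoreOf q K) x ∈ St q x u := fun K hx hu =>
    ⟨(pCoreOf_isPGroup K).to_le (cm_le (le_norm_pCoreOf K hx)), x_norm_cm (le_norm_pCoreOf K hx),
      mem_norm_cm (le_norm_pCoreOf K hu) h.uC⟩
  refine link_all (St q x u) (Cx x ⊓ Cx u) (fun Q hQ => hQ.1) (fun γ hγ Q hQ => ?_)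
    (h.toMC.loc_St h' h.uC hqp) _ (fun e => hmem _ (h.xC e.2) (h.uC' e.2))
    (fun e => norm_cm (le_trans ?_ (le_norm_pCoreOf _)) inf_le_left) fun e e' h1 h2 => ?_
  · exact ⟨isPGroup_cj hQ.1 γ, mem_norm_cj hγ.1 hQ.2.1, mem_norm_cj hγ.2 hQ.2.2⟩
  · rintro c ⟨c1, c2⟩
    apply mem_Cx.mpr
    have e1 := comm_of_Cx c1 e.2
    have e2 := mem_Cx.mp c2
    calc e.1 * c = e.1 * u⁻¹ * (u * c) := by group
      _ = e.1 * u⁻¹ * c * u := by rw [e2]; group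
      _ = c * e.1 := by rw [e1]; group
  · obtain ⟨K, hxK, huK, k1, k2⟩ := h.linked hqp e.2 e'.2 h1 h2
    exact ⟨_, hmem K hxK huK, k1, k2⟩

end CE

end Cfsg.Agent.H98.Fl
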