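import Cfsg.Agent.H47.GbCl0
import Cfsg.Agent.H83.GbCl1a
import Cfsg.Agent.H30.GbCL1b
import Cfsg.Agent.H32.GbCl3
import Cfsg.Agent.H40.GbDec
import Cfsg.Agent.H10.GbOne
import Cfsg.Agent.H76.GbVac0
import Cfsg.Agent.H44.GbConc
import Cfsg.Agent.H20.GbOsi
import Cfsg.Agent.H5.GbSpla
import Cfsg.Agent.H80.GbSplb
import Cfsg.Agent.H70.GbSpl
import Cfsg.Agent.H16.GbR1b
import Cfsg.Agent.H86.GbR2G
import Cfsg.Agent.H15.GbR2s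
import Cfsg.Agent.H75.GbSec
import Cfsg.Agent.H68.GbNumg
import Cfsg.Agent.H52.GbNumA
import Cfsg.Agent.H91.GbNumb
import Cfsg.Agent.H47.GbNweh
import Cfsg.Agent.H76.GbJt
import Cfsg.Agent.H44.GbIntC
import Cfsg.Agent.H10.GbMon
import Cfsg.Agent.H94.GbReg
import Cfsg.Agent.H8.GbTwc
import Cfsg.Agent.H62.GbAdj
import Cfsg.Agent.H12.GbAssoc
import Cfsg.Agent.H70.GbDer0
import Cfsg.Agent.H54.GbDer1
import Cfsg.Agent.H60.GbDer2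
import Cfsg.Agent.H89.GbDer
import Cfsg.Agent.H43.GbSpan
import Cfsg.Agent.H34.GbComm
import Cfsg.Agent.H80.GbAlg
import Cfsg.Agent.H16.GbFock
import Cfsg.Agent.H57.GbPerm
import Cfsg.Agent.H72.GbMorth
import Cfsg.Agent.H52.GbOrth
import Cfsg.Agent.H56.GbGram
import Cfsg.Agent.H9.GbEcop
import Cfsg.Agent.H86.GbTh1a
import Cfsg.Agent.H23.GbXG
import Cfsg.Agent.Lead.GbMul
import Cfsg.Agent.Lead.GbPim
import Cfsg.Agent.H38.GbCop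
import Cfsg.Agent.H71.GbDel1a
import Cfsg.Agent.H65.GbDel1b
import Cfsg.Agent.H37.GbDelc
import Cfsg.Agent.H37.GbSupp
import Cfsg.Agent.H2.GbAvm
import Cfsg.Agent.H33.GbGen
import Cfsg.Agent.H71.GbHiso
import Cfsg.Agent.H83.GbSetup
import Cfsg.Agent.H54.GbLab
import Cfsg.Agent.H23.GbEta
import Cfsg.Agent.H66.GbGrm
import Cfsg.Agent.H56.GbRoot
import Cfsg.Agent.H24.GbLam
import Cfsg.Agent.H87.GbCnt
import Cfsg.Agent.H13.GbHook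
import Cfsg.Agent.H37.GbTh0b
import Cfsg.Agent.H52.GbDiv
import Cfsg.Agent.H32.GbIdx
import Cfsg.Agent.H19.GbFix
import Cfsg.Agent.H26.GbCa
import Cfsg.Agent.H76.GbCb
import Cfsg.Agent.H36.GbCl2
import Cfsg.Agent.H44.GbBr
import Cfsg.Agent.H82.GbVal
import Cfsg.Agent.H47.GbInta
import Cfsg.Agent.H75.GbInt
import Cfsg.Agent.H90.GbSys
import Cfsg.Agent.H10.GbDelp
import Cfsg.Agent.H38.GbIrr
import Cfsg.Agent.H73.GbCompl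
import Cfsg.Agent.H39.GbTwist
import Cfsg.Agent.H28.GbPip
import Cfsg.Agent.H67.GbBlks
import Cfsg.Agent.H86.GbBlkc
import Cfsg.Agent.H69.GbBlk
import Cfsg.Agent.H81.GbBas
import Cfsg.Agent.H64.GbBasb
import Cfsg.Agent.H12.GbCore
import Cfsg.Agent.H8.GbResx
import Cfsg.Agent.H62.GbR1a
import Cfsg.Agent.H2.GbR1c
import Cfsg.Agent.H43.GbR2La
import Cfsg.Agent.H36.GbR2Lb
import Cfsg.Agent.H70.GbR2l
import Cfsg.Agent.H27.GbExc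
import Cfsg.Agent.H80.GbTh0a
import Cfsg.Agent.H91.GbTh1b
import Cfsg.Agent.H57.GbTh1
import Cfsg.Agent.H51.GbTh2a
import Cfsg.Agent.H5.GbTh2b
import Cfsg.Agent.H9.GbTh2c
import Cfsg.Agent.H20.GbRk1a
import Cfsg.Agent.H72.GbRk1b
import Cfsg.Agent.H29.GbRk1
import Cfsg.Agent.H65.GbTh3
import Cfsg.Agent.H94.GbSum
import Cfsg.Agent.H59.GbMain
import Cfsg.Agent.H33.GbFin

/-! Project GB (S4536): assembly. -/

set_option autoImplicit false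

namespace Cfsg.Agent.H98.GB

universe u

theorem aCL0 : CL0Stmt.{u} := Cfsg.Agent.H47.GbCl0.cl0
theorem aCL1a : CL1aStmt.{u} := Cfsg.Agent.H83.GbCl1a.cl1a
theorem aCL1b : CL1bStmt.{u} := Cfsg.Agent.H30.GbCL1b.cl1b
theorem aCL3 : CL3Stmt.{u} := Cfsg.Agent.H32.GbCl3.cl3
theorem aDEC : DECStmt.{u} := Cfsg.Agent.H40.GbDec.dec
theorem aONE : ONEStmt.{u} := Cfsg.Agent.H10.GbOne.one aDEC
theorem aVAC0 : VAC0Stmt.{u} := Cfsg.Agent.H76.GbVac0.vac0 aONE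
theorem aCONC : CONCStmt.{u} := Cfsg.Agent.H44.GbConc.conc
theorem aOSI : OSIStmt.{u} := Cfsg.Agent.H20.GbOsi.osi
theorem aSPLa : SPLaStmt.{u} := Cfsg.Agent.H5.GbSpla.spla aONE aCONC aOSI
theorem aSPLb : SPLbStmt.{u} := Cfsg.Agent.H80.GbSplb.splb aDEC aCL3
theorem aSPL : SPLStmt.{u} := Cfsg.Agent.H70.GbSpl.spl aCL0 aONE aSPLa aSPLb
theorem aR1b : R1bStmt.{u} := Cfsg.Agent.H16.GbR1b.r1b
theorem aR2G : R2GStmt.{u} := Cfsg.Agent.H86.GbR2G.r2g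
theorem aR2S : R2SStmt.{u} := Cfsg.Agent.H15.GbR2s.r2s
theorem aSEC : SECStmt.{u} := Cfsg.Agent.H75.GbSec.sec
theorem aNUMG : NUMGStmt := Cfsg.Agent.H68.GbNumg.numg
theorem aNUMA : NUMAStmt := Cfsg.Agent.H52.GbNumA.numa aNUMG
theorem aNUMB : NUMBStmt := Cfsg.Agent.H91.GbNumb.numb aNUMG
theorem aNWEH : NWEHStmt.{u} := Cfsg.Agent.H47.GbNw.nweh
theorem aJT : JTStmt.{u} := Cfsg.Agent.H76.GbJt.jt aNWEH
theorem aINTB : INTBStmt.{u} := Cfsg.Agent.H44.GbInt.intb aNWEH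
theorem aMON : MONStmt.{u} := Cfsg.Agent.H10.GbMon.mon
theorem aREG : REGStmt := Cfsg.Agent.H94.GbReg.reg
theorem aTWC : TWCStmt.{u} := Cfsg.Agent.H8.GbTwc.twc
theorem aADJ : ADJStmt.{u} := Cfsg.Agent.H62.GbAdj.adj
theorem aASSOC : ASSOCStmt.{u} := Cfsg.Agent.H12.GbAssoc.assoc
theorem aDER0 : DER0Stmt.{u} := Cfsg.Agent.H70.GbDer0.der0
theorem aDER1 : DER1Stmt.{u} := Cfsg.Agent.H54.GbDer1.der1
theorem aDER2 : DER2Stmt.{u} := Cfsg.Agent.H60.GbDer2.der2 aTWC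
theorem aDER : DERStmt.{u} := Cfsg.Agent.H89.GbDer.der aDER0 aDER1 aDER2
theorem aSPAN : SPANStmt.{u} := Cfsg.Agent.H43.GbSpan.span aTWC
theorem aCOMM : COMMStmt.{u} := Cfsg.Agent.H34.GbComm.comm aTWC aDER aSPAN
theorem aALG : ALGStmt.{u} := Cfsg.Agent.H80.GbAlg.alg aTWC aASSOC aCOMM
theorem aFOCK : FOCKStmt.{u} := Cfsg.Agent.H16.GbFock.fock aTWC aADJ aDER aSPAN
theorem aPERM : PERMStmt.{u} := Cfsg.Agent.H57.GbPerm.perm aFOCK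
theorem aMORTH : MORTHStmt.{u} := Cfsg.Agent.H72.GbMorth.morth aFOCK aPERM
theorem aORTH : ORTHStmt.{u} := Cfsg.Agent.H52.GbOrth.orth aMON aMORTH
theorem aGRAM : GRAMStmt.{u} := Cfsg.Agent.H56.GbGram.gram aMON aPERM
theorem aECOP : ECOPStmt.{u} := Cfsg.Agent.H9.GbEcop.ecop aFOCK
theorem aTH1a : TH1aStmt.{u} := Cfsg.Agent.H86.GbTh1a.th1a aFOCK
theorem aXG : XGStmt.{u} := Cfsg.Agent.H23.GbXG.xg aFOCK aECOP
theorem aMUL : MULStmt.{u} := Cfsg.Agent.Lead.GbMul.mul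
theorem aPIM : PIMStmt.{u} := Cfsg.Agent.Lead.GbPim.pim aMUL
theorem aCOP : COPStmt.{u} := Cfsg.Agent.H38.GbCop.cop
theorem aDEL1a : DEL1aStmt.{u} := Cfsg.Agent.H71.GbDel1a.del1a
theorem aDEL1b : DEL1bStmt.{u} := Cfsg.Agent.H65.GbDel1b.del1b aTWC
theorem aDELC : DELCStmt.{u} := Cfsg.Agent.H37.GbDelc.delc aDEL1a aDEL1b
theorem aSUPP : SUPPStmt.{u} := Cfsg.Agent.H37.GbSupp.supp aADJ
theorem aAVM : AVMStmt.{u} := Cfsg.Agent.H2GbAvm.avm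
theorem aGEN : GENStmt.{u} := Cfsg.Agent.H33.GbGen.gen aAVM
theorem aHISO : HISOStmt.{u} := Cfsg.Agent.H71.GbHiso.hiso
theorem aSETUP : SETUPStmt.{u} := Cfsg.Agent.H83.GbSetup.setup aALG
theorem aLAB : LABStmt.{u} := Cfsg.Agent.H54.GbLab.lab
theorem aETA : ETAStmt.{u} := Cfsg.Agent.H23.GbEta.eta aLAB
theorem aGRM : GRMStmt.{u} := Cfsg.Agent.H66.GbGrm.grm
theorem aROOT : ROOTStmt.{u} := Cfsg.Agent.H56.GbRoot.root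
theorem aLAM : LAMStmt.{u} := Cfsg.Agent.H24.GbLam.lam aROOT
theorem aCNT : CNTStmt.{u} := Cfsg.Agent.H87.GbCnt.cnt aLAB
theorem aHOOK : HOOKStmt.{u} := Cfsg.Agent.H13.GbHook.hook aFOCK
theorem aTH0b : TH0bStmt.{u} := Cfsg.Agent.H37.GbTh0b.th0b aONE aDELC
theorem aDIV : DIVStmt.{u} := Cfsg.Agent.H52.GbDiv.div aLAB
theorem aIDX : IDXStmt.{u} := Cfsg.Agent.H32.GbIdx.idx aLAB
theorem aFIX : FIXStmt.{u} := Cfsg.Agent.H19.GbFix.fix aLAB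
theorem aCA : CAStmt.{u} := Cfsg.Agent.H26.GbCa.ca aNUMA aLAB aIDX aFIX
theorem aCB : CBStmt.{u} := Cfsg.Agent.H76.GbCb.cb aNUMB aLAB aIDX aFIX
theorem aCL2 : CL2Stmt.{u} := Cfsg.Agent.H36.GbCl2.cl2 aDEC
theorem aBR : BRStmt.{u} := Cfsg.Agent.H44.GbBr.br aFOCK aROOT
theorem aVAL : VALStmt.{u} := Cfsg.Agent.H82.GbVal.val aCOP aBR aROOT
theorem aINTA : INTAStmt.{u} := Cfsg.Agent.H47.GbInta.inta aMUL aBR aVAL aROOT aLAM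
theorem aINT : INTStmt.{u} := Cfsg.Agent.H75.GbInt.int aNWEH aINTB aGEN aINTA aVAL aLAB
theorem aSYS : SYSStmt.{u} := Cfsg.Agent.H90.GbSys.sys aFOCK aLAB aBR aGRM
theorem aDELP : DELPStmt.{u} := Cfsg.Agent.H10.GbDelp.delp aFOCK aDELC aBR aVAL aROOT aLAB
theorem aIRR : IRRStmt.{u} := Cfsg.Agent.H38.GbIrr.irr aFOCK aNWEH aJT aMON aMORTH aORTH aGEN aINT aSYS aDELP aDELC
theorem aCOMPL : COMPLStmt.{u} := Cfsg.Agent.H73.GbCompl.compl aLAB aIRR aCNT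
theorem aTWIST : TWISTStmt.{u} := Cfsg.Agent.H39.GbTwist.twist aMUL aNWEH aLAB aVAL aBR
theorem aPIP : PIPStmt.{u} := Cfsg.Agent.H28.GbPip.pip aPIM aLAB aVAL aBR aGRM aSYS
theorem aBLKS : BLKSStmt.{u} := Cfsg.Agent.H67.GbBlks.blks aFOCK aNWEH aMON aMORTH aPIM aPIP aLAB aSYS
theorem aBLKC : BLKCStmt.{u} := Cfsg.Agent.H86.GbBlkc.blkc aFOCK aNWEH aPERM aREG aPIM aPIP aLAB aSYS
theorem aBLK : BLKStmt.{u} := Cfsg.Agent.H69.GbBlk.blk aOSI aCOMPL aBLKS aBLKC aLAB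
theorem aBAS : BASStmt.{u} := Cfsg.Agent.H81.GbBas.bas aFOCK aOSI aMON aMORTH aPIM aPIP aLAB aSYS aIRR
theorem aBASB : BASBStmt.{u} := Cfsg.Agent.H64.GbBasb.basb aOSI aBAS aCOMPL aIRR
theorem aCORE : COREStmt.{u} := Cfsg.Agent.H12.GbCore.core aNWEH aPIM aPIP aLAB
theorem aRESX : RESXStmt.{u} := Cfsg.Agent.H8.GbResx.resx aFOCK aTWC aADJ aMON aMORTH aSYS aIRR aCOMPL aLAB
theorem aR1a : R1aStmt.{u} := Cfsg.Agent.H62.GbR1a.r1a aFOCK aCOP aLAB aVAL aROOT aBR aSYS aPIM aPIP aHOOK aRESX aBAS aBLK aIRR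
theorem aR1c : R1cStmt.{u} := Cfsg.Agent.H2GbR1c.r1c aR1a aR1b aIRR
theorem aR2La : R2LaStmt.{u} := Cfsg.Agent.H43.GbR2La.r2la aLAB aIRR aBLK aBASB
theorem aR2Lb : R2LbStmt.{u} := Cfsg.Agent.H36.GbR2Lb.r2lb aFOCK aLAB aCOP aROOT aIRR aCOMPL aBLKS aBASB aRESX aHOOK aSYS
theorem aR2L : R2LStmt.{u} := Cfsg.Agent.H70.GbR2l.r2l aR2G aR2La aR2Lb aBLK aIRR aLAB
theorem aEXC : EXCStmt.{u} := Cfsg.Agent.H27.GbExc.exc aR2L aR2S aLAB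
theorem aTH0a : TH0aStmt.{u} := Cfsg.Agent.H80.GbTh0a.th0a aFOCK aNWEH aMORTH aECOP aGEN aINT aSYS aDELP aDELC aTWIST
theorem aTH1b : TH1bStmt.{u} := Cfsg.Agent.H91.GbTh1b.th1b aFOCK aTWC aADJ aONE aSUPP aAVM aDELC aECOP aSYS aTH0a aTH0b aLAB
theorem aTH1 : TH1Stmt.{u} := Cfsg.Agent.H57.GbTh1.th1 aFOCK aNWEH aGEN aONE aTH1a aDELC aHISO aTH0a aTH0b aTH1b aLAB
theorem aTH2a : TH2aStmt.{u} := Cfsg.Agent.H51.GbTh2a.th2a aDEC aECOP aXG aTH0a aTH1 aLAB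
theorem aTH2b : TH2bStmt.{u} := Cfsg.Agent.H5.GbTh2b.th2b aFOCK aDEC aONE aVAC0 aSUPP aXG aNWEH aHOOK aSYS aIRR aTWIST aETA aLAB aPIM aTH0a
theorem aTH2c : TH2cStmt.{u} := Cfsg.Agent.H9.GbTh2c.th2c aNWEH aJT aGEN aORTH aCONC aHISO aIRR aLAB
theorem aRK1a : RK1aStmt.{u} := Cfsg.Agent.H20.GbRk1a.rk1a aFOCK aDEC aONE aMON aMORTH aTH2c aIRR aLAB aGEN aPIM aNWEH
theorem aRK1b : RK1bStmt.{u} := Cfsg.Agent.H72.GbRk1b.rk1b aFOCK aCL1a aCL1b aMORTH aPIM aDELC aBLK aBAS aRK1a aLAB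
theorem aRK1 : RK1Stmt.{u} := Cfsg.Agent.H29.GbRk1.rk1 aDEC aCL3 aPIM aDELC aBLK aIRR aRK1a aRK1b aLAB
theorem aTH3 : TH3Stmt.{u} := Cfsg.Agent.H65.GbTh3.th3 aALG aFOCK aNWEH aGRAM aPIM aSYS aHISO aLAB aIRR aCORE aTH2a aTH2b aTH2c aRK1
theorem aSUM : SUMStmt.{u} := Cfsg.Agent.H94.GbSum.sum aCL1a aCL1b aCL2 aLAB aETA aIRR aTWIST aBLK aBAS aDIV
theorem aMAIN : MAINStmt.{u} := Cfsg.Agent.H59.GbMain.main0 aSPL aSEC aETA aBLK aBASB aR1c aEXC aTH3 aSUM aCA aCB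
theorem aFIN : FINStmt.{u} := Cfsg.Agent.H33.GbFin.fin aSETUP aMAIN

end Cfsg.Agent.H98.GB
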