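import Cfsg.Agent.H45.GdDefs

/-! Project CY, chapter IV: general facts on subspaces (piece QS). -/

set_option autoImplicit false
set_option linter.unusedSectionVars false

namespace Cfsg.Agent.H98.GdQs

open Subgroup MulAction Cfsg.Agent.H11.Cy Cfsg.Agent.H45.Iv Cfsg.Agent.H45.Gd
open scoped commutatorElement

section
variable {G : Type} [Group G] {Ω : Type} [MulAction G Ω] {p : ℕ} {A : Ω → Subgroup G}

theorem A_smul (h : Bs p A) (g : G) (x : Ω) : A (g • x) = (A x).map (MulAut.conj g).toMonoidHom := by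
  refine le_antisymm (fun a ha => ⟨g⁻¹ * a * g⁻¹⁻¹,
    inv_smul_smul g x ▸ h.eqv g⁻¹ _ a ha, by simp [mul_assoc]⟩) ?_
  rintro _ ⟨a, ha, rfl⟩
  exact h.eqv g x a ha

theorem Fl_smul (h : Bs p A) (g : G) (x y : Ω) :
    Fl A (g • x) (g • y) = (Fl A x y).map (MulAut.conj g).toMonoidHom := by
  rw [Fl, A_smul h, A_smul h, Subgroup.map_sup]

theorem cen_conj {H : Subgroup G} (g : G) {k : G} (hk : k ∈ centralizer (H : Set G)) :
    g * k * g⁻¹ ∈ centralizer (H.map (MulAut.conj g).toMonoidHom : Set G) := by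
  rw [mem_centralizer_iff]
  rintro _ ⟨a, ha, rfl⟩
  change g * a * g⁻¹ * _ = _ * (g * a * g⁻¹)
  calc _ = g * (a * k) * g⁻¹ := by group
    _ = _ := by rw [mem_centralizer_iff.1 hk a ha]; group

theorem A_le {Ψ : Set Ω} {w : Ω} (hw : w ∈ Ψ) : A w ≤ Ms A Ψ := le_iSup₂_of_le w hw le_rfl

theorem mem_Cs (Ψ : Set Ω) (k : G) : k ∈ Cs A Ψ ↔ ∀ w ∈ Ψ, k ∈ centralizer (A w : Set G) := by
  refine ⟨fun hk w hw => centralizer_le (A_le hw) hk, fun hk => ?_⟩
  have : Ms A Ψ ≤ centralizer {k} := iSup₂_le fun w hw a ha =>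
    mem_centralizer_singleton_iff.2 (mem_centralizer_iff.1 (hk w hw) a ha)
  exact mem_centralizer_iff.2 fun a ha => mem_centralizer_singleton_iff.1 (this ha)

end

theorem qs : QsStmt := by
  intro G _ _ Ω _ _ p A h ep
  have fixc : ∀ w, ∀ k ∈ centralizer (A w : Set G), k • w = w := fun w k hk =>
    (h.nA w k).1 (centralizer_le_normalizer _ hk)
  have csof : ∀ (Ψ : Set Ω), ∀ d ∈ Ψ, ∀ k ∈ centralizer (A d : Set G), (∀ w ∈ Ψ, k • w = w) →
      k ∈ Cs A Ψ := fun Ψ d hd k hk hf => (mem_Cs Ψ k).2 fun w hw => by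
    by_cases e : d = w
    · exact e ▸ hk
    · exact centralizer_le (le_sup_right : A w ≤ A d ⊔ A w) (ep.eps d w e k ⟨hf d hd, hf w hw⟩ hk)
  have zA : ∀ x y, ∀ z ∈ Zl A x y, z ∈ centralizer (A x : Set G) := fun x y z hz =>
    centralizer_le (le_sup_left : A x ≤ A x ⊔ A y) hz.2
  refine ⟨mem_Cs, fun Ψ k hk w hw => fixc w k ((mem_Cs Ψ k).1 hk w hw), csof,
    fun Ψ x hx y hy => ?_, fun Ψ hs m hm => ?_, fun Ψ g hg => ?_, fun x y hxy z hz => ?_,
    fun x y => ⟨(le_sup_left : A x ≤ A x ⊔ A y), (le_sup_right : A y ≤ A x ⊔ A y)⟩,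
    fun Ψ hG x hx y hy hxy z hz => csof Ψ x hx z (zA x y z hz) (hG x hx y hy hxy z hz),
    fun g x y k => ?_, fun x y hxy z hz w hw hzw => ?_⟩
  · have : Fl A x y ≤ Ms A Ψ := sup_le (A_le hx) (A_le hy)
    exact ⟨this, commutator_mono this this⟩
  · refine iSup_induction (C := fun m => ∀ w ∈ Ψ, m • w ∈ Ψ) (fun w : Ψ => A w)
      (by rwa [← iSup_subtype'' Ψ A |>.symm]) (fun w a ha v hv => ?_) (by simp)
      fun a b ha hb v hv => by rw [mul_smul]; exact ha _ (hb v hv)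
    by_cases e : w.1 = v
    · rw [← e, h.fix _ a ha]
      exact w.2
    · refine hs w w.2 v hv e ?_
      change A _ ≤ _
      rw [A_smul h]
      rintro _ ⟨b, hb, rfl⟩
      exact mul_mem (mul_mem (mem_sup_left ha) (mem_sup_right hb)) (inv_mem (mem_sup_left ha))
  · have h1 : (Ms A Ψ).map (MulAut.conj g).toMonoidHom ≤ Ms A Ψ :=
      map_le_iff_le_comap.2 (iSup₂_le fun w hw => map_le_iff_le_comap.1
        ((A_smul h g w).ge.trans (A_le ((hg w).2 hw))))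
    refine ⟨fun m hm => h1 ⟨m, hm, rfl⟩, fun m hm => commutator_mono h1 h1 ?_,
      fun m hm => (mem_Cs Ψ _).2 fun w hw => ?_⟩
    · rw [← map_commutator]
      exact ⟨m, hm, rfl⟩
    · rw [← smul_inv_smul g w] at hw ⊢
      rw [A_smul h]
      exact cen_conj g ((mem_Cs Ψ m).1 hm _ ((hg _).1 hw))
  · have hl : Ln A x y ⊆ Fx Ω z := (ep.kfix x y hxy z).1 hz.2
    have hc : z ∈ Cs A (Fx Ω z) := csof _ x (hl (le_sup_left : A x ≤ A x ⊔ A y)) z (zA x y z hz) fun _ hw => hw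
    exact ⟨fun v hv w hw hvw => (ep.kfix v w hvw z).1
      (ep.eps v w hvw z ⟨hv, hw⟩ ((mem_Cs _ z).1 hc v hv)), hl, hc⟩
  · rw [Rl, Rl, Zl, Zl, Kl, Kl, Fl_smul h, ← map_commutator]
    exact ⟨fun hk => ⟨k, hk, rfl⟩, fun hk => ⟨k, hk, rfl⟩, fun hk => ⟨⟨k, hk.1, rfl⟩, cen_conj g hk.2⟩⟩
  · have := ep.span x y hxy z hz w hw hzw
    simp only [Rl, Zl, Kl, Ln, this, and_self]

end Cfsg.Agent.H98.GdQs
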