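import Mathlib

/-! A number-theoretic lemma on binomial coefficients free of small primes. -/

set_option autoImplicit false

namespace Cfsg.Agent.H98.HallN

open Finset

theorem nocarry {p b c : ℕ} (hp : p.Prime) (h : ¬ p ∣ (b + c).choose c) {i : ℕ} (hi : 1 ≤ i) :
    c % p ^ i + b % p ^ i < p ^ i := by
  by_contra hc
  push Not at hc
  apply h
  have h1 := Nat.factorization_choose' (n := b) (k := c) (b := Nat.log p (b + c) + i + 1) hp
    (by omega)
  have h2 : 0 < ((b + c).choose c).factorization p := by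
    rw [h1]
    exact card_pos.2 ⟨i, by simp only [mem_filter, mem_Ico]; exact ⟨⟨hi, by omega⟩, hc⟩⟩
  exact Nat.dvd_of_factorization_pos h2.ne'

theorem mod_cases {y Q : ℕ} (hy : y < 2 * Q) : y % Q = y ∧ y < Q ∨ y % Q + Q = y ∧ Q ≤ y := by
  rcases lt_or_ge y Q with h | h
  · exact Or.inl ⟨Nat.mod_eq_of_lt h, h⟩
  · right
    rw [Nat.mod_eq_sub_mod h, Nat.mod_eq_of_lt (by omega)]
    omega

theorem mod_of_dvd_add {b j Q : ℕ} (hd : Q ∣ b + j) (hj : 1 ≤ j) (hQ : j ≤ Q) :
    b % Q + j = Q := by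
  have hQ0 : 0 < Q := by omega
  have h1 : (b % Q + j) % Q = 0 := by
    rw [Nat.mod_add_mod]; exact Nat.mod_eq_zero_of_dvd hd
  have h2 := Nat.mod_lt b hQ0
  rcases mod_cases (y := b % Q + j) (Q := Q) (by omega) with h | h <;> omega

theorem two_mul_add_mod (x e Q : ℕ) : (2 * x + e) % Q = (2 * (x % Q) + e) % Q := by
  conv_lhs => rw [← Nat.div_add_mod x Q]
  rw [show 2 * (Q * (x / Q) + x % Q) + e = (2 * (x % Q) + e) + Q * (2 * (x / Q)) by ring,
    Nat.add_mul_mod_self_left]

theorem choose_lt_succ {m k : ℕ} (hk : 1 ≤ k) (hm : k ≤ m + 1) : m.choose k < (m + 1).choose k := by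
  obtain ⟨k, rfl⟩ : ∃ j, k = j + 1 := ⟨k - 1, by omega⟩
  rw [Nat.choose_succ_succ]
  have := Nat.choose_pos (show k ≤ m by omega)
  simp only [Nat.succ_eq_add_one]
  omega

theorem half_dvd {b' c' e : ℕ} (he : e ≤ 1) (hbc : c' ≤ b')
    (h : ∀ p : ℕ, p.Prime → p ≤ 2 * b' → ¬ p ∣ (2 * b' + (2 * c' + e)).choose (2 * c' + e)) :
    (b' + c').choose c' ∣ (c' + e + c').choose c' := by
  rw [← Nat.factorization_prime_le_iff_dvd (Nat.choose_pos (by omega)).ne'
    (Nat.choose_pos (by omega)).ne']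
  intro p hp
  set B := Nat.log p (b' + c') + Nat.log p (c' + e + c') + 1
  rw [Nat.factorization_choose' (n := b') (k := c') (b := B) hp (by omega),
    Nat.factorization_choose' (n := c' + e) (k := c') (b := B) hp (by omega)]
  refine card_le_card fun i hi => ?_
  simp only [mem_filter, mem_Ico] at hi ⊢
  refine ⟨hi.1, ?_⟩
  obtain ⟨⟨hi1, -⟩, hi⟩ := hi
  have hQ0 : 0 < p ^ i := pow_pos hp.pos i
  have hpQ : p ≤ p ^ i := Nat.le_self_pow (by omega) p
  have h1 := Nat.mod_le c' (p ^ i)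
  have h2 := Nat.mod_le b' (p ^ i)
  have hnd := h p hp (by omega)
  have h3 := Nat.mod_lt c' hQ0
  have h4 := Nat.mod_lt b' hQ0
  rcases hp.eq_two_or_odd' with rfl | hodd
  · exfalso
    have h5 := nocarry hp hnd (i := i + 1) (by omega)
    rw [pow_succ', show 2 * b' = 2 * b' + 0 from rfl] at h5
    have h6 : ∀ x f : ℕ, f ≤ 1 → (2 * x + f) % (2 * 2 ^ i) = 2 * (x % 2 ^ i) + f := by
      intro x f hf
      conv_lhs => rw [← Nat.div_add_mod x (2 ^ i)]
      rw [show 2 * (2 ^ i * (x / 2 ^ i) + x % 2 ^ i) + f =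
        (2 * (x % 2 ^ i) + f) + (2 * 2 ^ i) * (x / 2 ^ i) by ring, Nat.add_mul_mod_self_left]
      have := Nat.mod_lt x hQ0
      exact Nat.mod_eq_of_lt (by omega)
    rw [h6 _ _ he, h6 _ _ (by omega)] at h5
    omega
  · have hQodd : Odd (p ^ i) := hodd.pow
    obtain ⟨r, hr⟩ := hQodd
    have h5 := nocarry hp hnd hi1
    rw [show 2 * b' = 2 * b' + 0 from rfl, two_mul_add_mod, two_mul_add_mod b'] at h5
    have h6 : (c' + e) % p ^ i = (c' % p ^ i + e) % p ^ i := by rw [Nat.mod_add_mod]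
    rw [h6]
    generalize p ^ i = Q at *
    generalize c' % Q = γ at *
    generalize b' % Q = β at *
    rcases mod_cases (y := 2 * γ + e) (Q := Q) (by omega) with h7 | h7 <;>
    rcases mod_cases (y := 2 * β + 0) (Q := Q) (by omega) with h8 | h8 <;>
    rcases mod_cases (y := γ + e) (Q := Q) (by omega) with h9 | h9 <;> omega

/-- If `b > c ≥ 1` and no prime `≤ b` divides `C(b + c, c)` then `c = 1` and `b + 1` is prime,
or `(b, c) = (4, 3)`. -/
theorem lemmaN {b c : ℕ} (hc : 1 ≤ c) (hbc : c < b)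
    (h : ∀ p : ℕ, p.Prime → p ≤ b → ¬ p ∣ (b + c).choose c) :
    (c = 1 ∧ (b + 1).Prime) ∨ (b = 4 ∧ c = 3) := by
  have hb1 : (b + 1).Prime := by
    by_contra hn
    have : b + 1 ∣ c := by
      rw [Nat.dvd_iff_prime_pow_dvd_dvd]
      intro p k hp hd
      rcases Nat.eq_zero_or_pos k with rfl | hk
      · simp
      have hpd : p ∣ b + 1 := (dvd_pow_self p hk.ne').trans hd
      have hpl : p ≤ b := by
        have := Nat.le_of_dvd (by omega) hpd
        have : p ≠ b + 1 := fun e => hn (e ▸ hp)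
        omega
      have h1 := nocarry hp (h p hp hpl) hk
      have h2 := mod_of_dvd_add hd le_rfl (pow_pos hp.pos k)
      refine Nat.dvd_of_mod_eq_zero ?_
      generalize p ^ k = Q at *
      omega
    have := Nat.le_of_dvd hc this
    omega
  rcases eq_or_lt_of_le hc with rfl | hc2
  · exact Or.inl ⟨rfl, hb1⟩
  right
  obtain ⟨b', hb'⟩ : ∃ b', b = 2 * b' := by
    rcases hb1.eq_two_or_odd' with h2 | ⟨r, hr⟩
    · omega
    · exact ⟨r, by omega⟩
  obtain ⟨c', e, he, hc'⟩ : ∃ c' e, e ≤ 1 ∧ c = 2 * c' + e := ⟨c / 2, c % 2, by omega, by omega⟩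
  have hd := half_dvd (b' := b') (c' := c') he (by omega) (by rw [← hb', ← hc']; exact h)
  have hle := Nat.le_of_dvd (Nat.choose_pos (by omega)) hd
  have hb2 : b' ≤ c' + e := by
    by_contra hlt
    have h1 := Nat.choose_le_choose c' (show c' + e + c' + 1 ≤ b' + c' by omega)
    have h2 := choose_lt_succ (m := c' + e + c') (k := c') (by omega) (by omega)
    omega
  have hbc1 : b = c + 1 := by omega
  have h12 : b + 2 ∣ 12 := by
    rw [Nat.dvd_iff_prime_pow_dvd_dvd]
    intro p k hp hd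
    rcases Nat.eq_zero_or_pos k with rfl | hk
    · simp
    have hpd : p ∣ b + 2 := (dvd_pow_self p hk.ne').trans hd
    have hpl : p ≤ b := by
      obtain ⟨m, hm⟩ := hpd
      rcases m with _ | _ | m
      · omega
      · rcases hp.eq_two_or_odd' with h2 | ⟨r, hr⟩ <;> omega
      · have : p * 2 ≤ p * (m + 1 + 1) := Nat.mul_le_mul_left p (by omega)
        omega
    have h1 := nocarry hp (h p hp hpl) hk
    have hQ2 : 2 ≤ p ^ k := hp.two_le.trans (Nat.le_self_pow hk.ne' p)
    have h2 := mod_of_dvd_add hd (by omega) hQ2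
    have hQ : p ^ k ≤ 4 := by
      by_contra hQ
      have h3 := mod_of_dvd_add (b := c) (j := 3) (Q := p ^ k) (by rwa [show c + 3 = b + 2 by omega])
        (by omega) (by omega)
      omega
    generalize p ^ k = Q at *
    interval_cases Q <;> norm_num
  have h13 : b + 2 ≤ 12 := Nat.le_of_dvd (by norm_num) h12
  have hb10 : b ≠ 10 := by
    rintro rfl
    obtain rfl : c = 9 := by omega
    exact h 2 Nat.prime_two (by norm_num) (by decide)
  have hb3 : 3 ≤ b := by omega
  have : b ≤ 10 := by omega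
  interval_cases b <;> omega

end Cfsg.Agent.H98.HallN
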