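import Mathlib
import Cfsg.Agent.H78.Matching
import Cfsg.Agent.H98.SylIn

/-! Subgroups of a symmetric group meeting the alternating group in a Hall subgroup:
the primes `2` and `3` are involved as soon as two primes are. -/

set_option autoImplicit false

namespace Cfsg.Agent.H98.HallS

open Equiv Equiv.Perm Subgroup Cfsg.Agent.H78

theorem conj_into {G : Type*} [Group G] [Finite G] {p : ℕ} [Fact p.Prime] {H L U : Subgroup G}
    (h : ¬ p ∣ H.relIndex L) (hU : U ≤ L) (hp : IsPGroup p U) :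
    ∃ g ∈ L, ∀ u ∈ U, g * u * g⁻¹ ∈ H := by
  obtain ⟨T, hT⟩ := exists_sylIn p (H ⊓ L)
  have hTL : SylIn p T L := by
    refine sylIn_of_not_dvd_relIndex (hT.le.trans inf_le_right) hT.isPGroup ?_
    rw [← relIndex_mul_relIndex T (H ⊓ L) L hT.le inf_le_right, inf_relIndex_right]
    intro hd
    rcases (Nat.Prime.dvd_mul Fact.out).1 hd with h1 | h1
    · exact hT.not_dvd_relIndex h1
    · exact h h1
  obtain ⟨g, hg, hle⟩ := hTL.exists_conj_le hU hp
  exact ⟨g, hg, fun u hu => (hT.le (map_conj_le_iff.1 hle u hu)).1⟩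

theorem conj_into_elt {G : Type*} [Group G] [Finite G] {p k : ℕ} (hp : p.Prime) {H L : Subgroup G}
    (h : ¬ p ∣ H.relIndex L) {c : G} (hc : c ∈ L) (ho : orderOf c = p ^ k) :
    ∃ g ∈ L, g * c * g⁻¹ ∈ H := by
  haveI : Fact p.Prime := ⟨hp⟩
  obtain ⟨g, hg, h2⟩ := conj_into (U := zpowers c) h ((zpowers_le).2 hc)
    (IsPGroup.of_card (n := k) (by rw [Nat.card_zpowers, ho]))
  exact ⟨g, hg, h2 c (mem_zpowers c)⟩

variable {Ω : Type*} [Fintype Ω] [DecidableEq Ω]

omit [Fintype Ω] [DecidableEq Ω] in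
theorem ai (g : Perm Ω) (x : Ω) : g (g⁻¹ x) = x := by simp

omit [Fintype Ω] [DecidableEq Ω] in
theorem ia (g : Perm Ω) (x : Ω) : g⁻¹ (g x) = x := by simp

omit [Fintype Ω] [DecidableEq Ω] in
theorem conj_fix {g t : Perm Ω} {x : Ω} : (g * t * g⁻¹) x = x ↔ t (g⁻¹ x) = g⁻¹ x := by
  simp only [Perm.mul_apply]
  exact ⟨fun h => g.injective (by rw [h, ai]), fun h => by rw [h, ai]⟩

omit [Fintype Ω] in
theorem conj_dbl (g t : Perm Ω) (u v : Ω) :
    swap u ((g * t * g⁻¹) u) * swap v ((g * t * g⁻¹) v) =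
      g * (swap (g⁻¹ u) (t (g⁻¹ u)) * swap (g⁻¹ v) (t (g⁻¹ v))) * g⁻¹ := by
  rw [show g * (swap (g⁻¹ u) (t (g⁻¹ u)) * swap (g⁻¹ v) (t (g⁻¹ v))) * g⁻¹ =
      (g * swap (g⁻¹ u) (t (g⁻¹ u)) * g⁻¹) * (g * swap (g⁻¹ v) (t (g⁻¹ v)) * g⁻¹) by group,
      ← swap_apply_apply, ← swap_apply_apply]
  simp

/-- The setwise stabilizer of `B`. -/
def setStab (B : Finset Ω) : Subgroup (Perm Ω) where
  carrier := {g | ∀ x, g x ∈ B ↔ x ∈ B}
  one_mem' := fun _ => Iff.rfl
  mul_mem' := fun {a b} ha hb x => (ha (b x)).trans (hb x)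
  inv_mem' := fun {a} ha x => by
    have := ha (a⁻¹ x)
    rw [ai] at this
    exact this.symm

omit [Fintype Ω] [DecidableEq Ω] in
theorem mem_setStab {B : Finset Ω} {g : Perm Ω} : g ∈ setStab B ↔ ∀ x, g x ∈ B ↔ x ∈ B := Iff.rfl

omit [Fintype Ω] [DecidableEq Ω] in
theorem le_setStab {B : Finset Ω} {H : Subgroup (Perm Ω)} (h : ∀ g ∈ H, ∀ x ∈ B, g x ∈ B) :
    H ≤ setStab B := fun g hg x =>
  ⟨fun hx => by simpa using h g⁻¹ (H.inv_mem hg) _ hx, h g hg x⟩

theorem exists_cycle_supp (T : Finset Ω) (hT : 2 ≤ T.card) :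
    ∃ c : Perm Ω, c.IsCycle ∧ c.support = T := by
  refine ⟨T.toList.formPerm, List.isCycle_formPerm T.nodup_toList (by simpa using hT), ?_⟩
  rw [List.support_formPerm_of_nodup _ T.nodup_toList, Finset.toList_toFinset]
  intro x hx
  have := congrArg List.length hx
  simp at this
  omega

theorem mem_setStab_of_support {B : Finset Ω} {c : Perm Ω} (h : c.support ⊆ B) : c ∈ setStab B := by
  intro x
  by_cases hx : c x = x
  · rw [hx]
  · have h1 : x ∈ c.support := mem_support.2 hx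
    exact ⟨fun _ => h h1, fun _ => h (apply_mem_support.2 h1)⟩

theorem mem_support_conj {g c : Perm Ω} {x : Ω} : g x ∈ (g * c * g⁻¹).support ↔ x ∈ c.support := by
  simp [mem_support]

/-- An `H`-invariant set with at least `p ^ k` points carries a `p ^ k`-cycle of `H`. -/
theorem exists_cycle_mem {H : Subgroup (Perm Ω)} {S : Finset Ω} (hS : H ≤ setStab S) {p k : ℕ}
    (hp : p.Prime) (hp2 : p ≠ 2) (hk : 1 ≤ k) (h : ¬ p ∣ H.relIndex (alternatingGroup Ω))
    (hle : p ^ k ≤ S.card) : ∃ d ∈ H, d.IsCycle ∧ d.support ⊆ S ∧ d.support.card = p ^ k := by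
  obtain ⟨T, hTS, hT⟩ := Finset.exists_subset_card_eq hle
  have h2 : 2 ≤ p ^ k := hp.two_le.trans (Nat.le_self_pow (by omega) p)
  obtain ⟨c, hc, hs⟩ := exists_cycle_supp T (by omega)
  have hcA : c ∈ alternatingGroup Ω := by
    rw [mem_alternatingGroup, hc.sign, hs, hT, (hp.odd_of_ne_two hp2).pow.neg_one_pow, neg_neg]
  have hL : ¬ p ∣ (H ⊓ alternatingGroup Ω).relIndex (setStab S ⊓ alternatingGroup Ω) := by
    intro hd
    apply h
    rw [← inf_relIndex_right, ← relIndex_mul_relIndex (H ⊓ alternatingGroup Ω)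
      (setStab S ⊓ alternatingGroup Ω) (alternatingGroup Ω) (inf_le_inf_right _ hS) inf_le_right]
    exact hd.mul_right _
  obtain ⟨g, hg, hm⟩ := conj_into_elt (k := k) hp hL
    (c := c) ⟨mem_setStab_of_support (hs ▸ hTS), hcA⟩ (by rw [hc.orderOf, hs, hT])
  refine ⟨_, hm.1, hc.conj, fun x hx => ?_, by rw [card_support_conj, hs, hT]⟩
  rw [← ai g x, mem_support_conj, hs] at hx
  have := (hg.1 _).2 (hTS hx)
  rwa [ai] at this

theorem supp_sub_of_closed {c : Perm Ω} (hc : c.IsCycle) {P : Ω → Prop} {x : Ω}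
    (hx : x ∈ c.support) (hP : P x) (h : ∀ y ∈ c.support, P y → P (c y)) :
    ∀ y ∈ c.support, P y := by
  intro y hy
  obtain ⟨i, rfl⟩ := hc.exists_pow_eq (mem_support.1 hx) (mem_support.1 hy)
  clear hy
  induction i with
  | zero => simpa using hP
  | succ i ih =>
    rw [pow_succ', Perm.mul_apply]
    exact h _ (pow_apply_mem_support.2 hx) ih

omit [DecidableEq Ω] in
theorem dvd_card_of_pow {H : Subgroup (Perm Ω)} {p : ℕ} (hp : p.Prime) {g : Perm Ω} (hg : g ∈ H)
    {x : Ω} (h1 : (g ^ p) x = x) (h2 : g x ≠ x) : p ∣ Nat.card H := by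
  refine dvd_trans ?_ (orderOf_dvd_natCard H hg)
  by_contra hn
  obtain ⟨m, hm⟩ := exists_pow_eq_self_of_coprime (x := g)
    ((Nat.Prime.coprime_iff_not_dvd hp).2 hn)
  apply h2
  rw [← hm]
  exact pow_apply_eq_self_of_apply_eq_self h1 m

omit [Fintype Ω] [DecidableEq Ω] in
theorem pow_fix {c : Perm Ω} {x : Ω} (h : c x = x) (i : ℕ) : (c ^ i) x = x :=
  pow_apply_eq_self_of_apply_eq_self h i

/-- Two cycles with overlapping incomparable supports generate a group of even order. -/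
theorem two_dvd_of_overlap {H : Subgroup (Perm Ω)} {a b : Perm Ω} (ha : a ∈ H) (hb : b ∈ H)
    (hca : a.IsCycle) (hcb : b.IsCycle) {u w z : Ω} (hu : u ∈ a.support) (hu' : u ∉ b.support)
    (hw : w ∈ b.support) (hw' : w ∉ a.support) (hz : z ∈ a.support) (hz' : z ∈ b.support) :
    2 ∣ Nat.card H := by
  obtain ⟨x1, hx1, hx1', hx1''⟩ : ∃ x ∈ a.support, x ∉ b.support ∧ a x ∈ b.support := by
    by_contra hc
    push Not at hc
    exact supp_sub_of_closed hca (P := fun y => y ∉ b.support) hu hu' hc z hz hz'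
  obtain ⟨x2, hx2, hx2', hx2''⟩ : ∃ x ∈ a.support, x ∈ b.support ∧ a x ∉ b.support := by
    by_contra hc
    push Not at hc
    exact hu' (supp_sub_of_closed hca (P := fun y => y ∈ b.support) hz hz' hc u hu)
  obtain ⟨j, hj⟩ := hcb.exists_pow_eq (mem_support.1 hx1'') (mem_support.1 hw)
  obtain ⟨k, hk⟩ := hca.exists_pow_eq (mem_support.1 hx1)
    (mem_support.1 (apply_mem_support.2 hx2))
  obtain ⟨l, hl⟩ := hcb.exists_pow_eq (mem_support.1 hw) (mem_support.1 hx2')
  obtain ⟨t, ht⟩ := hca.exists_pow_eq (mem_support.1 hx2) (mem_support.1 hx1)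
  have e1 : (a ^ t * b ^ l * a ^ k * b ^ j) x1 = a x1 := by
    simp only [Perm.mul_apply]
    rw [pow_fix (notMem_support.1 hx1') j, hk, pow_fix (notMem_support.1 hx2'') l,
      ← Perm.mul_apply, ← pow_succ, pow_succ', Perm.mul_apply, ht]
  have e2 : (a ^ t * b ^ l * a ^ k * b ^ j) (a x1) = x1 := by
    simp only [Perm.mul_apply]
    rw [hj, pow_fix (notMem_support.1 hw') k, hl, ht]
  refine dvd_card_of_pow Nat.prime_two (g := a ^ t * b ^ l * a ^ k * b ^ j)
    (H.mul_mem (H.mul_mem (H.mul_mem (H.pow_mem ha _) (H.pow_mem hb _)) (H.pow_mem ha _))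
      (H.pow_mem hb _)) (x := x1) ?_ ?_
  · rw [pow_two, Perm.mul_apply, e1, e2]
  · rw [e1]; exact mem_support.1 hx1

theorem two_dvd_of_odd_primes {H : Subgroup (Perm Ω)} {r q : ℕ} (hr : r.Prime) (hq : q.Prime)
    (hr2 : r ≠ 2) (hrq : r < q) (hqn : q ≤ Fintype.card Ω)
    (h1 : ¬ r ∣ H.relIndex (alternatingGroup Ω)) (h2 : ¬ q ∣ H.relIndex (alternatingGroup Ω)) :
    2 ∣ Nat.card H := by
  classical
  have hq2 : q ≠ 2 := by have := hr.two_le; omega
  set S : Finset Ω := Finset.univ.filter fun x =>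
    ∀ a ∈ H, a.IsCycle → a.support.card = r → x ∉ a.support with hSdef
  have hS : H ≤ setStab S := le_setStab fun g hg x hx => by
    simp only [hSdef, Finset.mem_filter, Finset.mem_univ, true_and] at hx ⊢
    intro a ha hc hcard hm
    refine hx (g⁻¹ * a * g⁻¹⁻¹) (H.mul_mem (H.mul_mem (H.inv_mem hg) ha) (H.inv_mem (H.inv_mem hg)))
      hc.conj (by rw [card_support_conj, hcard]) ?_
    rw [← ia g x, mem_support_conj]
    exact hm
  have hSc : S.card < r := by
    by_contra hc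
    obtain ⟨d, hd, hc, hs, hcard⟩ := exists_cycle_mem hS (k := 1) hr hr2 le_rfl h1
      (by rw [pow_one]; omega)
    obtain ⟨x, hx⟩ := hc.nonempty_support
    have := hs hx
    simp only [hSdef, Finset.mem_filter, Finset.mem_univ, true_and] at this
    exact this d hd hc (by rw [hcard, pow_one]) hx
  obtain ⟨c, hcH, hc, -, hcq⟩ := exists_cycle_mem (H := H) (S := Finset.univ)
    (le_setStab fun _ _ _ _ => Finset.mem_univ _) (k := 1) hq hq2 le_rfl h2
    (by rw [pow_one, Finset.card_univ]; exact hqn)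
  rw [pow_one] at hcq
  obtain ⟨x, hxc, hxS⟩ : ∃ x ∈ c.support, x ∉ S := by
    by_contra hn
    push Not at hn
    have := Finset.card_le_card (show c.support ⊆ S from hn)
    omega
  simp only [hSdef, Finset.mem_filter, Finset.mem_univ, true_and] at hxS
  push Not at hxS
  obtain ⟨a, haH, ha, hcard, hxa⟩ := hxS
  obtain ⟨c', hc'H, hc', hs', y, hy, hy'⟩ : ∃ c' ∈ H, c'.IsCycle ∧ c'.support = c.support ∧
      ∃ y ∈ a.support, c' y ∈ a.support := by
    by_cases hA : a.support ⊆ c.support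
    · obtain ⟨i, hi⟩ := hc.exists_pow_eq (mem_support.1 hxc)
        (mem_support.1 (hA (apply_mem_support.2 hxa)))
      have hnd : ¬ orderOf c ∣ i := by
        rw [orderOf_dvd_iff_pow_eq_one]
        intro h0
        rw [h0] at hi
        exact mem_support.1 hxa hi.symm
      refine ⟨c ^ i, H.pow_mem hcH i, hc.pow_iff.2 ?_, hc.support_pow_eq_iff.2 hnd, x, hxa, ?_⟩
      · rw [hc.orderOf, hcq] at hnd ⊢
        exact ((Nat.Prime.coprime_iff_not_dvd hq).2 hnd).symm
      · rw [hi]; exact apply_mem_support.2 hxa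
    · obtain ⟨y, hy, hy'⟩ := Finset.not_subset.1 hA
      exact ⟨c, hcH, hc, rfl, y, hy, by rwa [notMem_support.1 hy']⟩
  have hns : ¬ (c' * a * c'⁻¹).support ⊆ a.support := by
    intro hsub
    have := supp_sub_of_closed hc' (P := fun y => y ∈ a.support) (hs' ▸ hxc) hxa
      fun y _ hy => hsub (mem_support_conj.2 hy)
    have := Finset.card_le_card (show c'.support ⊆ a.support from this)
    rw [hs'] at this
    omega
  have hns' : ¬ a.support ⊆ (c' * a * c'⁻¹).support := fun hsub =>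
    hns (Finset.eq_of_subset_of_card_le hsub (by rw [card_support_conj])).ge
  obtain ⟨w, hw, hw'⟩ := Finset.not_subset.1 hns
  obtain ⟨u, hu, hu'⟩ := Finset.not_subset.1 hns'
  exact two_dvd_of_overlap haH (H.mul_mem (H.mul_mem hc'H haH) (H.inv_mem hc'H)) ha ha.conj
    hu hu' hw hw' hy' (mem_support_conj.2 hy)

/-- An involution with at most one fixed point commutes with no cycle of odd length. -/
theorem not_commute_of_odd_cycle {t c : Perm Ω} (ht : t * t = 1)
    (hfix : ∀ x y, t x = x → t y = y → x = y) (hc : c.IsCycle) (hodd : Odd c.support.card) :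
    ¬ Commute t c := by
  intro hcm
  have key : ∀ x ∈ c.support, t x = x := by
    intro x hx
    have htx : t x ∈ c.support := by
      rw [mem_support, ← Perm.mul_apply, ← hcm.eq, Perm.mul_apply]
      exact fun h => mem_support.1 hx (t.injective h)
    obtain ⟨i, hi⟩ := hc.exists_pow_eq (mem_support.1 hx) (mem_support.1 htx)
    have h2 : ((c ^ i) ^ 2) x = x := by
      rw [pow_two, Perm.mul_apply, hi, ← Perm.mul_apply, ← (hcm.pow_right i).eq, Perm.mul_apply, hi,
        invol_apply ht]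
    by_contra hne
    have h3 := dvd_card_of_pow (H := zpowers c) Nat.prime_two (pow_mem (mem_zpowers c) i) h2
      (by rwa [hi])
    rw [Nat.card_zpowers, hc.orderOf] at h3
    exact (Nat.not_even_iff_odd.2 hodd) (even_iff_two_dvd.2 h3)
  obtain ⟨x, hx⟩ := hc.nonempty_support
  exact mem_support.1 hx (hfix _ _ (key _ (apply_mem_support.2 hx)) (key _ hx))

theorem exists_matching_mem {H : Subgroup (Perm Ω)} (h : ¬ 2 ∣ H.relIndex (alternatingGroup Ω)) :
    ∃ t : Perm Ω, t * t = 1 ∧ (∀ x y, t x = x → t y = y → x = y) ∧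
      ∀ u v, t u ≠ u → t v ≠ v → swap u (t u) * swap v (t v) ∈ H := by
  obtain ⟨t, ht, hfix⟩ := exists_max_matching (Ω := Ω)
  obtain ⟨g, -, hg⟩ := conj_into (p := 2) (U := baseSub t ht ⊓ alternatingGroup Ω) h inf_le_right
    ((isPGroup_baseSub t ht).to_le inf_le_left)
  refine ⟨g * t * g⁻¹, ?_, fun x y hx hy => ?_, fun u v hu hv => ?_⟩
  · calc g * t * g⁻¹ * (g * t * g⁻¹) = g * (t * t) * g⁻¹ := by group
      _ = 1 := by rw [ht]; group
  · exact g⁻¹.injective (hfix _ _ (conj_fix.1 hx) (conj_fix.1 hy))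
  · rw [ne_eq, conj_fix] at hu hv
    rw [conj_dbl]
    exact hg (swap (g⁻¹ u) (t (g⁻¹ u)) * swap (g⁻¹ v) (t (g⁻¹ v)))
      ⟨mul_mem (swap_mem_baseSub ht _) (swap_mem_baseSub ht _), by
        change sign _ = 1
        rw [map_mul, sign_swap (Ne.symm hu), sign_swap (Ne.symm hv)]; rfl⟩

theorem three_dvd_of_two {H : Subgroup (Perm Ω)} {q : ℕ} (hq : q.Prime) (hq2 : q ≠ 2)
    (hqn : q ≤ Fintype.card Ω) (hn : 6 ≤ Fintype.card Ω)
    (h1 : ¬ 2 ∣ H.relIndex (alternatingGroup Ω)) (h2 : ¬ q ∣ H.relIndex (alternatingGroup Ω)) :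
    3 ∣ Nat.card H := by
  obtain ⟨t, ht, hfix, hH⟩ := exists_matching_mem h1
  obtain ⟨c, hcH, hc, -, hcq⟩ := exists_cycle_mem (H := H) (S := Finset.univ)
    (le_setStab fun _ _ _ _ => Finset.mem_univ _) (k := 1) hq hq2 le_rfl h2
    (by rw [pow_one, Finset.card_univ]; exact hqn)
  rw [pow_one] at hcq
  obtain ⟨s, hs, hfix', hH', hne⟩ : ∃ s : Perm Ω, s * s = 1 ∧ (∀ x y, s x = x → s y = y → x = y) ∧
      (∀ u v, s u ≠ u → s v ≠ v → swap u (s u) * swap v (s v) ∈ H) ∧ s ≠ t := by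
    refine ⟨c * t * c⁻¹, ?_, fun x y hx hy => ?_, fun u v hu hv => ?_, fun he => ?_⟩
    · calc c * t * c⁻¹ * (c * t * c⁻¹) = c * (t * t) * c⁻¹ := by group
        _ = 1 := by rw [ht]; group
    · exact c⁻¹.injective (hfix _ _ (conj_fix.1 hx) (conj_fix.1 hy))
    · rw [ne_eq, conj_fix] at hu hv
      rw [conj_dbl]
      exact H.mul_mem (H.mul_mem hcH (hH _ _ hu hv)) (H.inv_mem hcH)
    · refine not_commute_of_odd_cycle ht hfix hc (hcq ▸ hq.odd_of_ne_two hq2) ?_
      rw [mul_inv_eq_iff_eq_mul] at he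
      exact he.symm
  obtain ⟨a, hab, hta, hsa⟩ : ∃ a, t a ≠ s a ∧ t a ≠ a ∧ s a ≠ a := by
    obtain ⟨a, ha⟩ : ∃ a, t a ≠ s a := by
      by_contra hc
      push Not at hc
      exact hne (Equiv.ext hc).symm
    by_cases h3 : t a = a
    · have h4 : s a ≠ a := fun h => ha (h3.trans h.symm)
      refine ⟨s a, ?_, fun h => h4 (hfix _ _ h h3), ?_⟩
      · rw [invol_apply hs]
        intro h
        exact h4 (t.injective (h.trans h3.symm))
      · rw [invol_apply hs]; exact h4.symm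
    by_cases h4 : s a = a
    · refine ⟨t a, ?_, ?_, fun h => h3 (hfix' _ _ h h4)⟩
      · rw [invol_apply ht]
        intro h
        exact h3 (s.injective (h.symm.trans h4.symm))
      · rw [invol_apply ht]; exact fun h => h3 h.symm
    exact ⟨a, ha, h3, h4⟩
  have hc4 : ∀ x y z w : Ω, ({x, y, z, w} : Finset Ω).card + 2 ≤ Fintype.card Ω := fun x y z w =>
    le_trans (by have := Finset.card_le_four (a := x) (b := y) (c := z) (d := w); omega) hn
  obtain ⟨u, hu, hu'⟩ := exists_moved_notMem hfix {a, t a, s a, t (s a)} (hc4 _ _ _ _)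
  obtain ⟨w, hw, hw'⟩ := exists_moved_notMem hfix' {a, t a, s a, s (t a)} (hc4 _ _ _ _)
  simp only [Finset.mem_insert, Finset.mem_singleton, not_or] at hu' hw'
  obtain ⟨u1, u2, u3, u4⟩ := hu'
  obtain ⟨w1, w2, w3, w4⟩ := hw'
  have u5 : t u ≠ a := fun h => u2 (by rw [← h, invol_apply ht])
  have u6 : t u ≠ t a := fun h => u1 (t.injective h)
  have u7 : t u ≠ s a := fun h => u4 (by rw [← h, invol_apply ht])
  have w5 : s w ≠ a := fun h => w3 (by rw [← h, invol_apply hs])
  have w6 : s w ≠ s a := fun h => w1 (s.injective h)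
  have w7 : s w ≠ t a := fun h => w4 (by rw [← h, invol_apply hs])
  set g := (swap a (t a) * swap u (t u)) * (swap a (s a) * swap w (s w)) with hg
  have e1 : g a = s a := by
    simp only [hg, Perm.mul_apply]
    rw [swap_apply_of_ne_of_ne (Ne.symm w1) w5.symm, swap_apply_left,
      swap_apply_of_ne_of_ne (Ne.symm u3) u7.symm, swap_apply_of_ne_of_ne hsa hab.symm]
  have e2 : g (s a) = t a := by
    simp only [hg, Perm.mul_apply]
    rw [swap_apply_of_ne_of_ne (Ne.symm w3) w6.symm, swap_apply_right,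
      swap_apply_of_ne_of_ne (Ne.symm u1) u5.symm, swap_apply_left]
  have e3 : g (t a) = a := by
    simp only [hg, Perm.mul_apply]
    rw [swap_apply_of_ne_of_ne (Ne.symm w2) w7.symm, swap_apply_of_ne_of_ne hta hab,
      swap_apply_of_ne_of_ne (Ne.symm u2) u6.symm, swap_apply_right]
  refine dvd_card_of_pow Nat.prime_three (g := g) (H.mul_mem (hH _ _ hta hu) (hH' _ _ hsa hw))
    (x := a) ?_ (by rw [e1]; exact hsa)
  clear_value g
  rw [pow_three, Perm.mul_apply, Perm.mul_apply, e1, e2, e3]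

end Cfsg.Agent.H98.HallS
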