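import Cfsg.Agent.H98.HallSym1
import Cfsg.Agent.H98.HallNum

/-! The structure of subgroups of a symmetric group meeting the alternating group in a proper
Hall subgroup involving at least two primes. -/

set_option autoImplicit false

namespace Cfsg.Agent.H98.HallS

open Equiv Equiv.Perm Subgroup Cfsg.Agent.H78 Cfsg.Agent.H98.HallN

variable {Ω : Type*} [Fintype Ω] [DecidableEq Ω]

theorem altOn_image_le {H : Subgroup (Perm Ω)} {X : Finset Ω} (hX : altOn X ≤ H) {g : Perm Ω}
    (hg : g ∈ H) : altOn (X.image g) ≤ H := by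
  intro σ hσ
  have h1 := conj_mem_altOn hσ g⁻¹
  rw [Finset.image_image, show (⇑g⁻¹ ∘ ⇑g) = id from funext (ia g), Finset.image_id] at h1
  have h2 := H.mul_mem (H.mul_mem hg (hX h1)) (H.inv_mem hg)
  rwa [show g * (g⁻¹ * σ * g⁻¹⁻¹) * g⁻¹ = σ by group] at h2

theorem exists_two_ne {X : Finset Ω} (hX : 3 ≤ X.card) (z : Ω) :
    ∃ a ∈ X, ∃ b ∈ X, a ≠ b ∧ a ≠ z ∧ b ≠ z := by
  have : 1 < (X.erase z).card := by have := Finset.pred_card_le_card_erase (s := X) (a := z); omega
  obtain ⟨a, ha, b, hb, hab⟩ := Finset.one_lt_card.1 this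
  rw [Finset.mem_erase] at ha hb
  exact ⟨a, ha.2, b, hb.2, hab, ha.1, hb.1⟩

theorem altOn_union_one {H : Subgroup (Perm Ω)} {X Y : Finset Ω} (hX3 : 3 ≤ X.card)
    (hY3 : 3 ≤ Y.card) {z : Ω} (hzX : z ∈ X) (hzY : z ∈ Y) (hX : altOn X ≤ H)
    (hY : altOn Y ≤ H) : altOn (X ∪ Y) ≤ H := by
  by_cases h : ∃ w, w ≠ z ∧ w ∈ X ∧ w ∈ Y
  · obtain ⟨w, hw, h1, h2⟩ := h
    exact altOn_union_le hw h1 hzX h2 hzY hX hY
  push Not at h
  obtain ⟨a, ha, b, hb, hab, haz, hbz⟩ := exists_two_ne hX3 z
  obtain ⟨c, hc, d, hd, hcd, hcz, hdz⟩ := exists_two_ne hY3 z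
  have hg : c3 z c d ∈ H := hY (c3_mem_altOn hzY hc hd hcz.symm hcd)
  have fa : ∀ x ∈ X, x ≠ z → c3 z c d x = x := fun x hx hxz =>
    c3_apply_of_ne hxz (fun e => h x hxz hx (e ▸ hc)) (fun e => h x hxz hx (e ▸ hd))
  have h1 := altOn_union_le hab ha hb (Finset.mem_image.2 ⟨a, ha, fa a ha haz⟩)
    (Finset.mem_image.2 ⟨b, hb, fa b hb hbz⟩) hX (altOn_image_le hX hg)
  have h2 := altOn_union_le hcz (Finset.mem_union_right _
    (Finset.mem_image.2 ⟨z, hzX, c3_apply_fst hcz.symm hdz.symm⟩)) (Finset.mem_union_left _ hzX)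
    hc hzY h1 hY
  exact (altOn_mono (Finset.union_subset_union Finset.subset_union_left le_rfl)).trans h2

/-- Two points lie in a set of at least three points whose alternating group lies in `H`. -/
def Rel (H : Subgroup (Perm Ω)) (x y : Ω) : Prop :=
  x = y ∨ ∃ B : Finset Ω, 3 ≤ B.card ∧ x ∈ B ∧ y ∈ B ∧ altOn B ≤ H

variable {H : Subgroup (Perm Ω)}

theorem Rel.refl (x : Ω) : Rel H x x := Or.inl rfl

theorem Rel.symm {x y : Ω} (h : Rel H x y) : Rel H y x := by
  rcases h with rfl | ⟨B, h1, h2, h3, h4⟩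
  · exact Or.inl rfl
  · exact Or.inr ⟨B, h1, h3, h2, h4⟩

theorem Rel.trans {x y z : Ω} (h : Rel H x y) (h' : Rel H y z) : Rel H x z := by
  rcases h with rfl | ⟨B, h1, h2, h3, h4⟩
  · exact h'
  rcases h' with rfl | ⟨C, k1, k2, k3, k4⟩
  · exact Or.inr ⟨B, h1, h2, h3, h4⟩
  exact Or.inr ⟨B ∪ C, h1.trans (Finset.card_le_card Finset.subset_union_left),
    Finset.mem_union_left _ h2, Finset.mem_union_right _ k3, altOn_union_one h1 k1 h3 k2 h4 k4⟩

theorem Rel.map {x y : Ω} (h : Rel H x y) {g : Perm Ω} (hg : g ∈ H) : Rel H (g x) (g y) := by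
  rcases h with rfl | ⟨B, h1, h2, h3, h4⟩
  · exact Or.inl rfl
  · exact Or.inr ⟨B.image g, by rwa [Finset.card_image_of_injective _ g.injective],
      Finset.mem_image_of_mem _ h2, Finset.mem_image_of_mem _ h3, altOn_image_le h4 hg⟩

/-- The permutations preserving the relation. -/
def relStab (H : Subgroup (Perm Ω)) : Subgroup (Perm Ω) where
  carrier := {g | ∀ x y, Rel H (g x) (g y) ↔ Rel H x y}
  one_mem' := fun _ _ => Iff.rfl
  mul_mem' := fun {a b} ha hb x y => (ha (b x) (b y)).trans (hb x y)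
  inv_mem' := fun {a} ha x y => by
    have := ha (a⁻¹ x) (a⁻¹ y)
    rw [ai, ai] at this
    exact this.symm

theorem le_relStab : H ≤ relStab H := fun g hg x y =>
  ⟨fun h => by simpa using h.map (H.inv_mem hg), fun h => h.map hg⟩

theorem swap_mem_relStab {a b : Ω} (h : Rel H a b) : swap a b ∈ relStab H := by
  have key : ∀ x, Rel H x (swap a b x) := fun x => by
    rw [swap_apply_def]
    split_ifs with h1 h2
    · exact h1 ▸ h
    · exact h2 ▸ h.symm
    · exact Rel.refl x
  exact fun x y => ⟨fun k => ((key x).trans k).trans (key y).symm,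
    fun k => ((key x).symm.trans k).trans (key y)⟩

open Classical in
/-- The class of `x`. -/
noncomputable def cls (H : Subgroup (Perm Ω)) (x : Ω) : Finset Ω := Finset.univ.filter (Rel H x)

theorem mem_cls {x y : Ω} : y ∈ cls H x ↔ Rel H x y := by simp [cls]

theorem self_mem_cls (x : Ω) : x ∈ cls H x := mem_cls.2 (Rel.refl x)

theorem cls_eq {x y : Ω} (h : Rel H x y) : cls H x = cls H y := by
  ext z
  rw [mem_cls, mem_cls]
  exact ⟨fun k => h.symm.trans k, fun k => h.trans k⟩

theorem card_cls_apply {g : Perm Ω} (hg : g ∈ relStab H) (x : Ω) :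
    (cls H (g x)).card = (cls H x).card := by
  have : cls H (g x) = (cls H x).image g := by
    ext z
    rw [mem_cls, Finset.mem_image]
    constructor
    · intro h
      refine ⟨g⁻¹ z, mem_cls.2 ((hg _ _).1 (by rwa [ai])), ai g z⟩
    · rintro ⟨y, hy, rfl⟩
      exact (hg _ _).2 (mem_cls.1 hy)
  rw [this, Finset.card_image_of_injective _ g.injective]

theorem cls_spec {x : Ω} (h : (cls H x).card ≠ 1) : 3 ≤ (cls H x).card ∧ altOn (cls H x) ≤ H := by
  classical
  obtain ⟨y, hy, hyx⟩ : ∃ y ∈ cls H x, y ≠ x := by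
    by_contra hc
    push Not at hc
    exact h (Finset.card_eq_one.2 ⟨x, Finset.eq_singleton_iff_unique_mem.2 ⟨self_mem_cls x, hc⟩⟩)
  rcases mem_cls.1 hy with h1 | ⟨B0, h1, h2, -, h4⟩
  · exact absurd h1.symm hyx
  obtain ⟨B, hB, hmax⟩ := Finset.exists_max_image
    (Finset.univ.filter fun B : Finset Ω => 3 ≤ B.card ∧ x ∈ B ∧ altOn B ≤ H) Finset.card
    ⟨B0, by simp [h1, h2, h4]⟩
  simp only [Finset.mem_filter, Finset.mem_univ, true_and] at hB hmax
  obtain ⟨k1, k2, k3⟩ := hB
  have : cls H x = B := by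
    ext z
    rw [mem_cls]
    constructor
    · rintro (rfl | ⟨C, l1, l2, l3, l4⟩)
      · exact k2
      · have := hmax (B ∪ C) ⟨k1.trans (Finset.card_le_card Finset.subset_union_left),
          Finset.mem_union_left _ k2, altOn_union_one k1 l1 k2 l2 k3 l4⟩
        rw [Finset.eq_of_subset_of_card_le Finset.subset_union_left this]
        exact Finset.mem_union_right _ l3
    · exact fun hz => Or.inr ⟨B, k1, k2, hz, k3⟩
  rw [this]
  exact ⟨k1, k3⟩

theorem dvd_card_of_closed {D : Finset Ω} {s : ℕ} (h1 : ∀ y ∈ D, cls H y ⊆ D)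
    (h2 : ∀ y ∈ D, (cls H y).card = s) : s ∣ D.card := by
  classical
  rw [Finset.card_eq_sum_card_image (cls H) D]
  refine Finset.dvd_sum fun C hC => ?_
  obtain ⟨y, hy, rfl⟩ := Finset.mem_image.1 hC
  have : D.filter (fun z => cls H z = cls H y) = cls H y := by
    ext z
    rw [Finset.mem_filter]
    exact ⟨fun h => h.2 ▸ self_mem_cls z, fun h => ⟨h1 y hy h, (cls_eq (mem_cls.1 h)).symm⟩⟩
  rw [this, h2 y hy]

/-- A cycle preserving the classes lies inside one class or permutes classes of equal size. -/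
theorem cycle_cls {d : Perm Ω} (hd : d ∈ relStab H) (hc : d.IsCycle) {x : Ω} (hx : x ∈ d.support) :
    d.support ⊆ cls H x ∨ ((∀ y ∈ d.support, (cls H y).card = (cls H x).card) ∧
      (cls H x).card ∣ d.support.card) := by
  have hs : ∀ y ∈ d.support, (cls H y).card = (cls H x).card := by
    intro y hy
    obtain ⟨i, rfl⟩ := hc.exists_pow_eq (mem_support.1 hx) (mem_support.1 hy)
    exact card_cls_apply ((relStab H).pow_mem hd i) x
  by_cases h : ∀ y ∈ d.support, cls H y ⊆ d.support
  · exact Or.inr ⟨hs, dvd_card_of_closed h hs⟩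
  left
  push Not at h
  obtain ⟨y, hy, hn⟩ := h
  obtain ⟨z, hz, hz'⟩ := Finset.not_subset.1 hn
  have key := supp_sub_of_closed hc (P := fun w => Rel H w z) hy (mem_cls.1 hz) fun w _ hw => by
    have := (hd w z).2 hw
    rwa [notMem_support.1 hz'] at this
  exact fun w hw => mem_cls.2 ((key x hx).trans (key w hw).symm)

theorem index_dvd_relIndex {K : Subgroup (Perm Ω)} (hHK : H ≤ K) {a b : Ω} (hab : a ≠ b)
    (hK : swap a b ∈ K) : K.index ∣ H.relIndex (alternatingGroup Ω) := by
  haveI : Nontrivial Ω := ⟨a, b, hab⟩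
  refine dvd_trans (dvd_of_eq ?_) (relIndex_dvd_of_le_left _ hHK)
  have h1 := relIndex_mul_index (H := K ⊓ alternatingGroup Ω) (K := K) inf_le_left
  have h2 := relIndex_mul_index (H := K ⊓ alternatingGroup Ω) (K := alternatingGroup Ω) inf_le_right
  rw [inf_relIndex_left] at h1
  rw [inf_relIndex_right, alternatingGroup.index_eq_two] at h2
  have h3 : (alternatingGroup Ω).relIndex K ∣ 2 :=
    alternatingGroup.index_eq_two (α := Ω) ▸ relIndex_dvd_index_of_normal _ _
  have h4 : (alternatingGroup Ω).relIndex K ≠ 1 := by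
    rw [ne_eq, relIndex_eq_one]
    intro h
    have := mem_alternatingGroup.1 (h hK)
    rw [sign_swap hab] at this
    exact absurd this (by decide)
  rcases (Nat.dvd_prime Nat.prime_two).1 h3 with h5 | h5
  · exact absurd h5 h4
  · rw [h5] at h1
    omega

theorem card_setStab_inf {B C : Finset Ω} (h : Disjoint B C) :
    Nat.card (setStab B ⊓ setStab C : Subgroup (Perm Ω)) =
      B.card.factorial * C.card.factorial * (Fintype.card Ω - (B.card + C.card)).factorial := by
  set f : Ω → Fin 3 := fun x => if x ∈ B then 0 else if x ∈ C then 1 else 2 with hf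
  have f0 : ∀ x, f x = 0 ↔ x ∈ B := fun x => by
    simp only [hf]; split_ifs <;> simp [*]
  have f1 : ∀ x, f x = 1 ↔ x ∈ C := fun x => by
    have : x ∈ B → x ∉ C := fun hx => Finset.disjoint_left.1 h hx
    simp only [hf]; split_ifs <;> simp_all
  have f2 : ∀ x, f x = 2 ↔ x ∈ (B ∪ C)ᶜ := fun x => by
    simp only [hf]; split_ifs <;> simp [*]
  have h1 := DomMulAct.stabilizer_card f
  rw [Fin.prod_univ_three] at h1
  simp only [f0, f1, f2, Fintype.card_coe, Finset.card_compl, Finset.card_union_of_disjoint h] at h1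
  rw [← h1, ← Nat.card_eq_fintype_card]
  refine Nat.card_congr (Equiv.subtypeEquivRight fun g => ?_)
  constructor
  · rintro ⟨h2, h3⟩
    funext x
    simp only [Function.comp, hf, h2 x, h3 x]
  · intro h2
    refine ⟨fun x => ?_, fun x => ?_⟩
    · rw [← f0, ← f0, show f (g x) = f x from congrFun h2 x]
    · rw [← f1, ← f1, show f (g x) = f x from congrFun h2 x]

theorem index_setStab_inf {B C : Finset Ω} (h : Disjoint B C) :
    (setStab B ⊓ setStab C : Subgroup (Perm Ω)).index =
      (Fintype.card Ω).choose (B.card + C.card) * (B.card + C.card).choose B.card := by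
  have h1 := (setStab B ⊓ setStab C : Subgroup (Perm Ω)).index_mul_card
  rw [card_setStab_inf h, Nat.card_perm, Nat.card_eq_fintype_card] at h1
  have hle : B.card + C.card ≤ Fintype.card Ω := by
    rw [← Finset.card_union_of_disjoint h]; exact Finset.card_le_univ _
  have h2 := Nat.choose_mul_factorial_mul_factorial hle
  have h3 := Nat.choose_mul_factorial_mul_factorial (Nat.le_add_right B.card C.card)
  rw [Nat.add_sub_cancel_left] at h3
  refine Nat.eq_of_mul_eq_mul_right (m := B.card.factorial * C.card.factorial *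
    (Fintype.card Ω - (B.card + C.card)).factorial) (by positivity) ?_
  rw [h1, ← h2, ← h3]
  ring

omit [Fintype Ω] [DecidableEq Ω] in
theorem setStab_empty : setStab (∅ : Finset Ω) = ⊤ := by
  ext g; simp [mem_setStab]

theorem card_setStab (B : Finset Ω) :
    Nat.card (setStab B) = B.card.factorial * (Fintype.card Ω - B.card).factorial := by
  have := card_setStab_inf (Finset.disjoint_empty_right B)
  simpa [setStab_empty] using this

theorem index_setStab (B : Finset Ω) : (setStab B).index = (Fintype.card Ω).choose B.card := by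
  have := index_setStab_inf (Finset.disjoint_empty_right B)
  simpa [setStab_empty] using this

/-- The stabilizer of the partition `{B, Bᶜ}`. -/
def pairStab (B : Finset Ω) : Subgroup (Perm Ω) where
  carrier := {g | (∀ x, g x ∈ B ↔ x ∈ B) ∨ ∀ x, g x ∈ B ↔ x ∉ B}
  one_mem' := Or.inl fun _ => Iff.rfl
  mul_mem' := fun {a b} ha hb => by
    rcases ha with ha | ha <;> rcases hb with hb | hb
    · exact Or.inl fun x => (ha (b x)).trans (hb x)
    · exact Or.inr fun x => (ha (b x)).trans (hb x)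
    · exact Or.inr fun x => (ha (b x)).trans (hb x).not
    · exact Or.inl fun x => (ha (b x)).trans ((hb x).not.trans not_not)
  inv_mem' := fun {a} ha => by
    rcases ha with ha | ha
    · refine Or.inl fun x => ?_
      have := ha (a⁻¹ x)
      rw [ai] at this
      exact this.symm
    · refine Or.inr fun x => ?_
      have := ha (a⁻¹ x)
      rw [ai] at this
      exact iff_not_comm.1 this

omit [Fintype Ω] [DecidableEq Ω] in
theorem mem_pairStab {B : Finset Ω} {g : Perm Ω} :
    g ∈ pairStab B ↔ (∀ x, g x ∈ B ↔ x ∈ B) ∨ ∀ x, g x ∈ B ↔ x ∉ B := Iff.rfl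

theorem image_eq_of_maps {B C : Finset Ω} {g : Perm Ω} (h : ∀ y ∈ B, g y ∈ C)
    (hc : C.card ≤ B.card) (y : Ω) : g y ∈ C ↔ y ∈ B := by
  have : B.image g = C := Finset.eq_of_subset_of_card_le (Finset.image_subset_iff.2 h)
    (by rwa [Finset.card_image_of_injective _ g.injective])
  rw [← this, Finset.mem_image]
  exact ⟨fun ⟨z, hz, e⟩ => g.injective e ▸ hz, fun hy => ⟨y, hy, rfl⟩⟩

theorem swap_mem_setStab {B : Finset Ω} {a b : Ω} (ha : a ∈ B) (hb : b ∈ B) :
    swap a b ∈ setStab B := fun x => by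
  rw [swap_apply_def]
  split_ifs with h1 h2
  · rw [h1]; exact iff_of_true hb ha
  · rw [h2]; exact iff_of_true ha hb
  · exact Iff.rfl

theorem two_three_not_dvd
    (hcop : ∀ p : ℕ, p.Prime → p ∣ Nat.card H → ¬ p ∣ H.relIndex (alternatingGroup Ω))
    (hn : 5 ≤ Fintype.card Ω) {r q : ℕ} (hr : r.Prime) (hq : q.Prime) (hne : r ≠ q)
    (hrn : r ≤ Fintype.card Ω) (hqn : q ≤ Fintype.card Ω)
    (h1 : ¬ r ∣ H.relIndex (alternatingGroup Ω)) (h2 : ¬ q ∣ H.relIndex (alternatingGroup Ω)) :
    ¬ 2 ∣ H.relIndex (alternatingGroup Ω) ∧ ¬ 3 ∣ H.relIndex (alternatingGroup Ω) := by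
  have h3 : ¬ 2 ∣ H.relIndex (alternatingGroup Ω) := by
    by_cases hr2 : r = 2
    · exact hr2 ▸ h1
    by_cases hq2 : q = 2
    · exact hq2 ▸ h2
    rcases lt_or_gt_of_ne hne with h | h
    · exact hcop 2 Nat.prime_two (two_dvd_of_odd_primes hr hq hr2 h hqn h1 h2)
    · exact hcop 2 Nat.prime_two (two_dvd_of_odd_primes hq hr hq2 h hrn h2 h1)
  refine ⟨h3, ?_⟩
  obtain ⟨t, ht, ht2, htn, h4⟩ : ∃ t : ℕ, t.Prime ∧ t ≠ 2 ∧ t ≤ Fintype.card Ω ∧
      ¬ t ∣ H.relIndex (alternatingGroup Ω) := by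
    by_cases hr2 : r = 2
    · exact ⟨q, hq, fun e => hne (hr2.trans e.symm), hqn, h2⟩
    · exact ⟨r, hr, hr2, hrn, h1⟩
  rcases eq_or_lt_of_le hn with h5 | h5
  swap
  · exact hcop 3 Nat.prime_three (three_dvd_of_two ht ht2 htn h5 h3 h4)
  intro h6
  have ht5 : t = 5 := by
    have := ht.two_le
    have h7 : t ≠ 3 := fun e => h4 (e ▸ h6)
    have h8 : t ≠ 4 := fun e => by subst e; exact absurd ht (by decide)
    omega
  subst ht5
  haveI : Nontrivial Ω := Fintype.one_lt_card_iff_nontrivial.1 (by omega)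
  have hA : Nat.card (alternatingGroup Ω) = 60 := by
    rw [nat_card_alternatingGroup, Nat.card_eq_fintype_card, ← h5]; rfl
  haveI := alternatingGroup.isSimpleGroup (α := Ω) (by rw [Nat.card_eq_fintype_card]; exact hn)
  have h7 : H.relIndex (alternatingGroup Ω) ∣ 60 := hA ▸ relIndex_dvd_card _ _
  have h8 : H.relIndex (alternatingGroup Ω) = 3 := by
    have := Nat.le_of_dvd (by norm_num) h7
    generalize H.relIndex (alternatingGroup Ω) = N at *
    interval_cases N <;> omega
  set K := H.subgroupOf (alternatingGroup Ω)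
  have h9 : K.index = 3 := h8
  have h10 : K.normalCore.index ∣ K.index.factorial := by
    rw [normalCore_eq_ker, index_ker, index_eq_card, ← Nat.card_perm]
    exact card_subgroup_dvd_card _
  rcases K.normalCore_normal.eq_bot_or_eq_top with h | h
  · rw [h, index_bot, hA, h9] at h10
    exact absurd h10 (by decide)
  · have := index_dvd_of_le K.normalCore_le
    rw [h, index_top, h9] at this
    exact absurd this (by decide)

theorem card_single_le (h3 : ¬ 3 ∣ H.relIndex (alternatingGroup Ω)) :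
    (Finset.univ.filter fun x => (cls H x).card = 1).card ≤ 2 := by
  by_contra hc
  have hF : H ≤ setStab (Finset.univ.filter fun x => (cls H x).card = 1) :=
    le_setStab fun g hg x hx => by
      simp only [Finset.mem_filter, Finset.mem_univ, true_and] at hx ⊢
      rwa [card_cls_apply (le_relStab hg)]
  obtain ⟨d, hd, -, hs, hcard⟩ := exists_cycle_mem hF (k := 1) Nat.prime_three (by norm_num) le_rfl
    h3 (by omega)
  obtain ⟨a, b, c, hab, hac, hbc, rfl⟩ :=
    IsThreeCycle.exists_eq_c3 (card_support_eq_three_iff.1 hcard)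
  have h1 : altOn {a, b, c} ≤ H := altOn_le_of_c3 hbc fun i hi hib hic => by
    simp only [Finset.mem_insert, Finset.mem_singleton, hib, hic, or_false] at hi
    rwa [hi]
  have h2 : Rel H a b := Or.inr ⟨{a, b, c}, by
    rw [Finset.card_eq_three.2 ⟨a, b, c, hab, hac, hbc, rfl⟩], by simp, by simp, h1⟩
  have h4 := hs (mem_support.2 (show c3 a b c a ≠ a by rw [c3_apply_fst hab hac]; exact hab.symm))
  simp only [Finset.mem_filter, Finset.mem_univ, true_and] at h4
  exact hab (Finset.card_le_one.1 h4.le _ (self_mem_cls a) _ (mem_cls.2 h2))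

theorem structure_thm
    (hcop : ∀ p : ℕ, p.Prime → p ∣ Nat.card H → ¬ p ∣ H.relIndex (alternatingGroup Ω))
    (hn : 5 ≤ Fintype.card Ω) (h2 : ¬ 2 ∣ H.relIndex (alternatingGroup Ω))
    (h3 : ¬ 3 ∣ H.relIndex (alternatingGroup Ω)) :
    alternatingGroup Ω ≤ H ∨
    ((Fintype.card Ω).Prime ∧
      (∀ p : ℕ, p.Prime → p < Fintype.card Ω → ¬ p ∣ H.relIndex (alternatingGroup Ω)) ∧
      ∃ B : Finset Ω, B.card + 1 = Fintype.card Ω ∧ H ≤ setStab B) ∨
    (Fintype.card Ω = 7 ∧ ∃ B : Finset Ω, B.card = 4 ∧ H ≤ setStab B) ∨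
    (Fintype.card Ω = 8 ∧ ∃ B : Finset Ω, B.card = 4 ∧ H ≤ pairStab B) := by
  have hF := card_single_le h3
  have big : ∀ D : Finset Ω, 3 ≤ D.card → ∃ x ∈ D, (cls H x).card ≠ 1 := by
    intro D hD
    by_contra hc
    push Not at hc
    have := Finset.card_le_card (show D ⊆ Finset.univ.filter fun x => (cls H x).card = 1 from
      fun x hx => by simp [hc x hx])
    omega
  have hK : ¬ 2 ∣ (relStab H).relIndex ⊤ := by
    obtain ⟨x, -, hx⟩ := big Finset.univ (by rw [Finset.card_univ]; omega)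
    obtain ⟨a, ha, -, -, -, hax, -⟩ := exists_two_ne (cls_spec hx).1 x
    rw [relIndex_top_right]
    exact fun h => h2 (h.trans (index_dvd_relIndex le_relStab hax
      (swap_mem_relStab (mem_cls.1 ha).symm)))
  obtain ⟨e, he1, he2⟩ : ∃ e, 2 ^ e ≤ Fintype.card Ω ∧ Fintype.card Ω < 2 * 2 ^ e :=
    ⟨Nat.log 2 (Fintype.card Ω), Nat.pow_log_le_self 2 (by omega),
      by rw [← pow_succ']; exact Nat.lt_pow_succ_log_self (by norm_num) _⟩
  obtain ⟨T, -, hT⟩ := Finset.exists_subset_card_eq (s := Finset.univ (α := Ω)) (n := 2 ^ e)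
    (by rwa [Finset.card_univ])
  obtain ⟨c0, hc0, hs0⟩ := exists_cycle_supp T (by omega)
  obtain ⟨g0, -, hd⟩ := conj_into_elt (k := e) Nat.prime_two hK (mem_top c0)
    (by rw [hc0.orderOf, hs0, hT])
  have hdc : (g0 * c0 * g0⁻¹).IsCycle := hc0.conj
  have hdcard : (g0 * c0 * g0⁻¹).support.card = 2 ^ e := by rw [card_support_conj, hs0, hT]
  generalize g0 * c0 * g0⁻¹ = d at hd hdc hdcard
  obtain ⟨x, hxd, hx⟩ := big d.support (by omega)
  obtain ⟨hs3, hBH⟩ := cls_spec hx
  have hsmall : ∀ p : ℕ, p.Prime → p ≤ (cls H x).card → ¬ p ∣ H.relIndex (alternatingGroup Ω) := by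
    intro p hp hle
    by_cases hp2 : p = 2
    · exact hp2 ▸ h2
    refine hcop p hp (dvd_trans ?_ (card_dvd_of_le hBH))
    have h4 : p ∣ 2 * Nat.card (altOn (cls H x)) := by
      rw [two_mul_card_altOn (by omega)]; exact (hp.dvd_factorial).2 hle
    exact ((hp.dvd_mul).1 h4).resolve_left
      fun h => hp2 ((Nat.prime_dvd_prime_iff_eq hp Nat.prime_two).1 h)
  obtain ⟨a, ha, -, -, -, hax, -⟩ := exists_two_ne hs3 x
  have hswB : swap a x ∈ setStab (cls H x) := swap_mem_setStab ha (self_mem_cls x)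
  have hfixB : ∀ g ∈ H, Rel H x (g x) → g ∈ setStab (cls H x) := fun g hg hr =>
    image_eq_of_maps (fun y hy => mem_cls.2 (hr.trans ((mem_cls.1 hy).map hg))) le_rfl
  by_cases hsub : d.support ⊆ cls H x
  · have hle := Finset.card_le_card hsub
    have hHB : H ≤ setStab (cls H x) := fun g hg => hfixB g hg <| by
      obtain ⟨y, hy⟩ := Finset.inter_nonempty_of_card_lt_card_add_card
        (Finset.subset_univ (cls H x)) (Finset.subset_univ (cls H (g x)))
        (by rw [card_cls_apply (le_relStab hg), Finset.card_univ]; omega)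
      rw [Finset.mem_inter, mem_cls, mem_cls] at hy
      exact hy.1.trans hy.2.symm
    rcases eq_or_lt_of_le (Finset.card_le_univ (cls H x)) with h | h
    · left
      rw [Finset.eq_univ_of_card _ h, altOn_univ] at hBH
      exact hBH
    right
    have h4 := index_dvd_relIndex hHB hax hswB
    obtain ⟨c, hc⟩ : ∃ c, Fintype.card Ω = (cls H x).card + c := ⟨_, (Nat.add_sub_cancel' h.le).symm⟩
    rw [index_setStab, hc, Nat.choose_symm_add] at h4
    rcases lemmaN (b := (cls H x).card) (c := c) (by omega) (by omega)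
      (fun p hp hle hd => hsmall p hp hle (hd.trans h4)) with ⟨h5, h6⟩ | ⟨h5, h6⟩
    · left
      refine ⟨by rwa [hc, h5], fun p hp hlt => hsmall p hp (by omega), _, by omega, hHB⟩
    · right; left
      exact ⟨by omega, _, h5, hHB⟩
  right; right; right
  obtain ⟨hall, hdvd⟩ := (cycle_cls hd hdc hxd).resolve_left hsub
  set O : Finset Ω := Finset.univ.filter fun y => (cls H y).card = (cls H x).card with hO
  have memO : ∀ y, y ∈ O ↔ (cls H y).card = (cls H x).card := fun y => by simp [hO]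
  have hHO : H ≤ setStab O := le_setStab fun g hg y hy => by
    rw [memO] at hy ⊢
    rwa [card_cls_apply (le_relStab hg)]
  have hOc : ∀ y ∈ O, cls H y ⊆ O := fun y hy z hz => by
    rw [memO] at hy ⊢
    rwa [← cls_eq (mem_cls.1 hz)]
  have hBO : cls H x ⊆ O := hOc x ((memO x).2 rfl)
  have hsO : (cls H x).card ∣ O.card := dvd_card_of_closed hOc fun y hy => (memO y).1 hy
  have hdO : d.support ⊆ O := fun y hy => (memO y).2 (hall y hy)
  have hlt : (cls H x).card < O.card := Finset.card_lt_card ⟨hBO, fun h => hsub (hdO.trans h)⟩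
  obtain ⟨f, hf1, hf2⟩ : ∃ f, 3 ^ f ≤ O.card ∧ O.card < 3 * 3 ^ f :=
    ⟨Nat.log 3 O.card, Nat.pow_log_le_self 3 (by omega),
      by rw [← pow_succ']; exact Nat.lt_pow_succ_log_self (by norm_num) _⟩
  have hf0 : 1 ≤ f := by
    rcases Nat.eq_zero_or_pos f with rfl | h
    · omega
    · exact h
  obtain ⟨d', hd'H, hd'c, hd's, hd'card⟩ := exists_cycle_mem hHO Nat.prime_three (by norm_num) hf0
    h3 hf1
  obtain ⟨x', hx'⟩ := hd'c.nonempty_support
  have hx'O := (memO x').1 (hd's hx')
  have h3s : 3 ^ f ≤ (cls H x).card := by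
    rcases cycle_cls (le_relStab hd'H) hd'c hx' with h | ⟨-, h⟩
    · rw [← hd'card, ← hx'O]; exact Finset.card_le_card h
    · rw [hx'O, hd'card] at h
      rw [hdcard] at hdvd
      have := Nat.eq_one_of_dvd_coprimes (Nat.Coprime.pow e f (by norm_num : Nat.Coprime 2 3))
        hdvd h
      omega
  have hO2 : O.card = (cls H x).card + (cls H x).card := by
    obtain ⟨m, hm⟩ := hsO
    have h4 : (cls H x).card * 1 < (cls H x).card * m := by omega
    have h5 : (cls H x).card * m < (cls H x).card * 3 := by omega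
    have h6 := Nat.lt_of_mul_lt_mul_left h4
    have h7 := Nat.lt_of_mul_lt_mul_left h5
    obtain rfl : m = 2 := by omega
    omega
  have hC : (O \ cls H x).card = (cls H x).card := by
    rw [Finset.card_sdiff_of_subset hBO]; omega
  have hswap : ∀ g ∈ H, g ∉ setStab (cls H x) → ∀ y ∈ O, (g y ∈ cls H x ↔ y ∉ cls H x) := by
    intro g hg hn y hy
    have hr : ¬ Rel H x (g x) := fun h => hn (hfixB g hg h)
    have h4 := image_eq_of_maps (g := g) (B := cls H x) (C := O \ cls H x)
      (fun z hz => Finset.mem_sdiff.2 ⟨(hHO hg z).2 (hBO hz),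
        fun h => hr ((mem_cls.1 h).trans ((mem_cls.1 hz).map hg).symm)⟩) hC.le y
    rw [← h4, Finset.mem_sdiff]
    have := (hHO hg y).2 hy
    tauto
  have hidx : (H ⊓ setStab (cls H x)).relIndex (alternatingGroup Ω) ∣
      2 * H.relIndex (alternatingGroup Ω) := by
    rw [← inf_relIndex_right (H ⊓ setStab (cls H x)), ← inf_relIndex_right H,
      ← relIndex_mul_relIndex (H ⊓ setStab (cls H x) ⊓ alternatingGroup Ω)
        (H ⊓ alternatingGroup Ω) _ (inf_le_inf_right _ inf_le_left) inf_le_right]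
    refine Nat.mul_dvd_mul_right ?_ _
    rw [relIndex_dvd_two_iff]
    by_cases h : ∃ a ∈ H ⊓ alternatingGroup Ω, a ∉ setStab (cls H x)
    · obtain ⟨a, ha, ha'⟩ := h
      refine ⟨a, ha, fun b hb => ?_⟩
      by_cases hb' : b ∈ setStab (cls H x)
      · exact Or.inr ⟨⟨hb.1, hb'⟩, hb.2⟩
      · refine Or.inl ⟨⟨H.mul_mem hb.1 ha.1, image_eq_of_maps (fun y hy => ?_) le_rfl⟩,
          mul_mem hb.2 ha.2⟩
        rw [Perm.mul_apply, hswap b hb.1 hb' _ ((hHO ha.1 y).2 (hBO hy)),
          hswap a ha.1 ha' y (hBO hy)]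
        exact not_not.2 hy
    · push Not at h
      exact ⟨1, one_mem _, fun b hb => Or.inr ⟨⟨hb.1, h b hb⟩, hb.2⟩⟩
  have hsw2 : swap a x ∈ setStab (O \ cls H x) := fun y => by
    have := swap_mem_setStab (hBO ha) (hBO (self_mem_cls x))
    rw [Finset.mem_sdiff, Finset.mem_sdiff, this y, hswB y]
  have h4 := (index_dvd_relIndex (H := H ⊓ setStab (cls H x))
    (K := setStab (cls H x) ⊓ setStab (O \ cls H x)) (fun g hg => ⟨hg.2, fun y => by
      rw [Finset.mem_sdiff, Finset.mem_sdiff, hHO hg.1 y, hg.2 y]⟩) hax ⟨hswB, hsw2⟩).trans hidx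
  rw [index_setStab_inf Finset.disjoint_sdiff, hC] at h4
  obtain ⟨m, hm⟩ : ∃ m, (cls H x).card = m + 1 := ⟨_, (Nat.sub_add_cancel (by omega)).symm⟩
  have h5 : (m + 1 + m).choose m ∣ H.relIndex (alternatingGroup Ω) := by
    have h6 := (Dvd.intro_left _ rfl).trans h4
    rw [hm, show m + 1 + (m + 1) = (2 * m + 1) + 1 by ring, Nat.choose_succ_succ,
      Nat.succ_eq_add_one, Nat.choose_symm_half, ← two_mul] at h6
    rw [show m + 1 + m = 2 * m + 1 by ring]
    exact Nat.dvd_of_mul_dvd_mul_left two_pos h6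
  have hs4 : (cls H x).card = 4 := by
    rcases lemmaN (b := m + 1) (c := m) (by omega) (by omega)
      (fun p hp hle hd => hsmall p hp (by omega) (hd.trans h5)) with ⟨h6, -⟩ | ⟨h6, -⟩ <;> omega
  have h6 := index_dvd_relIndex hHO hax (swap_mem_setStab (hBO ha) (hBO (self_mem_cls x)))
  rw [index_setStab, hO2, hs4] at h6
  have h7 := Finset.card_le_card hdO
  have h8 := Finset.card_le_univ O
  have hn8 : Fintype.card Ω = 8 := by
    have h9 : ¬ 3 ∣ (Fintype.card Ω).choose (4 + 4) := fun h => h3 (h.trans h6)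
    have h10 : Fintype.card Ω < 16 := by omega
    have h11 : 8 ≤ Fintype.card Ω := by omega
    generalize Fintype.card Ω = n at h9 h10 h11
    interval_cases n
    · rfl
    all_goals exact absurd (by decide) h9
  have hOu : O = Finset.univ := Finset.eq_univ_of_card _ (by omega)
  refine ⟨hn8, _, hs4, fun g hg => ?_⟩
  by_cases h : g ∈ setStab (cls H x)
  · exact Or.inl h
  · exact Or.inr fun y => hswap g hg h y (hOu ▸ Finset.mem_univ y)

end Cfsg.Agent.H98.HallS
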