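import Cfsg.Agent.H99.HNDefs
import Cfsg.Agent.H49.XS
import Cfsg.Agent.H67.Conj
import Cfsg.Agent.H3.Cores

/-!
# Project HN3, piece HSA, part 1: matrices over the field with four elements and the group `E`
-/

set_option autoImplicit false
set_option linter.dupNamespace false
set_option linter.unusedSectionVars false

namespace Cfsg.Agent.H98.HN

open Cfsg Subgroup Equiv Cfsg.Agent.H99.HN
open Cfsg.Agent.H4.J2S (F4)
open scoped Pointwise

universe u

/-! ### Matrices -/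

/-- representatives of the five lines of nilpotent matrices -/
def rep : Fin 5 → M4
  | 0 => ⟨0, 1, 0, 0⟩
  | 1 => ⟨0, 0, 1, 0⟩
  | 2 => ⟨.w, 1, .v, .w⟩
  | 3 => ⟨1, 1, 1, 1⟩
  | 4 => ⟨.v, 1, .w, .v⟩

/-- the line of a nilpotent matrix -/
def lin (X : M4) : Fin 5 :=
  if X.b = 0 then 1 else if X.a = 0 then 0 else if X.a = X.b then 3
  else if X.a = F4.w * X.b then 2 else 4

/-- nonzero nilpotent matrices -/
def Nil (X : M4) : Prop := X.tr = 0 ∧ X.det = 0 ∧ X ≠ 0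

instance (X : M4) : Decidable (Nil X) := inferInstanceAs (Decidable (_ ∧ _))

/-- a matrix of order five -/
def m5 : M4 := ⟨0, 1, 1, .w⟩

theorem f_adj : ∀ A : M4, A.det = 1 → ∀ B : M4, ∀ b, A * M4.tw b 1 * B = 1 → B = A.adj := by
  decide +kernel

theorem f_adj' : ∀ A : M4, A.det = 1 → A.adj.det = 1 ∧ ∀ b, A * M4.tw b 1 * A.adj = 1 := by
  decide +kernel

theorem f_nil : ∀ A : M4, A.det = 1 → ∀ Y : M4, Nil Y → ∀ b, Nil (A * M4.tw b Y * A.adj) ∧
    lin (A * M4.tw b Y * A.adj) = lin (A * M4.tw b (rep (lin Y)) * A.adj) := by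
  decide +kernel

theorem f_ker : ∀ A : M4, A.det = 1 → ∀ b, (∀ i, lin (A * M4.tw b (rep i) * A.adj) = i) →
    A = 1 ∧ A.adj = 1 ∧ b = false := by
  decide +kernel

theorem f_rep : ∀ i, Nil (rep i) ∧ lin (rep i) = i := by decide +kernel

theorem f_m5 : m5.det = 1 ∧ ∀ i, lin (m5 * M4.tw false (rep i) * m5.adj) = finRotate 5 i := by
  decide +kernel

theorem f_sw : (1 : M4).det = 1 ∧ (1 : M4).adj = 1 ∧
    ∀ i, lin (1 * M4.tw true (rep i) * (1 : M4).adj) = swap (2 : Fin 5) 4 i := by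
  decide +kernel

theorem f_q : ∀ X : M4, X.q = 0 ∨ X.q = 1 := by decide +kernel

theorem f_zero : ∀ X : M4, 0 + X = X ∧ X + 0 = X ∧ X + X = 0 := by decide +kernel

/-- the scalar matrix `ω` -/
def om : M4 := ⟨.w, 0, 0, .w⟩

theorem f_tr : ∀ X : M4, X.tr = 0 → (X + 1).q = X.q + (1 : M4).q ∧ (om + X).q = om.q + X.q ∧
    (X + ⟨0, X.b, X.c, 0⟩ = 0 ∨ X + ⟨0, X.b, X.c, 0⟩ + 1 = 0 ∨ X + ⟨0, X.b, X.c, 0⟩ + om = 0 ∨
      X + ⟨0, X.b, X.c, 0⟩ + om + 1 = 0) := by
  decide +kernel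

theorem f_ad : ∀ X : M4, X.a = 0 → X.d = 0 → X.tr = 0 ∧ X ≠ 1 ∧
    ((∀ b c : F4, (X + ⟨0, b, c, 0⟩).q = X.q + (⟨0, b, c, 0⟩ : M4).q) → X = 0) := by
  decide +kernel

theorem f_can : ∀ a b c : F4, a ≠ 0 → a * b = a * c → b = c := by decide

/-! ### The group `E` -/

variable {G : Type u} [Group G] [Finite G] {U : HB G} {π : G → M4} {M : Subgroup G}

theorem u_ne (U : HB G) : U.u ≠ 1 := fun h => by
  have : u0 = 1 := U.inj (h.trans (map_one _).symm)
  revert this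
  decide +kernel

theorem u_Ep0 : u0 ∈ Ep0 :=
  mul_mem (subset_closure (by simp)) (subset_closure (by simp))

theorem u_Ep (U : HB G) : U.u ∈ U.Ep := ⟨u0, u_Ep0, rfl⟩

theorem af_le : Af0 ≤ Ep0 := by
  refine (closure_le _).2 ?_
  rintro x (rfl | rfl | rfl)
  · exact u_Ep0
  · exact subset_closure (by simp)
  · exact subset_closure (by simp)

theorem vp_le : Vp0 ≤ Ep0 := by
  refine closure_mono ?_
  rintro x (rfl | rfl) <;> simp

section all
variable (h : U.All π M)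
include h

theorem v3_le : V30.map U.ψ ≤ U.E := by
  rw [← h.ef.dV]
  refine le_trans ?_ le_sup_right
  exact pointwise_smul_le_pointwise_smul_iff.2 (map_mono vp_le)

theorem t_E : U.t ∈ U.E := v3_le h ⟨t0, subset_closure (by simp), rfl⟩

theorem s_E : U.s ∈ U.E := v3_le h ⟨s0, subset_closure (by simp), rfl⟩

theorem pi_u : π U.u = 0 := (h.md.ker _ h.ef.uE).2 (mem_zpowers _)

theorem uu : U.u * U.u = 1 := (h.md.sq _ h.ef.uE).2 (by rw [pi_u h]; decide)

theorem tt : U.t * U.t = 1 := (h.md.sq _ (t_E h)).2 (by rw [h.md.πt]; decide)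

theorem u_ne_t : U.u ≠ U.t := fun e => h.cl.nc (e ▸ IsConj.refl _)

theorem zu {x : G} : x ∈ zpowers U.u ↔ x = 1 ∨ x = U.u := H49.mem_zpowers_invol (uu h)

theorem zt {x : G} : x ∈ zpowers U.t ↔ x = 1 ∨ x = U.t := H49.mem_zpowers_invol (tt h)

theorem L_u {g : G} (hg : g ∈ U.L) : g * U.u = U.u * g := mem_centralizer_singleton_iff.1 hg.1

theorem L_E {g e : G} (hg : g ∈ U.L) (he : e ∈ U.E) : g * e * g⁻¹ ∈ U.E :=
  (mem_normalizer_iff.1 hg.2 e).1 he

theorem E_u {e : G} (he : e ∈ U.E) : e * U.u = U.u * e := L_u h (h.ef.EL he)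

theorem sq_cases {a : G} (ha : a ∈ U.E) :
    (a * a = 1 ∧ (π a).q = 0) ∨ (a * a = U.u ∧ (π a).q = 1) := by
  rcases (zu h).1 (h.ef.sq a ha) with e | e
  · exact Or.inl ⟨e, (h.md.sq a ha).1 e⟩
  · refine Or.inr ⟨e, (f_q _).resolve_left fun e' => u_ne U ?_⟩
    rw [← e, (h.md.sq a ha).2 e']

theorem comm_cases {a b : G} (ha : a ∈ U.E) (hb : b ∈ U.E) :
    a * b = b * a ∨ a * b = U.u * (b * a) := by
  rcases (zu h).1 (h.ef.com a ha b hb) with e | e
  · left
    rw [← one_mul (b * a), ← e]; group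
  · right
    rw [← e]; group

/-- commuting is decided by the quadratic form -/
theorem comm_iff {a b : G} (ha : a ∈ U.E) (hb : b ∈ U.E) :
    a * b = b * a ↔ (π a + π b).q = (π a).q + (π b).q := by
  have hu := u_ne U
  have h2 := uu h
  rw [← h.md.add a ha b hb]
  rcases comm_cases h ha hb with e | e
  · refine iff_of_true e ?_
    have e1 : a * b * (a * b) = a * a * (b * b) := by
      rw [mul_assoc a b, ← mul_assoc b a b, ← e]; group
    rcases sq_cases h ha with ⟨a1, a2⟩ | ⟨a1, a2⟩ <;> rcases sq_cases h hb with ⟨b1, b2⟩ | ⟨b1, b2⟩ <;>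
      rcases sq_cases h (mul_mem ha hb) with ⟨c1, c2⟩ | ⟨c1, c2⟩ <;>
      rw [a2, b2, c2] <;> rw [c1, a1, b1] at e1 <;>
      first | decide | (exfalso; simp [h2, hu, hu.symm] at e1)
  · refine iff_of_false (fun e' => hu ?_) ?_
    · rw [← e'] at e
      simpa using e
    have e1 : a * b * (a * b) = U.u * (a * a * (b * b)) := by
      have e2 : b * a = U.u * (a * b) := by rw [e, ← mul_assoc, h2, one_mul]
      rw [mul_assoc a b, ← mul_assoc b a b, e2, ← mul_assoc, ← mul_assoc, E_u h ha]; group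
    rcases sq_cases h ha with ⟨a1, a2⟩ | ⟨a1, a2⟩ <;> rcases sq_cases h hb with ⟨b1, b2⟩ | ⟨b1, b2⟩ <;>
      rcases sq_cases h (mul_mem ha hb) with ⟨c1, c2⟩ | ⟨c1, c2⟩ <;>
      rw [a2, b2, c2] <;> rw [c1, a1, b1] at e1 <;>
      first | decide | (exfalso; simp [h2, hu, hu.symm] at e1)

theorem pi_conj {e y : G} (he : e ∈ U.E) (hy : y ∈ U.E) : π (e * y * e⁻¹) = π y := by
  have hc := h.ef.com e he y hy
  have hcE : e * y * e⁻¹ * y⁻¹ ∈ U.E := (zpowers_le.2 h.ef.uE) hc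
  have : e * y * e⁻¹ = e * y * e⁻¹ * y⁻¹ * y := by group
  rw [this, h.md.add _ hcE y hy, (h.md.ker _ hcE).2 hc, (f_zero _).1]

theorem act_mul {e g : G} {A B : M4} {b : Bool} (he : e ∈ U.E) (hg : g ∈ U.L)
    (ha : U.Act π g A B b) : U.Act π (e * g) A B b := fun y hy => by
  rw [← ha y hy, ← pi_conj h he (L_E h hg hy)]
  congr 1; group

/-- the elements of `E` in `M` -/
theorem mem_M {e : G} (he : e ∈ U.E) : e ∈ M ↔ (π e).tr = 0 := by
  constructor
  · exact fun hm => (h.k0.RM e he (mem_centralizer_singleton_iff.1 (h.k0.le hm))).1 hm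
  · intro ht
    refine (h.k0.RM e he ((comm_iff h he (t_E h)).2 ?_)).2 ht
    rw [h.md.πt]; exact (f_tr _ ht).1

theorem Ep_M : U.Ep ≤ M := fun e he =>
  (mem_M h (mem_sup_left he)).2 (f_ad _ (h.md.πp e he).1 (h.md.πp e he).2).1

theorem t_not_Ep : U.t ∉ U.Ep := fun ht =>
  (f_ad _ (h.md.πp _ ht).1 (h.md.πp _ ht).2).2.1 h.md.πt

/-- `E₊` covers the antidiagonal matrices -/
theorem Ep_sur (b c : F4) : ∃ e ∈ U.Ep, π e = ⟨0, b, c, 0⟩ := by
  obtain ⟨A, -, -, -, hA⟩ := h.md.ad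
  have key : ∀ X : M4, ∃ e ∈ U.Ep, A.b * (π e).c = X.a ∧ A.c * (π e).b = X.d := by
    intro X
    obtain ⟨x, hx, rfl⟩ := h.md.sur X
    obtain ⟨a, ha, b, hb, rfl⟩ := h.ef.dec x hx
    obtain ⟨e, he, rfl⟩ := hb
    refine ⟨e, he, ?_⟩
    have h1 : π (MulAut.conj U.d • e) = A * M4.tw false (π e) * 1 := hA e (mem_sup_left he)
    have h2 := h.md.add a (mem_sup_left ha) (MulAut.conj U.d • e)
      (mem_sup_right (smul_mem_pointwise_smul _ _ _ he))
    change A.b * (π e).c = (π (a * MulAut.conj U.d • e)).a ∧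
      A.c * (π e).b = (π (a * MulAut.conj U.d • e)).d
    rw [h2, h1]
    obtain ⟨a1, a2⟩ := h.md.πp a ha
    obtain ⟨e1, e2⟩ := h.md.πp e he
    constructor
    · change _ = (π a).a + ((A.a * (π e).a + A.b * (π e).c) * 1 + (A.a * (π e).b + A.b * (π e).d) * 0)
      rw [a1, e1]; ring
    · change _ = (π a).d + ((A.c * (π e).a + A.d * (π e).c) * 0 + (A.c * (π e).b + A.d * (π e).d) * 1)
      rw [a2, e2]; ring
  obtain ⟨e0, -, k1, k2⟩ := key 1
  have hb : A.b ≠ 0 := fun e => by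
    rw [e, zero_mul] at k1
    revert k1; decide
  have hc : A.c ≠ 0 := fun e => by
    rw [e, zero_mul] at k2
    revert k2; decide
  obtain ⟨e, he, k3, k4⟩ := key ⟨A.b * c, 0, 0, A.c * b⟩
  exact ⟨e, he, M4.ext (h.md.πp e he).1 (f_can _ _ _ hc k4) (f_can _ _ _ hb k3) (h.md.πp e he).2⟩

theorem card_Ep : Nat.card U.Ep = 32 := by
  have h1 : U.Em ≤ normalizer (U.Ep : Set G) := fun b hb =>
    centralizer_le_normalizer _ (mem_centralizer_iff.2 fun a ha => h.ef.cm a ha b hb)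
  have h2 := H67.card_sup_mul_card_inf' h1
  have h3 : U.Ep ⊓ U.Em = zpowers U.u := by
    refine le_antisymm (fun a ha => h.ef.inf a ha.1 ha.2) (zpowers_le.2 ⟨u_Ep U, ?_⟩)
    have := smul_mem_pointwise_smul U.u (MulAut.conj U.d) _ (u_Ep U)
    rwa [MulAut.smul_def, MulAut.conj_apply, L_u h h.ef.nd, mul_inv_cancel_right] at this
  have h4 : Nat.card U.Em = Nat.card U.Ep := (Nat.card_congr (equivSMul _ _).toEquiv).symm
  have h5 : orderOf U.u = 2 := orderOf_eq_prime (by rw [pow_two, uu h]) (u_ne U)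
  have h6 : Nat.card (U.Ep ⊔ U.Em : Subgroup G) = 512 := h.ef.card
  rw [h3, h4, Nat.card_zpowers, h5, h6] at h2
  exact Nat.mul_self_inj.1 h2.symm

/-- the action of an element centralizing `t` and `u` -/
theorem ex_act {g : G} (hu : g * U.u = U.u * g) (ht : g * U.t = U.t * g) :
    ∃ A b, M4.det A = 1 ∧ U.Act π g A A.adj b := by
  obtain ⟨A, B, b, hA, -, ha⟩ := h.ls.all g (h.kl g hu)
  have h1 := ha _ (t_E h)
  rw [ht, mul_inv_cancel_right, h.md.πt] at h1
  exact ⟨A, b, hA, f_adj A hA B b h1.symm ▸ ha⟩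

/-- every action fixing the identity matrix is induced by an element of `M` -/
theorem ex_M {g : G} {A : M4} {b : Bool} (hg : g ∈ U.L) (hA : A.det = 1)
    (ha : U.Act π g A A.adj b) : ∃ m ∈ M, m ∈ U.L ∧ U.Act π m A A.adj b := by
  have tE := t_E h
  obtain ⟨g, hg, ha, ht⟩ : ∃ g ∈ U.L, U.Act π g A A.adj b ∧ g * U.t = U.t * g := by
    have h1 : π (g * U.t * g⁻¹ * U.t) = 0 := by
      rw [h.md.add _ (L_E h hg tE) _ tE, ha _ tE, h.md.πt, (f_adj' A hA).2 b]; decide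
    rcases (zu h).1 ((h.md.ker _ (mul_mem (L_E h hg tE) tE)).1 h1) with e | e
    · refine ⟨g, hg, ha, ?_⟩
      calc g * U.t = g * U.t * g⁻¹ * (U.t * U.t) * g := by rw [tt h]; group
        _ = U.t * g := by rw [← mul_assoc, e, one_mul]
    · obtain ⟨e0, he0, hp⟩ := h.md.sur ⟨.w, 0, 0, 0⟩
      have h2 : e0 * U.t = U.u * (U.t * e0) := by
        refine (comm_cases h he0 tE).resolve_left fun e' => ?_
        rw [comm_iff h he0 tE, hp, h.md.πt] at e'
        revert e'; decide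
      refine ⟨e0 * g, mul_mem (h.ef.EL he0) hg, act_mul h he0 hg ha, ?_⟩
      calc e0 * g * U.t = e0 * (g * U.t * g⁻¹ * (U.t * U.t)) * g := by rw [tt h]; group
        _ = e0 * U.u * U.t * g := by rw [← mul_assoc (g * U.t * g⁻¹), e]; group
        _ = U.u * (e0 * U.t) * g := by rw [E_u h he0]; group
        _ = U.u * U.u * U.t * (e0 * g) := by rw [h2]; group
        _ = U.t * (e0 * g) := by rw [uu h, one_mul]
  by_cases hm : g ∈ M
  · exact ⟨g, hm, hg, ha⟩
  · refine ⟨U.s * g, ?_, mul_mem (h.ef.EL (s_E h)) hg, act_mul h (s_E h) hg ha⟩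
    have hs : U.s ∈ centralizer {U.t} := mem_centralizer_singleton_iff.2
      ((comm_iff h (s_E h) tE).2 (by rw [h.md.πs, h.md.πt]; decide))
    have := mul_mem_iff_of_index_two (H := M.subgroupOf (centralizer {U.t})) h.k0.idx
      (a := ⟨U.s, hs⟩) (b := ⟨g, mem_centralizer_singleton_iff.2 ht⟩)
    exact this.2 (iff_of_false h.k0.sM hm)

theorem sig_L : U.σ ∈ U.L := h.ef.nA σ0 (by decide +kernel)

end all

end Cfsg.Agent.H98.HN
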