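import Cfsg.Agent.H98.HnA

/-!
# Project HN3, piece HSA, part 2: the involution centralizer in `M / ⟨t⟩`
-/

set_option autoImplicit false
set_option linter.dupNamespace false
set_option linter.unusedSectionVars false

namespace Cfsg.Agent.H98.HN

open Cfsg Subgroup Equiv Cfsg.Agent.H99.HN
open Cfsg.Agent.H4.J2S (F4)
open scoped Pointwise

universe u

theorem pCore_perm5 : pCore 2 (Perm (Fin 5)) = ⊥ := by
  have hP := H3.pCore_isPGroup 2 (Perm (Fin 5))
  have hN : (pCore 2 (Perm (Fin 5))).Normal := inferInstance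
  obtain ⟨b, hb⟩ := hP.nonempty_fixed_point_of_prime_not_dvd_card (Fin 5) (by simp)
  rw [eq_bot_iff]
  intro x hx
  rw [mem_bot]
  ext1 c
  have h1 : (swap b c * x * (swap b c)⁻¹) b = b := hb ⟨_, hN.conj_mem x hx (swap b c)⟩
  rw [swap_inv, Perm.mul_apply, Perm.mul_apply, swap_apply_left, swap_apply_eq_iff,
    swap_apply_left] at h1
  exact h1

theorem quot_of {A B C : Type*} [Group A] [Group B] [Group C] {f : A →* B}
    (hf : Function.Surjective f) {θ : A →* C} (hθ : Function.Surjective θ) (hk : f.ker ≤ θ.ker)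
    (h2 : IsPGroup 2 θ.ker) (hC : pCore 2 C = ⊥) :
    pCore 2 B = θ.ker.map f ∧ Nonempty (B ⧸ pCore 2 B ≃* C) := by
  let θ' : B →* C := f.liftOfSurjective hf ⟨θ, hk⟩
  have e : ∀ a, θ' (f a) = θ a := fun a => f.liftOfRightInverse_comp_apply _ _ ⟨θ, hk⟩ a
  have hs : Function.Surjective θ' := fun c => by
    obtain ⟨a, rfl⟩ := hθ c
    exact ⟨f a, e a⟩
  have h1 : θ'.ker = θ.ker.map f := by
    ext b
    obtain ⟨a, rfl⟩ := hf b
    rw [MonoidHom.mem_ker, e]
    refine ⟨fun h => ⟨a, h, rfl⟩, ?_⟩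
    rintro ⟨a', ha', h⟩
    rw [← e, ← h, e]; exact ha'
  have h3 : θ'.ker = pCore 2 B := by
    rw [← H3.comap_pCore_eq hs (h1 ▸ h2.map f), hC]; rfl
  exact ⟨h3.symm.trans h1, ⟨(QuotientGroup.quotientMulEquivOfEq h3.symm).trans
    (QuotientGroup.quotientKerEquivOfSurjective θ' hs)⟩⟩

variable {G : Type u} [Group G] [Finite G] {U : HB G} {π : G → M4} {M : Subgroup G}
  {X : Type u} [Group X] {p : M →* X}

theorem mem_im {K : Subgroup G} {y : X} : y ∈ HB.im p K ↔ ∃ m : M, (m : G) ∈ K ∧ p m = y :=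
  Iff.rfl

section all
variable (h : U.All π M)
include h

/-- a section of `π` -/
noncomputable def sec (Y : M4) : G := (h.md.sur Y).choose

theorem sec_E (Y : M4) : sec h Y ∈ U.E := (h.md.sur Y).choose_spec.1

theorem pi_sec (Y : M4) : π (sec h Y) = Y := (h.md.sur Y).choose_spec.2

/-- the action on the five lines -/
noncomputable def th0 (g : G) (i : Fin 5) : Fin 5 := lin (π (g * sec h (rep i) * g⁻¹))

theorem th0_eq {g : G} {A B : M4} {b : Bool} (ha : U.Act π g A B b) (i : Fin 5) :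
    th0 h g i = lin (A * M4.tw b (rep i) * B) := by
  rw [th0, ha _ (sec_E h _), pi_sec h]

theorem th0_mul {g k : G} (gu : g * U.u = U.u * g) (gt : g * U.t = U.t * g)
    (ku : k * U.u = U.u * k) (kt : k * U.t = U.t * k) (i : Fin 5) :
    th0 h (g * k) i = th0 h g (th0 h k i) := by
  obtain ⟨A, b, hA, ha⟩ := ex_act h gu gt
  obtain ⟨A', b', hA', ha'⟩ := ex_act h ku kt
  have e : g * k * sec h (rep i) * (g * k)⁻¹ = g * (k * sec h (rep i) * k⁻¹) * g⁻¹ := by group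
  rw [th0_eq h ha, th0_eq h ha', th0, e, ha _ (L_E h (h.kl k ku) (sec_E h _)),
    ha' _ (sec_E h _), pi_sec h]
  exact (f_nil A hA _ (f_nil A' hA' _ (f_rep i).1 b').1 b).2

theorem th0_E {g : G} (hg : g ∈ U.E) (i : Fin 5) : th0 h g i = i := by
  rw [th0, pi_conj h hg (sec_E h _), pi_sec h, (f_rep i).2]

theorem E_of_th0 {g : G} (gu : g * U.u = U.u * g) (gt : g * U.t = U.t * g)
    (e : ∀ i, th0 h g i = i) : g ∈ U.E := by
  obtain ⟨A, b, hA, ha⟩ := ex_act h gu gt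
  obtain ⟨h1, h2, h3⟩ := f_ker A hA b fun i => (th0_eq h ha i).symm.trans (e i)
  rw [h2, h1, h3] at ha
  exact h.ls.ker g (h.kl g gu) ha

theorem M_t (m : M) : (m : G) * U.t = U.t * m := mem_centralizer_singleton_iff.1 (h.k0.le m.2)

variable (hp : U.Pj p)
include hp

theorem p_one {m : M} : p m = 1 ↔ (m : G) = 1 ∨ (m : G) = U.t := (hp.2 m).trans (zt h)

theorem p_t : p ⟨U.t, h.k0.tM⟩ = 1 := (p_one h hp).2 (Or.inr rfl)

theorem p_comm {a b : M} : p a * p b = p b * p a ↔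
    (a : G) * b * (a : G)⁻¹ * (b : G)⁻¹ = 1 ∨ (a : G) * b * (a : G)⁻¹ * (b : G)⁻¹ = U.t := by
  rw [← commutatorElement_eq_one_iff_mul_comm, ← map_commutatorElement, p_one h hp]
  rfl

/-- the centralizer of the image of `u` -/
theorem cen_u (hu : U.u ∈ M) {m : M} :
    p m * p ⟨U.u, hu⟩ = p ⟨U.u, hu⟩ * p m ↔ (m : G) * U.u = U.u * m := by
  constructor
  · intro e
    rcases (p_comm h hp).1 e with e | e
    · exact commutatorElement_eq_one_iff_mul_comm.1 e
    · exfalso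
      have h1 : IsConj U.u (U.t * U.u) := isConj_iff.2 ⟨m, by rw [← e]; simp⟩
      have h2 : IsConj U.t (U.t * U.u) := h.ls.cls1 _ (mul_mem (t_E h) h.ef.uE)
        (by rw [h.md.add _ (t_E h) _ h.ef.uE, h.md.πt, pi_u h]; decide)
      exact h.cl.nc (h2.trans h1.symm)
  · intro e
    rw [← map_mul, ← map_mul]
    exact congrArg p (Subtype.ext e)

theorem p_comm_E {a b : M} (ha : (a : G) ∈ U.E) (hb : (b : G) ∈ U.E) :
    p a * p b = p b * p a ↔ (a : G) * b = b * a := by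
  constructor
  · intro e
    refine commutatorElement_eq_one_iff_mul_comm.1 ?_
    rcases (p_comm h hp).1 e with e | e
    · exact e
    · rcases (zu h).1 (h.ef.com a ha b hb) with e' | e'
      · exact e'
      · exact (u_ne_t h (e'.symm.trans e)).elim
  · intro e
    rw [← map_mul, ← map_mul]
    exact congrArg p (Subtype.ext e)

theorem x_ne (hu : U.u ∈ M) : p ⟨U.u, hu⟩ ≠ 1 := fun e => by
  rcases (p_one h hp).1 e with e | e
  · exact u_ne U e
  · exact u_ne_t h e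

theorem xx (hu : U.u ∈ M) : p ⟨U.u, hu⟩ * p ⟨U.u, hu⟩ = 1 := by
  rw [← map_mul, ← map_one p]
  exact congrArg p (Subtype.ext (uu h))

/-- the homomorphism to the symmetric group of degree five -/
noncomputable def th (hu : U.u ∈ M) :
    (centralizer ({p ⟨U.u, hu⟩} : Set X)).comap p →* Perm (Fin 5) :=
  MonoidHom.toHomPerm
    { toFun := fun m => th0 h ((m : M) : G)
      map_one' := funext fun i => th0_E h (one_mem _) i
      map_mul' := fun a b => funext fun i =>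
        th0_mul h ((cen_u h hp hu).1 (mem_centralizer_singleton_iff.1 a.2)) (M_t h a)
          ((cen_u h hp hu).1 (mem_centralizer_singleton_iff.1 b.2)) (M_t h b) i }

theorem th_apply (hu : U.u ∈ M) (m : (centralizer ({p ⟨U.u, hu⟩} : Set X)).comap p) (i : Fin 5) :
    th h hp hu m i = th0 h ((m : M) : G) i := rfl

theorem th_ker (hu : U.u ∈ M) (m : (centralizer ({p ⟨U.u, hu⟩} : Set X)).comap p) :
    m ∈ (th h hp hu).ker ↔ ((m : M) : G) ∈ U.E := by
  rw [MonoidHom.mem_ker]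
  constructor
  · intro e
    refine E_of_th0 h ((cen_u h hp hu).1 (mem_centralizer_singleton_iff.1 m.2)) (M_t h m)
      fun i => ?_
    rw [← th_apply h hp hu, e]; rfl
  · intro e
    ext1 i
    exact th0_E h e i

theorem th_range (hu : U.u ∈ M) {g : G} {A : M4} {b : Bool} (hg : g ∈ U.L) (hA : A.det = 1)
    (ha : U.Act π g A A.adj b) {τ : Perm (Fin 5)}
    (e : ∀ i, lin (A * M4.tw b (rep i) * A.adj) = τ i) : τ ∈ (th h hp hu).range := by
  obtain ⟨m, hm, hL, ha⟩ := ex_M h hg hA ha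
  refine ⟨⟨⟨m, hm⟩, mem_centralizer_singleton_iff.2 ((cen_u h hp hu).2 (L_u h hL))⟩, ?_⟩
  ext1 i
  exact (th0_eq h ha i).trans (e i)

theorem th_surj (hu : U.u ∈ M) : Function.Surjective (th h hp hu) := by
  rw [← MonoidHom.range_eq_top, eq_top_iff, ← Perm.closure_prime_cycle_swap
    (σ := finRotate 5) (τ := swap (2 : Fin 5) 4) (by decide) isCycle_finRotate support_finRotate
    ⟨2, 4, by decide, rfl⟩, closure_le]
  rintro τ (rfl | rfl)
  · obtain ⟨g, hg, ha⟩ := h.md.ex m5 m5.adj f_m5.1 (f_adj' _ f_m5.1).1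
    exact th_range h hp hu hg f_m5.1 ha f_m5.2
  · exact th_range h hp hu (sig_L h) f_sw.1 (f_sw.2.1.symm ▸ h.md.aσ) f_sw.2.2

theorem core (hu : U.u ∈ M) :
    HB.im p U.E = (pCore 2 (centralizer ({p ⟨U.u, hu⟩} : Set X))).map
      (centralizer ({p ⟨U.u, hu⟩} : Set X)).subtype ∧
    Nonempty (centralizer ({p ⟨U.u, hu⟩} : Set X) ⧸
      pCore 2 (centralizer ({p ⟨U.u, hu⟩} : Set X)) ≃* Perm (Fin 5)) := by
  obtain ⟨h1, h2⟩ := quot_of (f := p.subgroupComap (centralizer ({p ⟨U.u, hu⟩} : Set X)))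
    (p.subgroupComap_surjective_of_surjective _ hp.1) (th_surj h hp hu)
    (fun m hm => by
      rw [th_ker]
      rcases (p_one h hp).1 (congrArg Subtype.val hm) with e | e <;> rw [e]
      · exact one_mem _
      · exact t_E h)
    (fun m => ⟨2, by
      have hm := (th_ker h hp hu _).1 m.2
      refine Subtype.ext (Subtype.ext (Subtype.ext ?_))
      change (((m : (centralizer ({p ⟨U.u, hu⟩} : Set X)).comap p) : M) : G) ^ 2 ^ 2 = 1
      rw [show 2 ^ 2 = 2 * 2 from rfl, pow_mul, pow_two, pow_two]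
      rcases sq_cases h hm with ⟨e, -⟩ | ⟨e, -⟩ <;> rw [e]
      · exact one_mul _
      · exact uu h⟩) pCore_perm5
  refine ⟨?_, h2⟩
  rw [h1]
  ext y
  constructor
  · rintro ⟨m, hm, rfl⟩
    have hm' : (m : G) ∈ U.E := hm
    exact ⟨_, ⟨⟨m, mem_centralizer_singleton_iff.2 ((cen_u h hp hu).2 (E_u h hm'))⟩,
      (th_ker h hp hu _).2 hm', rfl⟩, rfl⟩
  · rintro ⟨_, ⟨m, hm, rfl⟩, rfl⟩
    exact ⟨m, (th_ker h hp hu _).1 hm, rfl⟩

theorem xs_Ep (hu : U.u ∈ M) : H49.XS (HB.im p U.Ep) (p ⟨U.u, hu⟩) where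
  mem := ⟨_, u_Ep U, rfl⟩
  ne := x_ne h hp hu
  zz := xx h hp hu
  cen := by
    rintro _ ⟨m, hm, rfl⟩
    exact (cen_u h hp hu).2 (E_u h (mem_sup_left hm))
  cent := by
    rintro _ ⟨m, hm, rfl⟩ hc
    have hm' : (m : G) ∈ U.Ep := hm
    have h0 : π m = 0 := by
      refine (f_ad _ (h.md.πp _ hm').1 (h.md.πp _ hm').2).2.2 fun b c => ?_
      obtain ⟨e, he, hpe⟩ := Ep_sur h b c
      rw [← hpe]
      exact (comm_iff h (mem_sup_left hm') (mem_sup_left he)).1
        ((p_comm_E h hp (b := ⟨e, Ep_M h he⟩) (mem_sup_left hm') (mem_sup_left he)).1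
          (hc _ ⟨⟨e, Ep_M h he⟩, he, rfl⟩))
    rcases (zu h).1 ((h.md.ker _ (mem_sup_left hm')).1 h0) with e | e
    · exact Or.inl ((p_one h hp).2 (Or.inl e))
    · exact Or.inr (congrArg p (Subtype.ext e))
  comm := by
    rintro _ ⟨a, ha, rfl⟩ _ ⟨b, hb, rfl⟩
    have ha' : (a : G) ∈ U.E := mem_sup_left ha
    have hb' : (b : G) ∈ U.E := mem_sup_left hb
    rw [← map_mul, ← map_mul, ← map_mul]
    rcases comm_cases h ha' hb' with e | e
    · exact Or.inl (congrArg p (Subtype.ext e))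
    · exact Or.inr (congrArg p (Subtype.ext (e.trans (E_u h (mul_mem hb' ha')).symm)))
  nonab := by
    obtain ⟨a, ha, pa⟩ := Ep_sur h 1 0
    obtain ⟨b, hb, pb⟩ := Ep_sur h 0 .w
    refine ⟨_, ⟨⟨a, Ep_M h ha⟩, ha, rfl⟩, _, ⟨⟨b, Ep_M h hb⟩, hb, rfl⟩, fun e => ?_⟩
    have := (comm_iff h (mem_sup_left ha) (mem_sup_left hb)).1
      ((p_comm_E h hp (a := ⟨a, Ep_M h ha⟩) (b := ⟨b, Ep_M h hb⟩) (mem_sup_left ha)
        (mem_sup_left hb)).1 e)
    rw [pa, pb] at this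
    revert this; decide

theorem card_im : Nat.card (HB.im p U.Ep) = 32 := by
  have h1 : HB.im p U.Ep = (p.comp (inclusion (Ep_M h))).range := by
    ext y
    constructor
    · rintro ⟨m, hm, rfl⟩
      exact ⟨⟨m, hm⟩, rfl⟩
    · rintro ⟨m, rfl⟩
      exact ⟨_, m.2, rfl⟩
  have h2 : Function.Injective (p.comp (inclusion (Ep_M h))) := by
    rw [injective_iff_map_eq_one]
    intro m hm
    rcases (p_one h hp).1 hm with e | e
    · exact Subtype.ext e
    · exact (t_not_Ep h (e ▸ m.2)).elim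
  rw [h1, ← card_Ep h]
  exact (Nat.card_congr (MonoidHom.ofInjective h2).toEquiv).symm

end all

theorem hsa : HSaStmt.{u} := by
  intro G _ _ U π M h X _ p hp hu
  have : Finite X := Finite.of_surjective p hp.1
  obtain ⟨g, gE, pg⟩ := h.md.sur om
  have gM : g ∈ M := (mem_M h gE).2 (by rw [pg]; decide)
  have gg : g * g = U.u := by
    refine ((sq_cases h gE).resolve_left fun e => ?_).1
    have := e.2
    rw [pg] at this
    revert this; decide
  have gx : p ⟨g, gM⟩ * p ⟨g, gM⟩ = p ⟨U.u, hu⟩ := by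
    rw [← map_mul]; exact congrArg p (Subtype.ext gg)
  have xC : p ⟨U.u, hu⟩ ∈ zpowers (p ⟨g, gM⟩) := gx ▸ mul_mem (mem_zpowers _) (mem_zpowers _)
  have xs := xs_Ep h hp hu
  have hle : HB.im p U.Ep ≤ HB.im p U.E := map_mono (comap_mono le_sup_left)
  have hC : zpowers (p ⟨g, gM⟩) ≤ HB.im p U.E ⊓ centralizer (HB.im p U.E : Set X) := by
    refine zpowers_le.2 ⟨⟨_, gE, rfl⟩, mem_centralizer_iff.2 ?_⟩
    rintro _ ⟨m, hm, rfl⟩
    have hm' : (m : G) ∈ U.E := hm
    refine ((p_comm_E h hp (a := ⟨g, gM⟩) gE hm').2 ((comm_iff h gE hm').2 ?_)).symm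
    rw [pg]
    exact (f_tr _ ((mem_M h hm').1 m.2)).2.1
  -- elements with trivial image
  have k0 : ∀ m : M, (m : G) ∈ U.E → π m = 0 → p m ∈ zpowers (p ⟨g, gM⟩) := by
    intro m hm e
    rcases (zu h).1 ((h.md.ker _ hm).1 e) with e | e
    · rw [(p_one h hp).2 (Or.inl e)]; exact one_mem _
    · rw [show m = ⟨U.u, hu⟩ from Subtype.ext e]; exact xC
  have k1 : ∀ m : M, (m : G) ∈ U.E → π m + 1 = 0 → p m ∈ zpowers (p ⟨g, gM⟩) := by
    intro m hm e
    have := k0 (m * ⟨U.t, h.k0.tM⟩) (mul_mem hm (t_E h))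
      ((h.md.add _ hm _ (t_E h)).trans (by rw [h.md.πt]; exact e))
    rwa [map_mul, p_t h hp, mul_one] at this
  refine ⟨orderOf_eq_prime (by rw [pow_two, xx h hp hu]) (x_ne h hp hu), HB.im p U.E,
    zpowers (p ⟨g, gM⟩), HB.im p U.Ep, (core h hp hu).1, inferInstance, ?_, hC, hle,
    xs.isExtraspecial, card_im h hp, ?_, ?_, (core h hp hu).2, ?_⟩
  · rw [Nat.card_zpowers]
    refine orderOf_eq_prime_pow (p := 2) (n := 1) ?_ ?_
    · rw [pow_one, pow_two, gx]; exact x_ne h hp hu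
    · rw [show 2 ^ (1 + 1) = 2 * 2 from rfl, pow_mul, pow_two, pow_two, gx]; exact xx h hp hu
  · refine le_antisymm (sup_le (hC.trans inf_le_left) hle) ?_
    rintro _ ⟨m, hm, rfl⟩
    have hm' : (m : G) ∈ U.E := hm
    obtain ⟨e, he, pe⟩ := Ep_sur h (π m).b (π m).c
    have heE : e ∈ U.E := mem_sup_left he
    have h1 : p (m * ⟨e, Ep_M h he⟩) ∈ zpowers (p ⟨g, gM⟩) := by
      have hE : ((m * ⟨e, Ep_M h he⟩ : M) : G) ∈ U.E := mul_mem hm' heE
      have hπ : π ((m * ⟨e, Ep_M h he⟩ : M) : G) = π m + ⟨0, (π m).b, (π m).c, 0⟩ :=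
        (h.md.add _ hm' _ heE).trans (by rw [pe])
      have hπ' : π ((m * ⟨e, Ep_M h he⟩ * ⟨g, gM⟩ : M) : G) =
          π m + ⟨0, (π m).b, (π m).c, 0⟩ + om :=
        (h.md.add _ hE _ gE).trans (by rw [hπ, pg])
      rcases (f_tr _ ((mem_M h hm').1 m.2)).2.2 with e1 | e1 | e1 | e1
      · exact k0 _ hE (hπ.trans e1)
      · exact k1 _ hE (by rw [hπ]; exact e1)
      · have := k0 _ (mul_mem hE gE : ((m * ⟨e, Ep_M h he⟩ * ⟨g, gM⟩ : M) : G) ∈ U.E)
          (hπ'.trans e1)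
        rwa [map_mul, mul_mem_cancel_right (mem_zpowers _)] at this
      · have := k1 _ (mul_mem hE gE : ((m * ⟨e, Ep_M h he⟩ * ⟨g, gM⟩ : M) : G) ∈ U.E)
          (by rw [hπ']; exact e1)
        rwa [map_mul, mul_mem_cancel_right (mem_zpowers _)] at this
    have h2 : p ⟨e, Ep_M h he⟩ ∈ HB.im p U.Ep := ⟨_, he, rfl⟩
    rw [map_mul] at h1
    exact (mul_mem_cancel_right (mem_sup_right h2)).1 (mem_sup_left h1)
  · refine le_antisymm (fun y hy => ⟨hy.2, centralizer_le hle (hC hy.1).2⟩) fun y hy => ⟨?_, hy.1⟩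
    rcases xs.cent y hy.1 fun z hz => (mem_centralizer_iff.1 hy.2 z hz).symm with e | e <;> rw [e]
    · exact one_mem _
    · exact xC
  · exact (map_mono (comap_mono (map_mono af_le))).trans hle

end Cfsg.Agent.H98.HN
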