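import Cfsg.Agent.H98.Simple
import Cfsg.Agent.H42.Enum

/-!
Certificates for the simplicity of the 2-fusion systems of subgroups of `M24`.
-/

set_option autoImplicit false
set_option maxRecDepth 1000000

namespace Cfsg.Agent.H98.Mat

open Cfsg MulAction Cfsg.Agent.H42
open scoped Pointwise

attribute [local irreducible] inM isPerm pmul orb img toM

/-! ### elements of odd order -/

theorem smul_eq_of_odd {G X : Type*} [Group G] [MulAction G X] {g : G} (hg : Odd (orderOf g))
    {a b : X} (h1 : g • a = a ∨ g • a = b) (h2 : g • g • a = a ∨ g • g • a = b) : g • a = a := by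
  have h3 : g • g • a = a ∨ g • a = a := by
    rcases h1 with h1 | h1
    · exact Or.inr h1
    · rcases h2 with h2 | h2
      · exact Or.inl h2
      · exact Or.inr (MulAction.injective g (h2.trans h1.symm))
  rcases h3 with h3 | h3
  · obtain ⟨k, hk⟩ := hg
    have h4 : g * g ∈ stabilizer G a := by rw [mem_stabilizer_iff, mul_smul, h3]
    have h5 : g = (g * g) ^ (k + 1) := by
      rw [← pow_two, ← pow_mul, show 2 * (k + 1) = orderOf g + 1 by omega, pow_succ,
        pow_orderOf_eq_one, one_mul]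
    have := Subgroup.pow_mem _ h4 (k + 1)
    rwa [← h5] at this
  · exact h3

theorem ncard_orbit_smul {G X : Type*} [Group G] [MulAction G X] {S : Subgroup G} {g : G}
    (hg : g ∈ Subgroup.normalizer (S : Set G)) (x : X) :
    (orbit S (g • x)).ncard = (orbit S x).ncard := by
  rw [orbit_eq_smul_of_conj g S S (Subgroup.mem_normalizer_iff.1 hg) x, Set.ncard_smul_set]

/-- the size of the orbit of a pair of distinct points -/
noncomputable def col (S : Subgroup M24) (x y : GolayPt) : ℕ :=
  if x = y then 0 else (orbit S (![x, y] : Fin 2 → GolayPt)).ncard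

theorem col_smul {S : Subgroup M24} {g : M24} (hg : g ∈ Subgroup.normalizer (S : Set M24))
    (x y : GolayPt) : col S (g • x) (g • y) = col S x y := by
  have e : (![g • x, g • y] : Fin 2 → GolayPt) = g • ![x, y] := by
    funext i; fin_cases i <;> rfl
  rw [col, col, e, ncard_orbit_smul hg]
  exact if_congr (smul_left_cancel_iff g) rfl rfl

/-- the points of `A` close to `x` -/
noncomputable def ball (S : Subgroup M24) (A : Finset GolayPt) (v : ℕ) (x : GolayPt) :
    Finset GolayPt := A.filter (fun y => col S x y ≤ v)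

theorem smul_ball {S : Subgroup M24} {g : M24} (hg : g ∈ Subgroup.normalizer (S : Set M24))
    {A : Finset GolayPt} (hA : g • A = A) (v : ℕ) (x : GolayPt) :
    g • ball S A v x = ball S A v (g • x) := by
  ext y
  obtain ⟨y, rfl⟩ := MulAction.surjective g y
  rw [msmul_mem_msmul, ball, ball, Finset.mem_filter, Finset.mem_filter, col_smul hg]
  conv_rhs => rw [← hA, msmul_mem_msmul]

/-! ### the computation -/

/-- the mask of the `i < k` with `p i` -/
noncomputable def mk (p : ℕ → Bool) (k : ℕ) : ℕ :=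
  Nat.rec 0 (fun i acc => Bool.rec acc (Nat.lor acc (Nat.pow 2 i)) (p i)) k

theorem testBit_mk (p : ℕ → Bool) (k j : ℕ) : (mk p k).testBit j = true ↔ j < k ∧ p j = true := by
  induction k with
  | zero => simp [mk]
  | succ k ih =>
    have e : mk p (k + 1) = Bool.rec (mk p k) (Nat.lor (mk p k) (Nat.pow 2 k)) (p k) := rfl
    rw [e]
    cases hp : p k
    · rw [ih]
      refine ⟨fun h => ⟨by omega, h.2⟩, fun h => ⟨?_, h.2⟩⟩
      rcases Nat.lt_succ_iff_lt_or_eq.1 h.1 with h' | h'
      · exact h'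
      · rw [h', hp] at h; exact absurd h.2 (by simp)
    · show ((mk p k) ||| 2 ^ k).testBit j = true ↔ _
      rw [Nat.testBit_or, Bool.or_eq_true, ih, Nat.testBit_two_pow, decide_eq_true_eq]
      constructor
      · rintro (h | rfl)
        · exact ⟨by omega, h.2⟩
        · exact ⟨by omega, hp⟩
      · rintro ⟨h1, h2⟩
        rcases Nat.lt_succ_iff_lt_or_eq.1 h1 with h' | h'
        · exact Or.inl ⟨h', h2⟩
        · exact Or.inr h'.symm

theorem mem_toSet_mk (p : ℕ → Bool) (x : GolayPt) : x ∈ toSet (mk p 24) ↔ p (idx x) = true := by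
  rw [mem_toSet, testBit_mk]
  exact ⟨fun h => h.2, fun h => ⟨idx_lt x, h⟩⟩

/-- orbit lengths on points -/
noncomputable def o1 (gens : List ℕ) (i : ℕ) : ℕ := orbSize (actsOf app gens) i 25

/-- orbit lengths on pairs -/
noncomputable def o2 (gens : List ℕ) (i j : ℕ) : ℕ :=
  orbSize (actsOf (encTup 2).act gens) (Nat.add i (Nat.mul 32 j)) 600

theorem col_eq {gens : List ℕ} (hg : ∀ g ∈ gens, inM g = true) {i j : ℕ} (hi : i < 24) (hj : j < 24)
    (hij : i ≠ j) (h0 : o2 gens i j ≠ 0) : col (gen gens) (pt i) (pt j) = o2 gens i j := by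
  have a0 : app (Nat.add i (Nat.mul 32 j)) 0 = i := by
    rw [app_eq]; show (i + 32 * j) / 2 ^ (5 * 0) % 32 = i; omega
  have a1 : app (Nat.add i (Nat.mul 32 j)) 1 = j := by
    rw [app_eq]; show (i + 32 * j) / 2 ^ (5 * 1) % 32 = j; omega
  have hv : (encTup 2).valid (Nat.add i (Nat.mul 32 j)) := by
    refine ⟨by show i + 32 * j < 2 ^ (5 * 2); omega, fun k hk => ?_⟩
    interval_cases k
    · rw [a0]; exact hi
    · rw [a1]; exact hj
  have := (encTup 2).ncard_orbit_of_orbSize hg hv h0 rfl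
  rw [col, if_neg (pt_ne hi hj hij)]
  refine Eq.trans ?_ this
  congr 2
  funext k
  fin_cases k
  · show pt i = pt (app _ 0); rw [a0]
  · show pt j = pt (app _ 1); rw [a1]

/-- the mask of a ball -/
noncomputable def ballM (gens : List ℕ) (A v i : ℕ) : ℕ :=
  mk (fun j => Bool.and (tb A j) (Bool.or (Nat.beq i j) (Nat.ble (o2 gens i j) v))) 24

/-- the orbit enumerations inside `A` terminate -/
noncomputable def okA (gens : List ℕ) (A : ℕ) : Bool :=
  allB (fun i => Bool.or (Bool.not (tb A i))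
    (allB (fun j => Bool.or (Bool.not (tb A j)) (Nat.ble 1 (o2 gens i j))) 24)) 24

theorem toSet_ballM {gens : List ℕ} (hg : ∀ g ∈ gens, inM g = true) {A : ℕ}
    (hA : okA gens A = true) (v : ℕ) {i : ℕ} (hi : i < 24) (hiA : tb A i = true) :
    toSet (ballM gens A v i) = ball (gen gens) (toSet A) v (pt i) := by
  ext y
  rw [ballM, mem_toSet_mk, ball, Finset.mem_filter, mem_toSet, ← tb_eq, Bool.and_eq_true,
    Bool.or_eq_true, beq_iff, ble_iff]
  refine and_congr_right fun hy => ?_
  by_cases e : i = idx y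
  · simp [e, col]
  · have h1 := of_allB hA hi
    rw [hiA, Bool.not_true, Bool.false_or] at h1
    have h2 := of_allB h1 (idx_lt y)
    rw [hy, Bool.not_true, Bool.false_or, ble_iff] at h2
    have := col_eq hg hi (idx_lt y) e (by omega)
    rw [pt_idx] at this
    rw [this]
    simp [e]

/-- one splitting step -/
noncomputable def splitOk (gens : List ℕ) (A v i j D₁ D₂ : ℕ) : Bool :=
  Bool.and (okA gens A) (Bool.and (Bool.and (Nat.ble i 23) (tb A i))
    (Bool.and (Bool.and (Nat.ble j 23) (tb A j))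
      (Bool.and (Bool.and (Nat.beq (ballM gens A v i) D₁) (Nat.beq (ballM gens A v j) D₂))
        (allB (fun k => Bool.or (Bool.not (tb A k)) (force (ballM gens A v k)
          (fun D => Bool.or (Nat.beq D D₁) (Nat.beq D D₂)))) 24))))

theorem splitOk_spec {gens : List ℕ} (hg : ∀ g ∈ gens, inM g = true) {A v i j D₁ D₂ : ℕ}
    (h : splitOk gens A v i j D₁ D₂ = true) {g : M24}
    (hn : g ∈ Subgroup.normalizer (gen gens : Set M24)) (ho : Odd (orderOf g))
    (hA : g • toSet A = toSet A) : g • toSet D₁ = toSet D₁ ∧ g • toSet D₂ = toSet D₂ := by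
  simp only [splitOk, Bool.and_eq_true, beq_iff, ble_iff] at h
  obtain ⟨hok, ⟨hi, hiA⟩, ⟨hj, hjA⟩, ⟨e1, e2⟩, hall⟩ := h
  have key : ∀ x ∈ toSet A, ball (gen gens) (toSet A) v x = toSet D₁ ∨
      ball (gen gens) (toSet A) v x = toSet D₂ := by
    intro x hx
    rw [mem_toSet, ← tb_eq] at hx
    have := of_allB hall (idx_lt x)
    rw [hx, Bool.not_true, Bool.false_or, force_eq, Bool.or_eq_true, beq_iff, beq_iff] at this
    rw [← pt_idx x, ← toSet_ballM hg hok v (idx_lt x) hx]
    exact this.imp (congrArg toSet) (congrArg toSet)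
  have hm : ∀ x ∈ toSet A, g • x ∈ toSet A := fun x hx => hA ▸ (msmul_mem_msmul g).2 hx
  have k1 := toSet_ballM hg hok v (by omega : i < 24) hiA
  have k2 := toSet_ballM hg hok v (by omega : j < 24) hjA
  rw [e1] at k1
  rw [e2] at k2
  have m1 := (pt_mem_toSet (by omega : i < 24)).2 hiA
  have m2 := (pt_mem_toSet (by omega : j < 24)).2 hjA
  constructor
  · refine smul_eq_of_odd ho (b := toSet D₂) ?_ ?_
    · conv => enter [1, 1]; rw [k1, smul_ball hn hA]
      conv => enter [2, 1]; rw [k1, smul_ball hn hA]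
      exact key _ (hm _ m1)
    · conv => enter [1, 1]; rw [k1, smul_ball hn hA, smul_ball hn hA]
      conv => enter [2, 1]; rw [k1, smul_ball hn hA, smul_ball hn hA]
      exact key _ (hm _ (hm _ m1))
  · refine smul_eq_of_odd ho (b := toSet D₁) ?_ ?_
    · conv => enter [1, 1]; rw [k2, smul_ball hn hA]
      conv => enter [2, 1]; rw [k2, smul_ball hn hA]
      exact (key _ (hm _ m2)).symm
    · conv => enter [1, 1]; rw [k2, smul_ball hn hA, smul_ball hn hA]
      conv => enter [2, 1]; rw [k2, smul_ball hn hA, smul_ball hn hA]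
      exact (key _ (hm _ (hm _ m2))).symm

/-- the refinement: every point of the standard octad ends up in a singleton -/
noncomputable def refChk (gens : List ℕ) (steps : List (ℕ × ℕ × ℕ × ℕ × ℕ × ℕ)) : List ℕ → Bool :=
  List.rec (motive := fun _ => List ℕ → Bool)
    (fun inv => allB (fun i => Bool.or (Bool.not (tb oct0 i)) (memL (Nat.pow 2 i) inv)) 24)
    (fun s _ ih inv => Bool.and (Bool.and (memL s.1 inv)
      (splitOk gens s.1 s.2.1 s.2.2.1 s.2.2.2.1 s.2.2.2.2.1 s.2.2.2.2.2))
      (ih (s.2.2.2.2.1 :: s.2.2.2.2.2 :: inv))) steps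

theorem refChk_spec {gens : List ℕ} (hg : ∀ g ∈ gens, inM g = true) {g : M24}
    (hn : g ∈ Subgroup.normalizer (gen gens : Set M24)) (ho : Odd (orderOf g))
    (steps : List (ℕ × ℕ × ℕ × ℕ × ℕ × ℕ)) : ∀ inv : List ℕ, refChk gens steps inv = true →
      (∀ m ∈ inv, g • toSet m = toSet m) → g ∈ fixS oct0 := by
  induction steps with
  | nil =>
    intro inv h hinv
    refine mem_fixS.2 fun x hx => ?_
    rw [mem_toSet, ← tb_eq] at hx
    have h' : allB (fun i => Bool.or (Bool.not (tb oct0 i)) (memL (Nat.pow 2 i) inv)) 24 = true := h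
    have := of_allB h' (idx_lt x)
    rw [hx, Bool.not_true, Bool.false_or, memL_iff] at this
    have h1 := hinv _ this
    have h2 : x ∈ toSet (Nat.pow 2 (idx x)) := mem_toSet.2 (by
      show (2 ^ idx x).testBit (idx x) = true; simp)
    have h3 := (msmul_mem_msmul g).2 h2
    rw [h1, mem_toSet] at h3
    have h4 : (2 ^ idx x).testBit (idx (g • x)) = true := h3
    rw [Nat.testBit_two_pow, decide_eq_true_eq] at h4
    rw [← pt_idx (g • x), ← h4, pt_idx]
  | cons s steps ih =>
    intro inv h hinv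
    have h' : Bool.and (Bool.and (memL s.1 inv)
      (splitOk gens s.1 s.2.1 s.2.2.1 s.2.2.2.1 s.2.2.2.2.1 s.2.2.2.2.2))
      (refChk gens steps (s.2.2.2.2.1 :: s.2.2.2.2.2 :: inv)) = true := h
    rw [Bool.and_eq_true, Bool.and_eq_true, memL_iff] at h'
    obtain ⟨k1, k2⟩ := splitOk_spec hg h'.1.2 hn ho (hinv _ h'.1.1)
    refine ih _ h'.2 fun m hm => ?_
    rcases List.mem_cons.1 hm with rfl | hm
    · exact k1
    rcases List.mem_cons.1 hm with rfl | hm
    · exact k2
    exact hinv m hm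

/-- the unions of orbits of equal length -/
noncomputable def iniChk (gens : List ℕ) (ini : List (ℕ × ℕ)) : Bool :=
  Bool.and (allB (fun i => Nat.ble 1 (o1 gens i)) 24)
    (allL (fun s => Nat.beq (mk (fun i => Nat.beq (o1 gens i) s.1) 24) s.2) ini)

theorem iniChk_spec {gens : List ℕ} (hg : ∀ g ∈ gens, inM g = true) {ini : List (ℕ × ℕ)}
    (h : iniChk gens ini = true) {g : M24} (hn : g ∈ Subgroup.normalizer (gen gens : Set M24)) :
    ∀ m ∈ ini.map Prod.snd, g • toSet m = toSet m := by
  rw [iniChk, Bool.and_eq_true, allL_iff] at h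
  have key : ∀ x : GolayPt, o1 gens (idx x) = (orbit (gen gens) x).ncard := fun x => by
    have h1 := ble_iff.1 (of_allB h.1 (idx_lt x))
    have := encPt.ncard_orbit_of_orbSize hg (x0 := idx x) (idx_lt x) (fuel := 25)
      (n := o1 gens (idx x)) (by omega) rfl
    rw [← this]
    show (orbit (gen gens) (pt (idx x))).ncard = _
    rw [pt_idx]
  intro m hm
  obtain ⟨s, hs, rfl⟩ := List.mem_map.1 hm
  rw [← beq_iff.1 (h.2 s hs)]
  ext y
  obtain ⟨y, rfl⟩ := MulAction.surjective g y
  rw [msmul_mem_msmul, mem_toSet_mk, mem_toSet_mk, key, key, ncard_orbit_smul hn]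

theorem eq_one_of_chk {gens : List ℕ} (hg : ∀ g ∈ gens, inM g = true) {ini : List (ℕ × ℕ)}
    (h1 : iniChk gens ini = true) {steps : List (ℕ × ℕ × ℕ × ℕ × ℕ × ℕ)}
    (h2 : refChk gens steps (ini.map Prod.snd) = true) {g : M24}
    (hn : g ∈ Subgroup.normalizer (gen gens : Set M24)) (ho : Nat.Coprime (orderOf g) 2) :
    g = 1 := by
  have h3 := refChk_spec hg hn (Nat.coprime_two_right.1 ho) steps _ h2 (iniChk_spec hg h1 hn)
  have h4 := mul_self_of_mem_fixing_octad oct0_mem h3
  have h5 : orderOf g ∣ 2 := orderOf_dvd_of_pow_eq_one (by rw [pow_two, h4])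
  exact orderOf_eq_one_iff.1 (Nat.Coprime.eq_one_of_dvd ho h5)

/-- the closure process for a strongly closed subgroup -/
noncomputable def cloChk (memH : ℕ → Bool) (gens : List ℕ) (fin : List (List ℕ))
    (steps : List (List ℕ × ℕ × List ℕ)) : List ℕ → Bool :=
  List.rec (motive := fun _ => List ℕ → Bool)
    (fun K => allL (fun g => anyL (fun w => Nat.beq (evalW K w) g) fin) gens)
    (fun s _ ih K => force (evalW gens s.2.2) fun y =>
      Bool.and (Bool.and (Bool.and (inM s.2.1) (memH s.2.1))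
        (Nat.beq (pmul s.2.1 (evalW K s.1)) (pmul y s.2.1))) (ih (y :: K))) steps

theorem cloChk_spec {H : Subgroup M24} {memH : ℕ → Bool}
    (hH : ∀ g, inM g = true → memH g = true → toM g ∈ H) {gens : List ℕ}
    (hg : ∀ g ∈ gens, inM g = true) {fin : List (List ℕ)} {T : Subgroup M24}
    (hT : ∀ x ∈ T, ∀ g ∈ H, g * x * g⁻¹ ∈ gen gens → g * x * g⁻¹ ∈ T)
    (steps : List (List ℕ × ℕ × List ℕ)) : ∀ K : List ℕ, cloChk memH gens fin steps K = true →
      (∀ g ∈ K, inM g = true ∧ toM g ∈ T) → gen gens ≤ T := by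
  induction steps with
  | nil =>
    intro K h hK
    refine gen_le T fun g hgg => ?_
    obtain ⟨w, -, hw⟩ := anyL_iff.1 (allL_iff.1 (show allL _ gens = true from h) g hgg)
    rw [← beq_iff.1 hw]
    exact (evalW_mem T hK w).2
  | cons s steps ih =>
    intro K h hK
    have h' : force (evalW gens s.2.2) (fun y =>
      Bool.and (Bool.and (Bool.and (inM s.2.1) (memH s.2.1))
        (Nat.beq (pmul s.2.1 (evalW K s.1)) (pmul y s.2.1)))
        (cloChk memH gens fin steps (y :: K))) = true := h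
    rw [force_eq, Bool.and_eq_true, Bool.and_eq_true, Bool.and_eq_true, beq_iff] at h'
    obtain ⟨⟨⟨k1, k2⟩, k3⟩, k4⟩ := h'
    have hx := evalW_mem T hK s.1
    have hy := evalW_mem (gen gens) (fun g h => ⟨hg g h, toM_mem_gen h⟩) s.2.2
    have e := congrArg toM k3
    rw [toM_pmul k1 hx.1, toM_pmul hy.1 k1] at e
    have e' : toM s.2.1 * toM (evalW K s.1) * (toM s.2.1)⁻¹ = toM (evalW gens s.2.2) := by
      rw [e]; group
    refine ih _ k4 fun g hgK => ?_
    rcases List.mem_cons.1 hgK with rfl | hgK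
    · refine ⟨hy.1, ?_⟩
      rw [← e']
      exact hT _ hx.2 _ (hH _ k1 k2) (by rw [e']; exact hy.2)
    · exact hK g hgK

/-- the centre has at most one nontrivial element -/
noncomputable def cenChk (gens : List ℕ) (z fuel : ℕ) : Bool :=
  orbAll (actsOf pmul gens) pid fuel (fun y => Bool.or (Nat.beq y pid) (Bool.or (Nat.beq y z)
    (anyL (fun g => Bool.not (Nat.beq (pmul g y) (pmul y g))) gens)))

theorem cenChk_spec {gens : List ℕ} (hg : ∀ g ∈ gens, inM g = true) {z fuel : ℕ}
    (h : cenChk gens z fuel = true) {x : M24} (hx : x ∈ gen gens) (h1 : x ≠ 1)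
    (hc : ∀ s ∈ gen gens, s * x = x * s) : inM z = true ∧ x = toM z := by
  obtain ⟨y, hy, rfl, hp⟩ := forall_gen hg h hx
  rw [Bool.or_eq_true, Bool.or_eq_true, beq_iff, beq_iff, anyL_iff] at hp
  rcases hp with rfl | rfl | ⟨g, hgg, hne⟩
  · exact absurd toM_pid h1
  · exact ⟨hy, rfl⟩
  · have := hc _ (toM_mem_gen hgg)
    rw [← toM_pmul (hg g hgg) hy, ← toM_pmul hy (hg g hgg),
      toM_eq_iff (inM_pmul (hg g hgg) hy) (inM_pmul hy (hg g hgg))] at this
    rw [this, Bool.not_eq_true', beq_false_iff] at hne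
    exact absurd rfl hne

/-- **The certificate.** -/
theorem isSimple_of_chk {H : Subgroup M24} {memH : ℕ → Bool}
    (hH : ∀ g, inM g = true → memH g = true → toM g ∈ H) {gens : List ℕ}
    (hg : allL (fun g => Bool.and (inM g) (memH g)) gens = true) {k m fuel : ℕ}
    (hk : orbSize (actsOf pmul gens) pid fuel = 2 ^ (k + 1)) (hc : Nat.card H = 2 ^ (k + 1) * m)
    (hm : ¬ 2 ∣ m) {z : ℕ} (hz : cenChk gens z fuel = true) {fin : List (List ℕ)}
    {steps : List (List ℕ × ℕ × List ℕ)} (hcl : cloChk memH gens fin steps [z] = true)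
    {ini : List (ℕ × ℕ)} (h1 : iniChk gens ini = true) {rf : List (ℕ × ℕ × ℕ × ℕ × ℕ × ℕ)}
    (h2 : refChk gens rf (ini.map Prod.snd) = true)
    {G : Type*} [Group G] [Finite G] (e : G ≃* H) (R : Sylow 2 G) :
    (groupFusionSystem (R : Subgroup G)).IsSimple 2 := by
  have hg' := fun g h => Bool.and_eq_true_iff.1 (allL_iff.1 hg g h)
  have hgM := fun g h => (hg' g h).1
  have hle : gen gens ≤ H := gen_le H fun g h => hH g (hg' g h).1 (hg' g h).2
  have hcard : Nat.card (gen gens) = 2 ^ (k + 1) := card_gen_of_orbSize hgM (by positivity) hk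
  have hp : IsPGroup 2 (gen gens) := IsPGroup.of_card hcard
  have hS : SylIn 2 (gen gens) H := by
    refine sylIn_of_not_dvd_relIndex hle hp ?_
    have h3 : Nat.card (gen gens) * (gen gens).relIndex H = Nat.card H := by
      rw [Subgroup.relIndex, ← Nat.card_congr (Subgroup.subgroupOfEquivOfLe hle).toEquiv,
        Subgroup.card_mul_index]
    rw [hcard, hc] at h3
    rwa [Nat.eq_of_mul_eq_mul_left (by positivity) h3]
  refine group_isSimple_of_sub e hS (sub_isSimple hS (fun h0 => ?_) (fun g _ hn ho x _ => ?_)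
    fun T hT h0 hcT => ?_) R
  · rw [h0, Subgroup.card_bot] at hcard
    exact absurd hcard (Nat.one_lt_two_pow (by omega)).ne
  · rw [eq_one_of_chk hgM h1 h2 hn ho]; group
  · obtain ⟨x, hxT, hx1, -, hxc⟩ := exists_central_of_ne_bot hp hT
      (fun s hs x hx => hcT x hx s (hle hs) (Subgroup.mul_mem _ (Subgroup.mul_mem _ hs (hT hx))
        (Subgroup.inv_mem _ hs))) h0
    obtain ⟨k1, k2⟩ := cenChk_spec hgM hz (hT hxT) hx1 hxc
    exact cloChk_spec hH hgM hcT steps _ hcl fun g hgz => by
      rw [List.mem_singleton.1 hgz]; exact ⟨k1, k2 ▸ hxT⟩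

end Cfsg.Agent.H98.Mat
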