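import Mathlib

/-! Two involutions of a symmetric group with the same number of fixed points have a common
"odd" neighbour. -/

set_option autoImplicit false

namespace Cfsg.Agent.H98.OddInv

open Equiv Equiv.Perm Finset

variable {Ω : Type*} [Fintype Ω] [DecidableEq Ω] {x y z : Perm Ω}

/-- Connectivity in the union of the two matchings. -/
def Conn (x z : Perm Ω) : Ω → Ω → Prop := Relation.EqvGen fun p q => q = x p ∨ q = z p

section
omit [Fintype Ω] [DecidableEq Ω]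

theorem Conn.left (p : Ω) : Conn x z p (x p) := Relation.EqvGen.rel _ _ (Or.inl rfl)
theorem Conn.right (p : Ω) : Conn x z p (z p) := Relation.EqvGen.rel _ _ (Or.inr rfl)
theorem Conn.refl (p : Ω) : Conn x z p p := Relation.EqvGen.refl p
theorem Conn.symm {p q : Ω} (h : Conn x z p q) : Conn x z q p := Relation.EqvGen.symm _ _ h
theorem Conn.trans {p q r : Ω} (h : Conn x z p q) (h' : Conn x z q r) : Conn x z p r :=
  Relation.EqvGen.trans _ _ _ h h'

theorem Conn.mono {x' z' : Perm Ω} (h1 : ∀ p, Conn x z p (x' p)) (h2 : ∀ p, Conn x z p (z' p))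
    {p q : Ω} (h : Conn x' z' p q) : Conn x z p q := by
  induction h with
  | rel p q h => rcases h with rfl | rfl; exacts [h1 p, h2 p]
  | refl p => exact Conn.refl p
  | symm _ _ _ ih => exact ih.symm
  | trans _ _ _ _ _ ih1 ih2 => exact ih1.trans ih2

theorem inv2 (hx : x * x = 1) (p : Ω) : x (x p) = p := by rw [← Perm.mul_apply, hx, Perm.one_apply]

theorem x_zpow (hx : x * x = 1) (hz : z * z = 1) (i : ℤ) (p : Ω) :
    x (((x * z) ^ i) p) = ((x * z) ^ (-i)) (x p) := by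
  have h1 : x * (x * z) * x⁻¹ = (x * z)⁻¹ := by
    rw [← mul_assoc, hx, one_mul, mul_inv_rev, inv_eq_of_mul_eq_one_right hz]
  rw [zpow_neg, ← inv_zpow, ← h1, conj_zpow]
  simp

theorem z_eq (hx : x * x = 1) (p : Ω) : z p = x ((x * z) p) := by
  rw [Perm.mul_apply, inv2 hx]

theorem zz (g : Perm Ω) (i j : ℤ) (p : Ω) : (g ^ i) ((g ^ j) p) = (g ^ (i + j)) p := by
  rw [zpow_add, Perm.mul_apply]

theorem Conn.cases (hx : x * x = 1) (hz : z * z = 1) {p q : Ω} (h : Conn x z p q) :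
    ∃ i : ℤ, q = ((x * z) ^ i) p ∨ q = ((x * z) ^ i) (x p) := by
  induction h with
  | rel p q h =>
    rcases h with rfl | rfl
    · exact ⟨0, Or.inr (by simp)⟩
    · exact ⟨-1, Or.inr (by rw [← x_zpow hx hz, zpow_one, z_eq hx])⟩
  | refl p => exact ⟨0, Or.inl (by simp)⟩
  | symm p q _ ih =>
    obtain ⟨i, rfl | rfl⟩ := ih
    · exact ⟨-i, Or.inl (by rw [zz]; simp)⟩
    · exact ⟨i, Or.inr (by rw [x_zpow hx hz, zz, inv2 hx]; simp)⟩
  | trans p q r _ _ ih1 ih2 =>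
    obtain ⟨i, rfl | rfl⟩ := ih1 <;> obtain ⟨j, rfl | rfl⟩ := ih2
    · exact ⟨j + i, Or.inl (zz _ _ _ _)⟩
    · exact ⟨j + -i, Or.inr (by rw [x_zpow hx hz, zz])⟩
    · exact ⟨j + i, Or.inr (zz _ _ _ _)⟩
    · exact ⟨j + -i, Or.inl (by rw [x_zpow hx hz, zz, inv2 hx])⟩

theorem odd_of_fixed (hx : x * x = 1) (hz : z * z = 1) {p u v : Ω} (hu : x u = u) (hv : z v = v)
    (h1 : Conn x z p u) (h2 : Conn x z p v) : ∃ N : ℤ, Odd N ∧ ((x * z) ^ N) p = p := by
  obtain ⟨i, hi⟩ := h1.symm.cases hx hz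
  obtain ⟨j, hj⟩ := (h1.symm.trans h2).cases hx hz
  rw [hu, or_self] at hi hj
  subst hi hj
  rw [z_eq hx, ← zpow_one (x * z), ← zpow_mul, one_mul, zz, x_zpow hx hz, hu] at hv
  refine ⟨2 * j + 1, odd_two_mul_add_one j, ?_⟩
  have h3 : ((x * z) ^ (2 * j + 1)) u = u := by
    have := congrArg ((x * z) ^ (1 + j)) hv
    rw [zz, zz, add_neg_cancel, zpow_zero, Perm.one_apply] at this
    rw [show 2 * j + 1 = 1 + j + j by ring, ← this]
  rw [zz, add_comm, ← zz, h3]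

end

omit [DecidableEq Ω] in
theorem odd_orderOf {g : Perm Ω} (h : ∀ p, ∃ N : ℤ, Odd N ∧ (g ^ N) p = p) : Odd (orderOf g) := by
  classical
  choose N h1 h2 using h
  have h3 : g ^ (∏ p, N p) = 1 := by
    ext p
    obtain ⟨c, hc⟩ := dvd_prod_of_mem N (mem_univ p)
    rw [hc, zpow_mul]
    exact zpow_apply_eq_self_of_apply_eq_self (h2 p) c
  have h4 : Odd (∏ p, N p) :=
    prod_induction N Odd (fun a b => Odd.mul) odd_one fun p _ => h1 p
  obtain ⟨c, hc⟩ := orderOf_dvd_iff_zpow_eq_one.2 h3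
  rw [hc, Int.odd_mul] at h4
  exact_mod_cast h4.1

theorem odd_of_conn (hx : x * x = 1) (hz : z * z = 1) {S : Finset Ω} (h1 : x.support = S)
    (h2 : z.support = S) (hc : ∀ p ∈ S, ∀ q ∈ S, Conn x z p q) {m : ℕ} (hm : Odd m)
    (hS : S.card = 2 * m) : Odd (orderOf (x * z)) := by
  refine odd_orderOf fun p => ?_
  by_cases hg : (x * z) p = p
  · exact ⟨1, odd_one, by simpa using hg⟩
  have hout : ∀ q, q ∉ S → (x * z) q = q := fun q hq => by
    rw [Perm.mul_apply, (notMem_support (f := z)).1 (h2 ▸ hq),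
      (notMem_support (f := x)).1 (h1 ▸ hq)]
  have hp : p ∈ S := by
    by_contra hp
    exact hg (hout p hp)
  have hS1 : ∀ (i : ℤ), ∀ q ∈ S, ((x * z) ^ i) q ∈ S := fun i q hq => by
    by_contra hn
    have h4 := zpow_apply_eq_self_of_apply_eq_self (hout _ hn) (-i)
    rw [zz, neg_add_cancel, zpow_zero, Perm.one_apply] at h4
    exact hn (h4 ▸ hq)
  set O := ((x * z).cycleOf p).support with hO
  have hmem : ∀ q, q ∈ O ↔ ∃ i : ℤ, ((x * z) ^ i) p = q := fun q => by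
    rw [hO, mem_support_cycleOf_iff, and_iff_left (mem_support.2 hg)]
    rfl
  have h3 : S = O ∪ O.image x := by
    ext q
    rw [mem_union, mem_image]
    constructor
    · intro hq
      obtain ⟨i, rfl | rfl⟩ := (hc p hp q hq).cases hx hz
      · exact Or.inl ((hmem _).2 ⟨i, rfl⟩)
      · exact Or.inr ⟨_, (hmem _).2 ⟨-i, rfl⟩, by rw [x_zpow hx hz, neg_neg]⟩
    · rintro (h | ⟨r, h, rfl⟩)
      · obtain ⟨i, rfl⟩ := (hmem _).1 h
        exact hS1 i p hp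
      · obtain ⟨i, rfl⟩ := (hmem _).1 h
        have := hS1 i p hp
        rwa [← h1, apply_mem_support, h1]
  have h4 : _root_.Disjoint O (O.image x) := by
    rw [Finset.disjoint_left]
    intro q hq hq'
    obtain ⟨r, hr, rfl⟩ := mem_image.1 hq'
    obtain ⟨i, hi⟩ := (hmem _).1 hq
    obtain ⟨j, rfl⟩ := (hmem _).1 hr
    have h5 : x p = ((x * z) ^ (j + i)) p := by
      rw [← zz, hi, x_zpow hx hz, zz]; simp
    obtain ⟨k, hk | hk⟩ := Int.even_or_odd' (j + i)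
    · refine mem_support.1 (h1 ▸ hS1 k p hp) ?_
      rw [x_zpow hx hz, h5, zz, hk]
      congr 2; ring
    · refine mem_support.1 (h2 ▸ hS1 k p hp) ?_
      rw [z_eq hx, ← zpow_one (x * z), ← zpow_mul, one_mul, zz, x_zpow hx hz, h5, zz, hk]
      congr 2; ring
  rw [h3, card_union_of_disjoint h4, card_image_of_injective _ x.injective] at hS
  refine ⟨m, by exact_mod_cast hm, ?_⟩
  rw [zpow_natCast, ← cycleOf_pow_apply_self, show m = orderOf ((x * z).cycleOf p) by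
    rw [(isCycle_cycleOf _ hg).orderOf, ← hO]; omega, pow_orderOf_eq_one, Perm.one_apply]

omit [Fintype Ω] in
theorem swap_mul_sq {a b : Ω} (hz : z * z = 1) (h : swap (z a) (z b) = swap a b) :
    swap a b * z * (swap a b * z) = 1 := by
  rw [swap_apply_apply, mul_inv_eq_iff_eq_mul] at h
  rw [mul_assoc, ← mul_assoc z, h, mul_assoc, hz, mul_one, swap_mul_self]

theorem exists_ctr_aux (hx : x * x = 1) {S S' : Finset Ω} (hS : x.support ⊆ S) {a b : Ω}
    (hb : b ∈ S) (hab : a ≠ b) (hm : x a ≠ a) (hab' : x a ≠ b)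
    (hS' : ∀ p, p ∈ S' ↔ p ∈ S ∧ p ≠ a ∧ p ≠ b) :
    ∃ x' : Perm Ω, x' * x' = 1 ∧ x'.support ⊆ S' ∧ x'.support.card + 2 = x.support.card ∧
      ∀ z' : Perm Ω, z' a = a → z' b = b →
        (∀ p q, Conn x' z' p q → Conn x (swap a b * z') p q) ∧
        (∀ q ∈ S', x' q = q → ∃ q0, x q0 = q0 ∧ Conn x (swap a b * z') q q0) ∧
        ∃ u ∈ S', Conn x (swap a b * z') a u ∧ Conn x (swap a b * z') b u := by
  have hu : x a ∈ S := hS (apply_mem_support.2 (mem_support.2 hm))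
  have hs : ∀ p, swap b (x a) p ∈ S ↔ p ∈ S := fun p => by
    rw [swap_apply_def]
    split_ifs with h1 h2
    · rw [h1]; exact iff_of_true hu hb
    · rw [h2]; exact iff_of_true hb hu
    · exact Iff.rfl
  set w := swap b (x a) * x * (swap b (x a))⁻¹ with hw
  have hw1 : ∀ p, w p = swap b (x a) (x (swap b (x a) p)) := fun p => by simp [hw]
  have hw2 : w * w = 1 := by
    calc w * w = swap b (x a) * (x * x) * (swap b (x a))⁻¹ := by rw [hw]; group
      _ = 1 := by rw [hx]; group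
  have hwa : w a = b := by rw [hw1, swap_apply_of_ne_of_ne hab hm.symm, swap_apply_right]
  have hwb : w b = a := by rw [← hwa, inv2 hw2]
  have hx' : ∀ p, p ≠ a → p ≠ b → (swap a b * w) p = w p := fun p h1 h2 =>
    swap_apply_of_ne_of_ne (fun h => h2 (w.injective (h.trans hwb.symm)))
      (fun h => h1 (w.injective (h.trans hwa.symm)))
  have hxa : (swap a b * w) a = a := by rw [Perm.mul_apply, hwa, swap_apply_right]
  have hxb : (swap a b * w) b = b := by rw [Perm.mul_apply, hwb, swap_apply_left]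
  have hsupp : (swap a b * w).support = (w.support.erase a).erase b := by
    ext p
    simp only [mem_erase, mem_support]
    constructor
    · intro h
      have h1 : p ≠ a := fun e => h (e ▸ hxa)
      have h2 : p ≠ b := fun e => h (e ▸ hxb)
      exact ⟨h2, h1, by rwa [hx' p h1 h2] at h⟩
    · rintro ⟨h2, h1, h⟩
      rwa [hx' p h1 h2]
  refine ⟨swap a b * w, swap_mul_sq hw2 (by rw [hwa, hwb, swap_comm]), fun p hp => ?_, ?_,
    fun z' h1 h2 => ?_⟩
  · rw [hsupp, mem_erase, mem_erase, mem_support, hw1] at hp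
    refine (hS' p).2 ⟨(hs p).1 (hS (mem_support.2 fun h => hp.2.2 ?_)), hp.2.1, hp.1⟩
    rw [h, swap_apply_self]
  · have k1 : a ∈ w.support := mem_support.2 (by rw [hwa]; exact hab.symm)
    have k2 : b ∈ w.support.erase a := mem_erase.2 ⟨hab.symm, mem_support.2 (by rw [hwb]; exact hab)⟩
    rw [hsupp, ← card_support_conj (σ := swap b (x a)) (τ := x), ← hw, ← card_erase_add_one k1,
      ← card_erase_add_one k2]
  have c1 : Conn x (swap a b * z') a b := by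
    have := Conn.right (x := x) (z := swap a b * z') a
    rwa [Perm.mul_apply, h1, swap_apply_left] at this
  have c2 : ∀ p, Conn x (swap a b * z') p (swap b (x a) p) := fun p => by
    rw [swap_apply_def]
    split_ifs with k1 k2
    · rw [k1]; exact c1.symm.trans (Conn.left a)
    · rw [k2]; exact (Conn.left a).symm.trans c1
    · exact Conn.refl p
  refine ⟨fun p q h => h.mono (fun p => ?_) (fun p => ?_), fun q hq h => ?_,
    x a, (hS' _).2 ⟨hu, hm, hab'⟩, Conn.left a, c1.symm.trans (Conn.left a)⟩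
  · by_cases k1 : p = a
    · rw [k1, hxa]; exact Conn.refl a
    by_cases k2 : p = b
    · rw [k2, hxb]; exact Conn.refl b
    rw [hx' p k1 k2, hw1]
    exact ((c2 p).trans (Conn.left _)).trans (c2 _)
  · by_cases k1 : p = a
    · rw [k1, h1]; exact Conn.refl a
    by_cases k2 : p = b
    · rw [k2, h2]; exact Conn.refl b
    have := Conn.right (x := x) (z := swap a b * z') p
    rwa [Perm.mul_apply, swap_apply_of_ne_of_ne (fun h => k1 (z'.injective (h.trans h1.symm)))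
      (fun h => k2 (z'.injective (h.trans h2.symm)))] at this
  · obtain ⟨-, k1, k2⟩ := (hS' q).1 hq
    rw [hx' q k1 k2, hw1] at h
    exact ⟨swap b (x a) q, by rw [← swap_apply_self b (x a) (x _), h], c2 q⟩

theorem exists_ctr (hx : x * x = 1) {S S' : Finset Ω} (hS : x.support ⊆ S) {a b : Ω} (ha : a ∈ S)
    (hb : b ∈ S) (hab : a ≠ b) (hm : x a ≠ a ∨ x b ≠ b) (hab' : x a ≠ b)
    (hS' : ∀ p, p ∈ S' ↔ p ∈ S ∧ p ≠ a ∧ p ≠ b) :
    ∃ x' : Perm Ω, x' * x' = 1 ∧ x'.support ⊆ S' ∧ x'.support.card + 2 = x.support.card ∧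
      ∀ z' : Perm Ω, z' a = a → z' b = b →
        (∀ p q, Conn x' z' p q → Conn x (swap a b * z') p q) ∧
        (∀ q ∈ S', x' q = q → ∃ q0, x q0 = q0 ∧ Conn x (swap a b * z') q q0) ∧
        ∃ u ∈ S', Conn x (swap a b * z') a u ∧ Conn x (swap a b * z') b u := by
  rcases hm with hm | hm
  · exact exists_ctr_aux hx hS hb hab hm hab' hS'
  · obtain ⟨x', h1, h2, h3, h4⟩ := exists_ctr_aux hx hS ha hab.symm hm
      (fun h => hab' (by rw [← h, inv2 hx])) (S' := S') (fun p => by rw [hS']; tauto)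
    refine ⟨x', h1, h2, h3, fun z' k1 k2 => ?_⟩
    obtain ⟨l1, l2, u, hu, l3, l4⟩ := h4 z' k2 k1
    rw [swap_comm a b]
    exact ⟨l1, l2, u, hu, l4, l3⟩

theorem card_add_two {S S' : Finset Ω} {a b : Ω} (ha : a ∈ S) (hb : b ∈ S) (hab : a ≠ b)
    (hS' : ∀ p, p ∈ S' ↔ p ∈ S ∧ p ≠ a ∧ p ≠ b) : S'.card + 2 = S.card := by
  have : S' = (S.erase a).erase b := by ext p; rw [hS', mem_erase, mem_erase]; tauto
  rw [this, ← card_erase_add_one ha, ← card_erase_add_one (mem_erase.2 ⟨hab.symm, hb⟩)]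

theorem fix_of_supp {S S' : Finset Ω} {a b : Ω} (hS' : ∀ p, p ∈ S' ↔ p ∈ S ∧ p ≠ a ∧ p ≠ b)
    (h : z.support ⊆ S') : z a = a ∧ z b = b :=
  ⟨notMem_support.1 fun k => ((hS' a).1 (h k)).2.1 rfl,
    notMem_support.1 fun k => ((hS' b).1 (h k)).2.2 rfl⟩

theorem swap_mul_apply {a b p : Ω} (h1 : z a = a) (h2 : z b = b) (k1 : p ≠ a) (k2 : p ≠ b) :
    (swap a b * z) p = z p :=
  swap_apply_of_ne_of_ne (fun h => k1 (z.injective (h.trans h1.symm)))
    (fun h => k2 (z.injective (h.trans h2.symm)))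

theorem support_swap_mul {S S' : Finset Ω} {a b : Ω} (ha : a ∈ S) (hb : b ∈ S) (hab : a ≠ b)
    (hS' : ∀ p, p ∈ S' ↔ p ∈ S ∧ p ≠ a ∧ p ≠ b) (h : z.support = S') :
    (swap a b * z).support = S := by
  obtain ⟨h1, h2⟩ := fix_of_supp hS' h.le
  ext p
  by_cases k1 : p = a
  · rw [k1, mem_support, Perm.mul_apply, h1, swap_apply_left]; exact iff_of_true hab.symm ha
  by_cases k2 : p = b
  · rw [k2, mem_support, Perm.mul_apply, h2, swap_apply_right]; exact iff_of_true hab hb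
  rw [mem_support, swap_mul_apply h1 h2 k1 k2, ← mem_support, h, hS']
  tauto

theorem stepH (hx : x * x = 1) {S S' : Finset Ω} (hS : x.support = S) {a b : Ω} (ha : a ∈ S)
    (hb : b ∈ S) (hab : a ≠ b) (hab' : x a ≠ b) (hS' : ∀ p, p ∈ S' ↔ p ∈ S ∧ p ≠ a ∧ p ≠ b) :
    ∃ x' : Perm Ω, x' * x' = 1 ∧ x'.support = S' ∧ S'.Nonempty ∧
      ∀ z' : Perm Ω, z'.support = S' → (∀ p ∈ S', ∀ q ∈ S', Conn x' z' p q) →
        ∀ p ∈ S, ∀ q ∈ S, Conn x (swap a b * z') p q := by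
  have hm : x a ≠ a := mem_support.1 (hS ▸ ha)
  obtain ⟨x', h1, h2, h3, h4⟩ := exists_ctr hx hS.le ha hb hab (Or.inl hm) hab' hS'
  have h5 := card_add_two ha hb hab hS'
  refine ⟨x', h1, eq_of_subset_of_card_le h2 (by rw [hS] at h3; omega),
    ⟨x a, (hS' _).2 ⟨hS ▸ apply_mem_support.2 (hS ▸ ha), hm, hab'⟩⟩, fun z' k1 k2 => ?_⟩
  obtain ⟨k3, k4⟩ := fix_of_supp hS' k1.le
  obtain ⟨l1, -, u, hu, l3, l4⟩ := h4 z' k3 k4
  have key : ∀ p ∈ S, Conn x (swap a b * z') p u := fun p hp => by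
    by_cases e1 : p = a
    · rwa [e1]
    by_cases e2 : p = b
    · rwa [e2]
    exact l1 _ _ (k2 p ((hS' p).2 ⟨hp, e1, e2⟩) u hu)
  exact fun p hp q hq => (key p hp).trans (key q hq).symm

theorem mem_ee (S : Finset Ω) (a b p : Ω) : p ∈ (S.erase a).erase b ↔ p ∈ S ∧ p ≠ a ∧ p ≠ b := by
  rw [mem_erase, mem_erase]; tauto

theorem claimH (n : ℕ) : ∀ S : Finset Ω, S.card = n → S.Nonempty → ∀ x y : Perm Ω, x * x = 1 →
    y * y = 1 → x.support = S → y.support = S → ∃ z : Perm Ω, z * z = 1 ∧ z.support = S ∧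
      (∀ p ∈ S, ∀ q ∈ S, Conn x z p q) ∧ ∀ p ∈ S, ∀ q ∈ S, Conn y z p q := by
  induction n using Nat.strong_induction_on with
  | _ n ih =>
  intro S hn ⟨a, ha⟩ x y hx hy h1 h2
  by_cases h : ∃ b ∈ S, b ≠ a ∧ b ≠ x a ∧ b ≠ y a
  · obtain ⟨b, hb, k1, k2, k3⟩ := h
    obtain ⟨x', l1, l2, l3, l4⟩ := stepH hx h1 ha hb k1.symm k2.symm (mem_ee S a b)
    obtain ⟨y', m1, m2, -, m4⟩ := stepH hy h2 ha hb k1.symm k3.symm (mem_ee S a b)
    have h5 := card_add_two ha hb k1.symm (mem_ee S a b)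
    obtain ⟨z', n1, n2, n3, n4⟩ := ih _ (by omega) _ rfl l3 x' y' l1 m1 l2 m2
    obtain ⟨o1, o2⟩ := fix_of_supp (mem_ee S a b) n2.le
    exact ⟨swap a b * z', swap_mul_sq n1 (by rw [o1, o2]),
      support_swap_mul ha hb k1.symm (mem_ee S a b) n2, l4 z' n2 n3, m4 z' n2 n4⟩
  · push Not at h
    have hya : y a ∈ S := h2 ▸ apply_mem_support.2 (h2 ▸ ha)
    have h3 : y a = x a := by
      by_contra h3
      refine mem_support.1 (h1 ▸ hya) (h _ (h1 ▸ apply_mem_support.2 (h1 ▸ hya)) (fun e => h3 ?_)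
        fun e => mem_support.1 (h2 ▸ ha) (x.injective e))
      rw [← inv2 hx (y a), e]
    have key : ∀ w : Perm Ω, ∀ p ∈ S, Conn w x a p := fun w p hp => by
      by_cases e1 : p = a
      · rw [e1]; exact Conn.refl a
      by_cases e2 : p = x a
      · rw [e2]; exact Conn.right a
      exact absurd ((h p hp e1 e2).trans h3) e2
    exact ⟨x, hx, h1, fun p hp q hq => (key x p hp).symm.trans (key x q hq),
      fun p hp q hq => (key y p hp).symm.trans (key y q hq)⟩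

/-- Every point of `S` is connected to a fixed point of `x` and to a fixed point of `z` in `S`. -/
def Path (S : Finset Ω) (x z : Perm Ω) : Prop :=
  ∀ p ∈ S, (∃ u ∈ S, x u = u ∧ Conn x z p u) ∧ ∃ v ∈ S, z v = v ∧ Conn x z p v

theorem conn_mem {S : Finset Ω} (h1 : x.support ⊆ S) (h2 : z.support ⊆ S) {p q : Ω}
    (h : Conn x z p q) : p ∈ S ↔ q ∈ S := by
  have key : ∀ w : Perm Ω, w.support ⊆ S → ∀ p, (p ∈ S ↔ w p ∈ S) := fun w hw p => by
    by_cases e : w p = p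
    · rw [e]
    · exact iff_of_true (hw (mem_support.2 e)) (hw (apply_mem_support.2 (mem_support.2 e)))
  induction h with
  | rel p q h => rcases h with rfl | rfl; exacts [key x h1 p, key z h2 p]
  | refl p => exact Iff.rfl
  | symm _ _ _ ih => exact ih.symm
  | trans _ _ _ _ _ ih1 ih2 => exact ih1.trans ih2

theorem support_swap_mul_le {S S' : Finset Ω} {a b : Ω} (ha : a ∈ S) (hb : b ∈ S)
    (hS' : ∀ p, p ∈ S' ↔ p ∈ S ∧ p ≠ a ∧ p ≠ b) (h : z.support ⊆ S') :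
    (swap a b * z).support ⊆ S := by
  obtain ⟨h1, h2⟩ := fix_of_supp hS' h
  intro p hp
  by_cases k1 : p = a
  · rwa [k1]
  by_cases k2 : p = b
  · rwa [k2]
  rw [mem_support, swap_mul_apply h1 h2 k1 k2, ← mem_support] at hp
  exact ((hS' p).1 (h hp)).1

theorem stepP (hx : x * x = 1) {S S' : Finset Ω} (hS : x.support ⊆ S) {a b : Ω} (ha : a ∈ S)
    (hb : b ∈ S) (hab : a ≠ b) (hm : x a ≠ a ∨ x b ≠ b) (hab' : x a ≠ b)
    (hS' : ∀ p, p ∈ S' ↔ p ∈ S ∧ p ≠ a ∧ p ≠ b) :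
    ∃ x' : Perm Ω, x' * x' = 1 ∧ x'.support ⊆ S' ∧ x'.support.card + 2 = x.support.card ∧
      ∀ z' : Perm Ω, z'.support ⊆ S' → Path S' x' z' → Path S x (swap a b * z') := by
  obtain ⟨x', h1, h2, h3, h4⟩ := exists_ctr hx hS ha hb hab hm hab' hS'
  refine ⟨x', h1, h2, h3, fun z' k1 k2 => ?_⟩
  obtain ⟨k3, k4⟩ := fix_of_supp hS' k1
  obtain ⟨l1, l2, u, hu, l3, l4⟩ := h4 z' k3 k4
  intro p hp
  obtain ⟨q, hq, hpq⟩ : ∃ q ∈ S', Conn x (swap a b * z') p q := by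
    by_cases e1 : p = a
    · exact ⟨u, hu, by rwa [e1]⟩
    by_cases e2 : p = b
    · exact ⟨u, hu, by rwa [e2]⟩
    exact ⟨p, (hS' p).2 ⟨hp, e1, e2⟩, Conn.refl p⟩
  obtain ⟨⟨v, hv, m1, m2⟩, w, hw, m3, m4⟩ := k2 q hq
  obtain ⟨v0, m5, m6⟩ := l2 v hv m1
  have m7 := (hpq.trans (l1 _ _ m2)).trans m6
  obtain ⟨n1, n2, n3⟩ := (hS' w).1 hw
  exact ⟨⟨v0, (conn_mem hS (support_swap_mul_le ha hb hS' k1) m7).1 hp, m5, m7⟩, w, n1,
    by rw [swap_mul_apply k3 k4 n2 n3, m3], hpq.trans (l1 _ _ m4)⟩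

theorem claimP (n : ℕ) : ∀ S : Finset Ω, S.card = n → ∀ x y : Perm Ω, x * x = 1 →
    y * y = 1 → x.support ⊆ S → y.support ⊆ S → x.support.card = y.support.card →
    x.support.card < S.card →
    ∃ z : Perm Ω, z * z = 1 ∧ z.support ⊆ S ∧ Path S x z ∧ Path S y z := by
  induction n using Nat.strong_induction_on with
  | _ n ih =>
  intro S hn x y hx hy h1 h2 h3 h4
  by_cases h0 : x = 1
  · subst h0
    obtain rfl : y = 1 := by rwa [support_one, card_empty, eq_comm, card_support_eq_zero] at h3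
    have : Path S 1 1 := fun p hp => ⟨⟨p, hp, rfl, Conn.refl p⟩, p, hp, rfl, Conn.refl p⟩
    exact ⟨1, one_mul 1, by simp, this, this⟩
  obtain ⟨a, ha, b, hb, k1, k2, k3, k4, k5⟩ : ∃ a ∈ S, ∃ b ∈ S, a ≠ b ∧ x a ≠ b ∧ y a ≠ b ∧
      (x a ≠ a ∨ x b ≠ b) ∧ (y a ≠ a ∨ y b ≠ b) := by
    by_cases h5 : x.support = y.support
    · obtain ⟨a, ha⟩ := nonempty_iff_ne_empty.2 (mt support_eq_empty_iff.1 h0)
      obtain ⟨b, hb, hb'⟩ := exists_mem_notMem_of_card_lt_card h4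
      refine ⟨a, h1 ha, b, hb, fun e => hb' (e ▸ ha), fun e => hb' (e ▸ apply_mem_support.2 ha),
        fun e => hb' ?_, Or.inl (mem_support.1 ha), Or.inl (mem_support.1 (h5 ▸ ha))⟩
      rw [h5, ← e, apply_mem_support, ← h5]; exact ha
    · obtain ⟨a, ha, ha'⟩ := not_subset.1 fun h => h5 (eq_of_subset_of_card_le h h3.ge)
      obtain ⟨b, hb, hb'⟩ := not_subset.1 fun h => h5 (eq_of_subset_of_card_le h h3.le).symm
      refine ⟨a, h1 ha, b, h2 hb, fun e => hb' (e ▸ ha), fun e => hb' (e ▸ apply_mem_support.2 ha),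
        fun e => ha' ?_, Or.inl (mem_support.1 ha), Or.inr (mem_support.1 hb)⟩
      rwa [← e, apply_mem_support] at hb
  obtain ⟨x', l1, l2, l3, l4⟩ := stepP hx h1 ha hb k1 k4 k2 (mem_ee S a b)
  obtain ⟨y', m1, m2, m3, m4⟩ := stepP hy h2 ha hb k1 k5 k3 (mem_ee S a b)
  have h5 := card_add_two ha hb k1 (mem_ee S a b)
  obtain ⟨z', n1, n2, n3, n4⟩ := ih _ (by omega) _ rfl x' y' l1 m1 l2 m2 (by omega) (by omega)
  obtain ⟨o1, o2⟩ := fix_of_supp (mem_ee S a b) n2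
  exact ⟨swap a b * z', swap_mul_sq n1 (by rw [o1, o2]),
    support_swap_mul_le ha hb (mem_ee S a b) n2, l4 z' n2 n3, m4 z' n2 n4⟩

theorem del (hx : x * x = 1) (h1 : x.support = univ) (a : Ω) :
    ∃ x' : Perm Ω, x' * x' = 1 ∧ x'.support = (univ.erase a).erase (x a) ∧
      (∀ p, p ≠ a → p ≠ x a → x' p = x p) ∧ ∀ z', x * (swap a (x a) * z') = x' * z' := by
  have h2 : swap (x a) (x (x a)) = swap a (x a) := by rw [inv2 hx, swap_comm]
  have h3 : ∀ p, p ≠ a → p ≠ x a → (swap a (x a) * x) p = x p := fun p k1 k2 =>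
    swap_apply_of_ne_of_ne (fun h => k2 (by rw [← h, inv2 hx])) (fun h => k1 (x.injective h))
  refine ⟨swap a (x a) * x, swap_mul_sq hx h2, ?_, h3, fun z' => ?_⟩
  · ext p
    rw [mem_ee, mem_support]
    by_cases k1 : p = a
    · simp [k1]
    by_cases k2 : p = x a
    · simp [k2, inv2 hx]
    rw [h3 p k1 k2]
    exact iff_of_true (mem_support.1 (h1 ▸ mem_univ p)) ⟨mem_univ p, k1, k2⟩
  · rw [swap_apply_apply, mul_inv_eq_iff_eq_mul] at h2
    rw [← mul_assoc, h2]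

theorem two_step (hx : x * x = 1) (h1 : x.support = univ) {a c d : Ω} (hcd : c ≠ d)
    (k1 : c ≠ a) (k2 : c ≠ x a) (k3 : d ≠ a) (k4 : d ≠ x a) (k5 : x c ≠ d) {S : Finset Ω}
    (hS : ∀ p, p ∈ S ↔ (p ≠ a ∧ p ≠ x a) ∧ p ≠ c ∧ p ≠ d) {m : ℕ} (hm : Odd m)
    (hn : Fintype.card Ω = 2 * m + 2) :
    ∃ x' : Perm Ω, x' * x' = 1 ∧ x'.support = S ∧ S.Nonempty ∧
      ∀ z' : Perm Ω, z' * z' = 1 → z'.support = S → (∀ p ∈ S, ∀ q ∈ S, Conn x' z' p q) →
        Odd (orderOf (x * (swap a (x a) * (swap c d * z')))) := by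
  obtain ⟨x1, l1, l2, l3, l4⟩ := del hx h1 a
  have hc : c ∈ (univ.erase a).erase (x a) := (mem_ee _ _ _ _).2 ⟨mem_univ _, k1, k2⟩
  have hd : d ∈ (univ.erase a).erase (x a) := (mem_ee _ _ _ _).2 ⟨mem_univ _, k3, k4⟩
  have hS' : ∀ p, p ∈ S ↔ p ∈ (univ.erase a).erase (x a) ∧ p ≠ c ∧ p ≠ d := fun p => by
    rw [hS, mem_ee]; simp
  obtain ⟨x2, m1, m2, m3, m4⟩ := stepH l1 l2 hc hd hcd (by rwa [l3 c k1 k2]) hS'
  refine ⟨x2, m1, m2, m3, fun z' n1 n2 n3 => ?_⟩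
  obtain ⟨o1, o2⟩ := fix_of_supp hS' n2.le
  have h5 := card_add_two (mem_univ a) (mem_univ (x a)) (mem_support.1 (h1 ▸ mem_univ a)).symm
    (mem_ee univ a (x a))
  rw [l4]
  exact odd_of_conn l1 (swap_mul_sq n1 (by rw [o1, o2])) l2 (support_swap_mul hc hd hcd hS' n2)
    (m4 z' n2 n3) hm (by rw [card_univ] at h5; omega)

theorem exists_common (hn : 5 ≤ Fintype.card Ω) (hx : x * x = 1) (hy : y * y = 1)
    (h : x.support.card = y.support.card) :
    ∃ z : Perm Ω, z * z = 1 ∧ Odd (orderOf (x * z)) ∧ Odd (orderOf (y * z)) := by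
  rcases (card_le_univ x.support).lt_or_eq with hlt | heq
  · obtain ⟨z, h1, -, h2, h3⟩ := claimP _ univ rfl x y hx hy (subset_univ _) (subset_univ _) h hlt
    refine ⟨z, h1, odd_orderOf fun p => ?_, odd_orderOf fun p => ?_⟩
    · obtain ⟨⟨u, -, k1, k2⟩, v, -, k3, k4⟩ := h2 p (mem_univ p)
      exact odd_of_fixed hx h1 k1 k3 k2 k4
    · obtain ⟨⟨u, -, k1, k2⟩, v, -, k3, k4⟩ := h3 p (mem_univ p)
      exact odd_of_fixed hy h1 k1 k3 k2 k4
  have h1 : x.support = univ := eq_univ_of_card _ heq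
  have h2 : y.support = univ := eq_univ_of_card _ (h ▸ heq)
  obtain ⟨k, hk⟩ : 2 ∣ Fintype.card Ω := heq ▸ two_dvd_card_support (by rwa [pow_two])
  have hne : (univ : Finset Ω).Nonempty := card_pos.1 (by rw [card_univ]; omega)
  rcases Nat.even_or_odd' k with ⟨j, hj | hj⟩
  swap
  · obtain ⟨z, l1, l2, l3, l4⟩ := claimH _ univ rfl hne x y hx hy h1 h2
    exact ⟨z, l1, odd_of_conn hx l1 h1 l2 l3 ⟨j, hj⟩ hk, odd_of_conn hy l1 h2 l2 l4 ⟨j, hj⟩ hk⟩
  have hm : Odd (k - 1) := ⟨j - 1, by omega⟩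
  have hxa : ∀ a, x a ≠ a := fun a => mem_support.1 (h1 ▸ mem_univ a)
  have hya : ∀ a, y a ≠ a := fun a => mem_support.1 (h2 ▸ mem_univ a)
  by_cases h3 : ∃ a, x a = y a
  · obtain ⟨a, ha⟩ := h3
    obtain ⟨x1, l1, l2, -, l4⟩ := del hx h1 a
    obtain ⟨y1, m1, m2, -, m4⟩ := del hy h2 a
    rw [← ha] at m2 m4
    have h5 := card_add_two (mem_univ a) (mem_univ (x a)) (hxa a).symm (mem_ee univ a (x a))
    rw [card_univ] at h5
    obtain ⟨z, n1, n2, n3, n4⟩ := claimH _ _ rfl (card_pos.1 (by omega)) x1 y1 l1 m1 l2 m2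
    obtain ⟨o1, o2⟩ := fix_of_supp (mem_ee univ a (x a)) n2.le
    refine ⟨swap a (x a) * z, swap_mul_sq n1 (by rw [o1, o2]), ?_, ?_⟩
    · rw [l4]; exact odd_of_conn l1 n1 l2 n2 n3 hm (by omega)
    · rw [m4]; exact odd_of_conn m1 n1 m2 n2 n4 hm (by omega)
  push Not at h3
  obtain ⟨a, -⟩ := hne
  obtain ⟨c, -, hc⟩ := exists_mem_notMem_of_card_lt_card (s := {a, x a, y a, y (x a)}) (t := univ)
    (by have := card_le_four (a := a) (b := x a) (c := y a) (d := y (x a)); rw [card_univ]; omega)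
  simp only [mem_insert, mem_singleton, not_or] at hc
  obtain ⟨c1, c2, c3, c4⟩ := hc
  have c5 : y c ≠ a := fun e => c3 (by rw [← e, inv2 hy])
  have c6 : y c ≠ x a := fun e => c4 (by rw [← e, inv2 hy])
  obtain ⟨x', l1, l2, l3, l4⟩ := two_step hx h1 (hya c).symm c1 c2 c5 c6 (h3 c)
    (S := univ.filter fun p => (p ≠ a ∧ p ≠ x a) ∧ p ≠ c ∧ p ≠ y c) (by simp) hm (by omega)
  obtain ⟨y', m1, m2, -, m4⟩ := two_step hy h2 (hxa a).symm (Ne.symm c1) c5.symm (Ne.symm c2)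
    c6.symm (h3 a).symm (S := univ.filter fun p => (p ≠ a ∧ p ≠ x a) ∧ p ≠ c ∧ p ≠ y c)
    (by simp; tauto) hm (by omega)
  obtain ⟨z, n1, n2, n3, n4⟩ := claimH _ _ rfl l3 x' y' l1 m1 l2 m2
  have hcm : swap a (x a) * swap c (y c) = swap c (y c) * swap a (x a) := by
    rw [← mul_inv_eq_iff_eq_mul, ← swap_apply_apply, swap_apply_of_ne_of_ne c1 c2,
      swap_apply_of_ne_of_ne c5 c6]
  have hfix : ∀ p, ¬ ((p ≠ a ∧ p ≠ x a) ∧ p ≠ c ∧ p ≠ y c) → z p = p := fun p hp =>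
    notMem_support.1 (by rw [n2]; simpa using hp)
  refine ⟨swap a (x a) * (swap c (y c) * z), swap_mul_sq (swap_mul_sq n1
    (by rw [hfix c (by simp), hfix (y c) (by simp)])) ?_, l4 z n1 n2 n3, ?_⟩
  · rw [Perm.mul_apply, Perm.mul_apply, hfix a (by simp), hfix (x a) (by simp),
      swap_apply_of_ne_of_ne (Ne.symm c1) c5.symm, swap_apply_of_ne_of_ne (Ne.symm c2) c6.symm]
  · rw [← mul_assoc (swap a (x a)), hcm, mul_assoc]
    exact m4 z n1 n2 n4

theorem isConj_of_odd {G : Type*} [Group G] {x z : G} (hx : x * x = 1) (hz : z * z = 1)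
    (h : Odd (orderOf (x * z))) : IsConj x z := by
  obtain ⟨m, hm⟩ := h
  have h1 : x * (x * z) * x⁻¹ = (x * z)⁻¹ := by
    rw [← mul_assoc, hx, one_mul, mul_inv_rev, inv_eq_of_mul_eq_one_right hz]
  have h2 : (x * z) ^ m * x = x * ((x * z) ^ m)⁻¹ := by
    have : x * ((x * z) ^ m)⁻¹ * x⁻¹ = (x * z) ^ m := by
      rw [← inv_pow, ← conj_pow, ← conj_inv, h1, inv_inv]
    rw [← this, inv_mul_cancel_right, this]
  have h3 : ((x * z) ^ m)⁻¹ * ((x * z) ^ m)⁻¹ = x * z := by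
    rw [← mul_inv_rev, inv_eq_iff_mul_eq_one, ← pow_add, ← pow_succ, ← two_mul, ← hm,
      pow_orderOf_eq_one]
  refine isConj_iff.2 ⟨(x * z) ^ m, ?_⟩
  rw [h2, mul_assoc, h3, ← mul_assoc, hx, one_mul]

end Cfsg.Agent.H98.OddInv
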