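import Cfsg.Agent.H98.PFGen
import Cfsg.Agent.H98.Simple2

/-!
The fusion systems of the symplectic and unitary groups in the defining characteristic.
-/

set_option autoImplicit false

namespace Cfsg.Agent.H98.PFC

open Cfsg Module Cfsg.Agent.H26 Cfsg.Agent.H26.PForm

variable {F : Type*} [Field F] {V : Type*} [AddCommGroup V] [Module F V] {P : PForm F V}

variable (P) in
/-- The unipotent radical of the stabilizer of `W`. -/
def QW (W : Submodule F V) : Subgroup (V ≃ₗ[F] V) where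
  carrier := {g | g ∈ fixE P W ∧ ∀ x ∈ P.perp W, g x - x ∈ W}
  one_mem' := ⟨(fixE P W).one_mem, fun x _ => by simp⟩
  mul_mem' {g k} hg hk := ⟨(fixE P W).mul_mem hg.1 hk.1, fun x hx => by
    have h := W.add_mem (hk.2 x hx) (hg.2 x hx)
    rw [← hg.1.2 _ (hk.2 x hx), map_sub, sub_add_sub_cancel] at h
    exact h⟩
  inv_mem' {g} hg := ⟨(fixE P W).inv_mem hg.1, fun x hx => by
    have h := W.neg_mem (hg.2 x hx)
    rw [← ((fixE P W).inv_mem hg.1).2 _ (hg.2 x hx), map_sub, inv_apply_apply, neg_sub] at h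
    exact h⟩

theorem QW_le_E (W : Submodule F V) : QW P W ≤ P.E := fun _ h => h.1.1

theorem equiv_mem_QW {W : Submodule F V} (hW : W ≤ P.perp W) {e y : V} {ν : F} (h : P.EV e y ν)
    (he : e ∈ W) (hy : y ∈ P.perp W) : h.equiv ∈ QW P W :=
  ⟨equiv_mem_fixE h (hW he) hy, fun x hx => by
    rw [EV.equiv_apply, P.eich_apply_of_orth _ (hx e he), sub_sub_cancel_left]
    exact W.neg_mem (W.smul_mem _ he)⟩

theorem span_le_perp {e : V} (he : P.Sing e) : F ∙ e ≤ P.perp (F ∙ e) :=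
  (Submodule.span_singleton_le_iff_mem _ _).2 (mem_perp_span_singleton.2 he.f_self)

theorem equiv_mem_QW_span {e y : V} {ν : F} (h : P.EV e y ν) : h.equiv ∈ QW P (F ∙ e) :=
  equiv_mem_QW (span_le_perp h.sing) h (Submodule.mem_span_singleton_self e)
    (mem_perp_span_singleton.2 h.orth)

theorem eq_of_conj_equiv {g : V ≃ₗ[F] V} (hg : g ∈ P.isom) {e y : V} {ν : F} (h : P.EV e y ν)
    (hc : g * h.equiv * g⁻¹ = h.equiv) (x : V) : P.eich (g e) (g y) ν x = P.eich e y ν x := by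
  rw [h.conj_equiv hg] at hc
  exact LinearEquiv.congr_fun hc x

theorem ei_closed {S T : Subgroup (V ≃ₗ[F] V)}
    (hT : ∀ x ∈ T, ∀ g ∈ P.E, g * x * g⁻¹ ∈ S → g * x * g⁻¹ ∈ T) {g : V ≃ₗ[F] V} (hg : g ∈ P.E)
    {e y e' y' : V} {ν : F} (h : P.Ei T e y ν) (he : g e = e') (hy : g y = y')
    (hS : ∀ h : P.EV e' y' ν, h.equiv ∈ S) : P.Ei T e' y' ν := by
  subst he hy
  have h1 := h.ev.conj_equiv (E_le_isom hg)
  exact ⟨_, h1 ▸ hT _ h.mem g hg (h1 ▸ hS _)⟩

variable [FiniteDimensional F V]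

theorem conj_mem_QW {W : Submodule F V} {g x : V ≃ₗ[F] V} (hg : g ∈ P.E) (hW : ∀ w ∈ W, g w ∈ W)
    (hx : x ∈ QW P W) : g * x * g⁻¹ ∈ QW P W := by
  have h1 : ∀ w ∈ W, g⁻¹ w ∈ W := mem_stabSub.1 ((stabSub W).inv_mem (mem_stabSub.2 hW))
  refine ⟨⟨E_conj (E_le_isom hg) hx.1.1, fun w hw => ?_⟩, fun y hy => ?_⟩
  · rw [mul_apply', mul_apply', hx.1.2 _ (h1 w hw), apply_inv_apply]
  · have := hW _ (hx.2 _ (map_perp (P.isom.inv_mem (E_le_isom hg)) (W := W) (W' := W)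
      (by simpa using hW) hy))
    rwa [map_sub, apply_inv_apply] at this

theorem exists_equiv_of_mem_QW {e : V} (he : P.Sing e) (he0 : e ≠ 0) {g : V ≃ₗ[F] V}
    (hg : g ∈ QW P (F ∙ e)) : ∃ y ν, ∃ h : P.EV e y ν, g = h.equiv := by
  obtain ⟨e', he', h1⟩ := he.exists_partner' he0
  have hi := E_le_isom hg.1.1
  have h2 : g e = e := hg.1.2 e (Submodule.mem_span_singleton_self e)
  obtain ⟨h3, h4⟩ := exists_eich_map he he' (he'.map hi) h1 (by rw [← h1, ← isom_f hi e' e, h2])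
  refine ⟨_, _, h3, ?_⟩
  have hk := (QW P _).mul_mem ((QW P _).inv_mem (equiv_mem_QW_span h3)) hg
  rw [eq_comm, ← inv_mul_eq_one]
  set k := h3.equiv⁻¹ * g
  have h5 : k e' = e' := by
    exact (congrArg (fun x => h3.equiv⁻¹ x) h4.symm).trans (inv_apply_apply h3.equiv e')
  ext x
  have h6 : x - P.f x e • e' ∈ P.perp (F ∙ e) := by
    rw [mem_perp_span_singleton, f_sub_left, P.f_smul_left, h1, mul_one, sub_self]
  obtain ⟨c, hc⟩ := Submodule.mem_span_singleton.1 (hk.2 _ h6)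
  have h7 := congrArg (P.f · e') hc
  simp only [P.f_smul_left, f_symm_one h1] at h7
  rw [f_sub_left, ← isom_f (E_le_isom hk.1.1) (x - P.f x e • e') e', h5, sub_self, mul_eq_zero,
    or_iff_left P.ε_ne_zero] at h7
  rw [h7, zero_smul, map_sub, map_smul, h5, sub_sub_sub_cancel_right, eq_comm, sub_eq_zero] at hc
  exact hc

theorem Max.mem_span_of_fixed (hP : Max P) {e x : V} (he : P.Sing e) (he0 : e ≠ 0)
    (h : ∀ g ∈ QW P (F ∙ e), g x = x) : x ∈ F ∙ e := by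
  obtain ⟨ν, hν, hν0⟩ := hP.ne
  have h1 := h _ (equiv_mem_QW_span (EV.of_mem he hν))
  rw [EV.equiv_apply, eich_zero_apply, sub_eq_self, smul_eq_zero, or_iff_left he0, mul_eq_zero,
    or_iff_right P.ε_ne_zero, mul_eq_zero, or_iff_right hν0] at h1
  refine mem_span_singleton_of (P := P) fun y hy => f_symm_zero ?_
  have h2 := h _ (equiv_mem_QW_span (EV.of_h he hy))
  rwa [EV.equiv_apply, P.eich_apply_of_orth _ h1, sub_eq_self, smul_eq_zero, or_iff_left he0,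
    mul_eq_zero, or_iff_right P.ε_ne_zero] at h2

theorem exists_elem {a b : V} (hb : P.Sing b) (hab : P.f a b = 0) (h : a ∉ F ∙ b) (c : F) :
    ∃ y ν, ∃ h : P.EV b y ν, h.equiv a = a + c • b ∧ h.equiv b = b := by
  obtain ⟨y, hy, h1⟩ := P.exists_perp_f_right h (-(P.ε * c))
  have h2 := EV.of_h hb (mem_perp_span_singleton.1 hy)
  refine ⟨y, _, h2, ?_, h2.eich_self⟩
  rw [EV.equiv_apply, P.eich_apply_of_orth _ hab, h1, mul_neg, ε_mul_ε_mul, neg_smul, sub_neg_eq_add]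

variable {p : ℕ} [Fact p.Prime] [CharP F p]

omit [FiniteDimensional F V] in
theorem eq_one_of_eigen {g : V ≃ₗ[F] V} {k : ℕ} (hk : g ^ p ^ k = 1) {w : V} (hw : w ≠ 0) {c : F}
    (h : g w = c • w) : c = 1 := by
  have h1 : ∀ m : ℕ, (g ^ m) w = c ^ m • w := fun m => by
    induction m with
    | zero => simp
    | succ m ih => rw [pow_succ, mul_apply', h, map_smul, ih, smul_smul, pow_succ']
  have h2 := h1 (p ^ k)
  rw [hk] at h2
  have h3 : (c - 1) ^ p ^ k = 0 := by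
    rw [sub_pow_char_pow, one_pow, sub_eq_zero]
    exact smul_left_injective F hw (h2.symm.trans (one_smul F w).symm)
  exact sub_eq_zero.1 (pow_eq_zero_iff'.1 h3).1

omit [FiniteDimensional F V] in
theorem pow_eq_one_of_mem_QW {W : Submodule F V} {g : V ≃ₗ[F] V} (hg : g ∈ QW P W) :
    g ^ p ^ 2 = 1 := by
  cases subsingleton_or_nontrivial V
  · exact LinearEquiv.ext fun _ => Subsingleton.elim _ _
  haveI : CharP (Module.End F V) p := charP_of_injective_algebraMap (algebraMap F _).injective p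
  set N : Module.End F V := (g : V →ₗ[F] V) - 1
  have hN : ∀ x, N x = g x - x := fun _ => rfl
  have h1 : N ^ 3 = 0 := by
    ext x
    have h2 : N x ∈ P.perp W := fun w hw => by
      rw [hN, f_sub_left, ← isom_f (E_le_isom hg.1.1) x w, hg.1.2 w hw, sub_self]
    show N (N (N x)) = 0
    rw [hN (N (N x)), hg.1.2 _ (hN _ ▸ hg.2 _ h2), sub_self]
  have h2 : N ^ p ^ 2 = 0 := pow_eq_zero_of_le (by
    have := (Fact.out : p.Prime).two_le
    nlinarith) h1
  rw [sub_pow_char_pow_of_commute _ _ (Commute.one_right _), one_pow, sub_eq_zero] at h2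
  refine LinearEquiv.toLinearMap_injective ?_
  rw [← LinearEquiv.automorphismGroup.toLinearMapMonoidHom_apply, map_pow]
  exact h2

omit [FiniteDimensional F V] in
theorem QW_isPGroup (W : Submodule F V) : IsPGroup p (QW P W) := fun g =>
  ⟨2, Subtype.ext (pow_eq_one_of_mem_QW g.2)⟩

theorem Max.QW_centric (hP : Max P) {W : Submodule F V} (hW : W ≤ P.perp W) (h0 : W ≠ ⊥)
    (x : V ≃ₗ[F] V) (hx : x ∈ P.E) (hc : ∀ y ∈ QW P W, x * y * x⁻¹ = y)
    (hp : ∃ k, x ^ p ^ k = 1) : x ∈ QW P W := by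
  obtain ⟨k, hk⟩ := hp
  obtain ⟨ν, hν, hν0⟩ := hP.ne
  have hs : ∀ w ∈ W, P.Sing w := fun w hw => hP.sing (hW hw w hw)
  have h1 : ∀ w ∈ W, x w = w := fun w hw => by
    by_cases hw0 : w = 0
    · rw [hw0, map_zero]
    obtain ⟨v, hv⟩ := P.exists_f_left_eq hw0 1
    have h2 := eq_of_conj_equiv (E_le_isom hx) (EV.of_mem (hs w hw) hν)
      (hc _ (equiv_mem_QW hW _ hw (Submodule.zero_mem _))) v
    rw [map_zero, eich_zero_apply, eich_zero_apply, sub_right_inj, hv, ← mul_assoc, ← mul_assoc,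
      mul_smul, mul_smul _ (1 : F), one_smul] at h2
    have h3 := smul_right_injective V (mul_ne_zero P.ε_ne_zero hν0) h2
    have h4 : P.f v (x w) ≠ 0 := fun h => hw0 (by simpa [h] using h3.symm)
    have h5 : x w = (P.f v (x w))⁻¹ • w := (eq_inv_smul_iff₀ h4).2 h3
    rw [h5, eq_one_of_eigen hk hw0 h5, one_smul]
  refine ⟨⟨hx, h1⟩, fun y hy => ?_⟩
  obtain ⟨w, hw, hw0⟩ := Submodule.exists_mem_ne_zero_of_ne_bot h0
  obtain ⟨v, hv⟩ := P.exists_f_left_eq hw0 1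
  have h2 := eq_of_conj_equiv (E_le_isom hx) (EV.of_h (hs w hw) (hy w hw))
    (hc _ (equiv_mem_QW hW _ hw hy)) v
  rw [h1 w hw, eich_apply, eich_apply, hv, one_smul, one_smul] at h2
  have h3 : x y - y = (P.ε * (P.f v (x y) + P.h y * 1) - P.ε * (P.f v y + P.h y * 1)) • w := by
    linear_combination (norm := module) h2
  rw [h3]
  exact W.smul_mem _ hw

variable [Finite V]

omit [FiniteDimensional F V] in
theorem Max.exists_fixed (hP : Max P) {S : Subgroup (V ≃ₗ[F] V)} (hS : IsPGroup p S)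
    (hi : S ≤ P.isom) {D : Submodule F V} (hD : ∀ s ∈ S, ∀ d ∈ D, s d ∈ D)
    (h : ∃ e ∈ P.perp D, e ∉ D ∧ P.Sing e) :
    ∃ e ∈ P.perp D, e ∉ D ∧ P.Sing e ∧ ∀ s ∈ S, s e - e ∈ D ⊓ P.perp D := by
  have hD' : ∀ s ∈ S, ∀ x ∈ P.perp D, s x ∈ P.perp D := fun s hs x hx =>
    map_perp (hi hs) (hD _ (S.inv_mem hs)) hx
  set Y := Submodule.span F {y | ∃ s ∈ S, ∃ x ∈ P.perp D, y = s x - x}
  have hY : Y ≤ P.perp D := Submodule.span_le.2 (by
    rintro _ ⟨s, hs, x, hx, rfl⟩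
    exact Submodule.sub_mem _ (hD' s hs x hx) hx)
  by_cases h0 : Y ≤ D
  · obtain ⟨e, h1, h2, h3⟩ := h
    refine ⟨e, h1, h2, h3, fun s hs => ?_⟩
    have : s e - e ∈ Y := Submodule.subset_span ⟨s, hs, e, h1, rfl⟩
    exact ⟨h0 this, hY this⟩
  obtain ⟨v, hv, h1, h2⟩ := H85.exists_fix_mod (p := p) (W := V) (fun w => by
    rw [← Nat.cast_smul_eq_nsmul F, CharP.cast_eq_zero, zero_smul]) hS
    (N₀ := D.toAddSubgroup) (N := Y.toAddSubgroup) (H85.le_nrm_iff.2 hD)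
    (H85.le_nrm_iff'.2 fun s hs w hw => Submodule.subset_span ⟨s, hs, w, hY hw, rfl⟩) h0
  have h3 : ∀ s ∈ S, s v - v ∈ D := h2
  refine ⟨v, hY hv, h1, hP.sing ?_, fun s hs =>
    ⟨h3 s hs, Submodule.sub_mem _ (hD' s hs v (hY hv)) (hY hv)⟩⟩
  refine mem_perp_span_singleton.1 (Submodule.span_le.2 ?_ hv)
  rintro _ ⟨s, hs, x, hx, rfl⟩
  rw [SetLike.mem_coe, mem_perp_span_singleton, f_sub_left, isom_f_left (hi hs), ← f_sub_right]
  exact hx _ (h3 _ (S.inv_mem hs))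

omit [FiniteDimensional F V] [Fact p.Prime] [CharP F p] in
theorem finite_equiv : Finite (V ≃ₗ[F] V) := DFunLike.finite _

attribute [local instance] finite_equiv

theorem Max.le_of_eich (hP : Max P) {S₀ T : Subgroup (V ≃ₗ[F] V)}
    (hT : ∀ e y ν (h : P.EV e y ν), h.equiv ∈ S₀ → h.equiv ∈ T) {D : Submodule F V}
    (hD : Disjoint D (P.perp D)) {S : Subgroup (V ≃ₗ[F] V)} (hS : SylIn p S (fixE P D))
    (h0 : S ≤ S₀) : S ≤ T := by
  induction hn : finrank F (P.perp D) using Nat.strong_induction_on generalizing D S with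
  | _ n ih =>
  by_cases hs : ∀ e ∈ P.perp D, P.Sing e → e = 0
  · intro g hg
    rw [hP.eq_one hD hs (E_le_isom (hS.le hg).1) (det_of_mem_E (hS.le hg).1) (hS.le hg).2]
    exact T.one_mem
  push Not at hs
  obtain ⟨e₀, h1, h2, h3⟩ := hs
  obtain ⟨e, heD, hnD, he, h4⟩ := hP.exists_fixed hS.isPGroup (fun s hs => E_le_isom (hS.le hs).1)
    (fun s hs d hd => by rwa [(hS.le hs).2 d hd])
    ⟨e₀, h1, fun h => h3 (Submodule.disjoint_def.1 hD _ h h1), h2⟩
  have h5 : ∀ s ∈ S, s e = e := fun s hs =>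
    sub_eq_zero.1 (Submodule.disjoint_def.1 hD _ (h4 s hs).1 (h4 s hs).2)
  obtain ⟨e', he'D, he', h6⟩ := he.exists_partner heD hnD
  have hn' : ∀ s ∈ fixE P D, s e = e → ∀ x ∈ QW P (F ∙ e) ⊓ fixE P D,
      s * x * s⁻¹ ∈ QW P (F ∙ e) ⊓ fixE P D := fun s hs h x hx =>
    ⟨conj_mem_QW hs.1 (fun w hw => by
      obtain ⟨c, rfl⟩ := Submodule.mem_span_singleton.1 hw
      rwa [map_smul, h]) hx.1,
      (fixE P D).mul_mem ((fixE P D).mul_mem hs hx.2) ((fixE P D).inv_mem hs)⟩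
  have hQp : IsPGroup p ↥(QW P (F ∙ e) ⊓ fixE P D) := (QW_isPGroup _).to_inf_left
  have hQ : QW P (F ∙ e) ⊓ fixE P D ≤ S :=
    hS.le_of_normalized inf_le_right hQp fun s hs => hn' s (hS.le hs) (h5 s hs)
  set D' := (D ⊔ F ∙ e) ⊔ F ∙ e'
  have key : ∀ s ∈ S, ∃ k ∈ QW P (F ∙ e) ⊓ fixE P D, k ∈ T ∧ k * s ∈ S ⊓ fixE P D' :=
    fun s hs => by
    have hi := E_le_isom (hS.le hs).1
    obtain ⟨h7, h8⟩ := exists_eich_map he (he'.map hi) he'
      (by rw [← h6, ← isom_f hi e' e, h5 s hs]) h6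
    have hk : h7.equiv ∈ QW P (F ∙ e) ⊓ fixE P D := ⟨equiv_mem_QW_span h7, equiv_mem_fixE h7 heD
      (Submodule.sub_mem _ he'D (apply_mem_perp hi (hS.le hs).2 he'D))⟩
    have h9 := S.mul_mem (hQ hk) hs
    exact ⟨_, hk, hT _ _ _ h7 (h0 (hQ hk)), h9, (hS.le h9).1,
      fix_hyp (hS.le h9).2 (h5 _ h9) h8⟩
  have hle : fixE P D' ≤ fixE P D := fun g hg =>
    ⟨hg.1, fun d hd => hg.2 d (Submodule.mem_sup_left (Submodule.mem_sup_left hd))⟩
  have hS' : SylIn p (S ⊓ fixE P D') (fixE P D') := by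
    refine ⟨inf_le_right, hS.isPGroup.to_inf_left, fun U hU hp hSU =>
      le_antisymm (le_inf ?_ hU) hSU⟩
    have := hS.eq_of_le (sup_le (hU.trans hle) inf_le_right)
      (IsPGroup.to_sup_of_normal_right' hp hQp fun s hs => H96.mem_normalizer_of_conj_mem
        (hn' s (hle (hU hs)) ((hU hs).2 e (Submodule.mem_sup_left (Submodule.mem_sup_right
          (Submodule.mem_span_singleton_self e)))))) fun s hs => by
        obtain ⟨k, hk, -, h7⟩ := key s hs
        exact (Subgroup.mul_mem_cancel_left _ (Subgroup.mem_sup_right hk)).1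
          (Subgroup.mem_sup_left (hSU h7))
    exact le_sup_left.trans this.le
  intro s hs
  obtain ⟨k, -, hk, h7⟩ := key s hs
  exact (T.mul_mem_cancel_left hk).1 (ih _ (hn ▸ finrank_perp_hyp_lt heD h6)
    (disjoint_hyp hD he he' heD he'D h6) hS' (inf_le_left.trans h0) rfl h7)

/-! ### strongly closed subgroups -/

omit [Fact p.Prime] [CharP F p] [Finite V] in
theorem exists_tv {S T : Subgroup (V ≃ₗ[F] V)}
    (hA : (∃ c, c ≠ P.ε * P.σ c) ∨ (P.Λ = ⊤ ∧ ((∃ c : F, c ≠ 0 ∧ c ≠ 1) ∨ 4 < finrank F V)))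
    (hT : ∀ x ∈ T, ∀ g ∈ P.E, g * x * g⁻¹ ∈ S → g * x * g⁻¹ ∈ T) {e y : V} {ν : F}
    (hQ : QW P (F ∙ e) ≤ S) (h : P.Ei T e y ν) (h1 : h.ev.equiv ≠ 1) :
    ∃ μ, μ ≠ 0 ∧ P.Ei T e 0 μ := by
  have he := h.ev.sing
  by_cases hy : y ∈ F ∙ e
  · obtain ⟨k, rfl⟩ := Submodule.mem_span_singleton.1 hy
    have h2 : P.Ei T e (0 + k • e) ν := by rwa [zero_add]
    refine ⟨_, fun h0 => h1 (LinearEquiv.ext fun x => ?_), h2.of_add_smul_self⟩
    rw [EV.equiv_apply, ← zero_add (k • e), eich_add_smul_self, h0, eich_zero_zero]; rfl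
  by_cases hc : ∃ c, c ≠ P.ε * P.σ c
  · obtain ⟨c, hc⟩ := hc
    obtain ⟨y', hy', h2⟩ := P.exists_perp_f_right hy c
    have h3 := EV.of_h he (mem_perp_span_singleton.1 hy')
    have h4 : P.Ei T e (y + (-(P.ε * c)) • e) ν :=
      ei_closed hT h3.equiv_mem_E h h3.eich_self (by
        rw [EV.equiv_apply, P.eich_apply_of_orth _ h.ev.orth, h2, neg_smul, sub_eq_add_neg])
        fun h => hQ (equiv_mem_QW_span h)
    refine ⟨_, fun h0 => hc ?_, h4.of_add_smul_self.sub_same h⟩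
    rw [map_neg, map_mul, σ_ε] at h0
    linear_combination h0 - c * P.ε_sq
  obtain ⟨hΛ, hA⟩ := hA.resolve_left hc
  push Not at hc
  have hs : ∀ x, P.Sing x := fun x => by rw [Sing, hΛ]; trivial
  have hΛ' : ∀ a, a ∈ P.Λ := fun a => by rw [hΛ]; trivial
  have hsymm : ∀ x z, P.f x z = P.f z x := fun x z => by rw [P.herm z x, ← hc]
  have M1 : ∀ y ν, P.Ei T e y ν → ∀ y', P.f y' e = 0 → P.f y y' ≠ 0 → P.Ei T e y' ν :=
    fun y ν h y' hy' h0 => by
    have h3 := EV.of_mem (hs (y' - y)) (hΛ' (-(P.ε / P.f y y')))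
    refine ei_closed hT h3.equiv_mem_E h ?_ ?_ fun h => hQ (equiv_mem_QW_span h)
    · rw [EV.equiv_apply, P.eich_apply_of_orth₂ _ _ (P.f_zero_right _)]
      rw [hsymm, f_sub_left, hy', h.ev.orth, sub_self]
    · rw [EV.equiv_apply, eich_zero_apply, f_sub_right, (hs y).f_self, sub_zero, neg_mul,
        div_mul_cancel₀ _ h0, mul_neg, P.ε_sq]
      module
  have M2 : ∀ y ν, P.Ei T e y ν → y ∉ F ∙ e → ∀ c, c ≠ 0 → P.Ei T e 0 (ν + c) :=
    fun y ν h hy c hc0 => by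
    obtain ⟨y', hy', h2⟩ := P.exists_perp_f_right hy c
    rw [mem_perp_span_singleton] at hy'
    have h3 := M1 y ν h y' hy' (h2 ▸ hc0)
    have h4 := M1 y ν h (y + y') (by rw [P.f_add_left, hy', h.ev.orth, add_zero])
      (by rwa [f_add_right, (hs y).f_self, zero_add, h2])
    have h5 := (h.add h3).sub_same h4
    rw [hsymm, h2] at h5
    convert h5 using 1
    ring
  by_cases hν : ν = 0
  · exact ⟨_, by rw [hν, zero_add]; exact one_ne_zero, M2 y ν h hy 1 one_ne_zero⟩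
  rcases hA with ⟨c, hc0, hc1⟩ | hA
  · refine ⟨_, fun h0 => hc1 ?_, M2 y ν h hy (-(c * ν)) (neg_ne_zero.2 (mul_ne_zero hc0 hν))⟩
    exact mul_right_cancel₀ hν (by linear_combination -h0)
  obtain ⟨y', hy', h2⟩ := P.exists_perp_f_right hy 1
  rw [mem_perp_span_singleton] at hy'
  obtain ⟨w, hw, hwe⟩ : ∃ w ∈ P.perp (((F ∙ e) ⊔ F ∙ y) ⊔ F ∙ y'), w ∉ F ∙ e := by
    by_contra h0
    push Not at h0
    have h3 := Submodule.finrank_mono (show P.perp _ ≤ F ∙ e from h0)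
    have h4 := P.finrank_perp (((F ∙ e) ⊔ F ∙ y) ⊔ F ∙ y')
    have h5 := finrank_sup_span_le ((F ∙ e) ⊔ F ∙ y) y'
    have h6 := finrank_sup_span_le (F ∙ e) y
    have h7 := finrank_span_singleton_le (F := F) e
    omega
  rw [mem_perp_sup_span, mem_perp_sup_span, mem_perp_span_singleton] at hw
  have h3 := M1 y' ν (M1 y ν h y' hy' (h2 ▸ one_ne_zero)) (y + w)
    (by rw [P.f_add_left, hw.1.1, h.ev.orth, add_zero])
    (by rw [hsymm, P.f_add_left, hw.2, add_zero, h2]; exact one_ne_zero)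
  have h4 := h3.sub h
  rw [add_sub_cancel_left, P.Λ_le ν (hΛ' ν), f_add_right, (hs y).f_self, f_symm_zero hw.1.2,
    add_zero, sub_zero] at h4
  exact ⟨_, by rw [zero_add]; exact one_ne_zero, M2 w 0 h4 hwe 1 one_ne_zero⟩

omit [Fact p.Prime] [CharP F p] [Finite V] in
theorem Max.exists_map (hP : Max P) (h4 : 4 ≤ finrank F V) {x x' : V} (hx : P.Sing x)
    (hx' : P.Sing x') (h : x ≠ 0) (h' : x' ≠ 0) : ∃ g ∈ P.E, g x = x' := by
  have hW : P.W2 ⊥ := W2.of_finrank (by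
    have := hP.d_le
    rw [inf_bot_eq, finrank_bot, perp_bot, finrank_top]; omega)
  obtain ⟨g, hg, -, h1, -⟩ := hW.exists_map (M := P.E) (fun _ _ _ h _ _ => Ei.of_le le_rfl h)
    (by rw [perp_bot]; trivial) (by rw [perp_bot]; trivial) h h' hx hx'
  exact ⟨g, hg, h1⟩

omit [Fact p.Prime] [CharP F p] [Finite V] [FiniteDimensional F V] in
theorem sup_le_perp {e e₂ : V} (he : P.Sing e) (he₂ : P.Sing e₂) (h : P.f e₂ e = 0) :
    (F ∙ e) ⊔ (F ∙ e₂) ≤ P.perp ((F ∙ e) ⊔ F ∙ e₂) :=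
  sup_le ((Submodule.span_singleton_le_iff_mem _ _).2 (mem_perp_sup_span.2
      ⟨mem_perp_span_singleton.2 he.f_self, f_symm_zero h⟩))
    ((Submodule.span_singleton_le_iff_mem _ _).2 (mem_perp_sup_span.2
      ⟨mem_perp_span_singleton.2 h, he₂.f_self⟩))

omit [Fact p.Prime] [CharP F p] [Finite V] in
theorem Max.full (hP : Max P) (h4 : 4 ≤ finrank F V) {S T : Subgroup (V ≃ₗ[F] V)}
    (hT : ∀ x ∈ T, ∀ g ∈ P.E, g * x * g⁻¹ ∈ S → g * x * g⁻¹ ∈ T) {e e₂ : V} (he0 : e ≠ 0)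
    (he₂ : P.Sing e₂) (h2 : P.f e₂ e = 0) (hne : e₂ ∉ F ∙ e) (hQ : QW P (F ∙ e) ≤ S)
    (hQ₂ : QW P ((F ∙ e) ⊔ F ∙ e₂) ≤ S) {μ : F} (hμ : μ ≠ 0) (h : P.Ei T e 0 μ) : P.Full T e := by
  have he := h.ev.sing
  have hW := sup_le_perp he he₂ h2
  have hμ' := h.ev.mem_Λ
  have m1 : e ∈ (F ∙ e) ⊔ (F ∙ e₂) := Submodule.mem_sup_left (Submodule.mem_span_singleton_self e)
  have m2 : e₂ ∈ (F ∙ e) ⊔ (F ∙ e₂) := Submodule.mem_sup_right (Submodule.mem_span_singleton_self _)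
  have h3 : ∀ v ∈ (F ∙ e) ⊔ (F ∙ e₂), P.Ei T v 0 μ := fun v hv => by
    have hs := hP.sing (hW hv v hv)
    by_cases hv0 : v = 0
    · refine Ei.of_eq (EV.of_mem hs hμ') T.one_mem fun x => ?_
      rw [eich_zero_apply, hv0, smul_zero, sub_zero]; rfl
    obtain ⟨g, hg, h5⟩ := hP.exists_map h4 he hs he0 hv0
    exact ei_closed hT hg h h5 (map_zero g) fun h =>
      hQ₂ (equiv_mem_QW hW h hv (Submodule.zero_mem _))
  have h5 : ∀ c : F, P.Ei T e (c • e₂) 0 := fun c => by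
    obtain ⟨b, rfl⟩ : ∃ b, c = -(P.ε * μ * b) :=
      ⟨-(c / (P.ε * μ)), by field_simp [P.ε_ne_zero]⟩
    have h6 := h3 _ (Submodule.add_mem _ m1 (Submodule.smul_mem _ b m2))
    have h7 := h3 _ (Submodule.smul_mem _ b m2)
    refine Ei.of_eq (EV.of_sing he (he₂.smul _) (by rw [P.f_smul_left, h2, mul_zero]))
      (T.mul_mem h6.mem (T.mul_mem h.neg_zero.mem h7.neg_zero.mem)) fun x => ?_
    simp only [mul_apply', EV.equiv_apply, eich_apply, f_zero_right, smul_zero, add_zero, zero_add,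
      f_sub_left, P.f_smul_left, f_add_right, f_smul_right, he.f_self, he₂.f_self, h2,
      f_symm_zero h2, mul_zero, sub_zero, map_neg, map_mul, σ_ε, P.Λ_σ hμ', zero_mul]
    match_scalars
    · ring
    · ring
    · linear_combination (P.ε * μ * P.σ b * P.f x e₂) * P.ε_sq
  let Y : Submodule F V :=
    { carrier := {y | ∀ c : F, ∃ ν, P.Ei T e (c • y) ν}
      zero_mem' := fun c => ⟨0, by rw [smul_zero]; exact Ei.zero he⟩
      add_mem' := fun {x y} hx hy c => by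
        obtain ⟨_, hx⟩ := hx c
        obtain ⟨_, hy⟩ := hy c
        exact ⟨_, by rw [smul_add]; exact hx.add hy⟩
      smul_mem' := fun a x hx c => by rw [smul_smul]; exact hx _ }
  have h6 : P.perp (F ∙ e) ≤ Y := by
    refine irr_sub (fun a b ν hab ha hb x hx c => ?_) ⟨e₂, mem_perp_span_singleton.2 h2, hne, he₂⟩
      (Or.inl fun h0 => hμ (by rwa [h0, AddSubgroup.mem_bot] at hμ')) (fun c => ⟨0, h5 c⟩) hne
    obtain ⟨ν', hx⟩ := hx c
    exact ⟨ν', ei_closed hT hab.equiv_mem_E hx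
      ((equiv_mem_fixE hab ha hb).2 e (Submodule.mem_span_singleton_self e)) (map_smul _ _ _)
      fun h => hQ (equiv_mem_QW_span h)⟩
  let A : AddSubgroup F :=
    { carrier := {ν | P.Ei T e 0 ν}
      zero_mem' := Ei.zero he
      add_mem' := fun ha hb => Ei.add_zero ha hb
      neg_mem' := fun ha => Ei.neg_zero ha }
  have h7 : P.Λ ≤ A := hP.span μ hμ' hμ A fun c => by
    have := (h3 _ (Submodule.smul_mem _ c m1)).smul_left c he
    rwa [smul_zero] at this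
  refine ⟨he, fun y ν hy => ?_⟩
  obtain ⟨ν', h8⟩ := h6 (mem_perp_span_singleton.2 hy.orth) 1
  rw [one_smul] at h8
  have := h8.add_zero (h7 (hy.sub_mem h8.ev))
  rwa [add_sub_cancel] at this

theorem Max.isSimple (hP : Max P) (h4 : 4 ≤ finrank F V)
    (hA : (∃ c, c ≠ P.ε * P.σ c) ∨ (P.Λ = ⊤ ∧ ((∃ c : F, c ≠ 0 ∧ c ≠ 1) ∨ 4 < finrank F V)))
    {S : Subgroup (V ≃ₗ[F] V)} (hS : SylIn p S P.E) :
    (fusionSystemOfSubgroup P.E S hS.le).IsSimple p := by
  have hd := hP.d_le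
  have hi : S ≤ P.isom := hS.le.trans E_le_isom
  obtain ⟨e, -, he0, he, h1⟩ := hP.exists_fixed hS.isPGroup hi (D := ⊥)
    (fun s _ d hd => by rw [(Submodule.mem_bot F).1 hd, map_zero]; exact Submodule.zero_mem _)
    (P.exists_sing_perp_notMem ⊥ (by rw [finrank_bot]; omega))
  rw [Submodule.mem_bot] at he0
  have h2 : ∀ s ∈ S, s e = e := fun s hs => sub_eq_zero.1 ((Submodule.mem_bot F).1 (h1 s hs).1)
  have st : ∀ g : V ≃ₗ[F] V, g e = e → ∀ w ∈ F ∙ e, g w ∈ F ∙ e := fun g h w hw => by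
    obtain ⟨c, rfl⟩ := Submodule.mem_span_singleton.1 hw
    rwa [map_smul, h]
  obtain ⟨e₂, h3, hne, he₂, h5⟩ := hP.exists_fixed hS.isPGroup hi (D := F ∙ e)
    (fun s hs => st s (h2 s hs))
    (P.exists_sing_perp_notMem _ (by have := finrank_span_singleton_le (F := F) e; omega))
  rw [mem_perp_span_singleton] at h3
  set W := (F ∙ e) ⊔ (F ∙ e₂)
  have m1 : e ∈ W := Submodule.mem_sup_left (Submodule.mem_span_singleton_self e)
  have m2 : e₂ ∈ W := Submodule.mem_sup_right (Submodule.mem_span_singleton_self _)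
  have st2 : ∀ g : V ≃ₗ[F] V, g e ∈ W → g e₂ ∈ W → ∀ w ∈ W, g w ∈ W := fun g h h' w hw => by
    obtain ⟨_, hs, b, rfl⟩ := mem_sup_span.1 hw
    obtain ⟨a, rfl⟩ := Submodule.mem_span_singleton.1 hs
    rw [map_add, map_smul, map_smul]
    exact W.add_mem (W.smul_mem _ h) (W.smul_mem _ h')
  have hSW : ∀ s ∈ S, ∀ w ∈ W, s w ∈ W := fun s hs => st2 s (by rwa [h2 s hs]) (by
    have := W.add_mem (Submodule.mem_sup_left (h5 s hs).1) m2
    rwa [sub_add_cancel] at this)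
  have hQ : QW P (F ∙ e) ≤ S := hS.le_of_normalized (QW_le_E _) (QW_isPGroup _)
    fun s hs x hx => conj_mem_QW (hS.le hs) (st s (h2 s hs)) hx
  have hQ₂ : QW P W ≤ S := hS.le_of_normalized (QW_le_E _) (QW_isPGroup _)
    fun s hs x hx => conj_mem_QW (hS.le hs) (hSW s hs) hx
  have c1 := hP.QW_centric (p := p) (span_le_perp he) (by simpa using he0)
  have c2 := hP.QW_centric (p := p) (sup_le_perp he he₂ h3)
    (fun h => he0 ((Submodule.mem_bot F).1 (h ▸ m1)))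
  refine sub_isSimple_of_good hS (fun h => ?_) (fun N hN g hg hn _ => ?_) fun T hT h0 h => ?_
  · obtain ⟨e', he', h6⟩ := he.exists_partner' he0
    obtain ⟨c, hc⟩ := Submodule.mem_span_singleton.1 (hP.mem_span_of_fixed (x := e') he he0
      fun g hg => by rw [show g = 1 from Subgroup.mem_bot.1 (h ▸ hQ hg)]; rfl)
    rw [← hc, P.f_smul_left, he.f_self, mul_zero] at h6
    exact zero_ne_one h6
  · have pe : ∀ (W : Submodule F V), QW P W ≤ S → ∀ a y ν (h : P.EV a y ν),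
        (∀ w ∈ W, h.equiv w ∈ W) → h.equiv ∈ N (QW P W) := fun W hW a y ν h h' =>
      hN.pElt _ hW _ h.equiv_mem_E (fun x hx => conj_mem_QW h.equiv_mem_E h' hx)
        ⟨2, pow_eq_one_of_mem_QW (equiv_mem_QW_span h)⟩
    have s1 : ∀ g ∈ P.E, g e = e → (∀ x ∈ S, g * x * g⁻¹ ∈ S) → g ∈ N S := fun g hg h hn => by
      refine hN.extend _ S hQ le_rfl c1 g ?_ hn
      obtain ⟨e', he', h6⟩ := he.exists_partner' he0
      have hi := E_le_isom hg
      obtain ⟨h7, h8⟩ := exists_eich_map he (he'.map hi) he'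
        (by rw [← h6, ← isom_f hi e' e, h]) h6
      have h9 := hP.mem_ED (g := h7.equiv * g) (disjoint_hyp (D := ⊥) disjoint_bot_left he he'
        (by rw [perp_bot]; trivial) (by rw [perp_bot]; trivial) h6)
        ⟨P.E.mul_mem h7.equiv_mem_E hg, fix_hyp
          (fun d hd => by rw [(Submodule.mem_bot F).1 hd, map_zero])
          (by rw [mul_apply', h]; exact h7.eich_self) h8⟩
      refine (Subgroup.mul_mem_cancel_left _ (pe _ hQ _ _ _ h7 (st _ h7.eich_self))).1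
        (ED_le (fun a y ν h ha hy => pe _ hQ _ _ _ h (st _ ((equiv_mem_fixE h ha hy).2 e ?_))) h9)
      exact Submodule.mem_sup_left (Submodule.mem_sup_right (Submodule.mem_span_singleton_self e))
    have hg' : g ∈ Subgroup.normalizer (S : Set (V ≃ₗ[F] V)) := H96.mem_normalizer_of_conj_mem hn
    obtain ⟨d, hd⟩ := Submodule.mem_span_singleton.1 (hP.mem_span_of_fixed (x := g e) he he0
      fun s hs => by
        have := h2 _ (H96.conj_mem_of_mem_normalizer (Subgroup.inv_mem _ hg') (hQ hs))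
        rw [inv_inv, mul_apply', mul_apply'] at this
        conv_rhs => rw [← this, apply_inv_apply])
    have hd0 : d ≠ 0 := fun h => he0 (by simpa [h] using hd.symm)
    have hne' : e ∉ F ∙ e₂ := by
      have := notMem_sup_span_exchange (F := F) (S := ⊥) (x := e) (e := e₂) (by simpa using he0)
        (by rwa [bot_sup_eq])
      rwa [bot_sup_eq] at this
    have u : ∀ c : F, ∃ u ∈ N (QW P W) ⊓ P.E, u e = e + c • e₂ ∧ u e₂ = e₂ := fun c => by
      obtain ⟨y, ν, h, a, b⟩ := exists_elem he₂ (f_symm_zero h3) hne' c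
      exact ⟨_, ⟨pe _ hQ₂ _ _ _ h (st2 _ (a ▸ W.add_mem m1 (W.smul_mem _ m2)) (b.symm ▸ m2)),
        h.equiv_mem_E⟩, a, b⟩
    obtain ⟨v, hv, v1, v2⟩ : ∃ v ∈ N (QW P W) ⊓ P.E, v e₂ = e₂ + (1 : F) • e ∧ v e = e := by
      obtain ⟨y, ν, h, a, b⟩ := exists_elem he h3 hne 1
      exact ⟨_, ⟨pe _ hQ₂ _ _ _ h (st2 _ (b.symm ▸ m1) (a ▸ W.add_mem m2 (W.smul_mem _ m1))),
        h.equiv_mem_E⟩, a, b⟩
    obtain ⟨u₁, hu₁, a₁, -⟩ := u (d - 1)
    obtain ⟨u₂, hu₂, a₂, b₂⟩ := u (-(d - 1) / d)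
    have hm := Subgroup.mul_mem _ hu₂ (Subgroup.mul_mem _ hv hu₁)
    have hme : (u₂ * (v * u₁)) e = d • e := by
      simp only [mul_apply', a₁, map_add, map_smul, v1, v2, a₂, b₂]
      match_scalars
      · ring
      · field_simp
        ring
    set m := u₂ * (v * u₁)
    obtain ⟨k, hk, h6, h7⟩ := hN.frattini hS (K := N (QW P W) ⊓ fixE P (F ∙ e)) hQ₂ c2
      (fun s hs => ⟨hN.res _ _ hQ₂ s (hN.mem_self hS hs) fun x hx =>
        conj_mem_QW (hS.le hs) (hSW s hs) hx, hS.le hs, fun w hw => by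
          obtain ⟨c, rfl⟩ := Submodule.mem_span_singleton.1 hw
          rw [map_smul, h2 s hs]⟩) inf_le_left (fun x hx => hx.2.1) hm.1
      fun x hx => ⟨Subgroup.mul_mem _ (Subgroup.mul_mem _ hm.1 hx.1) (Subgroup.inv_mem _ hm.1),
        E_conj (E_le_isom hm.2) hx.2.1, fun w hw => by
          have : m⁻¹ w ∈ F ∙ e := mem_stabSub.1 ((stabSub _).inv_mem (mem_stabSub.2 fun w hw => by
            obtain ⟨c, rfl⟩ := Submodule.mem_span_singleton.1 hw
            rw [map_smul, hme]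
            exact Submodule.smul_mem _ _ (Submodule.smul_mem _ _
              (Submodule.mem_span_singleton_self e)))) w hw
          rw [mul_apply', mul_apply', hx.2.2 _ this, apply_inv_apply]⟩
    have h8 : (k⁻¹ * m) e = d • e := by
      rw [mul_apply', hme, map_smul,
        ((fixE P _).inv_mem hk.2).2 e (Submodule.mem_span_singleton_self e)]
    refine (Subgroup.mul_mem_cancel_left _ (Subgroup.inv_mem _ h6)).1 (s1 _ (P.E.mul_mem
      (P.E.inv_mem (P.E.mul_mem (P.E.inv_mem hk.2.1) hm.2)) hg) ?_ fun x hx =>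
        H96.conj_mem_of_mem_normalizer (Subgroup.mul_mem _ (Subgroup.inv_mem _
          (H96.mem_normalizer_of_conj_mem h7)) hg') hx)
    rw [mul_apply', ← hd, ← h8, inv_apply_apply]
  · obtain ⟨z, hz, hz1, hzp, hc⟩ := exists_central_of_ne_bot hS.isPGroup hT
      (fun s hs x hx => h x hx s (hS.le hs) (S.mul_mem (S.mul_mem hs (hT hx)) (S.inv_mem hs))) h0
    obtain ⟨y, ν, hy, rfl⟩ := exists_equiv_of_mem_QW he he0 (c1 z (hS.le (hT hz))
      (fun y hy => by rw [← hc y (hQ hy), mul_inv_cancel_right]) ⟨1, by rwa [pow_one]⟩)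
    obtain ⟨μ, hμ, h6⟩ := exists_tv hA h hQ ⟨hy, hz⟩ hz1
    have h7 := hP.full h4 h he0 he₂ h3 hne hQ hQ₂ hμ h6
    refine hP.le_of_eich (S₀ := S) (fun a y ν ha hs => ?_) (D := ⊥) disjoint_bot_left
      (hS.mono (fun s hs => ⟨hS.le hs, fun d hd => ?_⟩) fun _ h => h.1) le_rfl
    · by_cases ha0 : a = 0
      · have : ha.equiv = 1 := LinearEquiv.ext fun x => by
          rw [EV.equiv_apply, eich_apply, ha0, f_zero_right, zero_smul, smul_zero, add_zero,
            sub_zero]; rfl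
        rw [this]; exact T.one_mem
      obtain ⟨g, hg, h8⟩ := hP.exists_map h4 he ha.sing he0 ha0
      have h9 : P.EV e (g⁻¹ y) ν := by
        have := ha.map (P.isom.inv_mem (E_le_isom hg))
        rwa [← h8, inv_apply_apply] at this
      exact (ei_closed h hg (h7.2 _ _ h9) h8 (apply_inv_apply g y) fun _ => hs).mem
    · rw [(Submodule.mem_bot F).1 hd, map_zero]

theorem Max.group_isSimple (hP : Max P) (h4 : 4 ≤ finrank F V)
    (hA : (∃ c, c ≠ P.ε * P.σ c) ∨ (P.Λ = ⊤ ∧ ((∃ c : F, c ≠ 0 ∧ c ≠ 1) ∨ 4 < finrank F V)))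
    {G : Type*} [Group G] (φ : G →* (V ≃ₗ[F] V)) (hφ : Function.Injective φ)
    (hr : φ.range = P.E) (R : Sylow p G) : (groupFusionSystem (R : Subgroup G)).IsSimple p := by
  haveI : Finite G := Finite.of_injective φ hφ
  obtain ⟨S, hS⟩ := exists_sylIn p P.E
  exact group_isSimple_of_sub ((MonoidHom.ofInjective hφ).trans (MulEquiv.subgroupCongr hr)) hS
    (hP.isSimple h4 hA hS) R

end Cfsg.Agent.H98.PFC

namespace Cfsg.Agent.H98.PFC

open Cfsg Module Cfsg.Agent.H26 Cfsg.Agent.H26.PForm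

variable {ι : Type} {F : Type*} [Field F] [Finite F]

theorem max_sympP {f : (ι → F) → (ι → F) → F} (hf : Geo.IsSymplecticForm f) : Max (sympP hf) := by
  refine ⟨fun _ _ => trivial, one_le_two, ⟨1, trivial, one_ne_zero⟩,
    fun _ _ _ _ => ⟨0, 0, trivial⟩, fun ν _ h0 A hA x _ => ?_⟩
  change ∀ c, c * c * ν ∈ A at hA
  by_cases h2 : ringChar F = 2
  · obtain ⟨c, hc⟩ := FiniteField.isSquare_of_char_two h2 (x / ν)
    have := hA c
    rwa [← hc, div_mul_cancel₀ _ h0] at this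
  · have h3 : (2 : F) ≠ 0 := Ring.two_ne_zero h2
    convert A.sub_mem (hA ((x / ν + 1) / 2)) (hA ((x / ν - 1) / 2)) using 1
    field_simp
    ring

theorem max_unitP {σ : F ≃+* F} {f : (ι → F) → (ι → F) → F} (hf : Geo.IsUnitaryForm σ f)
    (l : F) (hl : l + σ l = 1) : Max (unitP hf l hl) := by
  have hI : H31.IsInvol (σ : F →+* F) := ⟨hf.involutive, exists_ne_of_ne_refl hf.ne_refl⟩
  set P := unitP hf l hl
  have hmax : ∀ a, a + P.ε * P.σ a = 0 → a ∈ P.Λ := fun a ha => by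
    change a + 1 * σ a = 0 at ha
    rwa [one_mul] at ha
  have hε : P.ε = 1 := rfl
  have hσ : P.σ = σ := rfl
  refine ⟨hmax, le_rfl, ?_, fun x y hxy ν => ?_, fun ν hν h0 A hA x hx => ?_⟩
  · obtain ⟨ω, h0, h⟩ := hI.exists_skew
    exact ⟨ω, show ω + (σ : F →+* F) ω = 0 by rw [h, add_neg_cancel], h0⟩
  · obtain ⟨a, b, hab⟩ : ∃ a b : F, P.f (a • x + b • y) (a • x + b • y) ≠ 0 := by
      by_cases hx : P.f x x = 0
      · by_cases hy : P.f y y = 0
        · obtain ⟨c, hc⟩ := hI.exists_trace_ne_zero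
          refine ⟨c / P.f x y, 1, ?_⟩
          rwa [P.f_add_left, f_add_right, f_add_right, P.f_smul_left, P.f_smul_left, f_smul_right,
            hx, one_smul, hy, P.herm (_ • x) y, P.f_smul_left, div_mul_cancel₀ _ hxy, mul_zero,
            mul_zero, zero_add, add_zero, hε, one_mul]
        · exact ⟨0, 1, by simpa using hy⟩
      · exact ⟨1, 0, by simpa using hx⟩
    set z := a • x + b • y with hz
    have h1 : σ (P.f z z) = P.f z z := by rw [← hσ, σ_f, hε, one_mul]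
    obtain ⟨c, hc⟩ := hI.exists_norm_eq (a := (ν + σ ν) / P.f z z) (by
      change σ _ = _
      rw [map_div₀, h1, map_add, hf.involutive, add_comm])
    change c * σ c = _ at hc
    refine ⟨c * a, c * b, hmax _ ?_⟩
    rw [mul_smul, mul_smul, ← smul_add, ← hz]
    have h2 := P.f_self (c • z)
    rw [P.f_smul_left, f_smul_right, ← mul_assoc, hσ, hc, div_mul_cancel₀ _ hab] at h2
    rw [map_sub, hσ]
    rw [hε] at h2 ⊢
    linear_combination h2
  · obtain ⟨c, hc⟩ := hI.exists_norm_eq (a := x / ν) (by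
      change σ _ = _
      rw [map_div₀, ← hσ, P.Λ_σ hν, P.Λ_σ hx, hε, one_mul, one_mul, neg_div_neg_eq])
    have := hA c
    change c * (σ : F →+* F) c * ν ∈ A at this
    rwa [hc, div_mul_cancel₀ _ h0] at this

end Cfsg.Agent.H98.PFC
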