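import Cfsg.Agent.H56.SpDefs

/-! Project CY, chapter SP, piece P6: elements normalising an involution modulo `K`. -/

set_option autoImplicit false

namespace Cfsg.Agent.H98.SpP6

open Subgroup MulAction Cfsg.Agent.H11.Cy Cfsg.Agent.H56.Sp Matrix

section Mat
variable {F : Type} [Field F]

/-- a matrix commuting with `SL₂` is scalar -/
theorem scal (X : Matrix (Fin 2) (Fin 2) F)
    (h : ∀ s : SpecialLinearGroup (Fin 2) F, X * s.1 = s.1 * X) : ∃ c : F, X = c • 1 := by
  have h1 := h ⟨!![1, 1; 0, 1], by simp [det_fin_two]⟩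
  have h2 := h ⟨!![1, 0; 1, 1], by simp [det_fin_two]⟩
  have a := congrFun (congrFun h1 0) 0
  have b := congrFun (congrFun h1 0) 1
  have c := congrFun (congrFun h2 0) 0
  simp [Matrix.mul_apply, Fin.sum_univ_two] at a b c
  refine ⟨X 0 0, ?_⟩
  ext i j
  fin_cases i <;> fin_cases j <;> simp [a, c]
  linear_combination -b

/-- intertwiners are proportional -/
theorem prop (X Y : Matrix (Fin 2) (Fin 2) F) (hY : Y.det ≠ 0)
    (h : ∀ s : SpecialLinearGroup (Fin 2) F, ∃ s' : Matrix (Fin 2) (Fin 2) F,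
      X * s.1 = s' * X ∧ Y * s.1 = s' * Y) : ∃ c : F, X = c • Y := by
  have u : IsUnit Y.det := isUnit_iff_ne_zero.2 hY
  obtain ⟨c, hc⟩ := scal (Y⁻¹ * X) fun s => by
    obtain ⟨s', h1, h2⟩ := h s
    have e : s' = Y * s.1 * Y⁻¹ := by rw [h2, Matrix.mul_assoc, mul_nonsing_inv _ u, Matrix.mul_one]
    rw [Matrix.mul_assoc, h1, e]
    simp only [← Matrix.mul_assoc, nonsing_inv_mul _ u, Matrix.one_mul]
  refine ⟨c, ?_⟩
  have : X = Y * (Y⁻¹ * X) := by rw [← Matrix.mul_assoc, mul_nonsing_inv _ u, Matrix.one_mul]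
  rw [this, hc]; simp

theorem canc {X Y H : Matrix (Fin 2) (Fin 2) F} (hH : H.det ≠ 0) (h : X * H = Y * H) : X = Y := by
  have u : IsUnit H.det := isUnit_iff_ne_zero.2 hH
  have := congrArg (· * H⁻¹) h
  simpa only [Matrix.mul_assoc, mul_nonsing_inv _ u, Matrix.mul_one] using this

theorem span (M X : Matrix (Fin 2) (Fin 2) F) (hM : ∀ c : F, M ≠ c • 1) (h : M * X = X * M) :
    ∃ a b : F, X = a • 1 + b • M := by
  have e0 := congrFun (congrFun h 0) 0
  have e1 := congrFun (congrFun h 0) 1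
  have e2 := congrFun (congrFun h 1) 0
  simp only [Matrix.mul_apply, Fin.sum_univ_two] at e0 e1 e2
  by_cases h1 : M 0 1 = 0
  · by_cases h2 : M 1 0 = 0
    · have h3 : M 0 0 - M 1 1 ≠ 0 := fun e => hM (M 0 0) (by
        ext i j
        fin_cases i <;> fin_cases j <;> simp [h1, h2]
        linear_combination -e)
      have x1 : X 0 1 = 0 := by
        apply mul_left_cancel₀ h3
        linear_combination e1 + (X 0 0 - X 1 1) * h1
      have x2 : X 1 0 = 0 := by
        apply mul_left_cancel₀ h3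
        linear_combination -e2 + (X 0 0 - X 1 1) * h2
      refine ⟨X 0 0 - (X 0 0 - X 1 1) / (M 0 0 - M 1 1) * M 0 0, (X 0 0 - X 1 1) / (M 0 0 - M 1 1), ?_⟩
      ext i j
      fin_cases i <;> fin_cases j <;> simp [h1, h2, x1, x2]
      field_simp
      ring
    · refine ⟨X 0 0 - X 1 0 / M 1 0 * M 0 0, X 1 0 / M 1 0, ?_⟩
      ext i j
      fin_cases i <;> fin_cases j <;> simp
      · field_simp
        linear_combination -e0
      · field_simp
      · field_simp
        linear_combination -e2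
  · refine ⟨X 0 0 - X 0 1 / M 0 1 * M 0 0, X 0 1 / M 0 1, ?_⟩
    ext i j
    fin_cases i <;> fin_cases j <;> simp
    · field_simp
    · field_simp
      linear_combination e0
    · field_simp
      linear_combination e1

theorem tr0 (M : Matrix (Fin 2) (Fin 2) F) (hM : ∀ c : F, M ≠ c • 1) (c : F) (h : M * M = c • 1) :
    M 0 0 + M 1 1 = 0 := by
  have e0 := congrFun (congrFun h 0) 0
  have e1 := congrFun (congrFun h 0) 1
  have e2 := congrFun (congrFun h 1) 0
  have e3 := congrFun (congrFun h 1) 1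
  simp [Matrix.mul_apply, Fin.sum_univ_two] at e0 e1 e2 e3
  by_contra ht
  apply hM (M 0 0)
  have x1 : M 0 1 = 0 := by
    apply mul_left_cancel₀ ht
    linear_combination e1
  have x2 : M 1 0 = 0 := by
    apply mul_left_cancel₀ ht
    linear_combination e2
  have x3 : M 1 1 = M 0 0 := by
    apply mul_left_cancel₀ ht
    linear_combination e3 - e0
  ext i j
  fin_cases i <;> fin_cases j <;> simp [x1, x2, x3]

theorem sq0 (H : Matrix (Fin 2) (Fin 2) F) (h : H 0 0 + H 1 1 = 0) : H * H = (-H.det) • 1 := by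
  have e : H 1 1 = -H 0 0 := by linear_combination h
  ext i j
  fin_cases i <;> fin_cases j <;> simp [Matrix.mul_apply, Fin.sum_univ_two, det_fin_two, e] <;> ring

theorem anti (h2 : (2 : F) ≠ 0) {M H : Matrix (Fin 2) (Fin 2) F} (hM : M.det ≠ 0)
    (h : H * M = -(M * H)) : H 0 0 + H 1 1 = 0 := by
  have u : IsUnit M.det := isUnit_iff_ne_zero.2 hM
  have e : H = -(M * H * M⁻¹) := by
    rw [← Matrix.neg_mul, ← h, Matrix.mul_assoc, mul_nonsing_inv _ u, Matrix.mul_one]
  have t := congrArg Matrix.trace e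
  rw [trace_neg, trace_mul_comm, ← Matrix.mul_assoc, nonsing_inv_mul _ u, Matrix.one_mul,
    trace_fin_two] at t
  apply mul_left_cancel₀ h2
  linear_combination t

theorem inv1 (M : Matrix (Fin 2) (Fin 2) F) (h : M 0 0 + M 1 1 = 0) (a b : F)
    (hd : (a • (1 : Matrix (Fin 2) (Fin 2) F) + b • M).det = 1) :
    (a • (1 : Matrix (Fin 2) (Fin 2) F) - b • M) * (a • 1 + b • M) = 1 := by
  have e : M 1 1 = -M 0 0 := by linear_combination h
  rw [det_fin_two] at hd
  simp [e] at hd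
  ext i j
  fin_cases i <;> fin_cases j <;> simp [Matrix.mul_apply, Fin.sum_univ_two, e]
  · linear_combination hd
  · ring
  · ring
  · linear_combination hd

end Mat

theorem p6 : P6Stmt := by
  intro G _ _ Ω _ _ p A h p2 _ x y _ _ co _ g hg _ k hk hc
  obtain ⟨F, _, _, e, hF, co⟩ := co
  have h2 : (2 : F) ≠ 0 := fun e2 => by
    have d := (ringChar.spec F 2).1 (by exact_mod_cast e2)
    have := (FiniteField.even_card_iff_char_two (F := F)).1
      (((Nat.dvd_prime Nat.prime_two).1 d).resolve_left CharP.ringChar_ne_one)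
    rw [hF] at this
    exact p2 ((h.pp.eq_two_or_odd).resolve_right (by omega))
  obtain ⟨gN, g2, gK⟩ := hg
  obtain ⟨M, dM, hM⟩ := co g gN
  obtain ⟨H, dH, hH⟩ := co k hk
  have cj : ∀ a ∈ Nl A x y, ∀ f : Fl A x y, a * f * a⁻¹ ∈ Fl A x y := fun a ha f =>
    (mem_normalizer_iff.1 ha f).1 f.2
  -- composition of two intertwiners
  have cp : ∀ (a b : G) (ha : a ∈ Nl A x y) (hb : b ∈ Nl A x y) (X Y : Matrix (Fin 2) (Fin 2) F),
      (∀ f f' : Fl A x y, (f' : G) = a * f * a⁻¹ → X * (e f).1 = (e f').1 * X) →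
      (∀ f f' : Fl A x y, (f' : G) = b * f * b⁻¹ → Y * (e f).1 = (e f').1 * Y) →
      ∀ f f' : Fl A x y, (f' : G) = (a * b) * f * (a * b)⁻¹ → X * Y * (e f).1 = (e f').1 * (X * Y) := by
    intro a b ha hb X Y hX hY f f' hf
    rw [Matrix.mul_assoc, hY f ⟨_, cj b hb f⟩ rfl, ← Matrix.mul_assoc,
      hX ⟨_, cj b hb f⟩ f' (by rw [hf]; group), Matrix.mul_assoc]
  -- scalar intertwiners come from `K`
  have sk : ∀ a ∈ Nl A x y, ∀ c : F, c ≠ 0 →
      (∀ f f' : Fl A x y, (f' : G) = a * f * a⁻¹ → (c • 1 : Matrix (Fin 2) (Fin 2) F) * (e f).1 =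
        (e f').1 * (c • 1)) → a ∈ Kl A x y := by
    intro a ha c c0 hX
    refine mem_centralizer_iff.2 fun f hf => ?_
    have := hX ⟨f, hf⟩ ⟨_, cj a ha ⟨f, hf⟩⟩ rfl
    rw [Matrix.smul_mul, Matrix.mul_smul, Matrix.one_mul, Matrix.mul_one] at this
    have := congrArg Subtype.val (e.injective (Subtype.ext (smul_right_injective _ c0 this)))
    simp only at this
    rw [eq_mul_inv_iff_mul_eq] at this
    exact this
  have ns : ∀ c : F, M ≠ c • 1 := fun c ec => gK (sk g gN c (fun c0 => dM (by simp [ec, c0]))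
    (ec ▸ hM))
  obtain ⟨c, hc2⟩ := scal (M * M) fun s => by
    obtain ⟨f, rfl⟩ := e.surjective s
    exact cp g g gN gN M M hM hM f f (by
      rw [eq_mul_inv_iff_mul_eq]; exact mem_centralizer_iff.1 g2 f f.2)
  have tM := tr0 M ns c hc2
  obtain ⟨d, hd⟩ := prop (H * M) (M * H) (by rw [det_mul]; exact mul_ne_zero dM dH) fun s => by
    obtain ⟨f, rfl⟩ := e.surjective s
    refine ⟨(e ⟨_, cj _ (mul_mem gN hk) f⟩).1, cp k g hk gN H M hH hM f _ ?_,
      cp g k gN hk M H hM hH f _ rfl⟩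
    have := mem_centralizer_iff.1 hc _ (cj _ (mul_mem gN hk) f)
    change g * k * f * (g * k)⁻¹ = _
    calc g * k * f * (g * k)⁻¹
        = (g * k * f * (g * k)⁻¹ * (k * g * k⁻¹ * g⁻¹)) * (k * g * k⁻¹ * g⁻¹)⁻¹ := by group
      _ = k * g * f * (k * g)⁻¹ := by rw [this]; group
  have d2 : d = 1 ∨ d = -1 := by
    have := congrArg Matrix.det hd
    rw [det_smul, det_mul, det_mul, Fintype.card_fin] at this
    apply mul_self_eq_one_iff.1
    apply mul_right_cancel₀ (mul_ne_zero dM dH)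
    linear_combination -this
  have tt : ∀ t (ht : t ∈ Tl A x y g), ∃ a b : F, (e ⟨t, ht.1⟩).1 = a • 1 + b • M := fun t ht =>
    span M _ ns (hM ⟨t, ht.1⟩ ⟨t, ht.1⟩ (by
      rw [eq_mul_inv_iff_mul_eq]; exact (mem_centralizer_iff.1 ht.2 g rfl).symm))
  rcases d2 with rfl | rfl
  · refine Or.inl ⟨hk, mem_centralizer_iff.2 fun t ht => ?_⟩
    obtain ⟨a, b, hab⟩ := tt t ht
    have e1 := hH ⟨t, ht.1⟩ ⟨_, cj k hk ⟨t, ht.1⟩⟩ rfl
    have e2 : H * (e ⟨t, ht.1⟩).1 = (e ⟨t, ht.1⟩).1 * H := by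
      rw [hab, Matrix.mul_add, Matrix.add_mul, Matrix.mul_smul, Matrix.smul_mul, Matrix.mul_smul,
        Matrix.smul_mul, hd, one_smul, Matrix.mul_one, Matrix.one_mul]
    have := congrArg Subtype.val (e.injective (Subtype.ext (canc dH (e2.symm.trans e1))))
    simp only at this
    rw [eq_mul_inv_iff_mul_eq] at this
    exact this
  · rw [neg_one_smul] at hd
    refine Or.inr ⟨fun t ht => ?_, ?_⟩
    · obtain ⟨a, b, hab⟩ := tt t ht
      have e1 := hH ⟨t, ht.1⟩ ⟨_, cj k hk ⟨t, ht.1⟩⟩ rfl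
      have e2 : H * (e ⟨t, ht.1⟩).1 = (a • 1 - b • M) * H := by
        rw [hab, Matrix.mul_add, Matrix.sub_mul, Matrix.mul_smul, Matrix.smul_mul, Matrix.mul_smul,
          Matrix.smul_mul, hd, Matrix.mul_one, Matrix.one_mul, smul_neg, sub_eq_add_neg]
      have e3 := canc dH (e2.symm.trans e1)
      have e4 := inv1 M tM a b (hab ▸ (e ⟨t, ht.1⟩).2)
      rw [e3, ← hab] at e4
      have e5 : e (⟨_, cj k hk ⟨t, ht.1⟩⟩ * ⟨t, ht.1⟩) = 1 := by
        rw [map_mul]; exact Subtype.ext e4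
      have := congrArg Subtype.val (e.map_eq_one_iff.1 e5)
      exact eq_inv_of_mul_eq_one_left this
    · have := cp k k hk hk H H hH hH
      rw [sq0 H (anti h2 dM hd)] at this
      exact sk _ (mul_mem hk hk) _ (neg_ne_zero.2 dH) this

end Cfsg.Agent.H98.SpP6
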