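import Cfsg.Agent.H53.TCDefs

/-!
# Project TC: the reductions
-/

set_option autoImplicit false

namespace Cfsg.Agent.H98.TC

open MulAction Cfsg.Agent.H12.RO Cfsg.Agent.H53.MW Cfsg.Agent.H53.TC

universe u

theorem ac : AcStmt.{u} := by
  intro n tc G H V _ _ _ _ _ _ _ _ hn h
  let φ : G →* MulAut (Multiplicative V) :=
    { toFun := fun g => AddEquiv.toMultiplicative (DistribMulAction.toAddEquiv V g)
      map_one' := MulEquiv.ext fun v => one_smul G v.toAdd
      map_mul' := fun a b => MulEquiv.ext fun v => mul_smul a b v.toAdd }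
  haveI : Finite (Multiplicative V ⋊[φ] G) := Finite.of_equiv _ SemidirectProduct.equivProd.symm
  haveI : Group.IsSolvable (Multiplicative V ⋊[φ] G) :=
    Group.isSolvable_of_ker_le_range SemidirectProduct.inl SemidirectProduct.rightHom
      SemidirectProduct.range_inl_eq_ker_rightHom.ge
  letI : MulAction (Multiplicative V ⋊[φ] G) V :=
    { smul := fun p x => p.left.toAdd + p.right • x
      one_smul := fun x => by change 0 + (1 : G) • x = x; simp
      mul_smul := fun p q x => by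
        change p.left.toAdd + p.right • q.left.toAdd + (p.right * q.right) • x =
          p.left.toAdd + p.right • (q.left.toAdd + q.right • x)
        rw [smul_add, mul_smul, add_assoc] }
  refine tc (Multiplicative V ⋊[φ] G) H V hn fun f x y z => ?_
  obtain ⟨g, h1, h2⟩ := h f x y z
  rw [smul_sub, sub_eq_iff_eq_add] at h1 h2
  refine ⟨⟨.ofAdd (f • x - g • x), g⟩, ?_, ?_, ?_⟩ <;> change f • x - g • x + g • _ = _
  · abel
  · rw [h1]; abel
  · rw [h2]; abel

/-- the action on the classes of an invariant relation -/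
@[reducible] def qact {G Ω : Type*} [Group G] [MulAction G Ω] (s : Setoid Ω)
    (h : ∀ (g : G) a b, s a b → s (g • a) (g • b)) : MulAction G (Quotient s) where
  smul g := Quotient.map (g • ·) (h g)
  one_smul x := Quotient.inductionOn x fun a => congrArg (Quotient.mk s) (one_smul G a)
  mul_smul g k x := Quotient.inductionOn x fun a => congrArg (Quotient.mk s) (mul_smul g k a)

/-- the action on an invariant subset -/
@[reducible] def sact {G Ω : Type*} [Group G] [MulAction G Ω] (Y : Subgroup G) (p : Ω → Prop)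
    (h : ∀ y ∈ Y, ∀ x, p x → p (y • x)) : MulAction Y {x // p x} where
  smul y x := ⟨y.1 • x.1, h _ y.2 _ x.2⟩
  one_smul x := Subtype.ext (one_smul G x.1)
  mul_smul a b x := Subtype.ext (mul_smul a.1 b.1 x.1)

theorem imprim {n : ℕ} (tc : TC.{u} n) {G H Ω : Type u} [Group G] [Finite G] [Group.IsSolvable G]
    [Group H] [MulAction G Ω] [MulAction H Ω] [Finite Ω] (hn : Nat.card Ω = n) (c : Cl3 G H Ω)
    (s : Setoid Ω) (hs : ∀ (g : G) a b, s a b → s (g • a) (g • b)) (h1 : ∃ a b, ¬ s a b)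
    (h2 : ∃ a b, s a b ∧ a ≠ b) : SolvOn H Ω := by
  have hs' : ∀ (h : H) a b, s a b → s (h • a) (h • b) := fun h a b e => by
    obtain ⟨g, e1, e2, -⟩ := c h a b b
    exact e1 ▸ e2 ▸ hs g a b e
  letI := qact s hs
  letI := qact s hs'
  obtain ⟨a, ha⟩ := tc G H (Quotient s) (by
    haveI := Fintype.ofFinite Ω
    haveI := Fintype.ofFinite (Quotient s)
    obtain ⟨a, b, e, ne⟩ := h2
    rw [← hn, Nat.card_eq_fintype_card, Nat.card_eq_fintype_card]
    exact Fintype.card_lt_of_surjective_not_injective _ Quotient.mk_surjective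
      fun i => ne (i (Quotient.sound e))) (fun h x y z => by
    induction x, y, z using Quotient.inductionOn₃ with | _ x y z => ?_
    obtain ⟨g, e1, e2, e3⟩ := c h x y z
    exact ⟨g, congrArg (Quotient.mk s) e1, congrArg (Quotient.mk s) e2,
      congrArg (Quotient.mk s) e3⟩)
  have hx : ∀ h ∈ der (⊤ : Subgroup H) a, ∀ x, s (h • x) x := fun h hh x =>
    Quotient.exact (ha h hh (Quotient.mk s x))
  have key : ∀ ω : Ω, ∃ b, ∀ h ∈ der (⊤ : Subgroup H) (a + b), h • ω = ω := fun ω => by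
    letI := sact (der (⊤ : Subgroup H) a) (fun x => s x ω) fun h hh x e => s.trans (hx h hh x) e
    letI := sact (stabilizer G (Quotient.mk s ω)) (fun x => s x ω) fun g hg x e =>
      s.trans (hs g x ω e) (Quotient.exact hg)
    obtain ⟨b, hb⟩ := tc (stabilizer G (Quotient.mk s ω)) (der (⊤ : Subgroup H) a) {x // s x ω}
      (by
        obtain ⟨x, y, e⟩ := h1
        rw [← hn]
        by_cases k : s x ω
        · exact Finite.card_subtype_lt (x := y) fun k' => e (s.trans k (s.symm k'))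
        · exact Finite.card_subtype_lt k)
      (fun h x y z => by
        obtain ⟨g, e1, e2, e3⟩ := c h.1 x.1 y.1 z.1
        exact ⟨⟨g, Quotient.sound (s.trans (hs g _ _ (s.symm x.2))
          (e1 ▸ s.trans (hx _ h.2 _) x.2))⟩, Subtype.ext e1, Subtype.ext e2, Subtype.ext e3⟩)
    refine ⟨b, fun h hh => ?_⟩
    rw [der_add] at hh
    obtain ⟨h', k⟩ := exists_of_mem_der le_rfl hh
    rw [Subgroup.subgroupOf_self] at k
    exact congrArg Subtype.val (hb _ k ⟨ω, s.refl ω⟩)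
  choose b hb using key
  obtain ⟨m, hm⟩ := (Set.finite_range b).bddAbove
  exact ⟨a + m, fun h hh ω => hb ω h (der_anti _ (Nat.add_le_add_left (hm ⟨ω, rfl⟩) a) hh)⟩

theorem exists_aff' {G Ω : Type u} [Group G] [Finite G] [MulAction G Ω] {K M : Subgroup G}
    [K.Normal] [hM : M.Normal] (hK : ∀ g, g ∈ K ↔ ∀ ω : Ω, g • ω = ω) (hKM : K ≤ M)
    (hmin : ∀ L : Subgroup G, L.Normal → K ≤ L → L ≤ M → L = K ∨ L = M) (hc : ⁅M, M⁆ ≤ K) (ω₀ : Ω)
    (htr : ∀ ω : Ω, ∃ a ∈ M, a • ω₀ = ω) :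
    ∃ (N : Type u) (_ : AddCommGroup N) (_ : DistribMulAction G N) (e : Ω ≃ N) (c : G → N),
      Irr G N ∧ ∀ (g : G) ω, e (g • ω) = g • e ω + c g := by
  have hfree : ∀ a ∈ M, a • ω₀ = ω₀ → a ∈ K := by
    intro a ha e
    rw [hK]
    intro ω
    obtain ⟨b, hb, rfl⟩ := htr ω
    have := (hK _).1 (hc (Subgroup.commutator_mem_commutator ha hb)) (b • a • ω₀)
    rwa [commutatorElement_def, mul_smul, mul_smul, mul_smul, inv_smul_smul, inv_smul_smul,
      e] at this
  obtain ⟨N, _, _, π, hπ⟩ := exists_sec K M hc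
  choose r hr hr' using htr
  have key : ∀ a ∈ M, π (r (a • ω₀)) = π a := by
    intro a ha
    rw [hπ.eq_iff (hr _) ha]
    refine hfree _ (M.mul_mem (M.inv_mem (hr _)) ha) ?_
    rw [mul_smul, inv_smul_eq_iff, hr']
  have hbij : Function.Bijective fun ω => π (r ω) := by
    refine ⟨fun a b e => ?_, fun n => ?_⟩
    · have h1 := (hK _).1 ((hπ.eq_iff (hr a) (hr b)).1 e) ω₀
      rw [mul_smul, inv_smul_eq_iff, hr', hr'] at h1
      exact h1.symm
    · obtain ⟨a, ha, rfl⟩ := hπ.surj n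
      exact ⟨a • ω₀, key a ha⟩
  refine ⟨N, _, _, Equiv.ofBijective _ hbij, fun g => π (r (g • ω₀)), hπ.irr hKM hmin,
    fun g ω => ?_⟩
  change π (r (g • ω)) = g • π (r ω) + π (r (g • ω₀))
  rw [← hπ.conj g _ (hr ω), ← hπ.mul _ (hM.conj_mem _ (hr ω) g) _ (hr _),
    ← key _ (M.mul_mem (hM.conj_mem _ (hr ω) g) (hr _)), mul_smul, hr', mul_smul, mul_smul,
    inv_smul_smul, hr']

theorem red : RedStmt.{u} := by
  intro irr n
  induction n with
  | zero => exact fun _ _ _ _ _ _ _ _ _ _ h => absurd h (Nat.not_lt_zero _)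
  | succ n ih =>
    intro G H Ω _ _ _ _ _ _ _ hn c
    rcases (Nat.lt_succ_iff.1 hn).lt_or_eq with hn | hn
    · exact ih G H Ω hn c
    let K := (toPermHom G Ω).ker
    have hK : ∀ g, g ∈ K ↔ ∀ ω : Ω, g • ω = ω := fun g => by
      rw [MonoidHom.mem_ker, Equiv.ext_iff]; rfl
    rcases (le_top : K ≤ ⊤).lt_or_eq with hKt | hKt
    swap
    · refine ⟨0, fun h _ ω => ?_⟩
      obtain ⟨g, e, -⟩ := c h ω ω ω
      exact e ▸ (hK g).1 (hKt ▸ Subgroup.mem_top g) ω
    obtain ⟨M, hM, hKM, -, hmin⟩ := exists_chief_above hKt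
    obtain ⟨a, haM, haK⟩ := SetLike.exists_of_lt hKM
    obtain ⟨ω₀, h0⟩ := not_forall.1 fun h => haK ((hK a).2 h)
    by_cases htr : ∀ ω : Ω, ∃ a ∈ M, a • ω₀ = ω
    · obtain ⟨N, _, _, e, t, hi, he⟩ := exists_aff' hK hKM.le hmin (chief_elem hKM hmin).1 ω₀ htr
      haveI : Finite N := Finite.of_equiv _ e
      haveI : Nontrivial N := ⟨_, _, e.injective.ne h0⟩
      letI : MulAction H N := e.symm.mulAction H
      have hs : ∀ (h : H) ω, h • e ω = e (h • ω) := fun h ω =>
        congrArg (fun x => e (h • x)) (e.symm_apply_apply ω)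
      obtain ⟨m, hm⟩ := irr n ih G H N ((Nat.card_congr e).symm.trans hn) hi fun h x y z => by
        obtain ⟨x, rfl⟩ := e.surjective x
        obtain ⟨y, rfl⟩ := e.surjective y
        obtain ⟨z, rfl⟩ := e.surjective z
        obtain ⟨g, e1, e2, e3⟩ := c h x y z
        refine ⟨g, ?_, ?_⟩ <;> simp only [hs, ← e1, ← e2, ← e3, he, smul_sub] <;> abel
      exact ⟨m, fun h hh ω => e.injective ((hs h ω).symm.trans (hm h hh _))⟩
    · obtain ⟨ω, hω⟩ := not_forall.1 htr
      refine imprim ih hn c (orbitRel M Ω) (fun g x y ⟨m, e⟩ =>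
        ⟨⟨_, hM.conj_mem _ m.2 g⟩, ?_⟩) ⟨ω, ω₀, fun ⟨m, e⟩ => hω ⟨m, m.2, e⟩⟩
        ⟨_, ω₀, ⟨⟨a, haM⟩, rfl⟩, h0⟩
      change (g * m * g⁻¹) • g • y = _
      rw [mul_smul, mul_smul, inv_smul_smul, ← e]; rfl

theorem final (h : ∀ n, TC.{u} n) {Ω : Type u} [Finite Ω] (G : Subgroup (Equiv.Perm Ω))
    (hG : Group.IsSolvable G) (H : Subgroup (Equiv.Perm Ω))
    (hH : ∀ h ∈ H, ∀ a b c : Ω, ∃ g ∈ G, g a = h a ∧ g b = h b ∧ g c = h c) :
    Group.IsSolvable H := by
  obtain ⟨n, hn⟩ := h _ G H Ω (Nat.lt_succ_self _) fun f a b c =>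
    let ⟨g, hg, e⟩ := hH f f.2 a b c; ⟨⟨g, hg⟩, e⟩
  exact ⟨n, eq_bot_iff.2 fun f hf => Subtype.ext (Equiv.ext (hn f (der_top (G := H) n ▸ hf)))⟩

end Cfsg.Agent.H98.TC
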