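import Cfsg.Agent.H6.TIDefs

/-!
# Project TI, piece QC: the points are self-centralizing
-/

set_option autoImplicit false
set_option linter.dupNamespace false

namespace Cfsg.Agent.H98.TI

open Cfsg Subgroup
open Cfsg.Agent.H83 (cj)
open Cfsg.Agent.H6.TI
open scoped Cfsg.Agent.H63 commutatorElement

universe u

section Hyp

variable {G : Type u} [Group G] {A H H' : Subgroup G}

theorem mul_iff (h : H.relIndex A = 2) {a b : G} (ha : a ∈ A) (hb : b ∈ A) :
    a * b ∈ H ↔ (a ∈ H ↔ b ∈ H) := by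
  have := mul_mem_iff_of_index_two (H := H.subgroupOf A) h (a := ⟨a, ha⟩) (b := ⟨b, hb⟩)
  simpa [mem_subgroupOf] using this

theorem ex_ne_one (h : H ≠ ⊥) : ∃ a ∈ H, a ≠ 1 := (H.bot_or_exists_ne_one).resolve_left h

theorem ex_not (h : H.relIndex A = 2) : ∃ a ∈ A, a ∉ H := by
  obtain ⟨a, ha, hn, -⟩ := relIndex_eq_two_iff_exists_notMem_and.1 h
  exact ⟨a, ha, hn⟩

/-- a hyperplane is maximal -/
theorem eq_of_le (hH : H ≤ A) (h : H.relIndex A = 2) (hH' : H' ≤ A) (h' : H'.relIndex A = 2)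
    (hle : H ≤ H') : H = H' := by
  refine le_antisymm hle fun x hx => ?_
  obtain ⟨a, ha, hn⟩ := ex_not h'
  by_contra hx'
  have h1 : a * x ∈ H := (mul_iff h ha (hH' hx)).2 (iff_of_false (fun e => hn (hle e)) hx')
  exact hn ((H'.mul_mem_cancel_right hx).1 (hle h1))

theorem ex_diff (hH : H ≤ A) (h : H.relIndex A = 2) (hH' : H' ≤ A) (h' : H'.relIndex A = 2)
    (hne : H ≠ H') : ∃ a ∈ H, a ∉ H' := by
  by_contra hc
  push Not at hc
  exact hne (eq_of_le hH h hH' h' hc)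

/-- The third hyperplane. -/
def third (A H H' : Subgroup G) (h : H.relIndex A = 2) (h' : H'.relIndex A = 2) : Subgroup G where
  carrier := {a | a ∈ A ∧ (a ∈ H ↔ a ∈ H')}
  one_mem' := ⟨one_mem _, iff_of_true (one_mem _) (one_mem _)⟩
  mul_mem' := by
    rintro a b ⟨ha, ha'⟩ ⟨hb, hb'⟩
    refine ⟨mul_mem ha hb, ?_⟩
    rw [mul_iff h ha hb, mul_iff h' ha hb, ha', hb']
  inv_mem' := by
    rintro a ⟨ha, ha'⟩
    exact ⟨inv_mem ha, by rw [inv_mem_iff, inv_mem_iff, ha']⟩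

theorem mem_third {h : H.relIndex A = 2} {h' : H'.relIndex A = 2} {a : G} :
    a ∈ third A H H' h h' ↔ a ∈ A ∧ (a ∈ H ↔ a ∈ H') := Iff.rfl

theorem third_idx (hH : H ≤ A) (h : H.relIndex A = 2) (hH' : H' ≤ A) (h' : H'.relIndex A = 2)
    (hne : H ≠ H') : (third A H H' h h').relIndex A = 2 := by
  obtain ⟨a, ha, hn⟩ := ex_diff hH h hH' h' hne
  refine relIndex_eq_two_iff_exists_notMem_and.2 ⟨a, hH ha, fun e => hn (e.2.1 ha), fun b hb => ?_⟩
  rw [mem_third, mem_third, mul_iff h hb (hH ha), mul_iff h' hb (hH ha)]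
  have := mul_mem hb (hH ha)
  tauto

/-- a hyperplane over `H ⊓ H'` different from `H`, `H'` is the third one -/
theorem mem_iff_of_third {X : Subgroup G} (hH : H ≤ A) (h : H.relIndex A = 2) (hH' : H' ≤ A)
    (h' : H'.relIndex A = 2) (hX : X ≤ A) (hx : X.relIndex A = 2) (hne : H ≠ H')
    (h1 : X ≠ H) (h2 : X ≠ H') (hle : ∀ a ∈ H, a ∈ H' → a ∈ X) :
    X = third A H H' h h' := by
  have k1 : ∀ a ∈ X, a ∈ H → a ∈ H' := by
    intro a haX haH
    by_contra haH'
    refine h1 (eq_of_le hH h hX hx fun b hb => ?_).symm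
    by_cases hb' : b ∈ H'
    · exact hle b hb hb'
    · have : b * a ∈ X :=
        hle _ (mul_mem hb haH) ((mul_iff h' (hH hb) (hX haX)).2 (iff_of_false hb' haH'))
      exact (X.mul_mem_cancel_right haX).1 this
  have k2 : ∀ a ∈ X, a ∈ H' → a ∈ H := by
    intro a haX haH'
    by_contra haH
    refine h2 (eq_of_le hH' h' hX hx fun b hb => ?_).symm
    by_cases hb' : b ∈ H
    · exact hle b hb' hb
    · have : b * a ∈ X :=
        hle _ ((mul_iff h (hH' hb) (hX haX)).2 (iff_of_false hb' haH)) (mul_mem hb haH')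
      exact (X.mul_mem_cancel_right haX).1 this
  exact eq_of_le hX hx (fun _ e => e.1) (third_idx hH h hH' h' hne)
    fun a ha => ⟨hX ha, k1 a ha, k2 a ha⟩

end Hyp

section Main

variable {G : Type u} [Group G] [Finite G] {Ω : Set (Subgroup G)} {K A B B' C : Subgroup G} {t : G}

omit [Finite G] in
theorem nm_of_cj {X : Subgroup G} {g : G} (h : cj g X = X) : g ∈ N[X] := H83.cj_eq_self_iff.1 h

omit [Finite G] in
/-- an element centralizing `A` and fixing `B` fixes the `A`-orbit of `B` -/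
theorem fix_orb (ht : t ∈ C[A]) (hB : t ∈ N[B]) (o : Orb A B B') : t ∈ N[B'] := by
  obtain ⟨a, ha, rfl⟩ := o
  refine nm_of_cj ?_
  rw [← H83.cj_mul, ← mem_centralizer_iff.1 ht a ha, H83.cj_mul, H83.cj_eq_self hB]

omit [Finite G] in
theorem idx2 (c : C3 Ω K) (e : Mn Ω A B) : (ax A B).relIndex A = 2 := c.q2 A B e

/-- (1) the third axis -/
theorem fix_third (c : C3 Ω K) {B'' : Subgroup G} (e : Mn Ω A B) (e' : Mn Ω A B')
    (e'' : Mn Ω A B'') (hne : ax A B ≠ ax A B')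
    (h3 : ax A B'' = third A (ax A B) (ax A B') (idx2 c e) (idx2 c e'))
    (ht : t ∈ C[A]) (hB : t ∈ N[B]) (hB' : t ∈ N[B']) : t ∈ N[B''] := by
  have hT : TI Ω := c.toTI
  -- `b1`
  obtain ⟨b1, hb1, hb1ne⟩ : ∃ b1 ∈ ax B A ⊓ N[ax A B'], b1 ≠ 1 := by
    have h := (c.yy.ycard c.sp e' e hne.symm).2.2 (c.lt _ _ e')
    rw [c.q2 _ _ e'] at h
    have hb : ax B A ⊓ N[ax A B'] ≠ ⊥ := by
      intro h0
      rw [h0, card_bot] at h
      omega
    exact (ex_ne_one hb)
  have hb1B' : b1 ∈ N[B'] := c.adj e' e hne.symm b1 hb1.1 hb1.2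
  -- `y'`
  obtain ⟨y, hy, hyn⟩ : ∃ y ∈ ax B' A, y ∉ N[ax A B] := by
    by_contra hc
    push Not at hc
    have h := (c.yy.ycard c.sp e e' hne).1
    rw [inf_eq_left.2 hc, c.q2 _ _ e] at h
    have h1 : Nat.card (ax B' A) = hh A B :=
      ((c.ba.card e'.toEd).1.symm.trans (c.ba.mnq e' e).1)
    have h2 : 0 < Nat.card (ax B' A) := Nat.card_pos
    omega
  have hyA : y ∈ N[A] := hy.2
  have eY : Mn Ω A (cj y B) := e.cjN hT hyA
  have hax : ax A (cj y B) = cj y (ax A B) := (ax_cjN hyA B).1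
  have hyc : ∀ i ∈ ax A B', i * y = y * i := fun i hi =>
    c.ba.comm A e'.l B' e'.r e'.ne i hi y hy
  have hI' : cj y (ax A B') = ax A B' := by
    refine H83.cj_eq_self (centralizer_le_normalizer _ ?_)
    exact mem_centralizer_iff.2 hyc
  have h4 : ax A (cj y B) = third A (ax A B) (ax A B') (idx2 c e) (idx2 c e') := by
    refine mem_iff_of_third ax_le _ ax_le _ ax_le (idx2 c eY) hne ?_ ?_ ?_
    · intro h
      exact hyn (nm_of_cj (hax.symm.trans h))
    · intro h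
      rw [hax, ← hI', H83.cj_inj] at h
      exact hne h
    · intro a ha ha'
      rw [hax, H83.mem_cj, mul_assoc, hyc a ha', inv_mul_cancel_left]
      exact ha
  refine fix_orb ht ?_ (c.ln.line eY e'' (h4.trans h3.symm))
  -- `t` centralizes `y b1 y⁻¹`
  have hV := (c.bb.tl e.toEd t ht hB).1
  have hV' := (c.bb.tl e'.toEd t ht hB').1
  have ht1 : b1 * t = t * b1 := mem_centralizer_iff.1 hV b1 (mem_sup_right hb1.1)
  have hty : y * t = t * y := mem_centralizer_iff.1 hV' y (mem_sup_right hy)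
  refine c.ba.cent _ eY.r (y * b1 * y⁻¹) (H83.conj_mem_cj hb1.1.1) (by simpa using hb1ne) t ?_
  calc t * (y * b1 * y⁻¹) = (t * y) * b1 * y⁻¹ := by group
    _ = y * (t * b1) * y⁻¹ := by rw [← hty]; group
    _ = y * b1 * (y⁻¹ * (y * t) * y⁻¹) := by rw [← ht1]; group
    _ = y * b1 * y⁻¹ * t := by rw [hty]; group

omit [Finite G] in
/-- fixing `B` is decided in `A` -/
theorem fix_mul (c : C3 Ω K) (e : Mn Ω A B) (ht : t ∈ C[A]) {a : G} (ha : a ∈ A) :
    t * a ∈ N[B] ↔ (t ∈ N[B] ↔ a ∈ ax A B) := by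
  obtain ⟨a0, ha0, h0⟩ := c.ln.ce e t ht
  have h1 : t * a0 ∈ N[B] := centralizer_le_normalizer _ h0
  have k : ∀ x ∈ A, t * x ∈ N[B] ↔ a0⁻¹ * x ∈ ax A B := by
    intro x hx
    have : t * x = (t * a0) * (a0⁻¹ * x) := by group
    rw [this, mul_mem_cancel_left h1, mem_ax]
    exact ⟨fun h => ⟨mul_mem (inv_mem ha0) hx, h⟩, fun h => h.2⟩
  have k1 := k 1 (one_mem _)
  rw [mul_one, mul_one] at k1
  rw [k a ha, k1, mul_iff (idx2 c e) (inv_mem ha0) ha]

/-- (2) `C(A) = A C0` -/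
theorem ex_fix (c : C3 Ω K) (qa : QA Ω) (hA : A ∈ Ω) (hz : zc Ω A = ⊥) (ht : t ∈ C[A]) :
    ∃ a ∈ A, ∀ B, Mn Ω A B → t * a ∈ N[B] := by
  classical
  have hAc : ∀ a ∈ A, a ∈ C[A] := fun a ha =>
    mem_centralizer_iff.2 fun b hb => c.ba.mul_comm A hA b hb a ha
  have key : ∀ r : Finset G, ∃ a ∈ A, ∀ B, Mn Ω A B → (∀ x ∈ A, x ∉ r → x ∈ ax A B) →
      t * a ∈ N[B] := by
    intro r
    induction r using Finset.induction_on with
    | empty =>
      refine ⟨1, one_mem _, fun B e h => ?_⟩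
      obtain ⟨a, ha, hn⟩ := ex_not (idx2 c e)
      exact (hn (h a ha (Finset.notMem_empty a))).elim
    | insert u r hu ih =>
      obtain ⟨a1, ha1, h1⟩ := ih
      by_cases hex : ∃ B0, Mn Ω A B0 ∧ (∀ x ∈ A, x ∉ insert u r → x ∈ ax A B0) ∧ u ∈ A ∧
          u ∉ ax A B0
      · obtain ⟨B0, e0, h0, huA, hu0⟩ := hex
        obtain ⟨a, ha, hB0, h2⟩ : ∃ a ∈ A, t * a ∈ N[B0] ∧ ∀ B, Mn Ω A B →
            (∀ x ∈ A, x ∉ r → x ∈ ax A B) → t * a ∈ N[B] := by
          by_cases hf : t * a1 ∈ N[B0]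
          · exact ⟨a1, ha1, hf, h1⟩
          · refine ⟨a1 * u, mul_mem ha1 huA, ?_, fun B e h => ?_⟩
            · rw [← mul_assoc, fix_mul c e0 (mul_mem ht (hAc a1 ha1)) huA]
              exact iff_of_false hf hu0
            · rw [← mul_assoc]
              exact mul_mem (h1 B e h) (h u huA hu).2
        have hta : t * a ∈ C[A] := mul_mem ht (hAc a ha)
        refine ⟨a, ha, fun B e h => ?_⟩
        by_cases huB : u ∈ ax A B
        · refine h2 B e fun x hx hxr => ?_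
          by_cases hxu : x = u
          · exact hxu ▸ huB
          · exact h x hx (by simp [hxu, hxr])
        by_cases heq : ax A B0 = ax A B
        · exact fix_orb hta hB0 (c.ln.line e0 e heq)
        -- the third axis contains everything outside `r`
        obtain ⟨B1, e1, hB1⟩ := qa.hyp A hA
          (third A (ax A B0) (ax A B) (idx2 c e0) (idx2 c e)) (fun _ e => e.1)
          (third_idx ax_le (idx2 c e0) ax_le (idx2 c e) heq) (by rw [hz]; exact bot_le)
        have hf1 : t * a ∈ N[B1] := by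
          refine h2 B1 e1 fun x hx hxr => ?_
          rw [hB1, mem_third]
          refine ⟨hx, ?_⟩
          by_cases hxu : x = u
          · subst hxu; exact iff_of_false hu0 huB
          · exact iff_of_true (h0 x hx (by simp [hxu, hxr])) (h x hx (by simp [hxu, hxr]))
        have hu1 : u ∈ ax A B1 := by
          rw [hB1, mem_third]; exact ⟨huA, iff_of_false hu0 huB⟩
        have hne : ax A B0 ≠ ax A B1 := fun h => hu0 (h ▸ hu1)
        refine fix_third c e0 e1 e hne ?_ hta hB0 hf1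
        ext x
        rw [mem_third, hB1, mem_third]
        have : x ∈ ax A B → x ∈ A := fun h => h.1
        tauto
      · refine ⟨a1, ha1, fun B e h => h1 B e fun x hx hxr => ?_⟩
        by_cases hxu : x = u
        · subst hxu
          by_contra hn
          exact hex ⟨B, e, h, hx, hn⟩
        · exact h x hx (by simp [hxu, hxr])
  have : Fintype G := Fintype.ofFinite G
  obtain ⟨a, ha, h⟩ := key Finset.univ
  exact ⟨a, ha, fun B e => h B e fun x _ hx => (hx (Finset.mem_univ x)).elim⟩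

/-- (3) `C0` centralizes the large neighbours -/
theorem cent_large (c : C3 Ω K) (hz : zc Ω A = ⊥) (ht : t ∈ C[A])
    (hf : ∀ B, Mn Ω A B → t ∈ N[B]) (e : Mn Ω A B) : t ∈ C[B] := by
  obtain ⟨i, hi, hti⟩ := (c.bb.tl e.toEd t ht (hf B e)).2
  have hi1 : i ∈ zc Ω A := by
    refine mem_zc.2 ⟨hi.1, fun B' e' => ?_⟩
    by_cases hne : ax A B = ax A B'
    · exact (hne ▸ hi : i ∈ ax A B').2
    obtain ⟨y, hy, hyne⟩ : ∃ y ∈ ax B' A ⊓ N[ax A B], y ≠ 1 := by
      have h := (c.yy.ycard c.sp e e' hne).2.2 (c.lt _ _ e)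
      rw [c.q2 _ _ e] at h
      have hb : ax B' A ⊓ N[ax A B] ≠ ⊥ := by
        intro h0
        rw [h0, card_bot] at h
        omega
      exact (ex_ne_one hb)
    have hyB : y ∈ N[B] := c.adj e e' hne y hy.1 hy.2
    have hty : y * t = t * y :=
      mem_centralizer_iff.1 (c.bb.tl e'.toEd t ht (hf B' e')).1 y (mem_sup_right hy.1)
    have h1 : y * (t * i) * y⁻¹ ∈ C[B] :=
      H83.conj_mem (H83.le_norm_cent le_rfl) hyB hti
    have h2 : i⁻¹ * (y * i * y⁻¹) ∈ C[B] := by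
      have : i⁻¹ * (y * i * y⁻¹) = (t * i)⁻¹ * (y * (t * i) * y⁻¹) := by
        rw [← mul_assoc y t i, hty]; group
      rw [this]
      exact mul_mem (inv_mem hti) h1
    have h3 : i⁻¹ * (y * i * y⁻¹) ∈ A :=
      mul_mem (inv_mem hi.1) (H83.conj_mem le_rfl hy.1.2 hi.1)
    have h4 : i⁻¹ * (y * i * y⁻¹) = 1 := by
      by_contra hn
      refine e.ne (c.wc B e.r A e.l fun b hb => ?_).symm
      exact c.ba.cent A e.l _ h3 hn b (mem_centralizer_iff.1 h2 b hb)
    have h5 : i * y = y * i := by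
      have : y * i * y⁻¹ = i := by
        rw [inv_mul_eq_one] at h4; exact h4.symm
      calc i * y = y * i * y⁻¹ * y := by rw [this]
        _ = y * i := by group
    have hyA : y ∉ A := fun h => e'.ne (c.ba.eq A e'.l B' e'.r y h hy.1.1 hyne)
    exact ((c.ba.cA e'.toEd i hi.1 y (mem_sup_right hy.1) hyA).1 h5).2
  rw [hz, mem_bot] at hi1
  simpa [hi1] using hti

/-- (4) `C0` centralizes the small neighbours -/
theorem cent_small (c : C3 Ω K) (qa : QA Ω) (hz : zc Ω A = ⊥) (ht : t ∈ C[A])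
    (hf : ∀ B, Mn Ω A B → t ∈ N[B]) (e : Ed Ω A C) (hs : ¬ Mn Ω A C) : t ∈ C[C] := by
  have hT : TI Ω := c.toTI
  have hw : wk Ω A (ax A C) ≤ C1[t] := by
    refine sup_le (fun x hx => ?_) ((closure_le _).2 ?_)
    · exact mem_centralizer_singleton_iff.2 (mem_centralizer_iff.1 ht x hx.1)
    · rintro b ⟨B, eB, -, hb, -⟩
      exact mem_centralizer_singleton_iff.2
        (mem_centralizer_iff.1 (cent_large c hz ht hf eB) b hb.1)
  obtain ⟨j, hj, hjne⟩ := ex_ne_one (c.ba.symm e).nb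
  have htC : t ∈ N[C] :=
    c.ba.cent C e.r j hj.1 hjne t (mem_centralizer_singleton_iff.1 (hw (qa.jw e hs hj))).symm
  obtain ⟨k, hk, htk⟩ := (c.bb.tl e t ht htC).2
  obtain ⟨a, ha, han, a', ha', han', haa⟩ : ∃ a ∈ A, a ∉ ax A C ∧ ∃ a' ∈ A, a' ∉ ax A C ∧
      a * a' ∉ ax A C := by
    by_contra hc
    push Not at hc
    have h4 : (ax A C).relIndex A = 4 := c.q4 A C e hs
    have : (ax A C).relIndex A ∣ 2 := by
      by_cases h0 : ∃ a ∈ A, a ∉ ax A C
      · obtain ⟨a, ha, han⟩ := h0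
        refine relIndex_dvd_two_iff.2 ⟨a, ha, fun b hb => ?_⟩
        by_cases hb' : b ∈ ax A C
        · exact Or.inr hb'
        · exact Or.inl (hc b hb hb' a ha han)
      · push Not at h0
        exact relIndex_dvd_two_iff.2 ⟨1, one_mem _, fun b hb => Or.inr (h0 b hb)⟩
    rw [h4] at this
    omega
  obtain ⟨ρ, hρ, hρA, -, -, hF⟩ := c.bb.tor e a ha han a' ha' han'
  have hF := (hF haa).2
  have hkA : k ∈ C[A] := mem_centralizer_iff.2 fun b hb => c.ba.mul_comm A e.l b hb k hk.1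
  have he : t * k ∈ C[A ⊔ C] := by
    rw [H83.centralizer_sup]; exact ⟨mul_mem ht hkA, htk⟩
  have hρe : ρ * (t * k) = t * k * ρ := mem_centralizer_iff.1 he ρ hρ
  have hkρ : ρ * k * ρ⁻¹ ∈ A := H83.conj_mem le_rfl hρA hk.1
  have h1 : t⁻¹ * (ρ * t * ρ⁻¹) = k * (ρ * k * ρ⁻¹)⁻¹ := by
    have : ρ * t = t * k * ρ * k⁻¹ := by rw [← hρe]; group
    rw [this]; group
  have h2 : k * (ρ * k * ρ⁻¹)⁻¹ ∈ zc Ω A := by
    refine mem_zc.2 ⟨mul_mem hk.1 (inv_mem hkρ), fun B eB => ?_⟩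
    rw [← h1]
    refine mul_mem (inv_mem (hf B eB)) ?_
    have h3 := hf _ (eB.cjN hT (inv_mem hρA))
    rw [← H83.cj_normalizer, H83.mem_cj, inv_inv] at h3
    exact h3
  rw [hz, mem_bot, mul_inv_eq_one] at h2
  have h3 : k = 1 := by
    refine hF k (mem_sup_left hk) ?_
    calc ρ * k = ρ * k * ρ⁻¹ * ρ := by group
      _ = k * ρ := by rw [← h2]
  simpa [h3] using htk

/-- The subgroup `C0`. -/
def c0 (Ω : Set (Subgroup G)) (P : Subgroup G) : Subgroup G :=
  C[P] ⊓ ⨅ B ∈ {B | Mn Ω P B}, N[B]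

omit [Finite G] in
theorem mem_c0 {P : Subgroup G} {x : G} :
    x ∈ c0 Ω P ↔ x ∈ C[P] ∧ ∀ B, Mn Ω P B → x ∈ N[B] := by
  simp [c0, mem_iInf]

omit [Finite G] in
theorem c0_cj (h : TI Ω) (g : G) (P : Subgroup G) : c0 Ω (cj g P) = cj g (c0 Ω P) := by
  ext x
  rw [mem_c0, ← H83.cj_centralizer, H83.mem_cj, H83.mem_cj, mem_c0]
  refine and_congr_right fun _ => ⟨fun a B e => ?_, fun a B e => ?_⟩
  · have := a _ (e.cj h g)
    rwa [← H83.cj_normalizer, H83.mem_cj] at this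
  · have h1 := e.cj h g⁻¹
    rw [H83.cj_inv_cj] at h1
    have := a _ h1
    rw [← H83.cj_normalizer, H83.mem_cj] at this
    simpa [mul_assoc] using this

end Main

theorem qc : QCStmt.{u} := by
  intro G _ _ Ω K c qa hz A hA t ht
  have h0 : c0 Ω A = ⊥ := by
    refine c.hf.glob c.conn (c0 Ω) (fun P _ g => c0_cj c.toTI g P) (fun P _ => inf_le_left)
      (fun P Q e x hx => ?_) A hA
    rw [mem_c0] at hx
    by_cases hm : Mn Ω P Q
    · exact cent_large c (hz P e.l) hx.1 hx.2 hm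
    · exact cent_small c qa (hz P e.l) hx.1 hx.2 e hm
  obtain ⟨a, ha, h⟩ := ex_fix c qa hA (hz A hA) ht
  have h1 : t * a ∈ c0 Ω A :=
    mem_c0.2 ⟨mul_mem ht (mem_centralizer_iff.2 fun b hb => c.ba.mul_comm A hA b hb a ha), h⟩
  rw [h0, mem_bot, mul_eq_one_iff_eq_inv] at h1
  exact h1 ▸ inv_mem ha

end Cfsg.Agent.H98.TI
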