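import Mathlib

/-!
The group of lifts to the universal cover of a group acting on a directed graph.
-/

set_option autoImplicit false

namespace Cfsg.Agent.H98.Tree

open FreeGroup

universe u

/-- a directed graph with a vertex-transitive group action and a base vertex -/
structure Gr (Γ E V : Type u) [Group Γ] [MulAction Γ E] [MulAction Γ V] where
  src : E → V
  tgt : E → V
  v0 : V
  smul_src : ∀ (γ : Γ) e, src (γ • e) = γ • src e
  smul_tgt : ∀ (γ : Γ) e, tgt (γ • e) = γ • tgt e
  trans : ∀ v, ∃ γ : Γ, γ • v0 = v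

variable {Γ E V : Type u} [Group Γ] [MulAction Γ E] [MulAction Γ V] (X : Gr Γ E V)

variable (Γ E) in
/-- the action on the free group -/
def act : Γ →* MulAut (FreeGroup E) where
  toFun γ := freeGroupCongr (MulAction.toPerm γ)
  map_one' := by ext x; induction x using FreeGroup.induction_on <;> simp_all
  map_mul' γ δ := by ext x; induction x using FreeGroup.induction_on <;> simp_all [mul_smul]

/-- the action on letters -/
def sm (γ : Γ) (x : E × Bool) : E × Bool := (γ • x.1, x.2)

theorem act_mk (γ : Γ) (L : List (E × Bool)) : act Γ E γ (mk L) = mk (L.map (sm γ)) := map.mk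

theorem toWord_act [DecidableEq E] (γ : Γ) (w : FreeGroup E) :
    (act Γ E γ w).toWord = w.toWord.map (sm γ) := by
  conv_lhs => rw [← mk_toWord (x := w), act_mk, toWord_mk]
  refine IsReduced.reduce_eq (List.isChain_map _ |>.2 (List.IsChain.imp ?_ isReduced_toWord))
  exact fun a b h e => h (MulAction.injective γ e)

theorem norm_act [DecidableEq E] (γ : Γ) (w : FreeGroup E) : (act Γ E γ w).norm = w.norm := by
  simp [FreeGroup.norm, toWord_act]

namespace Gr

/-- start of a letter -/
def s (x : E × Bool) : V := if x.2 then X.src x.1 else X.tgt x.1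

/-- end of a letter -/
def t (x : E × Bool) : V := if x.2 then X.tgt x.1 else X.src x.1

/-- paths -/
def IsPath : V → List (E × Bool) → V → Prop
  | a, [], b => a = b
  | a, x :: L, b => X.s x = a ∧ IsPath (X.t x) L b

variable {X}

theorem isPath_append {L L' : List (E × Bool)} {a c : V} :
    X.IsPath a (L ++ L') c ↔ ∃ b, X.IsPath a L b ∧ X.IsPath b L' c := by
  induction L generalizing a with
  | nil => simp [IsPath]
  | cons x L ih => simp [IsPath, ih, and_assoc]

theorem IsPath.red {L L' : List (E × Bool)} {a c : V} (h : X.IsPath a L c) (hr : Red L L') :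
    X.IsPath a L' c := by
  induction hr with
  | refl => exact h
  | tail _ h2 ih =>
    cases h2 with
    | @not L₁ L₂ x b =>
      obtain ⟨d, h3, h4, h5, h6⟩ := isPath_append.1 ih
      refine isPath_append.2 ⟨d, h3, ?_⟩
      rw [← h4]
      cases b <;> exact h6

theorem IsPath.invRev {L : List (E × Bool)} {a c : V} (h : X.IsPath a L c) :
    X.IsPath c (invRev L) a := by
  induction L generalizing a with
  | nil => exact h.symm
  | cons x L ih =>
    rw [invRev_cons]
    refine isPath_append.2 ⟨_, ih h.2, ?_, ?_⟩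
    · rcases x with ⟨e, _ | _⟩ <;> rfl
    · rw [← h.1]; rcases x with ⟨e, _ | _⟩ <;> rfl

theorem IsPath.smul {L : List (E × Bool)} {a c : V} (h : X.IsPath a L c) (γ : Γ) :
    X.IsPath (γ • a) (L.map (sm γ)) (γ • c) := by
  induction L generalizing a with
  | nil => exact congrArg _ h
  | cons x L ih =>
    refine ⟨?_, ?_⟩
    · rw [← h.1]; rcases x with ⟨e, _ | _⟩ <;> simp [s, sm, X.smul_src, X.smul_tgt]
    · convert ih h.2 using 1
      rcases x with ⟨e, _ | _⟩ <;> simp [t, sm, X.smul_src, X.smul_tgt]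

theorem IsPath.good {L : List (E × Bool)} {a c : V} (h : X.IsPath a L c) {P : V → Prop}
    (hP : ∀ x ∈ L, P (X.src x.1) ↔ P (X.tgt x.1)) (ha : P a) : P c := by
  induction L generalizing a with
  | nil => exact h ▸ ha
  | cons x L ih =>
    refine ih h.2 (fun y hy => hP y (List.mem_cons_of_mem _ hy)) ?_
    have h1 := hP x List.mem_cons_self
    rw [← h.1] at ha
    rcases x with ⟨e, _ | _⟩
    · exact h1.2 ha
    · exact h1.1 ha

variable [DecidableEq E] (X)

/-- the group of lifts -/
def G : Subgroup (FreeGroup E ⋊[act Γ E] Γ) where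
  carrier := {g | X.IsPath X.v0 g.left.toWord (g.right • X.v0)}
  one_mem' := (one_smul Γ X.v0).symm
  mul_mem' := fun {g h} hg hh => by
    change X.IsPath _ (g.left * act Γ E g.right h.left).toWord _
    rw [toWord_mul, toWord_act, SemidirectProduct.mul_right, mul_smul]
    exact (isPath_append.2 ⟨_, hg, hh.smul _⟩).red reduce.red
  inv_mem' := fun {g} hg => by
    change X.IsPath _ (act Γ E g.right⁻¹ g.left⁻¹).toWord _
    rw [toWord_act, toWord_inv]
    simpa using hg.invRev.smul g.right⁻¹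

variable {X}

theorem mem_G {g : FreeGroup E ⋊[act Γ E] Γ} :
    g ∈ X.G ↔ X.IsPath X.v0 g.left.toWord (g.right • X.v0) := Iff.rfl

theorem letter_mem {x : E × Bool} {γ : Γ} (h1 : X.s x = X.v0) (h2 : γ • X.v0 = X.t x) :
    (⟨FreeGroup.mk [x], γ⟩ : FreeGroup E ⋊[act Γ E] Γ) ∈ X.G := ⟨h1, h2.symm⟩

theorem exists_free [Finite Γ] :
    ∃ N : Subgroup X.G, N.Normal ∧ IsFreeGroup N ∧ N.index ∣ Nat.card Γ := by
  refine ⟨(SemidirectProduct.rightHom.comp X.G.subtype).ker, inferInstance, ?_, by
    rw [Subgroup.index_ker]; exact Subgroup.card_subgroup_dvd_card _⟩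
  set N := (SemidirectProduct.rightHom.comp X.G.subtype).ker
  let f : N →* FreeGroup E := MonoidHom.mk' (fun g => g.1.1.left) fun g h => by
    have : g.1.1.right = 1 := g.2
    simp [this]
  exact IsFreeGroup.ofMulEquiv (MonoidHom.ofInjective (f := f) fun g h e => Subtype.ext
    (Subtype.ext (SemidirectProduct.ext e (g.2.trans h.2.symm)))).symm

omit [MulAction Γ V] in
theorem head_eq {y z : FreeGroup E} {a b : E × Bool} {L L' : List (E × Bool)}
    (hy : y.toWord = a :: L) (hz : z.toWord = b :: L') (h : (y⁻¹ * z).norm ≤ y.norm) : a = b := by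
  by_contra hab
  have h1 : IsReduced (invRev (a :: L) ++ b :: L') := by
    refine List.IsChain.append (by rw [← hy, ← toWord_inv]; exact isReduced_toWord)
      (hz ▸ isReduced_toWord) fun x hx w hw => ?_
    rw [invRev_cons] at hx
    obtain rfl : (a.1, !a.2) = x := by simpa [invRev] using hx
    obtain rfl : b = w := by simpa using hw
    intro e
    have : a.2 ≠ b.2 := fun e' => hab (Prod.ext e e')
    revert this
    cases a.2 <;> cases b.2 <;> simp
  rw [FreeGroup.norm, toWord_mul, toWord_inv, hy, hz, h1.reduce_eq, FreeGroup.norm, hy] at h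
  simp at h

omit [MulAction Γ V] in
theorem norm_inv_mul (g h : FreeGroup E ⋊[act Γ E] Γ) :
    (g⁻¹ * h).left.norm = (g.left⁻¹ * h.left).norm := by
  rw [← norm_act g.right⁻¹ (g.left⁻¹ * h.left), _root_.map_mul]; rfl

theorem exists_conj {K : Type*} [Group K] [Fintype K] (n : ℕ) : ∀ f : K →* X.G,
    ∑ k, (f k).1.left.norm = n → ∃ g : X.G, ∀ k, (g * f k * g⁻¹).1.left = 1 := by
  induction n using Nat.strong_induction_on with
  | _ n ih =>
  intro f hn
  obtain ⟨k0, -, h0⟩ := Finset.exists_max_image Finset.univ (fun k => (f k).1.left.norm)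
    ⟨1, Finset.mem_univ _⟩
  by_cases h1 : (f k0).1.left = 1
  · exact ⟨1, fun k => by simpa [h1] using h0 k (Finset.mem_univ _)⟩
  obtain ⟨a, L, h2⟩ := List.exists_cons_of_ne_nil (mt toWord_eq_nil_iff.1 h1)
  have h3 : ∀ k, (f k).1.left ≠ 1 → ∃ L', (f k).1.left.toWord = a :: L' := fun k hk => by
    obtain ⟨b, L', h3⟩ := List.exists_cons_of_ne_nil (mt toWord_eq_nil_iff.1 hk)
    refine ⟨L', head_eq h2 h3 ?_ ▸ h3⟩
    have := h0 (k0⁻¹ * k) (Finset.mem_univ _)
    rwa [_root_.map_mul, _root_.map_inv, Subgroup.coe_mul, Subgroup.coe_inv, norm_inv_mul] at this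
  obtain ⟨δ, hδ⟩ := X.trans (X.t a)
  let g : X.G := ⟨_, letter_mem (h2 ▸ mem_G.1 (f k0).2 : X.IsPath _ (a :: L) _).1 hδ⟩
  have h4 : ∀ k, (g⁻¹ * f k * g).1.left.norm =
      ((FreeGroup.mk [a])⁻¹ * ((f k).1.left * FreeGroup.mk [sm (f k).1.right a])).norm := fun k => by
    rw [mul_assoc, Subgroup.coe_mul, Subgroup.coe_inv, norm_inv_mul]; rfl
  have h5 : ∀ k, (f k).1.left ≠ 1 → (g⁻¹ * f k * g).1.left.norm < (f k).1.left.norm := fun k hk => by
    have h6 : (f k).1.left⁻¹ = act Γ E (f k).1.right (f k⁻¹).1.left := by simp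
    obtain ⟨L1, h5⟩ := h3 k hk
    obtain ⟨L2, h7⟩ := h3 k⁻¹ fun e => hk (by rwa [e, _root_.map_one, inv_eq_one] at h6)
    replace h6 := congrArg (fun w => invRev w.toWord) h6
    simp only [toWord_inv, invRev_invRev, toWord_act, h7, List.map_cons, h5] at h6
    rw [invRev_cons] at h6
    rw [h4, show (f k).1.left.norm = (a :: L1).length from congrArg List.length h5,
      ← mk_toWord (x := (f k).1.left), h5]
    rcases L1.eq_nil_or_concat' with rfl | ⟨L3, b, rfl⟩
    · simpa [invRev, sm] using congrArg (fun L => L.getLast?.map Prod.snd) h6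
    · rw [← List.cons_append] at h6
      rw [(List.append_inj' h6 rfl).2, ← List.cons_append, ← mul_mk, ← inv_mk, inv_mul_cancel_right,
        show FreeGroup.mk (a :: L3) = FreeGroup.mk [a] * FreeGroup.mk L3 from rfl, inv_mul_cancel_left]
      exact norm_mk_le.trans_lt (by simp)
  suffices h6 : ∀ k, (g⁻¹ * f k * g).1.left.norm ≤ (f k).1.left.norm by
    obtain ⟨g', h7⟩ := ih _ (lt_of_lt_of_eq (Finset.sum_lt_sum (fun k _ => h6 k)
      ⟨k0, Finset.mem_univ _, h5 k0 h1⟩) hn) ((MulAut.conj g).symm.toMonoidHom.comp f) rfl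
    exact ⟨g' * g⁻¹, fun k => by simpa [mul_assoc] using h7 k⟩
  intro k
  by_cases hk : (f k).1.left = 1
  · have h6 : (f (k * k0)).1.left = act Γ E (f k).1.right (f k0).1.left := by simp [hk]
    obtain ⟨L', h7⟩ := h3 (k * k0) (by rw [h6]; simpa using h1)
    rw [h6, toWord_act, h2, List.map_cons] at h7
    rw [h4, hk, (List.cons.inj h7).1, one_mul, inv_mul_cancel]
  · exact (h5 k hk).le

theorem exists_conj_of_finite (H : Subgroup X.G) [Finite H] :
    ∃ g : X.G, ∀ h ∈ H, (g * h * g⁻¹).1.left = 1 := by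
  haveI := Fintype.ofFinite H
  obtain ⟨g, hg⟩ := exists_conj _ H.subtype rfl
  exact ⟨g, fun h hh => hg ⟨h, hh⟩⟩

theorem good {g : FreeGroup E ⋊[act Γ E] Γ} (hg : g ∈ X.G) {Q : Set Γ}
    (hQ : ∀ q ∈ Q, act Γ E q g.left = g.left) {P : V → Prop}
    (hP : ∀ e, (∀ q ∈ Q, q • e = e) → (P (X.src e) ↔ P (X.tgt e))) (h : P X.v0) :
    P (g.right • X.v0) := by
  refine IsPath.good hg (fun x hx => hP _ fun q hq => ?_) h
  have h1 := congrArg toWord (hQ q hq)
  rw [toWord_act] at h1
  exact congrArg Prod.fst (List.map_inj_left.1 (h1.trans (List.map_id _).symm) x hx)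

end Gr

end Cfsg.Agent.H98.Tree
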