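import Mathlib

/-! A weak form of Sylvester's theorem on the largest prime divisor of a binomial coefficient. -/

set_option autoImplicit false

namespace Cfsg.Agent.H98.WeakSyl

open Finset

theorem choose_mono_half {n r k : ℕ} (hrk : r ≤ k) (hk : 2 * k ≤ n) : n.choose r ≤ n.choose k := by
  induction k, hrk using Nat.le_induction with
  | base => exact le_rfl
  | succ k hrk ih => exact (ih (by omega)).trans (Nat.choose_le_succ_of_lt_half_left (by omega))

theorem pow_le_mul_choose {n r : ℕ} (h : r ≤ n) : n ^ r ≤ r ^ r * n.choose r := by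
  have h1 : n ^ r * r.factorial ≤ r ^ r * n.descFactorial r := by
    rw [← Nat.descFactorial_self, Nat.descFactorial_eq_prod_range, Nat.descFactorial_eq_prod_range]
    have e : ∀ x : ℕ, x ^ r = ∏ _i ∈ range r, x := fun x => by simp
    rw [e n, e r, ← prod_mul_distrib, ← prod_mul_distrib]
    refine prod_le_prod' fun i hi => ?_
    rw [mem_range] at hi
    obtain ⟨a, rfl⟩ : ∃ a, r = i + a := ⟨r - i, by omega⟩
    obtain ⟨b, rfl⟩ : ∃ b, n = i + a + b := ⟨n - (i + a), by omega⟩
    rw [show i + a - i = a by omega, show i + a + b - i = a + b by omega]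
    nlinarith [Nat.zero_le (i * b)]
  rw [Nat.descFactorial_eq_factorial_mul_choose] at h1
  refine Nat.le_of_mul_le_mul_right (c := r.factorial) ?_ (Nat.factorial_pos r)
  calc n ^ r * r.factorial ≤ r ^ r * (r.factorial * n.choose r) := h1
    _ = r ^ r * n.choose r * r.factorial := by ring

theorem choose_le_pow_card {n k : ℕ} (hk : k ≤ n) (hn : 0 < n) {S : Finset ℕ}
    (h : ∀ p : ℕ, p.Prime → p ∣ n.choose k → p ∈ S) : n.choose k ≤ n ^ S.card := by
  have h0 := (Nat.choose_pos hk).ne'
  calc n.choose k = ∏ p ∈ (n.choose k).primeFactors, p ^ (n.choose k).factorization p :=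
        (Nat.prod_factorization_pow_eq_self h0).symm
    _ ≤ n ^ (n.choose k).primeFactors.card :=
        prod_le_pow_card _ _ _ fun p _ => Nat.pow_factorization_choose_le hn
    _ ≤ n ^ S.card := Nat.pow_le_pow_right hn (card_le_card fun p hp =>
        h p (Nat.prime_of_mem_primeFactors hp) (Nat.dvd_of_mem_primeFactors hp))

theorem lt_or_lt_sq {n k r : ℕ} (hk : 2 * k ≤ n) (hr : r.Prime)
    (hmax : ∀ p : ℕ, p.Prime → p ∣ n.choose k → p ≤ r) : k < r ∨ n < r ^ 2 := by
  by_contra hc
  push Not at hc
  obtain ⟨h1, h2⟩ := hc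
  have hr2 := hr.two_le
  have hn : 0 < n := by omega
  have h3 := choose_mono_half h1 hk
  have h4 := Nat.pow_sub_le_descFactorial n r
  rw [Nat.descFactorial_eq_factorial_mul_choose] at h4
  have small : ∀ p : ℕ, p.Prime → p ≤ 7 → p = 2 ∨ p = 3 ∨ p = 5 ∨ p = 7 := fun p hp hle => by
    interval_cases p <;> first | omega | exact absurd hp (by decide)
  by_cases h11 : r ≤ 10
  · have hr' : r = 2 ∨ r = 3 ∨ r = 5 ∨ r = 7 := by
      interval_cases r <;> first | omega | exact absurd hr (by decide)
    rcases hr' with rfl | rfl | rfl | rfl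
    · have h5 := choose_le_pow_card (n := n) (k := k) (by omega) hn (S := {2}) fun p hp hd => by
        have := hmax p hp hd
        have := small p hp (by omega)
        simp only [mem_singleton]; omega
      obtain ⟨x, rfl⟩ : ∃ x, n = x + 1 := ⟨n - 1, by omega⟩
      simp only [card_singleton, pow_one, Nat.factorial, show x + 1 + 1 - 2 = x by omega] at h4 h5
      nlinarith
    · have h5 := choose_le_pow_card (n := n) (k := k) (by omega) hn (S := {2, 3}) fun p hp hd => by
        have := hmax p hp hd
        have := small p hp (by omega)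
        simp only [mem_insert, mem_singleton]; omega
      obtain ⟨x, rfl⟩ : ∃ x, n = x + 2 := ⟨n - 2, by omega⟩
      have h6 := Nat.descFactorial_eq_factorial_mul_choose (x + 2) 3
      simp only [Nat.descFactorial, Nat.factorial, show x + 2 - 2 = x by omega,
        show x + 2 - 1 = x + 1 by omega, Nat.sub_zero] at h6
      rw [show ({2, 3} : Finset ℕ).card = 2 by decide] at h5
      have h7 : 7 ≤ x := by omega
      nlinarith [Nat.mul_le_mul h7 (le_refl (x * x)), Nat.mul_le_mul h7 (le_refl x)]
    · have h5 := choose_le_pow_card (n := n) (k := k) (by omega) hn (S := {2, 3, 5})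
        fun p hp hd => by
        have := hmax p hp hd
        have := small p hp (by omega)
        simp only [mem_insert, mem_singleton]; omega
      rw [show ({2, 3, 5} : Finset ℕ).card = 3 by decide] at h5
      rw [show Nat.factorial 5 = 120 by decide] at h4
      have h6 : (2 * n) ^ 3 ≤ (3 * (n + 1 - 5)) ^ 3 := Nat.pow_le_pow_left (by omega) 3
      have h7 : 21 ^ 2 ≤ (n + 1 - 5) ^ 2 := Nat.pow_le_pow_left (by omega) 2
      have h8 : 0 < (n + 1 - 5) ^ 3 := pow_pos (by omega) 3
      rw [show (n + 1 - 5) ^ 5 = (n + 1 - 5) ^ 2 * (n + 1 - 5) ^ 3 by ring] at h4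
      rw [mul_pow, mul_pow] at h6
      have h9 := Nat.mul_le_mul_right ((n + 1 - 5) ^ 3) h7
      omega
    · have h5 := choose_le_pow_card (n := n) (k := k) (by omega) hn (S := {2, 3, 5, 7})
        fun p hp hd => by
        have := hmax p hp hd
        have := small p hp (by omega)
        simp only [mem_insert, mem_singleton]; omega
      rw [show ({2, 3, 5, 7} : Finset ℕ).card = 4 by decide] at h5
      rw [show Nat.factorial 7 = 5040 by decide] at h4
      have h6 : (2 * n) ^ 4 ≤ (3 * (n + 1 - 7)) ^ 4 := Nat.pow_le_pow_left (by omega) 4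
      have h7 : 43 ^ 3 ≤ (n + 1 - 7) ^ 3 := Nat.pow_le_pow_left (by omega) 3
      have h8 : 0 < (n + 1 - 7) ^ 4 := pow_pos (by omega) 4
      rw [show (n + 1 - 7) ^ 7 = (n + 1 - 7) ^ 3 * (n + 1 - 7) ^ 4 by ring] at h4
      rw [mul_pow, mul_pow] at h6
      have h9 := Nat.mul_le_mul_right ((n + 1 - 7) ^ 4) h7
      omega
  · obtain ⟨s, hs⟩ := hr.odd_of_ne_two (by omega)
    have h5 := choose_le_pow_card (n := n) (k := k) (by omega) hn
      (S := insert 2 ((((range (s + 1)).erase 0).erase 4).image fun i => 2 * i + 1))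
      fun p hp hd => by
        have h6 := hmax p hp hd
        rcases hp.eq_two_or_odd' with rfl | ⟨i, rfl⟩
        · exact mem_insert_self _ _
        · refine mem_insert_of_mem (mem_image.2 ⟨i, ?_, rfl⟩)
          simp only [mem_erase, mem_range]
          refine ⟨?_, ?_, by omega⟩
          · rintro rfl; exact absurd hp (by decide)
          · rintro rfl; exact absurd hp (by decide)
    have h6 : (insert 2 ((((range (s + 1)).erase 0).erase 4).image fun i => 2 * i + 1)).card ≤ s := by
      refine (card_insert_le _ _).trans ?_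
      have := card_image_le (s := ((range (s + 1)).erase 0).erase 4) (f := fun i => 2 * i + 1)
      rw [card_erase_of_mem (by simp; omega), card_erase_of_mem (by simp), card_range] at this
      omega
    have h7 := h3.trans (h5.trans (Nat.pow_le_pow_right hn h6))
    have h8 := pow_le_mul_choose (n := n) (r := r) (by omega)
    have h9 : n ^ r * n ^ r ≤ n ^ r * n ^ (2 * s) := by
      calc n ^ r * n ^ r ≤ (r ^ r * n ^ s) * (r ^ r * n ^ s) :=
            Nat.mul_le_mul (h8.trans (Nat.mul_le_mul_left _ h7)) (h8.trans (Nat.mul_le_mul_left _ h7))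
        _ = (r ^ 2) ^ r * n ^ (2 * s) := by ring
        _ ≤ n ^ r * n ^ (2 * s) := Nat.mul_le_mul_right _ (Nat.pow_le_pow_left h2 r)
    have h10 := Nat.le_of_mul_le_mul_left h9 (pow_pos hn r)
    rw [Nat.pow_le_pow_iff_right (by omega)] at h10
    omega

theorem not_dvd_choose {p a b : ℕ} (hp : p.Prime) (ha : a < p) (hb : b ≤ a) : ¬ p ∣ a.choose b := by
  intro h
  have : p ∣ a.factorial := by
    rw [← Nat.choose_mul_factorial_mul_factorial hb, mul_assoc]
    exact h.mul_right _
  have := hp.dvd_factorial.1 this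
  omega

/-- For the largest prime divisor `r` of `C(n, k)` the addition `k + (n - k)` carries in the last
digit base `r`. -/
theorem mod_lt_mod {n k r : ℕ} (hk : 2 * k ≤ n) (hr : r.Prime) (hd : r ∣ n.choose k)
    (hmax : ∀ p : ℕ, p.Prime → p ∣ n.choose k → p ≤ r) : n % r < k % r := by
  by_contra hc
  haveI : Fact r.Prime := ⟨hr⟩
  have h1 := (Choose.choose_modEq_choose_mod_mul_choose_div_nat (n := n) (k := k) (p := r)).dvd_iff
    dvd_rfl
  rcases hr.dvd_mul.1 (h1.1 hd) with h | h
  · exact not_dvd_choose hr (Nat.mod_lt n hr.pos) (by omega) h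
  · rcases lt_or_lt_sq hk hr hmax with h2 | h2
    · rw [Nat.div_eq_of_lt h2, Nat.choose_zero_right, Nat.dvd_one] at h
      exact hr.one_lt.ne' h
    · exact not_dvd_choose hr ((Nat.div_lt_iff_lt_mul hr.pos).2 (by rwa [← pow_two]))
        (Nat.div_le_div_right (by omega)) h

theorem four_dvd {n k : ℕ} (hn : 5 ≤ n) (hk : 2 * k ≤ n) (hd : 2 ∣ n.choose k)
    (hmax : ∀ p : ℕ, p.Prime → p ∣ n.choose k → p ≤ 2) : 4 ∣ n := by
  have h1 := mod_lt_mod hk Nat.prime_two hd hmax
  have h2 := lt_or_lt_sq hk Nat.prime_two hmax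
  obtain rfl : k = 1 := by omega
  rw [Nat.choose_one_right] at hmax
  by_contra h
  obtain ⟨m, rfl⟩ : ∃ m, n = 2 * (2 * m + 1) := ⟨n / 4, by omega⟩
  have h3 := Nat.minFac_prime (n := 2 * m + 1) (by omega)
  have h4 := hmax _ h3 ((Nat.minFac_dvd _).mul_left 2)
  have h5 := h3.two_le
  have h6 := Nat.minFac_dvd (2 * m + 1)
  rw [show (2 * m + 1).minFac = 2 by omega] at h6
  omega

end Cfsg.Agent.H98.WeakSyl
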